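import Cfsg.Agent.Lib.Fusion.ChainMain
import Mathlib

/-! # The chain theorem, relative to a section-free hypothesis -/

set_option autoImplicit false

namespace Cfsg.Agent.Lib.Fusion

open Cfsg Cfsg.FusionSystem

universe u v

/-- The local condition of the chain theorem for groups not involving `H`. -/
def LocalCondFree (p k : ℕ) (W : ∀ (Q : Type u) [Group Q], Subgroup Q) (H : Type v) [Group H] : Prop :=
  ∀ (L : Type u) [Group L] [Finite L], ¬ Involves H L → ∀ (P : Sylow p L),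
    Subgroup.centralizer ((pCore p L : Subgroup L) : Set L) ≤ pCore p L →
    ∀ z ∈ (P : Subgroup L), (∀ t ∈ (P : Subgroup L), t * z = z * t) → (∃ g : L, g * z ^ k * g⁻¹ ≠ z ^ k) →
      ∃ g ∈ Subgroup.normalizer (((W ↥(P : Subgroup L)).map (P : Subgroup L).subtype : Subgroup L) : Set L),
        g * z ^ k * g⁻¹ ≠ z ^ k

section

variable {Ω : Type u} [Group Ω] {T : Subgroup Ω} {p : ℕ} [Fact p.Prime]
variable {W : ∀ (Q : Type u) [Group Q], Subgroup Q} {k : ℕ} {H : Type v} [Group H]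

/-- The local hypothesis, read in a model. -/
theorem moved_of_local_free {T₁ : Subgroup Ω} [Finite T₁] (hT₁ : IsPGroup p T₁) {E₁ : FusionSystem T₁} {L : Type u} [Group L]
    {ι : T₁ →* L} (hm : E₁.IsModel p L ι) (hinv : ¬ Involves H L) (hLoc : LocalCondFree p k W H)
    (hW2 : ∀ (Q R : Type u) [Group Q] [Group R] [Finite Q], IsPGroup p Q → ∀ φ : Q ≃* R, (W Q).map φ.toMonoidHom = W R)
    (hWZ : ∀ (Q : Type u) [Group Q] [Finite Q], IsPGroup p Q → Subgroup.center Q ≤ W Q) {x : Ω} (hadm : PowAdm k T₁ x)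
    (hmov : Moves E₁ x) : MovesAt E₁ x (funW W T₁) := by
  obtain ⟨hfin, hreal, ⟨P₀, hP₀⟩, hC⟩ := hm
  have hι := hreal.1
  have hxT := hadm.mem
  have hxc := hadm.comm
  obtain ⟨z, hzT, hzc, hzx⟩ := hadm
  obtain ⟨R, ψ, hψ, hxR, hne⟩ := hmov
  obtain ⟨g, hg⟩ := IsRealizedBy.exists_conj hreal hψ
  set z' : L := ι ⟨z, hzT⟩ with hz'
  have hzk : z' ^ k = ι ⟨x, hxT⟩ := by
    rw [hz', ← map_pow]
    congr 1
    exact Subtype.ext (by simpa using hzx)
  have hzP : z' ∈ (P₀ : Subgroup L) := by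
    rw [hP₀]
    exact ⟨_, rfl⟩
  have hzcP : ∀ t ∈ (P₀ : Subgroup L), t * z' = z' * t := by
    intro t ht
    rw [hP₀] at ht
    obtain ⟨t₀, rfl⟩ := ht
    rw [hz', ← map_mul, ← map_mul]
    congr 1
    exact Subtype.ext (hzc _ t₀.2)
  have hgm : ∃ g : L, g * z' ^ k * g⁻¹ ≠ z' ^ k := by
    refine ⟨g, fun he => hne ?_⟩
    rw [hzk] at he
    have h1 := hg ⟨x, hxR⟩
    have h2 : g * ι ⟨x, hom_le E₁ hψ hxR⟩ * g⁻¹ = ι ⟨x, hxT⟩ := he
    have h3 := hι (h1.trans h2)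
    exact congrArg Subtype.val h3
  obtain ⟨g', hg'N, hg'⟩ := hLoc L hinv P₀ hC z' hzP hzcP hgm
  -- transport of `W`
  let e : T₁ ≃* ↥(P₀ : Subgroup L) := (MonoidHom.ofInjective hι).trans (MulEquiv.subgroupCongr hP₀.symm)
  have hev : ∀ t : T₁, ((e t : ↥(P₀ : Subgroup L)) : L) = ι t := fun _ => rfl
  have hWe : (W T₁).map e.toMonoidHom = W ↥(P₀ : Subgroup L) := hW2 _ _ hT₁ e
  have hV : ((W ↥(P₀ : Subgroup L)).map (P₀ : Subgroup L).subtype : Subgroup L) = (W T₁).map ι := by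
    rw [← hWe, Subgroup.map_map]
    rfl
  rw [hV] at hg'N
  have hUT : funW W T₁ ≤ T₁ := funW_le W T₁
  have hmem : ∀ y : funW W T₁, ι ⟨y, hUT y.2⟩ ∈ (W T₁).map ι := by
    rintro ⟨_, v, hv, rfl⟩
    exact ⟨v, hv, rfl⟩
  have hv : ∀ y : funW W T₁, g' * ι ⟨y, hUT y.2⟩ * g'⁻¹ ∈ ι.range := by
    intro y
    obtain ⟨w, -, hw⟩ := (Subgroup.mem_normalizer_iff.1 hg'N _).1 (hmem y)
    exact ⟨w, hw⟩
  obtain ⟨φ, hφ, hφv⟩ := IsRealizedBy.exists_hom hreal hUT g' hv
  have hφU : ∀ y : funW W T₁, φ y ∈ funW W T₁ := by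
    intro y
    obtain ⟨w, hw, hwe⟩ := (Subgroup.mem_normalizer_iff.1 hg'N _).1 (hmem y)
    obtain ⟨hx', h4⟩ := hφv y
    have h5 : (⟨φ y, hx'⟩ : T₁) = w := hι (h4.trans hwe.symm)
    have h6 : φ y = (w : Ω) := congrArg Subtype.val h5
    rw [h6]
    exact ⟨w, hw, rfl⟩
  obtain ⟨β, hβ, hβv⟩ := exists_aut_of_map hφ hφU
  have hxU : x ∈ funW W T₁ := by
    refine ⟨⟨x, hxT⟩, hWZ _ hT₁ (Subgroup.mem_center_iff.2 fun t => Subtype.ext (hxc t t.2)), rfl⟩
  refine ⟨β, hβ, hxU, fun he => hg' ?_⟩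
  rw [hβv] at he
  obtain ⟨hx', h4⟩ := hφv ⟨x, hxU⟩
  rw [hzk]
  rw [← show ι ⟨x, hUT hxU⟩ = ι ⟨x, hxT⟩ from rfl, ← h4]
  congr 1
  exact Subtype.ext he

/-- The normal case: a fully normalized subgroup normal in the Sylow subgroup. -/
theorem moved_normal_case_free [Finite T] (hT : IsPGroup p T) {E : FusionSystem T} (hE : E.IsSaturated p) (hfree : E.IsSectionFree p H) {V : Subgroup Ω}
    (hVn : E.IsFullyNormalized V) (hTV : T ≤ Subgroup.normalizer (V : Set Ω)) {γ : MulAut V} (hγ : γ ∈ E.autGroup V)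
    {x : Ω} (hxV : x ∈ V) (hne : ((γ ⟨x, hxV⟩ : V) : Ω) ≠ x) (hadm : PowAdm k T x) (hLoc : LocalCondFree p k W H)
    (hW2 : ∀ (Q R : Type u) [Group Q] [Group R] [Finite Q], IsPGroup p Q → ∀ φ : Q ≃* R, (W Q).map φ.toMonoidHom = W R)
    (hWZ : ∀ (Q : Type u) [Group Q] [Finite Q], IsPGroup p Q → Subgroup.center Q ≤ W Q) :
    MovesAt E x (funW W T) := by
  have hVT := hVn.1
  have hrec := IsSat.receptive_of_fullyNormalized hT hE hVn
  have hγi : IsIso E (P := V) (Q := V) γ := (mem_autGroup_iff hVT).1 hγ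
  set C := centralizerIn T V with hCd
  have hCN : C ≤ Subgroup.normalizer (V : Set Ω) := fun g hg => (mem_normalizerIn.1 (centralizerIn_le_normalizerIn hg)).2
  set Q₁ := V ⊔ C with hQ₁
  obtain ⟨ψ, hψ, hψv⟩ : ∃ ψ ∈ E.Hom Q₁, ∀ (x : Ω) (hP : x ∈ V) (hxN : x ∈ Q₁), ψ ⟨x, hxN⟩ = ((γ ⟨x, hP⟩ : V) : Ω) :=
    IsReceptive.extend_sup (F := E) hrec hγi (N := C) (fun g hg => by
    have hg' := mem_centralizerIn.1 hg
    refine ⟨hg'.1, hCN hg, 1, T.one_mem, fun y hy => ?_⟩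
    have h1 : g * (y : Ω) * g⁻¹ = y := by rw [← hg'.2 y y.2]; simp
    have h2 : (⟨g * y * g⁻¹, hy⟩ : V) = y := Subtype.ext h1
    rw [h2]
    simp)
  have hQ₁T : Q₁ ≤ T := sup_le hVT (centralizerIn_le _)
  have : Finite Q₁ := finite_of_le hQ₁T
  have hTQ₁ : T ≤ Subgroup.normalizer (Q₁ : Set Ω) := by
    intro t ht
    refine mem_normalizer_of_forall fun y hy => ?_
    have hle : Q₁ ≤ Q₁.comap (MulAut.conj t).toMonoidHom := by
      refine sup_le (fun v hv => ?_) (fun c hc => ?_)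
      · exact (le_sup_left : V ≤ Q₁) (conj_mem_of_mem_normalizer (hTV ht) hv)
      · refine (le_sup_right : C ≤ Q₁) ?_
        have hc' := mem_centralizerIn.1 hc
        refine mem_centralizerIn.2 ⟨T.mul_mem (T.mul_mem ht hc'.1) (T.inv_mem ht), fun v hv => ?_⟩
        have hv' : t⁻¹ * v * t ∈ V := by
          simpa using conj_mem_of_mem_normalizer (hTV (T.inv_mem ht)) hv
        have h1 := hc'.2 _ hv'
        calc v * (t * c * t⁻¹) = t * ((t⁻¹ * v * t) * c) * t⁻¹ := by group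
          _ = t * (c * (t⁻¹ * v * t)) * t⁻¹ := by rw [h1]
          _ = (t * c * t⁻¹) * v := by group
    exact hle hy
  have hNQ₁ : normalizerIn T Q₁ = T := le_antisymm (normalizerIn_le _) (fun t ht => mem_normalizerIn.2 ⟨ht, hTQ₁ ht⟩)
  have hQ₁n : E.IsFullyNormalized Q₁ := by
    refine ⟨hQ₁T, fun R _ => ?_⟩
    rw [hNQ₁]
    exact card_le_of_le le_rfl (normalizerIn_le _)
  have hQ₁C : centralizerIn T Q₁ ≤ Q₁ := by
    intro g hg
    have hg' := mem_centralizerIn.1 hg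
    exact (le_sup_right : C ≤ Q₁) (mem_centralizerIn.2 ⟨hg'.1, fun v hv => hg'.2 v ((le_sup_left : V ≤ Q₁) hv)⟩)
  have hQ₁c : E.IsCentric Q₁ := isCentric_of_receptive (IsSat.receptive_of_fullyNormalized hT hE hQ₁n) hQ₁C
  have hψV : ∀ (v : Ω) (hv : v ∈ V), ψ ⟨v, (le_sup_left : V ≤ Q₁) hv⟩ = ((γ ⟨v, hv⟩ : V) : Ω) := fun v hv => hψv v hv _
  have hψU : ∀ y : Q₁, ψ y ∈ Q₁ := by
    rintro ⟨y, hy⟩
    obtain ⟨v, hv, c, hc, rfl⟩ := exists_mul_of_mem_sup hCN hy
    have hvQ : v ∈ Q₁ := (le_sup_left : V ≤ Q₁) hv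
    have hcQ : c ∈ Q₁ := (le_sup_right : C ≤ Q₁) hc
    have h1 : ψ ⟨v * c, hy⟩ = ψ ⟨v, hvQ⟩ * ψ ⟨c, hcQ⟩ := by
      rw [← map_mul]
      rfl
    rw [h1]
    refine Q₁.mul_mem ?_ ?_
    · rw [hψV v hv]
      exact (le_sup_left : V ≤ Q₁) (γ ⟨v, hv⟩).2
    · refine (le_sup_right : C ≤ Q₁) (mem_centralizerIn.2 ⟨hom_val E hψ _, fun w hw => ?_⟩)
      obtain ⟨w₀, hw₀⟩ := γ.surjective ⟨w, hw⟩
      have hw₁ : w = ψ ⟨(w₀ : Ω), (le_sup_left : V ≤ Q₁) w₀.2⟩ := by
        rw [hψV _ w₀.2]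
        exact (congrArg Subtype.val hw₀).symm
      rw [hw₁, ← map_mul, ← map_mul]
      congr 1
      exact Subtype.ext ((mem_centralizerIn.1 hc).2 _ w₀.2)
  obtain ⟨β, hβ, hβv⟩ := exists_aut_of_map hψ hψU
  have hxQ₁ : x ∈ Q₁ := (le_sup_left : V ≤ Q₁) hxV
  obtain ⟨D, hD⟩ := Cfsg.Agent.S5096.result E Q₁ hQ₁T
  have hDc := isConstrained_normalizerSystem hT hE hQ₁n hQ₁c hD
  obtain ⟨hDs, Q₀, hQ₀n, hQ₀c⟩ := hDc
  have hT₁p : IsPGroup p (normalizerIn T Q₁) := hT.to_le (normalizerIn_le Q₁)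
  have : Finite (normalizerIn T Q₁) := finite_of_le (normalizerIn_le Q₁)
  obtain ⟨L, _, ι, hm⟩ := exists_model hT₁p hDs hQ₀n hQ₀c
  have hβD : β ∈ D.autGroup Q₁ := by
    rw [autGroup_normalizerSystem hQ₁T hD]
    exact hβ
  have hmov : Moves D x := by
    refine ⟨Q₁, _, (mem_autGroup_iff (le_normalizerIn hQ₁T)).1 hβD, hxQ₁, ?_⟩
    show ((β ⟨x, hxQ₁⟩ : Q₁) : Ω) ≠ x
    rw [hβv, hψV x hxV]
    exact hne
  have hadm' : PowAdm k (normalizerIn T Q₁) x := by
    rw [hNQ₁]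
    exact hadm
  have h := moved_of_local_free hT₁p hm (hfree Q₁ hQ₁n hQ₁c D hD L ι hm) hLoc hW2 hWZ hadm' hmov
  have h' : MovesAt E x (funW W (normalizerIn T Q₁)) :=
    MovesAt.mono (fun P φ hφ => by
      rw [hD P] at hφ
      exact hφ.1) (funW_le W _) ((funW_le W _).trans (normalizerIn_le _)) h
  rwa [hNQ₁] at h'

/-- The climbing step. -/
theorem moved_loop_free [Finite T] (hT : IsPGroup p T) {E : FusionSystem T} (hE : E.IsSaturated p) (hfree : E.IsSectionFree p H) {x : Ω}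
    (hadm : PowAdm k T x) {m : ℕ}
    (hM : ∀ (R : Subgroup Ω) (φ : R →* Ω), φ ∈ E.Hom R → m < Nat.card R → ∀ hxR : x ∈ R, φ ⟨x, hxR⟩ = x)
    (hIH : ∀ T₃ : Subgroup Ω, Nat.card T₃ < Nat.card T → T₃ ≤ T → ∀ E₃ : FusionSystem T₃, E₃.IsSaturated p → E₃.IsSectionFree p H → PowAdm k T₃ x →
      Moves E₃ x → MovesAt E₃ x (funW W T₃))
    (hLoc : LocalCondFree p k W H)
    (hW2 : ∀ (Q R : Type u) [Group Q] [Group R] [Finite Q], IsPGroup p Q → ∀ φ : Q ≃* R, (W Q).map φ.toMonoidHom = W R)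
    (hWZ : ∀ (Q : Type u) [Group Q] [Finite Q], IsPGroup p Q → Subgroup.center Q ≤ W Q) :
    ∀ (n : ℕ) (T' : Subgroup Ω), Nat.card T - Nat.card T' ≤ n → T' ≤ T → (∀ z ∈ T, (∀ t ∈ T, t * z = z * t) → z ∈ T') →
      m ≤ Nat.card T' → MovesAt E x (funW W T') → MovesAt E x (funW W T) := by
  intro n
  induction n with
  | zero =>
    intro T' hn hT'T _ _ h
    have hcard : Nat.card T ≤ Nat.card T' := by omega
    have : T' = T := eq_of_le_of_card_le le_rfl hT'T hcard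
    rwa [this] at h
  | succ n ih =>
    intro T' hn hT'T hZ hm h
    by_cases hT'eq : T' = T
    · rwa [hT'eq] at h
    have hlt : T' < T := lt_of_le_of_ne hT'T hT'eq
    have hT'p : IsPGroup p T' := hT.to_le hT'T
    have : Finite T' := finite_of_le hT'T
    have hxT := hadm.mem
    have hxc := hadm.comm
    set U' := funW W T' with hU'
    have hU'T' : U' ≤ T' := funW_le W T'
    have hU'T : U' ≤ T := hU'T'.trans hT'T
    have : Finite U' := finite_of_le hU'T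
    have hNN : normalizerIn T T' ≤ normalizerIn T U' := fun g hg => by
      have hg' := mem_normalizerIn.1 hg
      exact mem_normalizerIn.2 ⟨hg'.1, funW_normalized hW2 hT'p hg'.2⟩
    have hcard1 : Nat.card T' < Nat.card (normalizerIn T U') :=
      lt_of_lt_of_le (card_lt_of_lt (normalizerIn_le _) (lt_normalizerIn hT hlt)) (card_le_of_le (normalizerIn_le _) hNN)
    obtain ⟨β, hβ, hxU, hne⟩ := h
    obtain ⟨U₀, hconj, hfn⟩ := exists_fullyNormalized_conj (F := E) hU'T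
    obtain ⟨e, he⟩ := isConj_iff.1 hconj
    obtain ⟨e', he', χ, hχ, hχv, hχe⟩ := IsSat.extend_to_normalizer hT hE hfn he
    have hxN : x ∈ normalizerIn T U' := le_normalizerIn hU'T hxU
    have hfix : ((e' ⟨x, hxU⟩ : U₀) : Ω) = x := by
      rw [← hχe x hxU hxN]
      exact hM _ χ hχ (lt_of_le_of_lt hm hcard1) hxN
    have hxU₀ : x ∈ U₀ := hfix ▸ (e' ⟨x, hxU⟩).2
    have hβi : IsIso E (P := U') (Q := U') β := (mem_autGroup_iff hU'T).1 hβ
    let γ : MulAut U₀ := (e'.symm.trans β).trans e'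
    have hγ : γ ∈ E.autGroup U₀ := by
      refine (mem_autGroup_iff hfn.1).2 ?_
      exact IsIso.trans (IsIso.trans (IsIso.symm he') hβi) he'
    have hex : e'.symm ⟨x, hxU₀⟩ = ⟨x, hxU⟩ := by
      rw [MulEquiv.symm_apply_eq]
      exact Subtype.ext hfix.symm
    have hγne : ((γ ⟨x, hxU₀⟩ : U₀) : Ω) ≠ x := by
      intro hc
      apply hne
      have h0 : ((γ ⟨x, hxU₀⟩ : U₀) : Ω) = ((e' (β ⟨x, hxU⟩) : U₀) : Ω) := by
        show ((e' (β (e'.symm ⟨x, hxU₀⟩)) : U₀) : Ω) = _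
        rw [hex]
      have h1 : e' (β ⟨x, hxU⟩) = e' ⟨x, hxU⟩ := Subtype.ext (by
        rw [hfix, ← h0]
        exact hc)
      rw [e'.injective h1]
    by_cases hTN : T ≤ Subgroup.normalizer (U₀ : Set Ω)
    · exact moved_normal_case_free hT hE hfree hfn hTN hγ hxU₀ hγne hadm hLoc hW2 hWZ
    · have hT₃ : normalizerIn T U₀ < T := by
        refine lt_of_le_of_ne (normalizerIn_le _) fun hc => hTN ?_
        rw [← hc]
        exact inf_le_right
      set T₃ := normalizerIn T U₀ with hT₃d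
      have hZT₃ : ∀ z ∈ T, (∀ t ∈ T, t * z = z * t) → z ∈ T₃ := fun z hz hc => by
        have : Finite U₀ := finite_of_le hfn.1
        refine mem_normalizerIn.2 ⟨hz, mem_normalizer_of_forall fun y hy => ?_⟩
        have h1 : z * y * z⁻¹ = y := by
          rw [← hc y (hfn.1 hy)]
          simp
        rwa [h1]
      obtain ⟨D, hD⟩ := Cfsg.Agent.S5096.result E U₀ hfn.1
      have hDs := isSaturated_normalizerSystem hT hE hfn hD
      have hadm' : PowAdm k T₃ x := by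
        obtain ⟨z, hz, hc, hzx⟩ := hadm
        exact ⟨z, hZT₃ z hz hc, fun t ht => hc t (hT₃.le ht), hzx⟩
      have hγD : γ ∈ D.autGroup U₀ := by
        rw [autGroup_normalizerSystem hfn.1 hD]
        exact hγ
      have hmov : Moves D x := MovesAt.moves (le_normalizerIn hfn.1) ⟨γ, hγD, hxU₀, hγne⟩
      have h3 := hIH T₃ (card_lt_of_lt le_rfl hT₃) hT₃.le D hDs (IsSectionFree.normalizerSystem hT hE hfree hfn hD) hadm' hmov
      have h4 : MovesAt E x (funW W T₃) := MovesAt.mono (fun P φ hφ => by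
        rw [hD P] at hφ
        exact hφ.1) (funW_le W _) ((funW_le W _).trans hT₃.le) h3
      have hc1 : Nat.card (normalizerIn T U') ≤ Nat.card T₃ := hfn.2 _ (conj_symm hconj)
      refine ih T₃ ?_ hT₃.le hZT₃ ?_ h4
      · have hc2 : Nat.card T₃ ≤ Nat.card T := card_le_of_le le_rfl hT₃.le
        omega
      · omega

/-- **The chain theorem.** -/
theorem chain_main_free (hLoc : LocalCondFree p k W H)
    (hW2 : ∀ (Q R : Type u) [Group Q] [Group R] [Finite Q], IsPGroup p Q → ∀ φ : Q ≃* R, (W Q).map φ.toMonoidHom = W R)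
    (hWZ : ∀ (Q : Type u) [Group Q] [Finite Q], IsPGroup p Q → Subgroup.center Q ≤ W Q) :
    ∀ (n : ℕ) (T : Subgroup Ω) [Finite T], Nat.card T ≤ n → IsPGroup p T → ∀ E : FusionSystem T, E.IsSaturated p → E.IsSectionFree p H →
      ∀ x, PowAdm k T x → Moves E x → MovesAt E x (funW W T) := by
  intro n
  induction n with
  | zero =>
    intro T _ hn
    have : 0 < Nat.card T := Nat.card_pos
    omega
  | succ n ih =>
    intro T _ hn hT E hE hfree x hadm hmov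
    have hxT := hadm.mem
    have hxc := hadm.comm
    obtain ⟨Q, hQn, hQc, ⟨α, hα, hxQ, hne⟩, hM⟩ := exists_moved_max hT hE hxc hxT hmov
    have hQT := hQn.1
    obtain ⟨D, hD⟩ := Cfsg.Agent.S5096.result E Q hQT
    obtain ⟨hDs, Q₀, hQ₀n, hQ₀c⟩ := isConstrained_normalizerSystem hT hE hQn hQc hD
    have hT₁p : IsPGroup p (normalizerIn T Q) := hT.to_le (normalizerIn_le Q)
    have : Finite (normalizerIn T Q) := finite_of_le (normalizerIn_le Q)
    obtain ⟨L, _, ι, hm⟩ := exists_model hT₁p hDs hQ₀n hQ₀c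
    have hZT₁ : ∀ z ∈ T, (∀ t ∈ T, t * z = z * t) → z ∈ normalizerIn T Q := fun z hz hc => by
      have : Finite Q := finite_of_le hQT
      refine mem_normalizerIn.2 ⟨hz, mem_normalizer_of_forall fun y hy => ?_⟩
      have h1 : z * y * z⁻¹ = y := by
        rw [← hc y (hQT hy)]
        simp
      rwa [h1]
    have hαD : α ∈ D.autGroup Q := by
      rw [autGroup_normalizerSystem hQT hD]
      exact hα
    have hmovD : Moves D x := MovesAt.moves (le_normalizerIn hQT) ⟨α, hαD, hxQ, hne⟩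
    have hadm' : PowAdm k (normalizerIn T Q) x := by
      obtain ⟨z, hz, hc, hzx⟩ := hadm
      exact ⟨z, hZT₁ z hz hc, fun t ht => hc t (normalizerIn_le Q ht), hzx⟩
    have h3 := moved_of_local_free hT₁p hm (hfree Q hQn hQc D hD L ι hm) hLoc hW2 hWZ hadm' hmovD
    have h4 : MovesAt E x (funW W (normalizerIn T Q)) := MovesAt.mono (fun P φ hφ => by
      rw [hD P] at hφ
      exact hφ.1) (funW_le W _) ((funW_le W _).trans (normalizerIn_le _)) h3
    refine moved_loop_free hT hE hfree hadm hM (fun T₃ hlt hle E₃ hE₃ hfree₃ hadm₃ hmov₃ => ?_) hLoc hW2 hWZ _ (normalizerIn T Q) le_rfl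
      (normalizerIn_le Q) hZT₁ (card_le_of_le (normalizerIn_le Q) (le_normalizerIn hQT)) h4
    have : Finite T₃ := finite_of_le hle
    exact ih T₃ (by omega) (hT.to_le hle) E₃ hE₃ hfree₃ x hadm₃ hmov₃

/-- The conclusion in a normalizer system. -/
theorem center_of_chain_free {S : Subgroup Ω} [Finite S] (hS : IsPGroup p S) {F : FusionSystem S} (hF : F.IsSaturated p)
    (hfree : F.IsSectionFree p H) (hLoc : LocalCondFree p k W H)
    (hW2 : ∀ (Q R : Type u) [Group Q] [Group R] [Finite Q], IsPGroup p Q → ∀ φ : Q ≃* R, (W Q).map φ.toMonoidHom = W R)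
    (hWZ : ∀ (Q : Type u) [Group Q] [Finite Q], IsPGroup p Q → Subgroup.center Q ≤ W Q)
    {N : FusionSystem (normalizerIn S (funW W S))} (hN : F.IsNormalizerSystem (funW W S) N) {C : Subgroup Ω}
    (hC : C ≤ N.center) (hadm : ∀ w ∈ C, PowAdm k S w) : C ≤ F.center := by
  have hNS : normalizerIn S (funW W S) = S :=
    le_antisymm (normalizerIn_le _) fun t ht => mem_normalizerIn.2 ⟨ht, funW_normalized hW2 hS
      (Subgroup.le_normalizer ht)⟩
  have hW₀S : funW W S ≤ S := funW_le W S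
  have hfn : F.IsFullyNormalized (funW W S) := by
    refine ⟨hW₀S, fun R _ => ?_⟩
    rw [hNS]
    exact card_le_of_le le_rfl (normalizerIn_le _)
  have hNs := isSaturated_normalizerSystem hS hF hfn hN
  have hNS' : IsPGroup p (normalizerIn S (funW W S)) := hS.to_le (normalizerIn_le _)
  have : Finite (normalizerIn S (funW W S)) := finite_of_le (normalizerIn_le _)
  have hNc : N.IsCentral N.center := isCentral_center
  have hNc' := (isCentral_iff hNS' hNs).1 hNc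
  have hFC : F.IsCentral C := by
    refine (isCentral_iff hS hF).2 ⟨fun w hw => (hadm w hw).mem, fun w hw y hy => ?_⟩
    obtain ⟨φ, hφ, rfl⟩ := hy
    by_contra hne
    have hmov : Moves F w := ⟨_, φ, hφ, Subgroup.mem_zpowers w, hne⟩
    obtain ⟨β, hβ, hwU, hne'⟩ := chain_main_free hLoc hW2 hWZ _ S le_rfl hS F hF hfree w (hadm w hw) hmov
    have hβN : β ∈ N.autGroup (funW W S) := by
      rw [autGroup_normalizerSystem hW₀S hN]
      exact hβ
    have hβi := (mem_autGroup_iff (le_normalizerIn hW₀S)).1 hβN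
    have hres := res_mem N hβi (Subgroup.zpowers_le.2 hwU)
    exact hne' (hNc'.2 w (hC hw) _ ⟨_, hres, rfl⟩)
  exact le_sSup hFC

end

end Cfsg.Agent.Lib.Fusion
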