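import Mathlib

/-! The matrix of an element acting on a rank two elementary abelian subgroup. -/

set_option autoImplicit false

namespace Cfsg.Agent.Lib.Fusion.Extra3

variable {G : Type*} [Group G] {p : ℕ} [hfp : Fact p.Prime]

/-- The element with coordinates `(s, t)`. -/
def ff (z x : G) (s t : ZMod p) : G := z ^ s.val * x ^ t.val

theorem pow_val_add {z : G} (hz : z ^ p = 1) (a b : ZMod p) : z ^ (a + b).val = z ^ a.val * z ^ b.val := by
  rw [ZMod.val_add, ← pow_eq_pow_mod _ hz, pow_add]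

section

variable {z x : G} (hzx : z * x = x * z) (hz : z ^ p = 1) (hx : x ^ p = 1)

include hzx hz hx

theorem ff_add (s t s' t' : ZMod p) : ff z x (s + s') (t + t') = ff z x s t * ff z x s' t' := by
  have hc : Commute z x := hzx
  unfold ff
  rw [pow_val_add hz, pow_val_add hx]
  have h1 : Commute (x ^ t.val) (z ^ s'.val) := ((hc.pow_pow s'.val t.val).symm)
  rw [mul_assoc, mul_assoc, ← mul_assoc (z ^ s'.val), ← h1.eq]
  simp only [mul_assoc]

theorem ff_pow (s t : ZMod p) (m : ℕ) : ff z x s t ^ m = ff z x ((m : ZMod p) * s) ((m : ZMod p) * t) := by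
  induction m with
  | zero =>
    simp [ff]
  | succ m ih =>
    rw [pow_succ, ih, ← ff_add hzx hz hx]
    congr 1 <;> push_cast <;> ring

omit hzx hz hx in
theorem ff_zero_zero : ff z x (0 : ZMod p) 0 = 1 := by
  simp [ff]

omit hzx hz hx in
theorem ff_one_zero : ff z x (1 : ZMod p) 0 = z := by
  haveI : Fact (1 < p) := ⟨hfp.out.one_lt⟩
  simp [ff, ZMod.val_one]

omit hzx hz hx in
theorem ff_zero_one : ff z x (0 : ZMod p) 1 = x := by
  haveI : Fact (1 < p) := ⟨hfp.out.one_lt⟩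
  simp [ff, ZMod.val_one]

end

/-- `d` acts with matrix `(a b; c e)` (rows are the images of `z`, `x`). -/
def Acts (z x d : G) (a b c e : ZMod p) : Prop :=
  d * z * d⁻¹ = ff z x a b ∧ d * x * d⁻¹ = ff z x c e

section

variable {z x : G} (hzx : z * x = x * z) (hz : z ^ p = 1) (hx : x ^ p = 1)

include hzx hz hx

theorem Acts.conj_ff {d : G} {a b c e : ZMod p} (h : Acts z x d a b c e) (s t : ZMod p) :
    d * ff z x s t * d⁻¹ = ff z x (s * a + t * c) (s * b + t * e) := by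
  have h1 : d * ff z x s t * d⁻¹ = (d * z * d⁻¹) ^ s.val * (d * x * d⁻¹) ^ t.val := by
    unfold ff
    rw [conj_pow, conj_pow]
    group
  rw [h1, h.1, h.2, ff_pow hzx hz hx, ff_pow hzx hz hx, ← ff_add hzx hz hx]
  simp only [ZMod.natCast_val, ZMod.cast_id', id]

theorem Acts.mul {d₁ d₂ : G} {a₁ b₁ c₁ e₁ a₂ b₂ c₂ e₂ : ZMod p} (h₁ : Acts z x d₁ a₁ b₁ c₁ e₁)
    (h₂ : Acts z x d₂ a₂ b₂ c₂ e₂) :
    Acts z x (d₁ * d₂) (a₂ * a₁ + b₂ * c₁) (a₂ * b₁ + b₂ * e₁) (c₂ * a₁ + e₂ * c₁) (c₂ * b₁ + e₂ * e₁) := by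
  constructor
  · have : d₁ * d₂ * z * (d₁ * d₂)⁻¹ = d₁ * (d₂ * z * d₂⁻¹) * d₁⁻¹ := by group
    rw [this, h₂.1, Acts.conj_ff hzx hz hx h₁]
  · have : d₁ * d₂ * x * (d₁ * d₂)⁻¹ = d₁ * (d₂ * x * d₂⁻¹) * d₁⁻¹ := by group
    rw [this, h₂.2, Acts.conj_ff hzx hz hx h₁]

theorem Acts.inv_diag {d : G} {a e : ZMod p} (hae : a * e = 1) (h : Acts z x d a 0 0 e) :
    Acts z x d⁻¹ e 0 0 a := by
  constructor
  · have h1 := Acts.conj_ff hzx hz hx h e 0
    have e1 : e * a + 0 * 0 = 1 := by rw [mul_comm, hae]; ring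
    have e2 : e * 0 + 0 * e = 0 := by ring
    rw [e1, e2, ff_one_zero] at h1
    have h2 : d⁻¹ * (d * ff z x e 0 * d⁻¹) * d⁻¹⁻¹ = ff z x e 0 := by group
    rw [h1] at h2
    exact h2
  · have h1 := Acts.conj_ff hzx hz hx h 0 a
    have e1 : 0 * a + a * 0 = 0 := by ring
    have e2 : 0 * 0 + a * e = 1 := by rw [hae]; ring
    rw [e1, e2, ff_zero_one] at h1
    have h2 : d⁻¹ * (d * ff z x 0 a * d⁻¹) * d⁻¹⁻¹ = ff z x 0 a := by group
    rw [h1] at h2
    exact h2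

theorem Acts.inv_low {d : G} {t : ZMod p} (h : Acts z x d 1 0 t 1) : Acts z x d⁻¹ 1 0 (-t) 1 := by
  constructor
  · have h1 := Acts.conj_ff hzx hz hx h 1 0
    have e1 : 1 * 1 + 0 * t = (1 : ZMod p) := by ring
    have e2 : 1 * 0 + 0 * 1 = (0 : ZMod p) := by ring
    rw [e1, e2, ff_one_zero] at h1
    have h2 : d⁻¹ * (d * z * d⁻¹) * d⁻¹⁻¹ = z := by group
    rw [h1] at h2
    rw [ff_one_zero]
    exact h2
  · have h1 := Acts.conj_ff hzx hz hx h (-t) 1
    have e1 : -t * 1 + 1 * t = 0 := by ring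
    have e2 : -t * 0 + 1 * 1 = (1 : ZMod p) := by ring
    rw [e1, e2, ff_zero_one] at h1
    have h2 : d⁻¹ * (d * ff z x (-t) 1 * d⁻¹) * d⁻¹⁻¹ = ff z x (-t) 1 := by group
    rw [h1] at h2
    exact h2

/-- The torus element from the two root groups. -/
theorem exists_diag (hu : ∀ t : ZMod p, ∃ g, Acts z x g 1 0 t 1) (hv : ∀ t : ZMod p, ∃ g, Acts z x g 1 t 0 1)
    {l : ZMod p} (hl : l ≠ 0) : ∃ d, Acts z x d l 0 0 l⁻¹ := by
  obtain ⟨v1, hv1⟩ := hv (-1)
  obtain ⟨u1, hu1⟩ := hu 1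
  obtain ⟨v2, hv2⟩ := hv (l - 1)
  obtain ⟨u2, hu2⟩ := hu (-l⁻¹)
  obtain ⟨v3, hv3⟩ := hv l
  have h := ((((hv1.mul hzx hz hx hu1).mul hzx hz hx hv2).mul hzx hz hx hu2).mul hzx hz hx hv3)
  refine ⟨v1 * u1 * v2 * u2 * v3, ?_⟩
  convert h using 1 <;> (first | (field_simp; ring) | skip)

/-- The element of the normalizer of a Sylow subgroup. -/
theorem exists_normalizer_of_diag [Finite G] (P : Sylow p G) (hP : ∀ y ∈ (P : Subgroup G), ∃ t : ZMod p, Acts z x y 1 0 t 1)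
    {l : ZMod p} (hl : l ≠ 0) {d : G} (hd : Acts z x d l 0 0 l⁻¹) :
    ∃ n ∈ Subgroup.normalizer ((P : Subgroup G) : Set G), ∃ c : ZMod p, Acts z x n l 0 c l⁻¹ := by
  let T : Subgroup G :=
    { carrier := {g | ∃ t : ZMod p, Acts z x g 1 0 t 1}
      mul_mem' := by
        rintro a b ⟨s, hs⟩ ⟨t, ht⟩
        refine ⟨t * 1 + 1 * s, ?_⟩
        convert hs.mul hzx hz hx ht using 1 <;> ring
      one_mem' := by
        refine ⟨0, ?_, ?_⟩
        · simp [ff_one_zero]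
        · simp [ff_zero_one]
      inv_mem' := by
        rintro a ⟨s, hs⟩
        exact ⟨-s, hs.inv_low hzx hz hx⟩ }
  have hl1 : l * l⁻¹ = 1 := mul_inv_cancel₀ hl
  have hdi := hd.inv_diag hzx hz hx hl1
  have hPT : (P : Subgroup G) ≤ T := fun y hy => hP y hy
  have hQT : ((d • P : Sylow p G) : Subgroup G) ≤ T := by
    intro y hy
    have h1 : d⁻¹ * y * d ∈ (P : Subgroup G) := by
      rw [Sylow.coe_subgroup_smul, Subgroup.mem_pointwise_smul_iff_inv_smul_mem] at hy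
      simpa [MulAut.smul_def, MulAut.conj_apply, mul_assoc] using hy
    obtain ⟨t, ht⟩ := hP _ h1
    have h2 := (hd.mul hzx hz hx ht).mul hzx hz hx hdi
    have e : d * (d⁻¹ * y * d) * d⁻¹ = y := by group
    rw [e] at h2
    refine ⟨l * (t * l + 1 * 0), ?_⟩
    convert h2 using 1 <;> first | ring1 | (field_simp; done) | (field_simp; ring1)
  let Q₁ : Sylow p T := P.subtype hPT
  let Q₂ : Sylow p T := (d • P : Sylow p G).subtype hQT
  obtain ⟨e, he⟩ := MulAction.exists_smul_eq T Q₂ Q₁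
  have h3 : (((e : T) : G) • (d • P : Sylow p G) : Sylow p G) = P := by
    have h4 : e • Q₂ = ((e : G) • (d • P : Sylow p G)).subtype (Sylow.smul_le hQT e) := Sylow.smul_subtype hQT e
    rw [h4] at he
    exact Sylow.subtype_injective he
  rw [smul_smul] at h3
  refine ⟨(e : G) * d, Sylow.smul_eq_iff_mem_normalizer.1 h3, ?_⟩
  obtain ⟨t, ht⟩ := e.2
  have h5 := ht.mul hzx hz hx hd
  refine ⟨l⁻¹ * t, ?_⟩
  convert h5 using 1 <;> first | ring1 | (field_simp; done) | (field_simp; ring1)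

end

end Cfsg.Agent.Lib.Fusion.Extra3
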