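import Mathlib

/-! Counting for a finite group acting on a finite set where every element off a kernel has exactly
two fixed points: the Riemann--Hurwitz count, which bounds the points with large stabilizers. -/

set_option autoImplicit false

namespace Cfsg.Agent.Lib.Fusion.PglCount

open MulAction Finset

variable {X Ω : Type*} [Group X] [MulAction X Ω]

section arith

variable [Fintype Ω] [DecidableEq Ω]

open Classical in
/-- The orbit of a point as a finset. -/
noncomputable def orb (X : Type*) [Group X] [MulAction X Ω] (a : Ω) : Finset Ω :=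
  univ.filter (fun x => x ∈ orbit X a)

theorem mem_orb {a x : Ω} : x ∈ orb X a ↔ x ∈ orbit X a := by
  simp [orb]

theorem card_orb (a : Ω) : (orb X a).card = Nat.card (orbit X a) := by
  classical
  rw [Nat.card_eq_fintype_card, ← Set.toFinset_card]
  congr 1
  ext x
  simp [mem_orb]

theorem self_mem_orb (a : Ω) : a ∈ orb X a := mem_orb.2 (mem_orbit_self a)

theorem e_const {e : Ω → ℕ} {n : ℕ} (hn : 0 < n) (hs : ∀ x, Nat.card (orbit X x) * e x = n) {a x : Ω}
    (hx : x ∈ orb X a) : e x = e a := by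
  have h1 : orbit X x = orbit X a := orbit_eq_iff.2 (mem_orb.1 hx)
  have h2 := hs x
  have h3 := hs a
  have h4 : Nat.card (orbit X x) = Nat.card (orbit X a) := by rw [h1]
  rw [h4] at h2
  have h5 : 0 < Nat.card (orbit X a) := by
    rcases Nat.eq_zero_or_pos (Nat.card (orbit X a)) with h | h
    · rw [h] at h3
      omega
    · exact h
  exact Nat.eq_of_mul_eq_mul_left h5 (h2.trans h3.symm)

theorem sum_orb {e : Ω → ℕ} {n : ℕ} (hn : 0 < n) (hs : ∀ x, Nat.card (orbit X x) * e x = n) (a : Ω) :
    ∑ x ∈ orb X a, ((e x : ℤ) - 1) = (n : ℤ) - (orb X a).card := by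
  have h1 : ∑ x ∈ orb X a, ((e x : ℤ) - 1) = ∑ x ∈ orb X a, ((e a : ℤ) - 1) :=
    Finset.sum_congr rfl fun x hx => by rw [e_const hn hs hx]
  rw [h1, Finset.sum_const, nsmul_eq_mul, ← hs a, ← card_orb]
  push_cast
  ring

theorem orb_disjoint {a b : Ω} (h : b ∉ orb X a) : Disjoint (orb X a) (orb X b) := by
  rw [Finset.disjoint_left]
  intro x hx hx'
  apply h
  have h1 := mem_orb.1 hx
  have h2 := mem_orb.1 hx'
  have h3 : orbit X x = orbit X a := orbit_eq_iff.2 h1
  have h4 : orbit X x = orbit X b := orbit_eq_iff.2 h2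
  exact mem_orb.2 (by rw [← h3, h4]; exact mem_orbit_self b)

/-- The arithmetic of orbits. -/
theorem count_arith {e : Ω → ℕ} {n : ℕ} (hn : 0 < n) (he : ∀ x, 2 ≤ e x)
    (hs : ∀ x, Nat.card (orbit X x) * e x = n)
    (hsum : ∑ x, ((e x : ℤ) - 1) = 2 * (n : ℤ) - 2) :
    (univ.filter fun x => 4 ≤ e x).card ≤ 12 ∧ (univ.filter fun x => 6 ≤ e x).card ≤ 2 := by
  classical
  by_cases hne : ∃ a, 4 ≤ e a
  swap
  · push Not at hne
    have h1 : (univ.filter fun x => 4 ≤ e x) = ∅ := by
      rw [Finset.filter_eq_empty_iff]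
      intro x _
      have := hne x
      omega
    have h2 : (univ.filter fun x => 6 ≤ e x) = ∅ := by
      rw [Finset.filter_eq_empty_iff]
      intro x _
      have := hne x
      omega
    rw [h1, h2]
    simp
  obtain ⟨a, ha⟩ := hne
  have hS (x : Ω) : (orb X x).card * e x = n := by rw [card_orb]; exact hs x
  have hSpos (x : Ω) : 0 < (orb X x).card := Finset.card_pos.2 ⟨x, self_mem_orb x⟩
  have hsmall (x : Ω) : 2 * (orb X x).card ≤ n := by
    rw [← hS x, mul_comm]
    exact Nat.mul_le_mul_left _ (he x)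
  have hnonneg (T : Finset Ω) : 0 ≤ ∑ x ∈ T, ((e x : ℤ) - 1) :=
    Finset.sum_nonneg fun x _ => by
      have := he x
      omega
  have hA6 : (univ.filter fun x => 6 ≤ e x) ⊆ (univ.filter fun x => 4 ≤ e x) := by
    intro x hx
    simp only [mem_filter, mem_univ, true_and] at hx ⊢
    omega
  set S := (orb X a).card with hSa
  have h4S : 4 * S ≤ n := by
    rw [← hS a, mul_comm]
    exact Nat.mul_le_mul_left _ ha
  set R := univ \ orb X a with hR
  have hsumR : ∑ x ∈ R, ((e x : ℤ) - 1) = (n : ℤ) + S - 2 := by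
    have h1 := Finset.sum_sdiff (s₁ := orb X a) (s₂ := univ) (f := fun x => (e x : ℤ) - 1) (Finset.subset_univ _)
    rw [hsum, sum_orb hn hs a] at h1
    linarith
  by_cases hR0 : R = ∅
  · rw [hR0, Finset.sum_empty] at hsumR
    have : 0 < S := hSpos a
    omega
  obtain ⟨b, hb⟩ := Finset.nonempty_iff_ne_empty.2 hR0
  have hb' : b ∉ orb X a := (Finset.mem_sdiff.1 hb).2
  have hsub : orb X b ⊆ R := by
    intro x hx
    refine Finset.mem_sdiff.2 ⟨mem_univ _, fun hxa => ?_⟩
    exact (Finset.disjoint_left.1 (orb_disjoint hb') hxa) hx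
  set Sb := (orb X b).card with hSb
  set R' := R \ orb X b with hR'
  have hsumR' : ∑ x ∈ R', ((e x : ℤ) - 1) = (S : ℤ) + Sb - 2 := by
    have h1 := Finset.sum_sdiff (s₁ := orb X b) (s₂ := R) (f := fun x => (e x : ℤ) - 1) hsub
    rw [hsumR, sum_orb hn hs b] at h1
    linarith
  by_cases hR'0 : R' = ∅
  · rw [hR'0, Finset.sum_empty] at hsumR'
    have h1 : 0 < S := hSpos a
    have h2 : 0 < Sb := hSpos b
    have hS1 : S = 1 := by omega
    have hSb1 : Sb = 1 := by omega
    have huniv : (univ : Finset Ω).card ≤ 2 := by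
      have h3 : (univ : Finset Ω) ⊆ orb X a ∪ orb X b := by
        intro x _
        by_contra hx
        simp only [mem_union, not_or] at hx
        have : x ∈ R' := Finset.mem_sdiff.2 ⟨Finset.mem_sdiff.2 ⟨mem_univ _, hx.1⟩, hx.2⟩
        rw [hR'0] at this
        simp at this
      calc _ ≤ _ := Finset.card_le_card h3
        _ ≤ _ := Finset.card_union_le _ _
        _ ≤ 2 := by omega
    have h4 := Finset.card_le_card (Finset.subset_univ (univ.filter fun x => 4 ≤ e x))
    have h6 := Finset.card_le_card (Finset.subset_univ (univ.filter fun x => 6 ≤ e x))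
    omega
  obtain ⟨c, hc⟩ := Finset.nonempty_iff_ne_empty.2 hR'0
  have hc1 : c ∈ R := (Finset.mem_sdiff.1 hc).1
  have hcb : c ∉ orb X b := (Finset.mem_sdiff.1 hc).2
  have hca : c ∉ orb X a := (Finset.mem_sdiff.1 hc1).2
  have hsub' : orb X c ⊆ R' := by
    intro x hx
    refine Finset.mem_sdiff.2 ⟨Finset.mem_sdiff.2 ⟨mem_univ _, fun hxa => ?_⟩, fun hxb => ?_⟩
    · exact (Finset.disjoint_left.1 (orb_disjoint hca) hxa) hx
    · exact (Finset.disjoint_left.1 (orb_disjoint hcb) hxb) hx
  set Sc := (orb X c).card with hSc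
  set R'' := R' \ orb X c with hR''
  have hsumR'' : ∑ x ∈ R'', ((e x : ℤ) - 1) = (S : ℤ) + Sb + Sc - 2 - n := by
    have h1 := Finset.sum_sdiff (s₁ := orb X c) (s₂ := R') (f := fun x => (e x : ℤ) - 1) hsub'
    rw [hsumR', sum_orb hn hs c] at h1
    linarith
  have h2b := hsmall b
  have h2c := hsmall c
  have hR''0 : R'' = ∅ := by
    by_contra hne
    obtain ⟨d, hd⟩ := Finset.nonempty_iff_ne_empty.2 hne
    have hd1 : d ∈ R' := (Finset.mem_sdiff.1 hd).1
    have hd2 : d ∈ R := (Finset.mem_sdiff.1 hd1).1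
    have hdc : d ∉ orb X c := (Finset.mem_sdiff.1 hd).2
    have hdb : d ∉ orb X b := (Finset.mem_sdiff.1 hd1).2
    have hda : d ∉ orb X a := (Finset.mem_sdiff.1 hd2).2
    have hsub'' : orb X d ⊆ R'' := by
      intro x hx
      refine Finset.mem_sdiff.2 ⟨Finset.mem_sdiff.2 ⟨Finset.mem_sdiff.2 ⟨mem_univ _, fun hxa => ?_⟩, fun hxb => ?_⟩, fun hxc => ?_⟩
      · exact (Finset.disjoint_left.1 (orb_disjoint hda) hxa) hx
      · exact (Finset.disjoint_left.1 (orb_disjoint hdb) hxb) hx
      · exact (Finset.disjoint_left.1 (orb_disjoint hdc) hxc) hx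
    have h1 := Finset.sum_sdiff (s₁ := orb X d) (s₂ := R'') (f := fun x => (e x : ℤ) - 1) hsub''
    rw [hsumR'', sum_orb hn hs d] at h1
    have h2 := hnonneg (R'' \ orb X d)
    have h2d := hsmall d
    omega
  rw [hR''0, Finset.sum_empty] at hsumR''
  have hmain : S + Sb + Sc = n + 2 := by omega
  have hebs : Sb * e b = n := hS b
  have hecs : Sc * e c = n := hS c
  have heas : S * e a = n := hS a
  have he3b : e b ≤ 3 := by
    by_contra hlt
    have : 4 * Sb ≤ n := by
      rw [← hebs, mul_comm]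
      exact Nat.mul_le_mul_left _ (by omega)
    omega
  have he3c : e c ≤ 3 := by
    by_contra hlt
    have : 4 * Sc ≤ n := by
      rw [← hecs, mul_comm]
      exact Nat.mul_le_mul_left _ (by omega)
    omega
  have hAsub : (univ.filter fun x => 4 ≤ e x) ⊆ orb X a := by
    intro x hx
    have hx4 : 4 ≤ e x := (Finset.mem_filter.1 hx).2
    by_contra hxa
    by_cases hxb : x ∈ orb X b
    · rw [e_const hn hs hxb] at hx4
      omega
    by_cases hxc : x ∈ orb X c
    · rw [e_const hn hs hxc] at hx4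
      omega
    have : x ∈ R'' := Finset.mem_sdiff.2 ⟨Finset.mem_sdiff.2 ⟨Finset.mem_sdiff.2 ⟨mem_univ _, hxa⟩, hxb⟩, hxc⟩
    rw [hR''0] at this
    simp at this
  have hcard4 := Finset.card_le_card hAsub
  have hcard6 := Finset.card_le_card hA6
  have he2b := he b
  have he2c := he c
  have hcases : (e b = 2 ∧ e c = 2) ∨ (e b = 2 ∧ e c = 3) ∨ (e b = 3 ∧ e c = 2) ∨ (e b = 3 ∧ e c = 3) := by omega
  rcases hcases with ⟨h1, h2⟩ | ⟨h1, h2⟩ | ⟨h1, h2⟩ | ⟨h1, h2⟩
  · rw [h1] at hebs
    rw [h2] at hecs
    have : S = 2 := by omega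
    constructor <;> omega
  · rw [h1] at hebs
    rw [h2] at hecs
    have h6 : 6 * S = n + 12 := by omega
    have hlt : e a < 6 := by
      by_contra hge
      have : S * 6 ≤ S * e a := Nat.mul_le_mul_left _ (by omega)
      omega
    have hS12 : S ≤ 12 := by
      have h4' : e a = 4 ∨ e a = 5 := by omega
      rcases h4' with h | h <;> rw [h] at heas <;> omega
    have hemp : (univ.filter fun x => 6 ≤ e x) = ∅ := by
      rw [Finset.filter_eq_empty_iff]
      intro x _ hx
      have hxa : x ∈ orb X a := hAsub (Finset.mem_filter.2 ⟨mem_univ _, by omega⟩)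
      rw [e_const hn hs hxa] at hx
      omega
    rw [hemp]
    constructor
    · omega
    · simp
  · rw [h1] at hebs
    rw [h2] at hecs
    have h6 : 6 * S = n + 12 := by omega
    have hlt : e a < 6 := by
      by_contra hge
      have : S * 6 ≤ S * e a := Nat.mul_le_mul_left _ (by omega)
      omega
    have hS12 : S ≤ 12 := by
      have h4' : e a = 4 ∨ e a = 5 := by omega
      rcases h4' with h | h <;> rw [h] at heas <;> omega
    have hemp : (univ.filter fun x => 6 ≤ e x) = ∅ := by
      rw [Finset.filter_eq_empty_iff]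
      intro x _ hx
      have hxa : x ∈ orb X a := hAsub (Finset.mem_filter.2 ⟨mem_univ _, by omega⟩)
      rw [e_const hn hs hxa] at hx
      omega
    rw [hemp]
    constructor
    · omega
    · simp
  · rw [h1] at hebs
    rw [h2] at hecs
    exfalso
    have : S * 4 ≤ S * e a := Nat.mul_le_mul_left _ ha
    omega

end arith

section group

variable [Finite X] [Finite Ω]

/-- The count for a group action: `Z` acts trivially, every element off `Z` has exactly two fixed
points and every point is fixed by an element off `Z`. -/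
theorem count_group (Z : Subgroup X) (hZ : ∀ g ∈ Z, ∀ x : Ω, g • x = x) (hstab : ∀ x : Ω, ∃ g, g ∉ Z ∧ g • x = x)
    (h2 : ∀ g, g ∉ Z → Nat.card (fixedBy Ω g) = 2) (I : Finset Ω) :
    ((∀ x ∈ I, 4 * Nat.card Z ≤ Nat.card (stabilizer X x)) → I.card ≤ 12) ∧
    ((∀ x ∈ I, 6 * Nat.card Z ≤ Nat.card (stabilizer X x)) → I.card ≤ 2) := by
  classical
  haveI := Fintype.ofFinite X
  haveI := Fintype.ofFinite Ω
  set z := Nat.card Z with hz
  have hz0 : 0 < z := Nat.card_pos
  have hle (x : Ω) : Z ≤ stabilizer X x := fun g hg => hZ g hg x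
  have hdvd (x : Ω) : z ∣ Nat.card (stabilizer X x) := Subgroup.card_dvd_of_le (hle x)
  let e : Ω → ℕ := fun x => Nat.card (stabilizer X x) / z
  have he (x : Ω) : e x * z = Nat.card (stabilizer X x) := Nat.div_mul_cancel (hdvd x)
  have hN : z ∣ Nat.card X := Subgroup.card_subgroup_dvd_card Z
  obtain ⟨n, hn⟩ := hN
  have hn0 : 0 < n := by
    rcases Nat.eq_zero_or_pos n with h | h
    · rw [h, mul_zero] at hn
      exact absurd hn (Nat.card_pos.ne')
    · exact h
  have hos (x : Ω) : Nat.card (orbit X x) * Nat.card (stabilizer X x) = Nat.card X := by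
    have := card_orbit_mul_card_stabilizer_eq_card_group X x
    simpa only [Nat.card_eq_fintype_card] using this
  have hs (x : Ω) : Nat.card (orbit X x) * e x = n := by
    have h1 := hos x
    rw [← he x, hn, ← mul_assoc, mul_comm z n] at h1
    exact Nat.eq_of_mul_eq_mul_right hz0 h1
  have he2 (x : Ω) : 2 ≤ e x := by
    obtain ⟨g, hg1, hg2⟩ := hstab x
    by_contra hlt
    have h0 : e x ≠ 0 := by
      intro h0
      have := he x
      rw [h0, zero_mul] at this
      exact (Nat.card_pos (α := stabilizer X x)).ne' this.symm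
    have h1 : e x = 1 := by omega
    have h3 := he x
    rw [h1, one_mul] at h3
    have heq : Z = stabilizer X x := Subgroup.eq_of_le_of_card_ge (hle x) h3.symm.le
    exact hg1 (heq ▸ (hg2 : g ∈ stabilizer X x))
  -- double counting
  have hdc : (∑ x : Ω, Nat.card (stabilizer X x)) = ∑ g : X, Nat.card (fixedBy Ω g) := by
    have h1 : ∀ x : Ω, Nat.card (stabilizer X x) = (univ.filter fun g : X => g • x = x).card := by
      intro x
      rw [Nat.card_eq_fintype_card, Fintype.card_subtype]
      congr 1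
    have h3 : ∀ g : X, Nat.card (fixedBy Ω g) = (univ.filter fun x : Ω => g • x = x).card := by
      intro g
      rw [Nat.card_eq_fintype_card, Fintype.card_subtype]
      congr 1
    simp only [h1, h3, Finset.card_filter]
    exact Finset.sum_comm
  have hfix : (∑ g : X, Nat.card (fixedBy Ω g)) = z * Fintype.card Ω + 2 * (Nat.card X - z) := by
    have h1 : ∀ g : X, Nat.card (fixedBy Ω g) = (if g ∈ Z then Fintype.card Ω else 0) + (if g ∈ Z then 0 else 2) := by
      intro g
      by_cases hg : g ∈ Z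
      · simp only [hg, if_true, add_zero]
        rw [← Nat.card_eq_fintype_card]
        exact Nat.card_congr ⟨fun x => x.1, fun x => ⟨x, hZ g hg x⟩, fun x => rfl, fun x => rfl⟩
      · simp only [hg, if_false, zero_add]
        exact h2 g hg
    simp only [h1, Finset.sum_add_distrib]
    have hc1 : (univ.filter fun g : X => g ∈ Z).card = z := by
      rw [hz, Nat.card_eq_fintype_card, Fintype.card_subtype]
    have hc2 : (univ.filter fun g : X => g ∉ Z).card = Nat.card X - z := by
      have := Finset.card_filter_add_card_filter_not (s := (univ : Finset X)) (fun g : X => g ∈ Z)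
      rw [hc1, Finset.card_univ, ← Nat.card_eq_fintype_card] at this
      omega
    have e1 : (∑ g : X, if g ∈ Z then Fintype.card Ω else 0) = z * Fintype.card Ω := by
      rw [← Finset.sum_filter, Finset.sum_const, hc1, smul_eq_mul]
    have e2 : (∑ g : X, if g ∈ Z then 0 else 2) = 2 * (Nat.card X - z) := by
      have : (∑ g : X, if g ∈ Z then 0 else 2) = ∑ g : X, if g ∉ Z then 2 else 0 := by
        refine Finset.sum_congr rfl fun g _ => ?_
        by_cases hg : g ∈ Z <;> simp [hg]
      rw [this, ← Finset.sum_filter, Finset.sum_const, hc2, smul_eq_mul, mul_comm]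
    rw [e1, e2]
  have hzn : z ≤ Nat.card X := by
    rw [hn]
    exact Nat.le_mul_of_pos_right _ hn0
  have hsum : ∑ x, ((e x : ℤ) - 1) = 2 * (n : ℤ) - 2 := by
    have h1 : ((∑ x : Ω, e x) : ℕ) * z = z * Fintype.card Ω + 2 * (Nat.card X - z) := by
      rw [Finset.sum_mul, ← hfix, ← hdc]
      exact Finset.sum_congr rfl fun x _ => he x
    have h2' : ((∑ x : Ω, e x : ℕ) : ℤ) * z = z * Fintype.card Ω + 2 * ((n : ℤ) * z - z) := by
      have h4 : (((∑ x : Ω, e x) * z : ℕ) : ℤ) = ((z * Fintype.card Ω + 2 * (Nat.card X - z) : ℕ) : ℤ) := by rw [h1]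
      rw [Nat.cast_mul, Nat.cast_add, Nat.cast_mul, Nat.cast_mul, Nat.cast_sub hzn] at h4
      have h5 : (Nat.card X : ℤ) = z * n := by exact_mod_cast hn
      rw [h4, h5]
      push_cast
      ring
    have h6 : ((∑ x : Ω, e x : ℕ) : ℤ) = Fintype.card Ω + 2 * n - 2 := by
      have hz' : (z : ℤ) ≠ 0 := by exact_mod_cast hz0.ne'
      apply mul_right_cancel₀ hz'
      rw [h2']
      ring
    rw [Finset.sum_sub_distrib]
    push_cast at h6 ⊢
    rw [h6]
    simp
    ring
  obtain ⟨h4, h6⟩ := count_arith hn0 he2 hs hsum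
  constructor
  · intro hI
    refine le_trans (Finset.card_le_card fun x hx => ?_) h4
    refine Finset.mem_filter.2 ⟨mem_univ _, ?_⟩
    have h1 := hI x hx
    rw [← he x, mul_comm] at h1
    exact Nat.le_of_mul_le_mul_right (by rw [mul_comm 4 z]; exact h1) hz0
  · intro hI
    refine le_trans (Finset.card_le_card fun x hx => ?_) h6
    refine Finset.mem_filter.2 ⟨mem_univ _, ?_⟩
    have h1 := hI x hx
    rw [← he x, mul_comm] at h1
    exact Nat.le_of_mul_le_mul_right (by rw [mul_comm 6 z]; exact h1) hz0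

end group

end Cfsg.Agent.Lib.Fusion.PglCount
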