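import Mathlib
import Cfsg.Agent.Lib.Fusion.PglCount
import Cfsg.Agent.Lib.PLocal.DicksonSetup

/-! A finite subgroup of `GL(2, K)` of order prime to the characteristic, on the projective line:
only a few points can have large stabilizers. -/

set_option autoImplicit false

namespace Cfsg.Agent.Lib.Fusion.PglCount

open Matrix OnePoint MulAction Cfsg.Agent.Lib.KS2.SL2 Cfsg.Agent.Lib.SmallSimple
open Cfsg.Agent.Lib.PLocal.QuadMat Cfsg.Agent.Lib.PLocal.Dickson
open scoped MatrixGroups

variable {K : Type*} [Field K] [DecidableEq K]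

theorem exists_lift [IsAlgClosed K] (g : GL (Fin 2) K) :
    ∃ A : SL(2, K), ∀ x : OnePoint K, mobius A x = g • x := by
  have hdet : (g.1).det ≠ 0 := by
    have := g.det.ne_zero
    exact this
  obtain ⟨c, hc⟩ := IsAlgClosed.exists_pow_nat_eq ((g.1).det)⁻¹ (n := 2) (by norm_num)
  have hc0 : c ≠ 0 := by
    rintro rfl
    rw [zero_pow (by norm_num)] at hc
    exact (inv_ne_zero hdet) hc.symm
  have hd : (c • g.1).det = 1 := by
    rw [Matrix.det_smul, Fintype.card_fin, hc, inv_mul_cancel₀ hdet]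
  have key : ∀ A : SL(2, K), (∀ i j, A.1 i j = c * g i j) → ∀ x : OnePoint K, mobius A x = g • x := by
    intro A e00 x
    induction x using OnePoint.rec with
    | infty =>
      rw [mobius_infty, OnePoint.smul_infty_eq_ite, e00, e00]
      by_cases h : g 1 0 = 0
      · simp [h]
      · have : c * g 1 0 ≠ 0 := mul_ne_zero hc0 h
        rw [if_neg this, if_neg h, mul_div_mul_left _ _ hc0]
    | coe k =>
      rw [mobius_coe, OnePoint.smul_some_eq_ite, e00, e00, e00, e00]
      have e1 : c * g 1 0 * k + c * g 1 1 = c * (g 1 0 * k + g 1 1) := by ring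
      have e2 : c * g 0 0 * k + c * g 0 1 = c * (g 0 0 * k + g 0 1) := by ring
      rw [e1, e2]
      by_cases h : g 1 0 * k + g 1 1 = 0
      · simp [h]
      · have : c * (g 1 0 * k + g 1 1) ≠ 0 := mul_ne_zero hc0 h
        rw [if_neg this, if_neg h, mul_div_mul_left _ _ hc0]
  exact ⟨⟨c • g.1, hd⟩, key _ fun i j => rfl⟩

theorem card_fix_two [IsAlgClosed K] {p : ℕ} [hfp : Fact p.Prime] [CharP K p] (hp : p ≠ 2) (g : GL (Fin 2) K)
    {m : ℕ} (hm : m.Coprime p) (hgm : g ^ m = 1) (hg : ∃ x : OnePoint K, g • x ≠ x) :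
    Nat.card {x : OnePoint K // g • x = x} = 2 := by
  obtain ⟨A, hA⟩ := exists_lift g
  have h2 : (2 : K) ≠ 0 := by
    intro h
    have : (p : ℕ) ∣ 2 := by
      have h3 : ((2 : ℕ) : K) = 0 := by exact_mod_cast h
      exact (CharP.cast_eq_zero_iff K p 2).1 h3
    exact hp ((Nat.prime_dvd_prime_iff_eq hfp.out Nat.prime_two).1 this)
  have hns : ¬ IsScalar A := by
    intro hs
    have h1 : A ∈ (mobius (F := K)).ker := by
      rw [ker_mobius, ← isScalar_iff_center]
      exact hs
    have h3 : mobius A = 1 := h1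
    obtain ⟨x, hx⟩ := hg
    apply hx
    rw [← hA x, h3]
    rfl
  have hc := card_Fx hns
  have htr : (tr A) ^ 2 ≠ 4 := by
    intro h
    let π := MulAction.toPermHom (GL (Fin 2) K) (OnePoint K)
    have hπ : π g = mobius A := by
      ext x
      exact (hA x).symm
    have hp1 : π g ^ p = 1 := by
      rcases tr_sq_eq_four_cases h2 h with ht | ht
      · rw [hπ, ← map_pow, pow_p_of_tr ht, map_one]
      · have ht' : tr (mone * A) = 2 := by
          rw [tr_mone_mul, ht, neg_neg]
        have h3 : mobius (mone * A) = mobius A := by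
          ext x
          rw [mobius_mul_apply, mobius_mone]
        rw [hπ, ← h3, ← map_pow, pow_p_of_tr ht', map_one]
    have hm1 : π g ^ m = 1 := by
      rw [← map_pow, hgm, map_one]
    have h3 : orderOf (π g) ∣ Nat.gcd m p :=
      Nat.dvd_gcd (orderOf_dvd_of_pow_eq_one hm1) (orderOf_dvd_of_pow_eq_one hp1)
    rw [hm] at h3
    have h4 : π g = 1 := orderOf_eq_one_iff.1 (Nat.dvd_one.1 h3)
    obtain ⟨x, hx⟩ := hg
    apply hx
    have h5 := congrArg (fun f : Equiv.Perm (OnePoint K) => f x) h4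
    exact h5
  rw [if_neg htr] at hc
  refine Eq.trans ?_ hc
  exact Nat.card_congr (Equiv.subtypeEquivRight fun x => by rw [hA x])

/-- The points fixed by a nontrivially acting element. -/
abbrev Pts (X : Subgroup (GL (Fin 2) K)) : Type _ :=
  {x : OnePoint K // ∃ g : X, (∃ y : OnePoint K, (g : GL (Fin 2) K) • y ≠ y) ∧ (g : GL (Fin 2) K) • x = x}

noncomputable instance actPts (X : Subgroup (GL (Fin 2) K)) : MulAction X (Pts X) where
  smul g x := ⟨(g : GL (Fin 2) K) • x.1, by
    obtain ⟨w, ⟨y, hy⟩, hwx⟩ := x.2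
    refine ⟨g * w * g⁻¹, ⟨(g : GL (Fin 2) K) • y, ?_⟩, ?_⟩
    · intro hc
      apply hy
      have h1 : ((g : GL (Fin 2) K) * (w : GL (Fin 2) K) * (g : GL (Fin 2) K)⁻¹) • ((g : GL (Fin 2) K) • y) = (g : GL (Fin 2) K) • y := hc
      rw [smul_smul, inv_mul_cancel_right, mul_smul] at h1
      exact smul_left_cancel _ h1
    · show ((g : GL (Fin 2) K) * (w : GL (Fin 2) K) * (g : GL (Fin 2) K)⁻¹) • ((g : GL (Fin 2) K) • x.1) = _
      rw [smul_smul, inv_mul_cancel_right, mul_smul, hwx]⟩
  one_smul x := Subtype.ext (one_smul _ x.1)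
  mul_smul a b x := Subtype.ext (mul_smul (a : GL (Fin 2) K) (b : GL (Fin 2) K) x.1)

@[simp] theorem coe_smul_Pts {X : Subgroup (GL (Fin 2) K)} (g : X) (x : Pts X) :
    ((g • x : Pts X) : OnePoint K) = (g : GL (Fin 2) K) • x.1 := rfl

/-- The kernel of the action. -/
noncomputable def ZK (X : Subgroup (GL (Fin 2) K)) : Subgroup X :=
  (MulAction.toPermHom (GL (Fin 2) K) (OnePoint K)).ker.subgroupOf X

theorem mem_ZK {X : Subgroup (GL (Fin 2) K)} {g : X} : g ∈ ZK X ↔ ∀ x : OnePoint K, (g : GL (Fin 2) K) • x = x := by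
  unfold ZK
  rw [Subgroup.mem_subgroupOf, MonoidHom.mem_ker]
  constructor
  · intro h x
    have := congrArg (fun f : Equiv.Perm (OnePoint K) => f x) h
    exact this
  · intro h
    ext x
    exact h x

theorem finite_Pts [IsAlgClosed K] {p : ℕ} [hfp : Fact p.Prime] [CharP K p] (hp : p ≠ 2) (X : Subgroup (GL (Fin 2) K))
    [Finite X] (hX : (Nat.card X).Coprime p) : Finite (Pts X) := by
  have hfin : ∀ g : X, Set.Finite {x : OnePoint K | (∃ y : OnePoint K, (g : GL (Fin 2) K) • y ≠ y) ∧ (g : GL (Fin 2) K) • x = x} := by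
    intro g
    by_cases hg : ∃ y : OnePoint K, (g : GL (Fin 2) K) • y ≠ y
    · have hgm : (g : GL (Fin 2) K) ^ Nat.card X = 1 := by
        have := pow_card_eq_one' (x := g)
        exact congrArg Subtype.val this
      have h1 := card_fix_two hp (g : GL (Fin 2) K) hX hgm hg
      haveI h0 : Finite {x : OnePoint K // (g : GL (Fin 2) K) • x = x} := Nat.finite_of_card_ne_zero (by omega)
      have h2 : Set.Finite {x : OnePoint K | (g : GL (Fin 2) K) • x = x} := Set.finite_coe_iff.1 h0
      exact h2.subset fun x hx => hx.2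
    · convert Set.finite_empty
      ext x
      simp only [Set.mem_setOf_eq, Set.mem_empty_iff_false, iff_false, not_and]
      exact fun h => absurd h hg
  have h3 := Set.finite_iUnion hfin
  have h4 := h3.to_subtype
  refine Finite.of_injective (β := ⋃ g : X, {x : OnePoint K | (∃ y : OnePoint K, (g : GL (Fin 2) K) • y ≠ y) ∧ (g : GL (Fin 2) K) • x = x})
    (fun x => ⟨x.1, by
      obtain ⟨g, hg, hgx⟩ := x.2
      exact Set.mem_iUnion.mpr ⟨g, hg, hgx⟩⟩) ?_
  intro a b hab
  exact Subtype.ext (by simpa using hab)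

/-- **The bound on points with large stabilizers.** -/
theorem points_bound [IsAlgClosed K] {p : ℕ} [hfp : Fact p.Prime] [CharP K p] (hp : p ≠ 2)
    (X : Subgroup (GL (Fin 2) K)) [Finite X] (hX : (Nat.card X).Coprime p) (I : Finset (OnePoint K)) (r : ℕ)
    (hr : 2 ≤ r) (hpt : ∀ x ∈ I, ∃ g ∈ X, g • x = x ∧ ∀ k : ℕ, (∀ y : OnePoint K, g ^ k • y = y) → r ∣ k) :
    (4 ≤ r → I.card ≤ 12) ∧ (6 ≤ r → I.card ≤ 2) := by
  classical
  haveI := finite_Pts hp X hX
  have hnt : ∀ g : GL (Fin 2) K, (∀ k : ℕ, (∀ y : OnePoint K, g ^ k • y = y) → r ∣ k) → ∃ y : OnePoint K, g • y ≠ y := by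
    intro g hg
    by_contra hcon
    push Not at hcon
    have := hg 1 (by simpa using hcon)
    have h2 := Nat.le_of_dvd one_pos this
    omega
  have hmem : ∀ x ∈ I, ∃ g : X, (∃ y : OnePoint K, (g : GL (Fin 2) K) • y ≠ y) ∧ (g : GL (Fin 2) K) • x = x := by
    intro x hx
    obtain ⟨g, hgX, hgx, hgk⟩ := hpt x hx
    exact ⟨⟨g, hgX⟩, hnt g hgk, hgx⟩
  let J : Finset (Pts X) := I.subtype _
  have hJ : J.card = I.card := by
    rw [Finset.card_subtype, Finset.filter_true_of_mem hmem]
  have hstabJ : ∀ x ∈ J, r * Nat.card (ZK X) ≤ Nat.card (stabilizer X x) := by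
    intro x hx
    have hxI : (x : OnePoint K) ∈ I := Finset.mem_subtype.1 hx
    obtain ⟨g, hgX, hgx, hgk⟩ := hpt x.1 hxI
    let g' : X := ⟨g, hgX⟩
    have hg'x : g' • x = x := Subtype.ext hgx
    have hpow : ∀ k : ℕ, g' ^ k • x = x := by
      intro k
      induction k with
      | zero => simp
      | succ k ih => rw [pow_succ, mul_smul, hg'x, ih]
    have hZs : ∀ ζ ∈ ZK X, ζ • x = x := by
      intro ζ hζ
      exact Subtype.ext (mem_ZK.1 hζ x.1)
    let f : Fin r × ZK X → stabilizer X x := fun q => ⟨g' ^ (q.1 : ℕ) * q.2, by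
      rw [mem_stabilizer_iff, mul_smul, hZs _ q.2.2, hpow]⟩
    have hf : Function.Injective f := by
      have key : ∀ (a b : ℕ) (ζ ξ : ZK X), a ≤ b → b < r → g' ^ a * (ζ : X) = g' ^ b * (ξ : X) → a = b ∧ ζ = ξ := by
        intro a b ζ ξ hab hb h
        obtain ⟨d, rfl⟩ := Nat.exists_eq_add_of_le hab
        have h1 : g' ^ d * (ξ : X) = (ζ : X) := by
          rw [pow_add, mul_assoc] at h
          exact (mul_left_cancel h).symm
        have h2 : g' ^ d ∈ ZK X := by
          have : g' ^ d = (ζ : X) * (ξ : X)⁻¹ := by rw [← h1]; group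
          rw [this]
          exact (ZK X).mul_mem ζ.2 ((ZK X).inv_mem ξ.2)
        have h3 : ∀ y : OnePoint K, g ^ d • y = y := by
          intro y
          exact mem_ZK.1 h2 y
        have h4 := hgk d h3
        have h5 : d = 0 := by
          by_contra hd
          have := Nat.le_of_dvd (Nat.pos_of_ne_zero hd) h4
          omega
        subst h5
        refine ⟨rfl, ?_⟩
        simp only [pow_zero, one_mul] at h1
        exact (Subtype.ext h1).symm
      rintro ⟨a, ζ⟩ ⟨b, ξ⟩ h
      have h1 : g' ^ (a : ℕ) * (ζ : X) = g' ^ (b : ℕ) * (ξ : X) := congrArg Subtype.val h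
      rcases le_total (a : ℕ) (b : ℕ) with hab | hab
      · obtain ⟨h2, h3⟩ := key a b ζ ξ hab b.2 h1
        rw [Prod.mk.injEq]
        exact ⟨Fin.ext h2, h3⟩
      · obtain ⟨h2, h3⟩ := key b a ξ ζ hab a.2 h1.symm
        rw [Prod.mk.injEq]
        exact ⟨Fin.ext h2.symm, h3.symm⟩
    have h1 := Nat.card_le_card_of_injective f hf
    rwa [Nat.card_prod, Nat.card_fin] at h1
  have hcount := count_group (X := X) (Ω := Pts X) (ZK X)
    (fun g hg x => Subtype.ext (mem_ZK.1 hg x.1))
    (fun x => by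
      obtain ⟨g, ⟨y, hy⟩, hgx⟩ := x.2
      exact ⟨g, fun hc => hy (mem_ZK.1 hc y), Subtype.ext hgx⟩)
    (fun g hg => by
      have hne : ∃ y : OnePoint K, (g : GL (Fin 2) K) • y ≠ y := by
        by_contra hcon
        push Not at hcon
        exact hg (mem_ZK.2 hcon)
      have hgm : (g : GL (Fin 2) K) ^ Nat.card X = 1 := by
        have := pow_card_eq_one' (x := g)
        exact congrArg Subtype.val this
      refine Eq.trans ?_ (card_fix_two hp (g : GL (Fin 2) K) hX hgm hne)
      refine Nat.card_congr ⟨fun x => ⟨x.1.1, congrArg Subtype.val x.2⟩,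
        fun y => ⟨⟨y.1, g, hne, y.2⟩, Subtype.ext y.2⟩, fun x => rfl, fun y => rfl⟩) J
  rw [hJ] at hcount
  constructor
  · intro h4
    refine hcount.1 fun x hx => le_trans (Nat.mul_le_mul_right _ h4) (hstabJ x hx)
  · intro h6
    refine hcount.2 fun x hx => le_trans (Nat.mul_le_mul_right _ h6) (hstabJ x hx)

end Cfsg.Agent.Lib.Fusion.PglCount
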