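import Mathlib
import Cfsg.Agent.Lib.Fusion.PglAct

/-! Points of the projective line from vectors over the prime field, and the linear action of the
normalizer on a coordinate space. -/

set_option autoImplicit false

namespace Cfsg.Agent.Lib.Fusion.Extra3

open Matrix OnePoint
open scoped MatrixGroups

section pts

variable {p : ℕ} [hfp : Fact p.Prime] {K : Type*} [Field K] [DecidableEq K] [Algebra (ZMod p) K]

/-- The point of the projective line of a vector. -/
noncomputable def pt (K : Type*) [Field K] [DecidableEq K] [Algebra (ZMod p) K] (v : Fin 2 → ZMod p) : OnePoint K :=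
  if v 1 = 0 then ∞ else ((algebraMap (ZMod p) K (v 0) / algebraMap (ZMod p) K (v 1) : K) : OnePoint K)

theorem mulVec0 (M : Matrix (Fin 2) (Fin 2) (ZMod p)) (v : Fin 2 → ZMod p) : (M *ᵥ v) 0 = M 0 0 * v 0 + M 0 1 * v 1 := by
  simp [Matrix.mulVec, dotProduct, Fin.sum_univ_two]

theorem mulVec1 (M : Matrix (Fin 2) (Fin 2) (ZMod p)) (v : Fin 2 → ZMod p) : (M *ᵥ v) 1 = M 1 0 * v 0 + M 1 1 * v 1 := by
  simp [Matrix.mulVec, dotProduct, Fin.sum_univ_two]

theorem smul_pt (M : GL (Fin 2) (ZMod p)) {v : Fin 2 → ZMod p} (hv : v ≠ 0) :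
    (Matrix.GeneralLinearGroup.map (algebraMap (ZMod p) K) M) • pt K v = pt K (M.1 *ᵥ v) := by
  have hE : ∀ i j, (Matrix.GeneralLinearGroup.map (algebraMap (ZMod p) K) M) i j = algebraMap (ZMod p) K (M.1 i j) := fun i j => rfl
  have hinj : Function.Injective (algebraMap (ZMod p) K) := (algebraMap (ZMod p) K).injective
  have hι : ∀ a : ZMod p, a ≠ 0 → algebraMap (ZMod p) K a ≠ 0 := fun a ha h => ha (hinj (by rw [h, map_zero]))
  unfold pt
  rw [mulVec0, mulVec1]
  by_cases h1 : v 1 = 0
  · have h0 : v 0 ≠ 0 := by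
      intro h0
      apply hv
      ext i
      fin_cases i
      · simpa using h0
      · simpa using h1
    rw [if_pos h1, OnePoint.smul_infty_eq_ite, hE, hE, h1, mul_zero, add_zero, mul_zero, add_zero]
    by_cases h : M.1 1 0 = 0
    · rw [h, map_zero, zero_mul, if_pos rfl, if_pos rfl]
    · rw [if_neg (hι _ h), if_neg (mul_ne_zero h h0), map_mul, map_mul, mul_div_mul_right _ _ (hι _ h0)]
  · have hv1 := hι _ h1
    rw [if_neg h1, OnePoint.smul_some_eq_ite, hE, hE, hE, hE]
    have e1 : algebraMap (ZMod p) K (M.1 1 0) * (algebraMap (ZMod p) K (v 0) / algebraMap (ZMod p) K (v 1)) + algebraMap (ZMod p) K (M.1 1 1) =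
        algebraMap (ZMod p) K (M.1 1 0 * v 0 + M.1 1 1 * v 1) / algebraMap (ZMod p) K (v 1) := by
      rw [map_add, map_mul, map_mul]
      field_simp
    have e2 : algebraMap (ZMod p) K (M.1 0 0) * (algebraMap (ZMod p) K (v 0) / algebraMap (ZMod p) K (v 1)) + algebraMap (ZMod p) K (M.1 0 1) =
        algebraMap (ZMod p) K (M.1 0 0 * v 0 + M.1 0 1 * v 1) / algebraMap (ZMod p) K (v 1) := by
      rw [map_add, map_mul, map_mul]
      field_simp
    rw [e1, e2]
    by_cases h : M.1 1 0 * v 0 + M.1 1 1 * v 1 = 0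
    · rw [h, map_zero, zero_div, if_pos rfl, if_pos rfl]
    · rw [if_neg (div_ne_zero (hι _ h) hv1), if_neg h, div_div_div_cancel_right₀ hv1]

theorem pt_smul {μ : ZMod p} (hμ : μ ≠ 0) (v : Fin 2 → ZMod p) : pt K (μ • v) = pt K v := by
  have hinj : Function.Injective (algebraMap (ZMod p) K) := (algebraMap (ZMod p) K).injective
  have hι : ∀ a : ZMod p, a ≠ 0 → algebraMap (ZMod p) K a ≠ 0 := fun a ha h => ha (hinj (by rw [h, map_zero]))
  unfold pt
  simp only [Pi.smul_apply, smul_eq_mul, mul_eq_zero, hμ, false_or]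
  by_cases h : v 1 = 0
  · rw [if_pos h, if_pos h]
  · rw [if_neg h, if_neg h, map_mul, map_mul, mul_div_mul_left _ _ (hι _ hμ)]

theorem pt_inj {v w : Fin 2 → ZMod p} (hv : v ≠ 0) (hw : w ≠ 0) (h : pt K v = pt K w) : ∃ μ : ZMod p, μ ≠ 0 ∧ w = μ • v := by
  have hinj : Function.Injective (algebraMap (ZMod p) K) := (algebraMap (ZMod p) K).injective
  have hι : ∀ a : ZMod p, a ≠ 0 → algebraMap (ZMod p) K a ≠ 0 := fun a ha h => ha (hinj (by rw [h, map_zero]))
  unfold pt at h
  by_cases h1 : v 1 = 0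
  · by_cases h2 : w 1 = 0
    · have h0 : v 0 ≠ 0 := by
        intro h0
        apply hv
        ext i
        fin_cases i
        · simpa using h0
        · simpa using h1
      have h0' : w 0 ≠ 0 := by
        intro h0
        apply hw
        ext i
        fin_cases i
        · simpa using h0
        · simpa using h2
      refine ⟨w 0 / v 0, div_ne_zero h0' h0, ?_⟩
      ext i
      fin_cases i
      · simp
        field_simp
      · simp [h1, h2]
    · rw [if_pos h1, if_neg h2] at h
      exact absurd h.symm (OnePoint.coe_ne_infty _)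
  · by_cases h2 : w 1 = 0
    · rw [if_neg h1, if_pos h2] at h
      exact absurd h (OnePoint.coe_ne_infty _)
    · rw [if_neg h1, if_neg h2, OnePoint.coe_eq_coe] at h
      have h3 : algebraMap (ZMod p) K (v 0) * algebraMap (ZMod p) K (w 1) = algebraMap (ZMod p) K (w 0) * algebraMap (ZMod p) K (v 1) := by
        have := (div_eq_div_iff (hι _ h1) (hι _ h2)).1 h
        exact this
      rw [← map_mul, ← map_mul] at h3
      have h4 := hinj h3
      refine ⟨w 1 / v 1, div_ne_zero h2 h1, ?_⟩
      ext i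
      fin_cases i
      · simp
        field_simp
        linear_combination -h4
      · simp
        field_simp

theorem scalar_of_trivial (M : GL (Fin 2) (ZMod p))
    (h : ∀ y : OnePoint K, (Matrix.GeneralLinearGroup.map (algebraMap (ZMod p) K) M) • y = y) :
    ∃ σ : ZMod p, ∀ v : Fin 2 → ZMod p, M.1 *ᵥ v = σ • v := by
  have hE : ∀ i j, (Matrix.GeneralLinearGroup.map (algebraMap (ZMod p) K) M) i j = algebraMap (ZMod p) K (M.1 i j) := fun i j => rfl
  have hinj : Function.Injective (algebraMap (ZMod p) K) := (algebraMap (ZMod p) K).injective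
  have hι : ∀ a : ZMod p, a ≠ 0 → algebraMap (ZMod p) K a ≠ 0 := fun a ha h => ha (hinj (by rw [h, map_zero]))
  have h10 : M.1 1 0 = 0 := by
    have h1 := h ∞
    rw [OnePoint.smul_infty_eq_ite, hE, hE] at h1
    by_contra hc
    rw [if_neg (hι _ hc)] at h1
    exact OnePoint.coe_ne_infty _ h1
  have hdet : M.1.det ≠ 0 := by
    have := M.det.ne_zero
    exact this
  rw [Matrix.det_fin_two, h10, mul_zero, sub_zero] at hdet
  have h00 : M.1 0 0 ≠ 0 := left_ne_zero_of_mul hdet
  have h11 : M.1 1 1 ≠ 0 := right_ne_zero_of_mul hdet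
  have h01 : M.1 0 1 = 0 := by
    have h1 := h ((0 : K) : OnePoint K)
    rw [OnePoint.smul_some_eq_ite, hE, hE, hE, hE, h10] at h1
    simp only [map_zero, zero_mul, mul_zero, zero_add, add_zero] at h1
    rw [if_neg (hι _ h11), OnePoint.coe_eq_coe] at h1
    have h2 := (div_eq_zero_iff.1 h1).resolve_right (hι _ h11)
    exact hinj (by rw [h2, map_zero])
  have he : M.1 0 0 = M.1 1 1 := by
    have h1 := h ((1 : K) : OnePoint K)
    rw [OnePoint.smul_some_eq_ite, hE, hE, hE, hE, h10, h01] at h1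
    simp only [map_zero, zero_mul, mul_one, zero_add, add_zero] at h1
    rw [if_neg (hι _ h11), OnePoint.coe_eq_coe] at h1
    have h2 := (div_eq_one_iff_eq (hι _ h11)).1 h1
    exact hinj h2
  refine ⟨M.1 0 0, fun v => ?_⟩
  ext i
  fin_cases i
  · simp only [Fin.zero_eta, Pi.smul_apply, smul_eq_mul]
    rw [mulVec0, h01, zero_mul, add_zero]
  · simp only [Fin.mk_one, Pi.smul_apply, smul_eq_mul]
    rw [mulVec1, h10, zero_mul, zero_add, he]

end pts

section rho

variable {G : Type*} [Group G] {p : ℕ} [hfp : Fact p.Prime]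

/-- The linear action of the normalizer on a coordinate space of `S/Z(S)`. -/
theorem exists_rho (S : Subgroup G) (φ : S → (Fin 2 → ZMod p)) (hadd : ∀ x y, φ (x * y) = φ x + φ y)
    (hzero : ∀ x, φ x = 0 ↔ x ∈ Subgroup.center S) (hsurj : Function.Surjective φ) :
    ∃ ρ : Subgroup.normalizer (S : Set G) →* GL (Fin 2) (ZMod p),
      ∀ (n : Subgroup.normalizer (S : Set G)) (x y : S), (y : G) = (n : G) * x * (n : G)⁻¹ → (ρ n).1 *ᵥ φ x = φ y := by
  have hmem : ∀ (n : Subgroup.normalizer (S : Set G)) (x : S), (n : G) * x * (n : G)⁻¹ ∈ S :=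
    fun n x => (Subgroup.mem_normalizer_iff.1 n.2 x).1 x.2
  let c : Subgroup.normalizer (S : Set G) → S → S := fun n x => ⟨(n : G) * x * (n : G)⁻¹, hmem n x⟩
  have c_mul : ∀ n x y, c n (x * y) = c n x * c n y := by
    intro n x y
    apply Subtype.ext
    show (n : G) * (x * y) * (n : G)⁻¹ = (n : G) * x * (n : G)⁻¹ * ((n : G) * y * (n : G)⁻¹)
    group
  have c_comp : ∀ n₁ n₂ x, c (n₁ * n₂) x = c n₁ (c n₂ x) := by
    intro n₁ n₂ x
    apply Subtype.ext
    show ((n₁ : G) * n₂) * x * ((n₁ : G) * n₂)⁻¹ = (n₁ : G) * ((n₂ : G) * x * (n₂ : G)⁻¹) * (n₁ : G)⁻¹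
    group
  have c_one : ∀ x, c 1 x = x := by
    intro x
    apply Subtype.ext
    show (1 : G) * x * (1 : G)⁻¹ = x
    group
  have c_center : ∀ n x, x ∈ Subgroup.center S → c n x ∈ Subgroup.center S := by
    intro n x hx
    rw [Subgroup.mem_center_iff] at hx ⊢
    intro y
    have h1 : c n (c n⁻¹ y) = y := by
      rw [← c_comp, mul_inv_cancel, c_one]
    rw [← h1, ← c_mul, ← c_mul, hx]
  have hφ1 : φ 1 = 0 := by
    have := hadd 1 1
    rw [mul_one] at this
    simpa using this
  have hφinv : ∀ x, φ x⁻¹ = - φ x := by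
    intro x
    have := hadd x⁻¹ x
    rw [inv_mul_cancel, hφ1] at this
    exact eq_neg_of_add_eq_zero_left this.symm
  let σ := Function.surjInv hsurj
  have hσ : ∀ v, φ (σ v) = v := Function.surjInv_eq hsurj
  let T : Subgroup.normalizer (S : Set G) → (Fin 2 → ZMod p) → (Fin 2 → ZMod p) := fun n v => φ (c n (σ v))
  have key : ∀ n x, T n (φ x) = φ (c n x) := by
    intro n x
    have h1 : φ (x⁻¹ * σ (φ x)) = 0 := by
      rw [hadd, hφinv, hσ, neg_add_cancel]
    have h2 := c_center n _ ((hzero _).1 h1)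
    have h3 := (hzero _).2 h2
    rw [c_mul, hadd] at h3
    have h4 : c n x⁻¹ = (c n x)⁻¹ := by
      apply Subtype.ext
      show (n : G) * (x : G)⁻¹ * (n : G)⁻¹ = ((n : G) * x * (n : G)⁻¹)⁻¹
      group
    rw [h4, hφinv] at h3
    exact (neg_add_eq_zero.1 h3).symm
  have Tadd : ∀ n v w, T n (v + w) = T n v + T n w := by
    intro n v w
    have h1 : v + w = φ (σ v * σ w) := by rw [hadd, hσ, hσ]
    rw [h1, key, c_mul, hadd]
  let TA : Subgroup.normalizer (S : Set G) → (Fin 2 → ZMod p) →+ (Fin 2 → ZMod p) := fun n => AddMonoidHom.mk' (T n) (Tadd n)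
  let TL : Subgroup.normalizer (S : Set G) → (Fin 2 → ZMod p) →ₗ[ZMod p] (Fin 2 → ZMod p) := fun n => (TA n).toZModLinearMap p
  have hTL : ∀ n v, TL n v = T n v := fun n v => rfl
  let ψ : Subgroup.normalizer (S : Set G) →* Matrix (Fin 2) (Fin 2) (ZMod p) :=
    { toFun := fun n => LinearMap.toMatrix' (TL n)
      map_one' := by
        have : TL 1 = LinearMap.id := by
          refine LinearMap.ext fun v => ?_
          obtain ⟨x, rfl⟩ := hsurj v
          rw [hTL, key, c_one]
          rfl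
        rw [this, LinearMap.toMatrix'_id]
      map_mul' := by
        intro n₁ n₂
        have : TL (n₁ * n₂) = (TL n₁).comp (TL n₂) := by
          refine LinearMap.ext fun v => ?_
          obtain ⟨x, rfl⟩ := hsurj v
          show T (n₁ * n₂) (φ x) = T n₁ (T n₂ (φ x))
          rw [key (n₁ * n₂), key n₂, key n₁, c_comp]
        rw [this, LinearMap.toMatrix'_comp] }
  refine ⟨ψ.toHomUnits, ?_⟩
  intro n x y hy
  have h1 : (ψ.toHomUnits n).1 = LinearMap.toMatrix' (TL n) := rfl
  rw [h1, LinearMap.toMatrix'_mulVec, hTL, key]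
  congr 1
  exact Subtype.ext hy.symm

end rho

end Cfsg.Agent.Lib.Fusion.Extra3
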