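import Mathlib
import Cfsg.Agent.Lib.Fusion.Extra3Acts
import Cfsg.Agent.Lib.Fusion.Extra3Mat

/-! Extraspecial Sylow subgroups of order `p³`: the torus elements in the normalizer, acting on the
projective line of `S/Z(S)`. -/

set_option autoImplicit false
set_option linter.style.haveILetI false

namespace Cfsg.Agent.Lib.Fusion.Extra3

open Matrix OnePoint Cfsg
open scoped MatrixGroups commutatorElement

variable {p : ℕ} [hfp : Fact p.Prime]

theorem exists_linear_coord {A : Type*} [AddCommGroup A] [Module (ZMod p) A] [Finite A]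
    (hc : Nat.card A = p ^ 2) :
    ∃ e : A → (Fin 2 → ZMod p), (∀ x y, e (x + y) = e x + e y) ∧ Function.Bijective e := by
  have hpp := hfp.out
  haveI : Module.Finite (ZMod p) A := Module.Finite.of_finite
  have h1 : Nat.card A = Nat.card (ZMod p) ^ Module.finrank (ZMod p) A :=
    Module.natCard_eq_pow_finrank
  rw [hc, Nat.card_zmod] at h1
  have hfr : Module.finrank (ZMod p) A = 2 := (Nat.pow_right_injective hpp.two_le h1).symm
  let e : A ≃ₗ[ZMod p] (Fin 2 → ZMod p) := (Module.finBasisOfFinrankEq (ZMod p) A hfr).equivFun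
  exact ⟨e, fun x y => map_add e x y, e.bijective⟩

theorem exists_add_coord {A : Type*} [CommGroup A] [Finite A] (hA : ∀ a : A, a ^ p = 1)
    (hc : Nat.card A = p ^ 2) :
    ∃ e : A → (Fin 2 → ZMod p), (∀ x y, e (x * y) = e x + e y) ∧ Function.Bijective e := by
  letI hmod : Module (ZMod p) (Additive A) := AddCommGroup.zmodModule (n := p) (fun x => by
    change Additive.ofMul (x.toMul ^ p) = 0
    rw [hA]
    rfl)
  haveI : Finite (Additive A) := inferInstanceAs (Finite A)
  obtain ⟨e, he, hb⟩ := exists_linear_coord (p := p) (A := Additive A) hc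
  refine ⟨fun a => e (Additive.ofMul a), ?_, ?_⟩
  · intro x y
    exact he (Additive.ofMul x) (Additive.ofMul y)
  · exact hb.comp Additive.ofMul.bijective

theorem exists_coord {Q : Type*} [Group Q] [Finite Q] (hE : IsExtraspecial p Q) (hcard : Nat.card Q = p ^ 3)
    (hpow : ∀ x : Q, x ^ p = 1) :
    ∃ φ : Q → (Fin 2 → ZMod p), (∀ x y, φ (x * y) = φ x + φ y) ∧ (∀ x, φ x = 0 ↔ x ∈ Subgroup.center Q) ∧
      Function.Surjective φ := by
  classical
  obtain ⟨⟨-, -, hC⟩, hZ⟩ := hE
  have hpp := hfp.out
  haveI hfinA : Finite (Abelianization Q) := inferInstanceAs (Finite (Q ⧸ commutator Q))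
  have hcardA : Nat.card (Abelianization Q) = p ^ 2 := by
    have h1 := Subgroup.card_mul_index (commutator Q)
    rw [hC, hZ, hcard] at h1
    have h2 : Nat.card (Abelianization Q) = (Subgroup.center Q).index := by
      show Nat.card (Q ⧸ commutator Q) = _
      rw [hC]
      rfl
    rw [h2]
    have h3 : p ^ 3 = p * p ^ 2 := by ring
    rw [h3] at h1
    exact Nat.eq_of_mul_eq_mul_left hpp.pos h1
  have hA : ∀ a : Abelianization Q, a ^ p = 1 := by
    intro a
    obtain ⟨x, rfl⟩ := QuotientGroup.mk_surjective a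
    show ((x : Q ⧸ commutator Q)) ^ p = 1
    rw [← QuotientGroup.mk_pow, hpow]
    rfl
  obtain ⟨e, he, hb⟩ := exists_add_coord hA hcardA
  have he1 : e 1 = 0 := by
    have := he 1 1
    rw [mul_one] at this
    exact left_eq_add.mp this
  refine ⟨fun x => e (Abelianization.of x), ?_, ?_, ?_⟩
  · intro x y
    show e (Abelianization.of (x * y)) = _
    rw [map_mul, he]
  · intro x
    have h1 : e (Abelianization.of x) = 0 ↔ Abelianization.of x = 1 := by
      constructor
      · intro h
        apply hb.1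
        rw [h, he1]
      · intro h
        rw [h, he1]
    show e (Abelianization.of x) = 0 ↔ _
    rw [h1, ← MonoidHom.mem_ker, Abelianization.ker_of, hC]
  · intro v
    obtain ⟨a, ha⟩ := hb.2 v
    obtain ⟨x, hx⟩ := QuotientGroup.mk_surjective a
    refine ⟨x, ?_⟩
    rw [← ha, ← hx]
    rfl

theorem comm_pow_pow {Q : Type*} [Group Q] {x y c : Q} (hc : ∀ w, c * w = w * c) (h : x * y = c * y * x) (a b : ℕ) :
    x ^ a * y ^ b = c ^ (a * b) * y ^ b * x ^ a := by
  have hcp : ∀ (m : ℕ) (w : Q), c ^ m * w = w * c ^ m := by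
    intro m w
    induction m with
    | zero => simp
    | succ m ih =>
      rw [pow_succ, mul_assoc, hc, ← mul_assoc, ih, mul_assoc]
  have h1 : ∀ a : ℕ, x ^ a * y = c ^ a * y * x ^ a := by
    intro a
    induction a with
    | zero => simp
    | succ a ih =>
      calc x ^ (a + 1) * y = x ^ a * (x * y) := by rw [pow_succ, mul_assoc]
        _ = x ^ a * (c * y * x) := by rw [h]
        _ = c * (x ^ a * y) * x := by
          have := hc (x ^ a)
          calc x ^ a * (c * y * x) = (x ^ a * c) * y * x := by group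
            _ = (c * x ^ a) * y * x := by rw [this]
            _ = _ := by group
        _ = c * (c ^ a * y * x ^ a) * x := by rw [ih]
        _ = c ^ (a + 1) * y * x ^ (a + 1) := by
          have e1 : c ^ (a + 1) = c * c ^ a := pow_succ' c a
          rw [e1, pow_succ x]
          group
  induction b with
  | zero => simp
  | succ b ih =>
    calc x ^ a * y ^ (b + 1) = (x ^ a * y ^ b) * y := by rw [pow_succ, mul_assoc]
      _ = c ^ (a * b) * y ^ b * (x ^ a * y) := by rw [ih, mul_assoc]
      _ = c ^ (a * b) * y ^ b * (c ^ a * y * x ^ a) := by rw [h1]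
      _ = c ^ (a * (b + 1)) * y ^ (b + 1) * x ^ a := by
        have e : c ^ (a * (b + 1)) = c ^ (a * b) * c ^ a := by rw [Nat.mul_succ, pow_add]
        rw [e, pow_succ y]
        have := hcp a (y ^ b)
        calc c ^ (a * b) * y ^ b * (c ^ a * y * x ^ a) = c ^ (a * b) * (y ^ b * c ^ a) * y * x ^ a := by group
          _ = c ^ (a * b) * (c ^ a * y ^ b) * y * x ^ a := by rw [this]
          _ = _ := by group

section ctx

variable {G : Type*} [Group G] {S : Subgroup G} [Finite S]

variable (hZc : Nat.card (Subgroup.center S) = p) (hpow : ∀ x : S, x ^ p = 1)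
  (hcom : ∀ x y : S, ⁅x, y⁆ ∈ Subgroup.center S)

include hZc in
theorem gen_center {z₀ z : S} (h0 : z₀ ∈ Subgroup.center S) (h1 : z₀ ≠ 1) (hz : z ∈ Subgroup.center S) (hz0 : z₀ ^ p = 1) :
    ∃ a : ZMod p, z = z₀ ^ a.val := by
  have h2 : ((⟨z, hz⟩ : Subgroup.center S)) ∈ Subgroup.zpowers (⟨z₀, h0⟩ : Subgroup.center S) :=
    mem_zpowers_of_prime_card hZc (fun hc => h1 (congrArg Subtype.val hc))
  rw [← mem_powers_iff_mem_zpowers] at h2
  obtain ⟨m, hm⟩ := h2
  refine ⟨(m : ZMod p), ?_⟩
  have h3 : z = z₀ ^ m := by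
    have := congrArg Subtype.val hm
    simpa using this.symm
  rw [h3, ZMod.val_natCast, ← pow_eq_pow_mod _ hz0]

end ctx

end Cfsg.Agent.Lib.Fusion.Extra3
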