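import Mathlib
import Cfsg.Agent.Lib.Fusion.Extra3Core
import Cfsg.Agent.Lib.Fusion.SylowAut

/-! Extraspecial Sylow subgroups of order `p³`: the torus elements in the normalizer, acting on the
projective line of `S/Z(S)`. -/

set_option autoImplicit false
set_option linter.style.haveILetI false

namespace Cfsg.Agent.Lib.Fusion.Extra3

open Matrix OnePoint Cfsg
open scoped MatrixGroups commutatorElement

variable {p : ℕ} [hfp : Fact p.Prime]

section Q

variable {Q : Type*} [Group Q] {φ : Q → (Fin 2 → ZMod p)}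

theorem coord_one (hadd : ∀ x y, φ (x * y) = φ x + φ y) : φ 1 = 0 := by
  have := hadd 1 1
  rw [mul_one] at this
  simpa using this

theorem coord_inv (hadd : ∀ x y, φ (x * y) = φ x + φ y) (x : Q) : φ x⁻¹ = - φ x := by
  have := hadd x⁻¹ x
  rw [inv_mul_cancel, coord_one hadd] at this
  exact eq_neg_of_add_eq_zero_left this.symm

theorem coord_pow (hadd : ∀ x y, φ (x * y) = φ x + φ y) (x : Q) (m : ℕ) : φ (x ^ m) = (m : ZMod p) • φ x := by
  induction m with
  | zero => simp [coord_one hadd]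
  | succ m ih =>
    rw [pow_succ, hadd, ih]
    push_cast
    rw [add_smul, one_smul]

/-- Commutators of elements scaled by `σ` on `S/Z(S)`. -/
theorem comm_scale (hadd : ∀ x y, φ (x * y) = φ x + φ y) (hzero : ∀ x, φ x = 0 ↔ x ∈ Subgroup.center Q)
    {σ : ZMod p} {u v u' v' c : Q} (hc : c ∈ Subgroup.center Q) (h : u * v = c * v * u)
    (hu : φ u' = σ • φ u) (hv : φ v' = σ • φ v) : u' * v' = c ^ (σ.val * σ.val) * v' * u' := by
  have key : ∀ w w', φ w' = σ • φ w → ∃ ζ ∈ Subgroup.center Q, w' = ζ * w ^ σ.val := by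
    intro w w' hw
    refine ⟨w' * (w ^ σ.val)⁻¹, ?_, by group⟩
    rw [← hzero, hadd, coord_inv hadd, coord_pow hadd, hw, ZMod.natCast_zmod_val, add_neg_cancel]
  obtain ⟨ζ, hζ, rfl⟩ := key u u' hu
  obtain ⟨ζ', hζ', rfl⟩ := key v v' hv
  have hcc : ∀ w, c * w = w * c := fun w => (Subgroup.mem_center_iff.1 hc w).symm
  have e := comm_pow_pow hcc h σ.val σ.val
  have hz : ∀ w, w * ζ = ζ * w := fun w => Subgroup.mem_center_iff.1 hζ w
  have hz' : ∀ w, w * ζ' = ζ' * w := fun w => Subgroup.mem_center_iff.1 hζ' w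
  generalize u ^ σ.val = A at e ⊢
  generalize v ^ σ.val = B at e ⊢
  generalize c ^ (σ.val * σ.val) = C at e ⊢
  calc ζ * A * (ζ' * B) = ζ * (A * ζ') * B := by group
    _ = ζ * ζ' * (A * B) := by rw [hz' A]; group
    _ = ζ * ζ' * (C * B * A) := by rw [e]
    _ = ζ' * ζ * C * B * A := by rw [hz ζ']; group
    _ = ζ' * (ζ * C) * B * A := by group
    _ = ζ' * (C * ζ) * B * A := by rw [hz C]
    _ = (ζ' * C) * ζ * B * A := by group
    _ = (C * ζ') * ζ * B * A := by rw [hz' C]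
    _ = C * ζ' * (ζ * B) * A := by group
    _ = C * ζ' * (B * ζ) * A := by rw [hz B]
    _ = C * (ζ' * B) * (ζ * A) := by group

end Q

section Acts

variable {G : Type*} [Group G]

theorem ff_one_right (z x : G) (s : ZMod p) : ff z x s 1 = z ^ s.val * x := by
  haveI : Fact (1 < p) := ⟨hfp.out.one_lt⟩
  simp [ff, ZMod.val_one]

theorem ff_zero_right (z x : G) (s : ZMod p) : ff z x s 0 = z ^ s.val := by
  simp [ff]

theorem ff_one_left (z x : G) (t : ZMod p) : ff z x 1 t = z * x ^ t.val := by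
  haveI : Fact (1 < p) := ⟨hfp.out.one_lt⟩
  simp [ff, ZMod.val_one]

theorem acts_one (z x : G) : Acts z x (1 : G) (1 : ZMod p) 0 0 1 := by
  constructor
  · rw [ff_one_zero]; group
  · rw [ff_zero_one]; group

theorem Acts.pow {z x n : G} (hzx : z * x = x * z) (hz : z ^ p = 1) (hx : x ^ p = 1) {l c e : ZMod p}
    (h : Acts z x n l 0 c e) (k : ℕ) : ∃ ck : ZMod p, Acts z x (n ^ k) (l ^ k) 0 ck (e ^ k) := by
  induction k with
  | zero =>
    refine ⟨0, ?_⟩
    simpa using acts_one (p := p) z x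
  | succ k ih =>
    obtain ⟨ck, hk⟩ := ih
    have h1 := hk.mul hzx hz hx h
    refine ⟨c * l ^ k + e * ck, ?_⟩
    rw [pow_succ]
    convert h1 using 1 <;> ring

theorem Acts.pow_low {z x n : G} (hzx : z * x = x * z) (hz : z ^ p = 1) (hx : x ^ p = 1) {t : ZMod p}
    (h : Acts z x n 1 0 t 1) (m : ℕ) : Acts z x (n ^ m) 1 0 ((m : ZMod p) * t) 1 := by
  induction m with
  | zero =>
    simpa using acts_one (p := p) z x
  | succ m ih =>
    have h1 := ih.mul hzx hz hx h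
    rw [pow_succ]
    convert h1 using 1 <;> (push_cast; ring)

theorem Acts.pow_up {z x n : G} (hzx : z * x = x * z) (hz : z ^ p = 1) (hx : x ^ p = 1) {t : ZMod p}
    (h : Acts z x n 1 t 0 1) (m : ℕ) : Acts z x (n ^ m) 1 ((m : ZMod p) * t) 0 1 := by
  induction m with
  | zero =>
    simpa using acts_one (p := p) z x
  | succ m ih =>
    have h1 := ih.mul hzx hz hx h
    rw [pow_succ]
    convert h1 using 1 <;> (push_cast; ring)

theorem ff_left_inj {z x : G} (hz : z ^ p = 1) (hz1 : z ≠ 1) {s s' : ZMod p} (h : ff z x s 0 = ff z x s' 0) : s = s' := by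
  rw [ff_zero_right, ff_zero_right] at h
  have ho : orderOf z = p := orderOf_eq_prime hz hz1
  rw [pow_inj_mod, ho, Nat.mod_eq_of_lt (ZMod.val_lt _), Nat.mod_eq_of_lt (ZMod.val_lt _)] at h
  exact ZMod.val_injective p h

end Acts

/-- The data of an extraspecial group of order `p³` and exponent `p` sitting in an ambient group. -/
structure Setup {G : Type*} [Group G] (S : Subgroup G) (φ : S → (Fin 2 → ZMod p)) : Prop where
  hadd : ∀ x y, φ (x * y) = φ x + φ y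
  hzero : ∀ x, φ x = 0 ↔ x ∈ Subgroup.center S
  hsurj : Function.Surjective φ
  hpow : ∀ x : S, x ^ p = 1
  hcom : ∀ x y : S, ⁅x, y⁆ ∈ Subgroup.center S
  hC : commutator S = Subgroup.center S
  hZc : Nat.card (Subgroup.center S) = p
  hcard : Nat.card S = p ^ 3

/-- A noncentral element lying in the image of the `SL₂` of a rank two subgroup. -/
def Good (p : ℕ) [Fact p.Prime] {G : Type*} [Group G] {S : Subgroup G} (x₀ : S) : Prop :=
  ∃ z₀ : S, z₀ ∈ Subgroup.center S ∧ z₀ ≠ 1 ∧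
    ∀ t : ZMod p, ∃ g : G, g * x₀ * g⁻¹ = x₀ ∧ g * z₀ * g⁻¹ = (z₀ : G) * (x₀ : G) ^ t.val

section main

variable {G : Type*} [Group G]

theorem setup_of [Finite G] {S : Subgroup G} (hE : IsExtraspecial p S) (hcard : Nat.card S = p ^ 3) (hpow : ∀ x : S, x ^ p = 1) :
    ∃ φ : S → (Fin 2 → ZMod p), Setup S φ := by
  obtain ⟨φ, h1, h2, h3⟩ := exists_coord hE hcard hpow
  have hC := hE.1.2.2
  refine ⟨φ, h1, h2, h3, hpow, ?_, hC, hE.2, hcard⟩
  intro x y
  rw [← hC]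
  exact Subgroup.commutator_mem_commutator (Subgroup.mem_top x) (Subgroup.mem_top y)

variable {S : Subgroup G} {φ : S → (Fin 2 → ZMod p)}

theorem Setup.central_comm {z x : S} (hz : z ∈ Subgroup.center S) : (z : G) * x = x * z := by
  have := Subgroup.mem_center_iff.1 hz x
  exact (congrArg Subtype.val this).symm

theorem Setup.pow_G (hs : Setup S φ) (x : S) : (x : G) ^ p = 1 := by
  have := hs.hpow x
  exact_mod_cast congrArg Subtype.val this

theorem Setup.acts_of_mem [Finite S] (hs : Setup S φ) {z₀ : S} (x₀ : S) (hz0 : z₀ ∈ Subgroup.center S) (hz1 : z₀ ≠ 1) (y : S) :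
    ∃ a : ZMod p, Acts (z₀ : G) (x₀ : G) (y : G) 1 0 a 1 ∧ (a = 0 → y * x₀ = x₀ * y) := by
  obtain ⟨a, ha⟩ := gen_center hs.hZc hz0 hz1 (hs.hcom y x₀) (hs.hpow z₀)
  refine ⟨a, ⟨?_, ?_⟩, ?_⟩
  · rw [ff_one_zero]
    have := Setup.central_comm (x := y) hz0
    rw [← this]
    group
  · rw [ff_one_right]
    have h1 : y * x₀ * y⁻¹ = ⁅y, x₀⁆ * x₀ := by
      rw [commutatorElement_def]
      group
    rw [ha] at h1
    exact_mod_cast congrArg Subtype.val h1
  · rintro rfl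
    rw [ZMod.val_zero, pow_zero] at ha
    exact commutatorElement_eq_one_iff_mul_comm.1 ha

theorem Setup.hu_of_notMem [Finite S] (hs : Setup S φ) {z₀ x₀ : S} (hz0 : z₀ ∈ Subgroup.center S) (hz1 : z₀ ≠ 1)
    (hx : x₀ ∉ Subgroup.center S) (t : ZMod p) : ∃ g : G, Acts (z₀ : G) (x₀ : G) g 1 0 t 1 := by
  have h1 : ∃ y : S, y * x₀ ≠ x₀ * y := by
    by_contra h
    push Not at h
    exact hx (Subgroup.mem_center_iff.2 (fun y => h y))
  obtain ⟨y, hy⟩ := h1
  obtain ⟨a, ha, ha0⟩ := hs.acts_of_mem x₀ hz0 hz1 y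
  have ha' : a ≠ 0 := fun h => hy (ha0 h)
  have h2 := Acts.pow_low (Setup.central_comm hz0) (hs.pow_G z₀) (hs.pow_G x₀) ha (t / a).val
  rw [ZMod.natCast_zmod_val, div_mul_cancel₀ t ha'] at h2
  exact ⟨_, h2⟩

theorem exists_torus [Finite G] (P : Sylow p G) {φ : ↥(P : Subgroup G) → (Fin 2 → ZMod p)} (hs : Setup (P : Subgroup G) φ)
    {z₀ x₀ : ↥(P : Subgroup G)} (hz0 : z₀ ∈ Subgroup.center (P : Subgroup G)) (hz1 : z₀ ≠ 1)
    (hx : x₀ ∉ Subgroup.center (P : Subgroup G))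
    (hg : ∀ t : ZMod p, ∃ g : G, g * x₀ * g⁻¹ = x₀ ∧ g * z₀ * g⁻¹ = (z₀ : G) * (x₀ : G) ^ t.val)
    {l : ZMod p} (hl : l ≠ 0) :
    ∃ n ∈ Subgroup.normalizer ((P : Subgroup G) : Set G), ∃ c : ZMod p, Acts (z₀ : G) (x₀ : G) n l 0 c l⁻¹ := by
  have hzx := Setup.central_comm (x := x₀) hz0
  have hzp := hs.pow_G z₀
  have hxp := hs.pow_G x₀
  have hv : ∀ t : ZMod p, ∃ g : G, Acts (z₀ : G) (x₀ : G) g 1 t 0 1 := by
    intro t
    obtain ⟨g, h1, h2⟩ := hg t
    refine ⟨g, ?_, ?_⟩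
    · rw [ff_one_left, h2]
    · rw [ff_zero_one, h1]
  obtain ⟨d, hd⟩ := exists_diag hzx hzp hxp (hs.hu_of_notMem hz0 hz1 hx) hv hl
  refine exists_normalizer_of_diag hzx hzp hxp P ?_ hl hd
  intro y hy
  obtain ⟨a, ha, -⟩ := hs.acts_of_mem x₀ hz0 hz1 ⟨y, hy⟩
  exact ⟨a, ha⟩

theorem Setup.coord_of_ff (hs : Setup S φ) {z₀ x₀ u : S} (hz0 : z₀ ∈ Subgroup.center S) {s t : ZMod p}
    (h : (u : G) = ff (z₀ : G) (x₀ : G) s t) : φ u = t • φ x₀ := by
  have h1 : u = z₀ ^ s.val * x₀ ^ t.val := by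
    apply Subtype.ext
    rw [h]
    simp [ff]
  rw [h1, hs.hadd, coord_pow hs.hadd, coord_pow hs.hadd, ZMod.natCast_zmod_val, ZMod.natCast_zmod_val, (hs.hzero z₀).2 hz0,
    smul_zero, zero_add]

/-- The eigenvalues of a power of a torus element which is scalar on `S/Z(S)`. -/
theorem Setup.ksi [Finite S] (hs : Setup S φ) (ρ : Subgroup.normalizer (S : Set G) →* GL (Fin 2) (ZMod p))
    (hρ : ∀ (n : Subgroup.normalizer (S : Set G)) (x y : S), (y : G) = (n : G) * x * (n : G)⁻¹ → (ρ n).1 *ᵥ φ x = φ y)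
    {z₀ x₀ : S} (hz0 : z₀ ∈ Subgroup.center S) (hz1 : z₀ ≠ 1) (hx : x₀ ∉ Subgroup.center S)
    {n : Subgroup.normalizer (S : Set G)} {l c e : ZMod p} (hn : Acts (z₀ : G) (x₀ : G) (n : G) l 0 c e) (k : ℕ)
    {σ : ZMod p} (hσ : ∀ v, (ρ (n ^ k)).1 *ᵥ v = σ • v) : l ^ k = e ^ k * e ^ k := by
  have hzx := Setup.central_comm (x := x₀) hz0
  have hzp := hs.pow_G z₀
  have hxp := hs.pow_G x₀
  obtain ⟨ck, hk⟩ := hn.pow hzx hzp hxp k
  have hN : ((n ^ k : Subgroup.normalizer (S : Set G)) : G) = (n : G) ^ k := by simp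
  rw [← hN] at hk
  generalize hNd : ((n ^ k : Subgroup.normalizer (S : Set G)) : G) = N at hk
  have hmem : ∀ u : S, N * u * N⁻¹ ∈ S := fun u => by
    rw [← hNd]
    exact (Subgroup.mem_normalizer_iff.1 (n ^ k).2 u).1 u.2
  let cn : S → S := fun u => ⟨N * u * N⁻¹, hmem u⟩
  have h1 : ∀ u, φ (cn u) = σ • φ u := fun u => by
    rw [← hσ]
    exact (hρ (n ^ k) u (cn u) (by rw [hNd])).symm
  have h2 : φ (cn x₀) = e ^ k • φ x₀ := hs.coord_of_ff hz0 (u := cn x₀) (s := ck) hk.2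
  have hxne : φ x₀ ≠ 0 := fun h => hx ((hs.hzero _).1 h)
  have hσe : σ = e ^ k := by
    have h3 : σ • φ x₀ = e ^ k • φ x₀ := by rw [← h1, h2]
    exact smul_left_injective _ hxne h3
  have h4 : ∃ y : S, x₀ * y ≠ y * x₀ := by
    by_contra h
    push Not at h
    exact hx (Subgroup.mem_center_iff.2 (fun y => (h y).symm))
  obtain ⟨y, hy⟩ := h4
  have hc₁ := hs.hcom x₀ y
  have hcomm : x₀ * y = ⁅x₀, y⁆ * y * x₀ := by
    rw [commutatorElement_def]
    group
  generalize hcd : ⁅x₀, y⁆ = c₁ at hc₁ hcomm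
  have h3 := comm_scale hs.hadd hs.hzero hc₁ hcomm (h1 x₀) (h1 y)
  have h5 : N * (c₁ : G) * N⁻¹ = (c₁ : G) ^ (σ.val * σ.val) := by
    have h6 : ((cn x₀ : S) : G) * (cn y : S) = (N * (c₁ : G) * N⁻¹) * (cn y : S) * (cn x₀ : S) := by
      show N * x₀ * N⁻¹ * (N * y * N⁻¹) = (N * (c₁ : G) * N⁻¹) * (N * y * N⁻¹) * (N * x₀ * N⁻¹)
      have h7 : (x₀ : G) * y = c₁ * y * x₀ := by exact_mod_cast congrArg Subtype.val hcomm
      calc N * x₀ * N⁻¹ * (N * y * N⁻¹) = N * ((x₀ : G) * y) * N⁻¹ := by group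
        _ = N * ((c₁ : G) * y * x₀) * N⁻¹ := by rw [h7]
        _ = _ := by group
    have h8 : ((cn x₀ : S) : G) * (cn y : S) = (c₁ : G) ^ (σ.val * σ.val) * (cn y : S) * (cn x₀ : S) := by
      exact_mod_cast congrArg Subtype.val h3
    rw [h6] at h8
    exact mul_right_cancel (mul_right_cancel h8)
  obtain ⟨a, ha⟩ := gen_center hs.hZc hz0 hz1 hc₁ (hs.hpow z₀)
  have ha0 : a ≠ 0 := by
    rintro rfl
    rw [ZMod.val_zero, pow_zero] at ha
    rw [ha] at hcd
    exact hy (commutatorElement_eq_one_iff_mul_comm.1 hcd)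
  have hc₁G : (c₁ : G) = ff (z₀ : G) (x₀ : G) a 0 := by
    rw [ff_zero_right, ha]
    simp
  rw [hc₁G, ff_pow hzx hzp hxp, Acts.conj_ff hzx hzp hxp hk a 0] at h5
  have h9 := ff_left_inj (p := p) hzp (by simpa using hz1) (x := (x₀ : G)) (s := a * l ^ k + 0 * ck)
    (s' := ((σ.val * σ.val : ℕ) : ZMod p) * a) (by
      convert h5 using 2 <;> simp)
  have h10 : a * l ^ k = a * (σ * σ) := by
    push_cast at h9
    rw [ZMod.natCast_zmod_val] at h9
    linear_combination h9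
  rw [← hσe]
  exact mul_left_cancel₀ ha0 h10

end main

end Cfsg.Agent.Lib.Fusion.Extra3
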