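import Mathlib
import Cfsg.Agent.Lib.Fusion.Extra3Main

/-! The bound on the number of points of the projective line of `S/Z(S)` that have an `SL₂`. -/

set_option autoImplicit false
set_option linter.style.haveILetI false

namespace Cfsg.Agent.Lib.Fusion.Extra3

open Matrix OnePoint Cfsg
open scoped MatrixGroups commutatorElement

variable {p : ℕ} [hfp : Fact p.Prime] {G : Type*} [Group G]

theorem Setup.matrix_one {S : Subgroup G} {φ : S → (Fin 2 → ZMod p)} (hs : Setup S φ)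
    (M : GL (Fin 2) (ZMod p)) (h : ∀ x : S, M.1 *ᵥ φ x = φ x) : M = 1 := by
  apply Units.ext
  apply Matrix.mulVec_injective
  funext v
  obtain ⟨x, rfl⟩ := hs.hsurj v
  rw [h x]
  simp

theorem Setup.rho_of_mem {S : Subgroup G} {φ : S → (Fin 2 → ZMod p)} (hs : Setup S φ)
    (ρ : Subgroup.normalizer (S : Set G) →* GL (Fin 2) (ZMod p))
    (hρ : ∀ (n : Subgroup.normalizer (S : Set G)) (x y : S), (y : G) = (n : G) * x * (n : G)⁻¹ → (ρ n).1 *ᵥ φ x = φ y)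
    (m : Subgroup.normalizer (S : Set G)) (hm : (m : G) ∈ S) : ρ m = 1 := by
  apply hs.matrix_one
  intro x
  let m' : S := ⟨m, hm⟩
  have h1 := hρ m x (m' * x * m'⁻¹) (by simp [m'])
  rw [h1]
  have h2 : m' * x * m'⁻¹ = ⁅m', x⁆ * x := by
    rw [commutatorElement_def]
    group
  rw [h2, hs.hadd, (hs.hzero _).2 (hs.hcom m' x), zero_add]

theorem Setup.coprime_range [Finite G] (P : Sylow p G) {φ : ↥(P : Subgroup G) → (Fin 2 → ZMod p)} (hs : Setup (P : Subgroup G) φ)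
    (ρ : Subgroup.normalizer ((P : Subgroup G) : Set G) →* GL (Fin 2) (ZMod p))
    (hρ : ∀ (n : Subgroup.normalizer ((P : Subgroup G) : Set G)) (x y : (P : Subgroup G)), (y : G) = (n : G) * x * (n : G)⁻¹ → (ρ n).1 *ᵥ φ x = φ y)
    {K : Type*} [Field K] [Algebra (ZMod p) K] :
    (Nat.card ((Matrix.GeneralLinearGroup.map (algebraMap (ZMod p) K)).comp ρ).range).Coprime p := by
  have hpp := hfp.out
  haveI : Finite ((Matrix.GeneralLinearGroup.map (algebraMap (ZMod p) K)).comp ρ).range :=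
    inferInstanceAs (Finite (Set.range ((Matrix.GeneralLinearGroup.map (n := Fin 2) (algebraMap (ZMod p) K)).comp ρ)))
  rw [Nat.coprime_comm, Nat.Prime.coprime_iff_not_dvd hpp]
  intro hd
  obtain ⟨w, hw⟩ := exists_prime_orderOf_dvd_card' p hd
  obtain ⟨m, hm⟩ := w.2
  obtain ⟨e, q, hq, hN⟩ := Nat.exists_eq_pow_mul_and_not_dvd (orderOf_pos m).ne' p hpp.ne_one
  have hm1 : (m ^ q) ^ (p ^ e) = 1 := by
    rw [← pow_mul, mul_comm, ← hN, pow_orderOf_eq_one]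
  have hm2 : (((m ^ q : Subgroup.normalizer ((P : Subgroup G) : Set G))) : G) ∈ (P : Subgroup G) := by
    let m₁ : G := ((m ^ q : Subgroup.normalizer ((P : Subgroup G) : Set G)) : G)
    have hm₁ : m₁ ^ (p ^ e) = 1 := by
      calc m₁ ^ (p ^ e) = (((m ^ q) ^ (p ^ e) : Subgroup.normalizer ((P : Subgroup G) : Set G)) : G) :=
            (Subgroup.coe_pow _ _ _).symm
        _ = 1 := by rw [hm1]; rfl
    have hW : IsPGroup p (Subgroup.zpowers m₁) := by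
      rintro ⟨g, i, rfl⟩
      refine ⟨e, Subtype.ext ?_⟩
      show (m₁ ^ i) ^ (p ^ e) = 1
      rw [← zpow_natCast, ← _root_.zpow_mul, mul_comm, _root_.zpow_mul, zpow_natCast, hm₁, _root_.one_zpow]
    have h1 : Subgroup.zpowers m₁ ⊓ Subgroup.normalizer ((P : Subgroup G) : Set G) =
        Subgroup.zpowers m₁ ⊓ (P : Subgroup G) := hW.inf_normalizer_sylow P
    have h2 : m₁ ∈ Subgroup.zpowers m₁ ⊓ Subgroup.normalizer ((P : Subgroup G) : Set G) :=
      ⟨Subgroup.mem_zpowers _, (m ^ q).2⟩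
    rw [h1] at h2
    exact h2.2
  have hm3 := hs.rho_of_mem ρ hρ (m ^ q) hm2
  have h4 : (w : GL (Fin 2) K) ^ q = 1 := by
    rw [← hm, ← map_pow]
    simp only [MonoidHom.comp_apply]
    rw [hm3, map_one]
  have h5 : w ^ q = 1 := Subtype.ext (by simpa using h4)
  have h6 := orderOf_dvd_of_pow_eq_one h5
  rw [hw] at h6
  exact hq h6

theorem Setup.bound [Finite G] (P : Sylow p G) {φ : ↥(P : Subgroup G) → (Fin 2 → ZMod p)} (hs : Setup (P : Subgroup G) φ)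
    {K : Type*} [Field K] [IsAlgClosed K] [DecidableEq K] [Algebra (ZMod p) K] [CharP K p] (hp : p ≠ 2)
    (l : (ZMod p)ˣ) (hr : 2 ≤ orderOf (l ^ 3)) (I : Finset (OnePoint K))
    (hI : ∀ x ∈ I, ∃ x₀ : (P : Subgroup G), x₀ ∉ Subgroup.center (P : Subgroup G) ∧ Good p x₀ ∧ x = pt K (φ x₀)) :
    (4 ≤ orderOf (l ^ 3) → I.card ≤ 12) ∧ (6 ≤ orderOf (l ^ 3) → I.card ≤ 2) := by
  obtain ⟨ρ, hρ⟩ := exists_rho (P : Subgroup G) φ hs.hadd hs.hzero hs.hsurj
  let ρ' := (Matrix.GeneralLinearGroup.map (n := Fin 2) (algebraMap (ZMod p) K)).comp ρ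
  haveI : Finite ρ'.range := inferInstanceAs (Finite (Set.range ρ'))
  have hX : (Nat.card ρ'.range).Coprime p := hs.coprime_range P ρ hρ
  refine Cfsg.Agent.Lib.Fusion.PglCount.points_bound hp ρ'.range hX I _ hr ?_
  intro x hx
  obtain ⟨x₀, hx₀, ⟨z₀, hz0, hz1, hg⟩, rfl⟩ := hI x hx
  have hl0 : (l : ZMod p) ≠ 0 := l.ne_zero
  obtain ⟨n, hn, c, hc⟩ := exists_torus P hs hz0 hz1 hx₀ hg hl0
  let n' : Subgroup.normalizer ((P : Subgroup G) : Set G) := ⟨n, hn⟩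
  have hne : φ x₀ ≠ 0 := fun h => hx₀ ((hs.hzero _).1 h)
  refine ⟨ρ' n', ⟨n', rfl⟩, ?_, ?_⟩
  · show (Matrix.GeneralLinearGroup.map (algebraMap (ZMod p) K) (ρ n')) • pt K (φ x₀) = pt K (φ x₀)
    rw [smul_pt (ρ n') hne]
    have hmem : n * x₀ * n⁻¹ ∈ (P : Subgroup G) := (Subgroup.mem_normalizer_iff.1 hn x₀).1 x₀.2
    have h1 := hρ n' x₀ ⟨n * x₀ * n⁻¹, hmem⟩ rfl
    rw [h1]
    have h2 := hs.coord_of_ff hz0 (u := ⟨n * x₀ * n⁻¹, hmem⟩) (x₀ := x₀) hc.2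
    rw [h2, pt_smul (inv_ne_zero hl0)]
  · intro k hk
    have h3 : ∀ y : OnePoint K, (Matrix.GeneralLinearGroup.map (algebraMap (ZMod p) K) (ρ (n' ^ k))) • y = y := by
      intro y
      have h := hk y
      have e1 : (ρ' n') ^ k = Matrix.GeneralLinearGroup.map (algebraMap (ZMod p) K) (ρ (n' ^ k)) := by
        rw [map_pow, map_pow]
        rfl
      rwa [e1] at h
    obtain ⟨σ, hσ⟩ := scalar_of_trivial (K := K) (ρ (n' ^ k)) h3
    have h4 := hs.ksi ρ hρ hz0 hz1 hx₀ (n := n') hc k hσ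
    have h5 : ((l : ZMod p) ^ 3) ^ k = 1 := by
      have e2 : ((l : ZMod p)⁻¹) ^ k * (l : ZMod p) ^ k = 1 := by
        rw [← mul_pow, inv_mul_cancel₀ hl0, one_pow]
      calc ((l : ZMod p) ^ 3) ^ k = (l : ZMod p) ^ k * ((l : ZMod p) ^ k * (l : ZMod p) ^ k) := by ring
        _ = ((l : ZMod p)⁻¹ ^ k * (l : ZMod p)⁻¹ ^ k) * ((l : ZMod p) ^ k * (l : ZMod p) ^ k) := by rw [← h4]
        _ = ((l : ZMod p)⁻¹ ^ k * (l : ZMod p) ^ k) * ((l : ZMod p)⁻¹ ^ k * (l : ZMod p) ^ k) := by ring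
        _ = 1 := by rw [e2, one_mul]
    have h6 : (l ^ 3) ^ k = 1 := Units.ext (by push_cast; exact h5)
    exact orderOf_dvd_of_pow_eq_one h6

end Cfsg.Agent.Lib.Fusion.Extra3
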