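import Mathlib
import Cfsg.Agent.Lib.Fusion.Extra3Bound
import Cfsg.Agent.Lib.PGroup.Basic

/-! Sources of the points of the projective line of `S/Z(S)` with an `SL₂`. -/

set_option autoImplicit false
set_option linter.style.haveILetI false

namespace Cfsg.Agent.Lib.Fusion.Extra3

open Matrix OnePoint Cfsg
open scoped MatrixGroups commutatorElement

variable {p : ℕ} [hfp : Fact p.Prime] {G : Type*} [Group G]

/-- The transvections of a group of type `(p, p)` as automorphisms. -/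
theorem exists_shear {A : Type*} [Group A] {z x : A} (hzx : z * x = x * z) (hz : z ^ p = 1) (hx : x ^ p = 1)
    (hb : Function.Bijective (fun st : ZMod p × ZMod p => ff z x st.1 st.2)) (t : ZMod p) :
    ∃ ψ : MulAut A, ψ x = x ∧ ψ z = ff z x 1 t ∧ ψ ^ p = 1 ∧ (t ≠ 0 → ψ ≠ 1) := by
  let E : ZMod p × ZMod p ≃ A := Equiv.ofBijective _ hb
  have hE : ∀ st, E st = ff z x st.1 st.2 := fun st => rfl
  have hEmul : ∀ st st', E (st + st') = E st * E st' := by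
    intro st st'
    rw [hE, hE, hE]
    exact ff_add hzx hz hx _ _ _ _
  let Sh : ZMod p × ZMod p ≃ ZMod p × ZMod p :=
    { toFun := fun st => (st.1, st.2 + t * st.1)
      invFun := fun st => (st.1, st.2 - t * st.1)
      left_inv := by
        intro st
        ext <;> simp
      right_inv := by
        intro st
        ext <;> simp }
  have hSh : ∀ st, Sh st = (st.1, st.2 + t * st.1) := fun st => rfl
  let ψ : MulAut A := MulEquiv.mk' (E.symm.trans (Sh.trans E)) (by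
    intro a b
    obtain ⟨st, rfl⟩ := E.surjective a
    obtain ⟨st', rfl⟩ := E.surjective b
    rw [← hEmul]
    simp only [Equiv.trans_apply, Equiv.symm_apply_apply]
    rw [← hEmul, hSh, hSh, hSh]
    congr 1
    ext <;> simp
    ring)
  have hψ : ∀ st, ψ (E st) = E (st.1, st.2 + t * st.1) := by
    intro st
    show E (Sh (E.symm (E st))) = _
    rw [Equiv.symm_apply_apply, hSh]
  have hψp : ∀ (m : ℕ) st, (ψ ^ m) (E st) = E (st.1, st.2 + (m : ZMod p) * t * st.1) := by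
    intro m st
    induction m with
    | zero => simp
    | succ m ih =>
      rw [pow_succ', MulAut.mul_apply, ih, hψ]
      congr 2
      push_cast
      ring
  have hEz : E (1, 0) = z := by
    rw [hE]
    exact ff_one_zero
  have hEx : E (0, 1) = x := by
    rw [hE]
    exact ff_zero_one
  refine ⟨ψ, ?_, ?_, ?_, ?_⟩
  · rw [← hEx, hψ]
    simp
  · rw [← hEz, hψ, hE]
    simp [hEz]
  · apply MulEquiv.ext
    intro a
    obtain ⟨st, rfl⟩ := E.surjective a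
    rw [hψp, ZMod.natCast_self]
    simp
  · intro ht h1
    have h2 := hψ (1, 0)
    rw [h1] at h2
    have h3 := E.injective h2
    have h4 : (0 : ZMod p) = 0 + t * 1 := congrArg Prod.snd h3
    apply ht
    simpa using h4.symm

section SL

variable {S : Subgroup G} {φ : S → (Fin 2 → ZMod p)}

theorem Setup.center_le [Finite S] (hs : Setup S φ) (A : Subgroup S) (hA : A.index = p) : Subgroup.center S ≤ A := by
  have hpS : IsPGroup p S := IsPGroup.of_card hs.hcard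
  haveI hN : A.Normal := Cfsg.Agent.Lib.PGroup.normal_of_index_eq_prime hpS hA
  have h1 : Nat.card (S ⧸ A) = p := hA
  haveI : IsCyclic (S ⧸ A) := isCyclic_of_prime_card h1
  have h2 : IsMulCommutative (S ⧸ A) := inferInstance
  have h3 := Subgroup.Normal.quotient_commutative_iff_commutator_le.1 h2
  rwa [hs.hC] at h3

theorem Setup.exists_center_ne_one [Finite S] (hs : Setup S φ) : ∃ z₀ : S, z₀ ∈ Subgroup.center S ∧ z₀ ≠ 1 := by
  have hd : p ∣ Nat.card (Subgroup.center S) := by rw [hs.hZc]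
  obtain ⟨z, hz⟩ := exists_prime_orderOf_dvd_card' p hd
  refine ⟨z, z.2, ?_⟩
  intro h1
  have h2 : z = 1 := Subtype.ext h1
  rw [h2, orderOf_one] at hz
  exact hfp.out.one_lt.ne hz

theorem Setup.good_of_SL [Finite G] (hs : Setup S φ) (A : Subgroup G) (hAS : A ≤ S) (hAc : Nat.card A = p ^ 2)
    (hSL : ∀ ψ : MulAut A, orderOf ψ = p → ∃ g : G, ∀ a : A, (ψ a : G) = g * (a : G) * g⁻¹) :
    ∃ x₀ : S, x₀ ∉ Subgroup.center S ∧ Good p x₀ ∧ ∀ y : S, (y : G) ∈ A ↔ ∃ μ : ZMod p, φ y = μ • φ x₀ := by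
  have hpp := hfp.out
  let A' : Subgroup S := A.subgroupOf S
  have hA'c : Nat.card A' = p ^ 2 := by
    rw [← hAc]
    exact Nat.card_congr (Subgroup.subgroupOfEquivOfLe hAS).toEquiv
  have hidx : A'.index = p := by
    have h1 := Subgroup.card_mul_index A'
    rw [hA'c, hs.hcard] at h1
    have h3 : p ^ 3 = p ^ 2 * p := by ring
    rw [h3] at h1
    exact Nat.eq_of_mul_eq_mul_left (pow_pos hpp.pos 2) h1
  have hZA : Subgroup.center S ≤ A' := hs.center_le A' hidx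
  have hmemA : ∀ y : S, y ∈ A' ↔ (y : G) ∈ A := fun y => Subgroup.mem_subgroupOf
  have hx : ∃ x₀ : S, x₀ ∈ A' ∧ x₀ ∉ Subgroup.center S := by
    by_contra h
    push Not at h
    have h1 : Nat.card A' ≤ Nat.card (Subgroup.center S) := Subgroup.card_le_of_le h
    rw [hA'c, hs.hZc] at h1
    have h2 : p * 2 ≤ p ^ 2 := by
      rw [pow_two]
      exact Nat.mul_le_mul_left p hpp.two_le
    have := hpp.pos
    omega
  obtain ⟨x₀, hx₀A, hx₀⟩ := hx
  obtain ⟨z₀, hz0, hz1⟩ := hs.exists_center_ne_one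
  have hz₀A : (z₀ : G) ∈ A := (hmemA _).1 (hZA hz0)
  have hx₀A' : (x₀ : G) ∈ A := (hmemA _).1 hx₀A
  have hzx := Setup.central_comm (x := x₀) hz0
  have hzp := hs.pow_G z₀
  have hxp := hs.pow_G x₀
  have hxne : φ x₀ ≠ 0 := fun h => hx₀ ((hs.hzero _).1 h)
  let za : A := ⟨z₀, hz₀A⟩
  let xa : A := ⟨x₀, hx₀A'⟩
  have hcoe : ∀ s t : ZMod p, ((ff za xa s t : A) : G) = ff (z₀ : G) (x₀ : G) s t := by
    intro s t
    simp [ff, za, xa]
  have hin : ∀ s t : ZMod p, ff (z₀ : G) (x₀ : G) s t ∈ S := by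
    intro s t
    exact hAS (hcoe s t ▸ (ff za xa s t).2)
  have hinj : Function.Injective (fun st : ZMod p × ZMod p => ff za xa st.1 st.2) := by
    rintro ⟨s, t⟩ ⟨s', t'⟩ h
    have h1 : ff (z₀ : G) (x₀ : G) s t = ff (z₀ : G) (x₀ : G) s' t' := by
      rw [← hcoe, ← hcoe]
      exact congrArg Subtype.val h
    have h2 := hs.coord_of_ff hz0 (u := ⟨_, hin s t⟩) (x₀ := x₀) rfl
    have h3 := hs.coord_of_ff hz0 (u := ⟨_, hin s' t'⟩) (x₀ := x₀) rfl
    have h4 : (⟨_, hin s t⟩ : S) = ⟨_, hin s' t'⟩ := Subtype.ext h1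
    rw [h4, h3] at h2
    have ht : t = t' := (smul_left_injective _ hxne h2).symm
    subst ht
    have h5 : ff (z₀ : G) (x₀ : G) s 0 = ff (z₀ : G) (x₀ : G) s' 0 := by
      rw [ff_zero_right, ff_zero_right]
      unfold ff at h1
      exact mul_right_cancel h1
    have h6 := ff_left_inj hzp (by simpa using hz1) h5
    rw [h6]
  have hb : Function.Bijective (fun st : ZMod p × ZMod p => ff za xa st.1 st.2) := by
    refine Function.Injective.bijective_of_nat_card_le hinj ?_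
    rw [hAc, Nat.card_prod, Nat.card_zmod, pow_two]
  refine ⟨x₀, hx₀, ⟨z₀, hz0, hz1, ?_⟩, ?_⟩
  · intro t
    by_cases ht : t = 0
    · subst ht
      exact ⟨1, by simp, by simp⟩
    · have hzxa : za * xa = xa * za := Subtype.ext hzx
      have hzap : za ^ p = 1 := Subtype.ext (by simpa [za] using hzp)
      have hxap : xa ^ p = 1 := Subtype.ext (by simpa [xa] using hxp)
      obtain ⟨ψ, h1, h2, h3, h4⟩ := exists_shear hzxa hzap hxap hb t
      obtain ⟨g, hg⟩ := hSL ψ (orderOf_eq_prime h3 (h4 ht))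
      refine ⟨g, ?_, ?_⟩
      · have := hg xa
        rw [h1] at this
        exact this.symm
      · have := hg za
        rw [h2, hcoe, ff_one_left] at this
        exact this.symm
  · intro y
    constructor
    · intro hy
      obtain ⟨⟨s, t⟩, hst⟩ := hb.2 ⟨y, hy⟩
      have h1 : (y : G) = ff (z₀ : G) (x₀ : G) s t := by
        rw [← hcoe]
        exact (congrArg Subtype.val hst).symm
      exact ⟨t, hs.coord_of_ff hz0 h1⟩
    · rintro ⟨μ, hμ⟩
      have h1 : φ (y * (x₀ ^ μ.val)⁻¹) = 0 := by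
        rw [hs.hadd, coord_inv hs.hadd, coord_pow hs.hadd, ZMod.natCast_zmod_val, hμ, add_neg_cancel]
      have h2 : y * (x₀ ^ μ.val)⁻¹ ∈ A' := hZA ((hs.hzero _).1 h1)
      have h3 : y = (y * (x₀ ^ μ.val)⁻¹) * x₀ ^ μ.val := by group
      rw [← hmemA, h3]
      exact A'.mul_mem h2 (A'.pow_mem hx₀A _)

end SL

section Conj

theorem exists_conj_sylow [Finite G] (P : Sylow p G) {z₀ : G} (hz : ∀ y ∈ (P : Subgroup G), y * z₀ = z₀ * y) {e : G}
    (he : e ^ p = 1) (hez : e * z₀ = z₀ * e) :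
    ∃ β : G, β * z₀ = z₀ * β ∧ β * e * β⁻¹ ∈ (P : Subgroup G) := by
  let A : Subgroup G := Subgroup.centralizer {z₀}
  have hmemA : ∀ g, g ∈ A ↔ g * z₀ = z₀ * g := fun g => Subgroup.mem_centralizer_singleton_iff
  have hPA : (P : Subgroup G) ≤ A := fun y hy => (hmemA y).2 (hz y hy)
  have hW : IsPGroup p (Subgroup.zpowers e) := by
    rintro ⟨g, i, rfl⟩
    refine ⟨1, Subtype.ext ?_⟩
    show (e ^ i) ^ (p ^ 1) = 1
    rw [pow_one, ← zpow_natCast, ← _root_.zpow_mul, mul_comm, _root_.zpow_mul, zpow_natCast, he, _root_.one_zpow]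
  have hWA : Subgroup.zpowers e ≤ A := by
    rw [Subgroup.zpowers_le]
    exact (hmemA e).2 hez
  have hSyl : Cfsg.Agent.Lib.Fusion.IsSylowIn p (P : Subgroup G) A := ⟨P.subtype hPA, Sylow.coe_subtype _ _⟩
  obtain ⟨β, hβ, h⟩ := hSyl.exists_conj_le hW hWA
  exact ⟨β, (hmemA β).1 hβ, h e (Subgroup.mem_zpowers e)⟩

theorem Setup.good_of_conj [Finite G] (P : Sylow p G) {φ : ↥(P : Subgroup G) → (Fin 2 → ZMod p)} (hs : Setup (P : Subgroup G) φ)
    (hconj : ∀ x y : (P : Subgroup G), x ≠ 1 → y ≠ 1 → ∃ g : G, g * (x : G) * g⁻¹ = (y : G))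
    {x₀ : (P : Subgroup G)} (hx₀ : x₀ ∉ Subgroup.center (P : Subgroup G)) : Good p x₀ := by
  obtain ⟨z₀, hz0, hz1⟩ := hs.exists_center_ne_one
  have hx1 : x₀ ≠ 1 := fun h => hx₀ (h ▸ Subgroup.one_mem _)
  obtain ⟨w, hw⟩ := hconj z₀ x₀ hz1 hx1
  have hzx := Setup.central_comm (x := x₀) hz0
  have hzp := hs.pow_G z₀
  have hxp := hs.pow_G x₀
  have hxne : φ x₀ ≠ 0 := fun h => hx₀ ((hs.hzero _).1 h)
  let e : G := w⁻¹ * z₀ * w
  have he : e ^ p = 1 := by
    show (w⁻¹ * (z₀ : G) * w) ^ p = 1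
    have h1 := conj_pow (a := w⁻¹) (b := (z₀ : G)) (i := p)
    rw [inv_inv] at h1
    rw [h1, hzp]
    group
  have hw' : (x₀ : G) * w = w * z₀ := by rw [← hw]; group
  have hez : e * z₀ = z₀ * e := by
    show w⁻¹ * (z₀ : G) * w * z₀ = z₀ * (w⁻¹ * z₀ * w)
    have h1 : (z₀ : G) = w⁻¹ * x₀ * w := by rw [← hw]; group
    calc w⁻¹ * (z₀ : G) * w * z₀ = w⁻¹ * z₀ * (w * z₀) := by group
      _ = w⁻¹ * z₀ * (x₀ * w) := by rw [hw']
      _ = w⁻¹ * (z₀ * x₀) * w := by group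
      _ = w⁻¹ * (x₀ * z₀) * w := by rw [hzx]
      _ = (w⁻¹ * x₀ * w) * (w⁻¹ * z₀ * w) := by group
      _ = z₀ * (w⁻¹ * z₀ * w) := by rw [← h1]
  obtain ⟨β, hβ, hβe⟩ := exists_conj_sylow P (z₀ := (z₀ : G)) (fun y hy => (Setup.central_comm (x := ⟨y, hy⟩) hz0).symm) he hez
  let z₁ : (P : Subgroup G) := ⟨β * e * β⁻¹, hβe⟩
  let u : G := w * β⁻¹
  have hβi : β⁻¹ * (z₀ : G) * β = z₀ := by
    calc β⁻¹ * (z₀ : G) * β = β⁻¹ * ((z₀ : G) * β) := by group
      _ = β⁻¹ * (β * z₀) := by rw [hβ]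
      _ = z₀ := by group
  have hu1 : u * z₁ * u⁻¹ = z₀ := by
    show w * β⁻¹ * (β * (w⁻¹ * z₀ * w) * β⁻¹) * (w * β⁻¹)⁻¹ = z₀
    group
  have hu2 : u * z₀ * u⁻¹ = x₀ := by
    show w * β⁻¹ * z₀ * (w * β⁻¹)⁻¹ = x₀
    calc w * β⁻¹ * (z₀ : G) * (w * β⁻¹)⁻¹ = w * (β⁻¹ * z₀ * β) * w⁻¹ := by group
      _ = x₀ := by rw [hβi, hw]
  have hz₁ : z₁ ∉ Subgroup.center (P : Subgroup G) := by
    intro hc
    obtain ⟨b, hb⟩ := gen_center hs.hZc hz0 hz1 hc (hs.hpow z₀)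
    have h1 : (z₁ : G) = (z₀ : G) ^ b.val := by
      rw [hb]
      simp
    have h2 : (z₀ : G) = (x₀ : G) ^ b.val := by
      rw [← hu1, h1, ← conj_pow, hu2]
    have h3 : z₀ = x₀ ^ b.val := Subtype.ext (by simpa using h2)
    have h4 := (hs.hzero z₀).2 hz0
    rw [h3, coord_pow hs.hadd, ZMod.natCast_zmod_val] at h4
    have hb0 : b = 0 := (smul_eq_zero.1 h4).resolve_right hxne
    rw [hb0, ZMod.val_zero, pow_zero] at h3
    exact hz1 h3
  have h5 : ∃ y : (P : Subgroup G), y * z₁ ≠ z₁ * y := by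
    by_contra h
    push Not at h
    exact hz₁ (Subgroup.mem_center_iff.2 (fun y => h y))
  obtain ⟨y, hy⟩ := h5
  obtain ⟨a, ha⟩ := gen_center hs.hZc hz0 hz1 (hs.hcom y z₁) (hs.hpow z₀)
  have ha0 : a ≠ 0 := by
    rintro rfl
    rw [ZMod.val_zero, pow_zero] at ha
    exact hy (commutatorElement_eq_one_iff_mul_comm.1 ha)
  have hyz₁ : (y : G) * z₁ * (y : G)⁻¹ = (z₀ : G) ^ a.val * z₁ := by
    have h1 : y * z₁ * y⁻¹ = ⁅y, z₁⁆ * z₁ := by
      rw [commutatorElement_def]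
      group
    rw [ha] at h1
    exact_mod_cast congrArg Subtype.val h1
  let g₁ : G := u * y * u⁻¹
  have hg1 : g₁ * x₀ * g₁⁻¹ = x₀ := by
    show u * y * u⁻¹ * x₀ * (u * y * u⁻¹)⁻¹ = x₀
    have h1 := Setup.central_comm (x := y) hz0
    calc u * (y : G) * u⁻¹ * x₀ * (u * y * u⁻¹)⁻¹ = u * (y : G) * u⁻¹ * (u * z₀ * u⁻¹) * (u * y * u⁻¹)⁻¹ := by rw [hu2]
      _ = u * ((y : G) * z₀ * (y : G)⁻¹) * u⁻¹ := by group
      _ = u * ((z₀ : G) * y * (y : G)⁻¹) * u⁻¹ := by rw [h1]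
      _ = u * z₀ * u⁻¹ := by group
      _ = x₀ := hu2
  have hg2 : g₁ * z₀ * g₁⁻¹ = (z₀ : G) * (x₀ : G) ^ a.val := by
    show u * y * u⁻¹ * z₀ * (u * y * u⁻¹)⁻¹ = _
    have h1 : (x₀ : G) ^ a.val * z₀ = (z₀ : G) * (x₀ : G) ^ a.val := ((Commute.pow_left (show Commute (x₀ : G) (z₀ : G) from hzx.symm) a.val).eq)
    calc u * (y : G) * u⁻¹ * z₀ * (u * y * u⁻¹)⁻¹ = u * (y : G) * u⁻¹ * (u * z₁ * u⁻¹) * (u * y * u⁻¹)⁻¹ := by rw [hu1]
      _ = u * ((y : G) * z₁ * (y : G)⁻¹) * u⁻¹ := by group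
      _ = u * ((z₀ : G) ^ a.val * z₁) * u⁻¹ := by rw [hyz₁]
      _ = (u * (z₀ : G) ^ a.val * u⁻¹) * (u * z₁ * u⁻¹) := by group
      _ = (u * (z₀ : G) * u⁻¹) ^ a.val * (u * z₁ * u⁻¹) := by rw [conj_pow]
      _ = (x₀ : G) ^ a.val * z₀ := by rw [hu1, hu2]
      _ = _ := h1
  have hact : Acts (z₀ : G) (x₀ : G) g₁ 1 a 0 1 := by
    refine ⟨?_, ?_⟩
    · rw [ff_one_left, hg2]
    · rw [ff_zero_one, hg1]
  refine ⟨z₀, hz0, hz1, ?_⟩
  intro t
  have h6 := Acts.pow_up hzx hzp hxp hact (t / a).val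
  rw [ZMod.natCast_zmod_val, div_mul_cancel₀ t ha0] at h6
  refine ⟨g₁ ^ (t / a).val, ?_, ?_⟩
  · have := h6.2
    rwa [ff_zero_one] at this
  · have := h6.1
    rwa [ff_one_left] at this

end Conj

/-- The cube of a generator of the units of the prime field. -/
theorem exists_gen : ∃ l : (ZMod p)ˣ, orderOf (l ^ 3) = (p - 1) / Nat.gcd (p - 1) 3 := by
  obtain ⟨l, hl⟩ := IsCyclic.exists_generator (α := (ZMod p)ˣ)
  refine ⟨l, ?_⟩
  have h1 : orderOf l = p - 1 := by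
    rw [orderOf_eq_card_of_forall_mem_zpowers hl, Nat.card_eq_fintype_card, ZMod.card_units]
  rw [orderOf_pow, h1]

theorem exists_gen_bound (h : 17 ≤ p) : ∃ l : (ZMod p)ˣ, 6 ≤ orderOf (l ^ 3) := by
  obtain ⟨l, hl⟩ := exists_gen (p := p)
  refine ⟨l, ?_⟩
  rw [hl]
  rcases (Nat.Prime.eq_one_or_self_of_dvd Nat.prime_three _ (Nat.gcd_dvd_right (p - 1) 3)) with h1 | h1
  · rw [h1]
    omega
  · rw [h1]
    have h2 : 3 ∣ p - 1 := h1 ▸ Nat.gcd_dvd_left (p - 1) 3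
    omega

theorem exists_gen_bound' (h : 13 ≤ p) : ∃ l : (ZMod p)ˣ, 4 ≤ orderOf (l ^ 3) := by
  obtain ⟨l, hl⟩ := exists_gen (p := p)
  refine ⟨l, ?_⟩
  rw [hl]
  rcases (Nat.Prime.eq_one_or_self_of_dvd Nat.prime_three _ (Nat.gcd_dvd_right (p - 1) 3)) with h1 | h1
  · rw [h1]
    omega
  · rw [h1]
    have h2 : 3 ∣ p - 1 := h1 ▸ Nat.gcd_dvd_left (p - 1) 3
    omega

end Cfsg.Agent.Lib.Fusion.Extra3
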