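import Mathlib

/-! Chains of subgroups `P, σP, σ²P, …` whose consecutive intersections have prime index:
the commutator formula and the vanishing of short-range commutators. -/

set_option autoImplicit false

namespace Cfsg.Agent.Lib.Fusion.GChain

variable {G : Type*} [Group G] [Finite G]

theorem card_rel {H K : Subgroup G} (h : H ≤ K) : Nat.card H * H.relIndex K = Nat.card K := by
  have h1 := Subgroup.card_mul_index (H.subgroupOf K)
  have h2 : Nat.card (H.subgroupOf K) = Nat.card H :=
    Nat.card_congr (Subgroup.subgroupOfEquivOfLe h).toEquiv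
  rw [h2] at h1
  exact h1

theorem eq_of_between {p : ℕ} (hp : p.Prime) {X D Y : Subgroup G} (hXD : X ≤ D) (hDY : D ≤ Y)
    (hc : Nat.card Y = p * Nat.card X) (hne : D ≠ X) : D = Y := by
  obtain ⟨u, hu⟩ := Subgroup.card_dvd_of_le hXD
  obtain ⟨v, hv⟩ := Subgroup.card_dvd_of_le hDY
  have hpos : 0 < Nat.card X := Nat.card_pos
  have h1 : p = u * v := by
    have : Nat.card X * p = Nat.card X * (u * v) := by
      rw [mul_comm, ← hc, hv, hu]; ring
    exact Nat.eq_of_mul_eq_mul_left hpos this
  have hu1 : u ∣ p := ⟨v, h1⟩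
  rcases hp.eq_one_or_self_of_dvd u hu1 with h2 | h2
  · exfalso
    apply hne
    symm
    apply Subgroup.eq_of_le_of_card_ge hXD
    rw [hu, h2, mul_one]
  · have hv1 : v = 1 := by
      have : p * 1 = p * v := by rw [mul_one]; nth_rewrite 1 [h1]; rw [h2]
      exact (Nat.eq_of_mul_eq_mul_left hp.pos this).symm
    apply Subgroup.eq_of_le_of_card_ge hDY
    rw [hv, hv1, mul_one]

theorem le_normalizer_of_index {p : ℕ} (hp : p.Prime) {X Y : Subgroup G} (hXY : X ≤ Y) {k : ℕ}
    (hY : Nat.card Y = p ^ (k + 1)) (hX : Nat.card X = p ^ k) :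
    Y ≤ Subgroup.normalizer (X : Set G) := by
  rw [← Subgroup.normal_subgroupOf_iff_le_normalizer hXY]
  apply Subgroup.normal_of_index_eq_minFac_card
  have h1 := card_rel hXY
  rw [hX, hY, pow_succ] at h1
  have h2 : X.relIndex Y = p := Nat.eq_of_mul_eq_mul_left (pow_pos hp.pos k) h1
  have h3 : (X.subgroupOf Y).index = p := h2
  rw [h3, hY, Nat.Prime.pow_minFac hp (by omega)]

theorem normalizes_of_index {p : ℕ} (hp : p.Prime) {X Y : Subgroup G} (hXY : X ≤ Y) {k : ℕ}
    (hY : Nat.card Y = p ^ (k + 1)) (hX : Nat.card X = p ^ k) {y x : G} (hy : y ∈ Y) (hx : x ∈ X) :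
    y * x * y⁻¹ ∈ X :=
  (Subgroup.mem_normalizer_iff.1 (le_normalizer_of_index hp hXY hY hX hy) x).1 hx

theorem card_inf_of_ne {p : ℕ} (hp : p.Prime) {X X' Y : Subgroup G} (hX : X ≤ Y) (hX' : X' ≤ Y) {k : ℕ}
    (hY : Nat.card Y = p ^ (k + 2)) (hcX : Nat.card X = p ^ (k + 1)) (hcX' : Nat.card X' = p ^ (k + 1))
    (hne : X ≠ X') : Nat.card (X ⊓ X' : Subgroup G) = p ^ k := by
  have hd : Nat.card (X ⊓ X' : Subgroup G) ∣ p ^ (k + 1) := by
    rw [← hcX]; exact Subgroup.card_dvd_of_le inf_le_left
  obtain ⟨j, hj, hjc⟩ := (Nat.dvd_prime_pow hp).1 hd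
  have hjne : j ≠ k + 1 := by
    intro e
    apply hne
    have h1 : X ⊓ X' = X := by
      apply Subgroup.eq_of_le_of_card_ge inf_le_left
      rw [hjc, e, hcX]
    have h2 : X ≤ X' := by rw [← h1]; exact inf_le_right
    apply Subgroup.eq_of_le_of_card_ge h2
    rw [hcX, hcX']
  have h1 : (X ⊓ X').relIndex X = X'.relIndex X := Subgroup.inf_relIndex_left _ _
  have hc' : X'.relIndex Y = p := by
    have h2 := card_rel hX'
    rw [hcX', hY, show k + 2 = (k + 1) + 1 by ring, pow_succ p (k + 1)] at h2
    exact Nat.eq_of_mul_eq_mul_left (pow_pos hp.pos _) h2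
  have h2 : X'.relIndex X ≤ X'.relIndex Y :=
    Subgroup.relIndex_le_of_le_right hX (by rw [hc']; exact hp.ne_zero)
  have h3 := card_rel (inf_le_left : X ⊓ X' ≤ X)
  rw [h1, hcX, hjc] at h3
  rw [hc'] at h2
  have h4 : p ^ (k + 1) ≤ p ^ j * p := by
    rw [← h3]; exact Nat.mul_le_mul_left _ h2
  rw [← pow_succ] at h4
  have h5 : k + 1 ≤ j + 1 := (Nat.pow_le_pow_iff_right hp.one_lt).1 h4
  have h6 : j = k := by omega
  rw [hjc, h6]

/-- The structure of a chain: `T i n` plays the role of `⟨A_i, …, A_{i+n-1}⟩`. -/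
structure Chain (p t : ℕ) (T : ℤ → ℕ → Subgroup G) (σ : MulAut G) : Prop where
  zero : ∀ i, T i 0 = ⊥
  card : ∀ i n, n ≤ t → Nat.card (T i n) = p ^ n
  le_left : ∀ i n, n < t → T i n ≤ T i (n + 1)
  le_right : ∀ i n, n < t → T (i + 1) n ≤ T i (n + 1)
  inf : ∀ i n, n + 2 ≤ t → T i (n + 1) ⊓ T (i + 1) (n + 1) = T (i + 1) n
  shift : ∀ i n x, x ∈ T i n ↔ σ x ∈ T (i + 1) n

variable {p t : ℕ} {T : ℤ → ℕ → Subgroup G} {σ : MulAut G}

theorem Chain.mono_left (h : Chain p t T σ) (i : ℤ) (n k : ℕ) (hk : n + k ≤ t) : T i n ≤ T i (n + k) := by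
  induction k with
  | zero => simp
  | succ k ih => exact (ih (by omega)).trans (h.le_left i (n + k) (by omega))

theorem Chain.mono_right (h : Chain p t T σ) (n k : ℕ) :
    ∀ i j : ℤ, j = i + k → n + k ≤ t → T j n ≤ T i (n + k) := by
  induction k with
  | zero =>
    intro i j hj _
    have : j = i := by simpa using hj
    subst this
    simp
  | succ k ih =>
    intro i j hj hk
    have h1 := ih (i + 1) j (by push_cast at hj; omega) (by omega)
    exact h1.trans (h.le_right i (n + k) (by omega))

theorem Chain.comm_mem (h : Chain p t T σ) (hp : p.Prime) (i j : ℤ) (hj : j = i + 1) (n : ℕ) (hn : n + 2 ≤ t)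
    {a b : G} (ha : a ∈ T i (n + 1)) (hb : b ∈ T j (n + 1)) : b⁻¹ * a⁻¹ * b * a ∈ T j n := by
  subst hj
  have c1 := h.card i (n + 1) (by omega)
  have c2 := h.card i (n + 1 + 1) (by omega)
  have c3 := h.card (i + 1) (n + 1) (by omega)
  have ha2 := h.le_left i (n + 1) (by omega) ha
  have hb2 := h.le_right i (n + 1) (by omega) hb
  rw [← h.inf i n hn]
  constructor
  · have h1 := normalizes_of_index hp (h.le_left i (n + 1) (by omega)) c2 c1
      (inv_mem hb2) (inv_mem ha)
    have h3 : b⁻¹ * a⁻¹ * b * a = (b⁻¹ * a⁻¹ * b⁻¹⁻¹) * a := by group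
    rw [h3]
    exact Subgroup.mul_mem _ h1 ha
  · have h1 := normalizes_of_index hp (h.le_right i (n + 1) (by omega)) c2 c3
      (inv_mem ha2) hb
    have h3 : b⁻¹ * a⁻¹ * b * a = b⁻¹ * (a⁻¹ * b * a⁻¹⁻¹) := by group
    rw [h3]
    exact Subgroup.mul_mem _ (Subgroup.inv_mem _ hb) h1

theorem Chain.not_le_right (h : Chain p t T σ) (hp : p.Prime) :
    ∀ n (i : ℤ), n + 1 ≤ t → ¬ T i 1 ≤ T (i + 1) n := by
  intro n
  induction n with
  | zero =>
    intro i hn hle
    rw [h.zero, le_bot_iff] at hle
    have := h.card i 1 (by omega)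
    rw [hle, Nat.card_eq_fintype_card, Fintype.card_ofSubsingleton, pow_one] at this
    exact hp.one_lt.ne this
  | succ n ih =>
    intro i hn hle
    have h1 : T i 1 ≤ T i (n + 1) := by
      have := h.mono_left i 1 n (by omega)
      rwa [add_comm] at this
    have h2 : T i 1 ≤ T i (n + 1) ⊓ T (i + 1) (n + 1) := le_inf h1 hle
    rw [h.inf i n (by omega)] at h2
    exact ih i (by omega) h2

theorem Chain.card_step (h : Chain p t T σ) (i j : ℤ) (n : ℕ) (hn : n < t) :
    Nat.card (T i (n + 1)) = p * Nat.card (T j n) := by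
  rw [h.card i _ (by omega), h.card j _ (by omega), pow_succ, mul_comm]

theorem Chain.centr (h : Chain p t T σ) (hp : p.Prime) (z : G) :
    ∀ n (i : ℤ), n ≤ t → (∀ j : ℤ, i ≤ j → j < i + n → ∀ a ∈ T j 1, a * z = z * a) →
      ∀ v ∈ T i n, v * z = z * v := by
  intro n
  induction n with
  | zero =>
    intro i _ _ v hv
    rw [h.zero, Subgroup.mem_bot] at hv
    subst hv
    simp
  | succ n ih =>
    intro i hn hc v hv
    by_cases hn0 : n = 0
    · subst hn0
      exact hc i le_rfl (by simp) v hv
    have hR : T (i + 1) n ≤ Subgroup.centralizer {z} := by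
      intro w hw
      rw [Subgroup.mem_centralizer_singleton_iff]
      apply ih (i + 1) (by omega) _ w hw
      intro j h1 h2 a ha
      exact hc j (by omega) (by push_cast; omega) a ha
    have hL : T i 1 ≤ Subgroup.centralizer {z} := by
      intro w hw
      rw [Subgroup.mem_centralizer_singleton_iff]
      exact hc i le_rfl (by push_cast; omega) w hw
    have h1L : T i 1 ≤ T i (n + 1) := by
      have := h.mono_left i 1 n (by omega)
      rwa [add_comm] at this
    have hD : T i (n + 1) ⊓ Subgroup.centralizer {z} = T i (n + 1) := by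
      apply eq_of_between hp (X := T (i + 1) n) (le_inf (h.le_right i n (by omega)) hR) inf_le_left
        (h.card_step i (i + 1) n (by omega))
      intro e
      apply h.not_le_right hp n i (by omega)
      rw [← e]
      exact le_inf h1L hL
    have hv2 : v ∈ T i (n + 1) ⊓ Subgroup.centralizer {z} := by rw [hD]; exact hv
    exact (Subgroup.mem_centralizer_singleton_iff.1 hv2.2)

theorem Chain.comm_self (h : Chain p t T σ) (hp : p.Prime) (ht : 1 ≤ t) (i : ℤ) {a b : G} (ha : a ∈ T i 1)
    (hb : b ∈ T i 1) : a * b = b * a := by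
  haveI := Fact.mk hp
  have hc : Nat.card (T i 1) = p := by rw [h.card i 1 ht, pow_one]
  haveI : IsCyclic (T i 1) := isCyclic_of_prime_card hc
  have := (IsCyclic.commGroup (α := T i 1)).mul_comm ⟨a, ha⟩ ⟨b, hb⟩
  exact congrArg Subtype.val this

theorem Chain.shift_comm (h : Chain p t T σ) (m : ℤ)
    (c : ℤ) (hc : ∀ x ∈ T c 1, ∀ y ∈ T (c + m) 1, x * y = y * x) (e : ℤ) :
    ∀ x ∈ T e 1, ∀ y ∈ T (e + m) 1, x * y = y * x := by
  have up : ∀ c : ℤ, (∀ x ∈ T c 1, ∀ y ∈ T (c + m) 1, x * y = y * x) →
      (∀ x ∈ T (c + 1) 1, ∀ y ∈ T (c + 1 + m) 1, x * y = y * x) := by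
    intro c hc x hx y hy
    have hx' : σ.symm x ∈ T c 1 := by
      rw [h.shift]; simpa using hx
    have hy' : σ.symm y ∈ T (c + m) 1 := by
      rw [h.shift]
      have e1 : c + m + 1 = c + 1 + m := by ring
      rw [e1]; simpa using hy
    have := congrArg σ (hc _ hx' _ hy')
    simpa [map_mul] using this
  have down : ∀ c : ℤ, (∀ x ∈ T c 1, ∀ y ∈ T (c + m) 1, x * y = y * x) →
      (∀ x ∈ T (c - 1) 1, ∀ y ∈ T (c - 1 + m) 1, x * y = y * x) := by
    intro c hc x hx y hy
    have hx' : σ x ∈ T c 1 := by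
      have := (h.shift (c - 1) 1 x).1 hx
      rwa [sub_add_cancel] at this
    have hy' : σ y ∈ T (c + m) 1 := by
      have := (h.shift (c - 1 + m) 1 y).1 hy
      have e1 : c - 1 + m + 1 = c + m := by ring
      rwa [e1] at this
    exact σ.injective (by simpa [map_mul] using hc _ hx' _ hy')
  have upk : ∀ k : ℕ, ∀ c : ℤ, (∀ x ∈ T c 1, ∀ y ∈ T (c + m) 1, x * y = y * x) →
      (∀ x ∈ T (c + k) 1, ∀ y ∈ T (c + k + m) 1, x * y = y * x) := by
    intro k
    induction k with
    | zero => intro c hc; simpa using hc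
    | succ k ih =>
      intro c hc
      have := up _ (ih c hc)
      have e1 : c + (k + 1 : ℕ) = c + k + 1 := by push_cast; ring
      rwa [e1]
  have downk : ∀ k : ℕ, ∀ c : ℤ, (∀ x ∈ T c 1, ∀ y ∈ T (c + m) 1, x * y = y * x) →
      (∀ x ∈ T (c - k) 1, ∀ y ∈ T (c - k + m) 1, x * y = y * x) := by
    intro k
    induction k with
    | zero => intro c hc; simpa using hc
    | succ k ih =>
      intro c hc
      have := down _ (ih c hc)
      have e1 : c - (k + 1 : ℕ) = c - k - 1 := by push_cast; ring
      rwa [e1]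
  rcases le_total c e with hle | hle
  · obtain ⟨k, hk⟩ := Int.eq_ofNat_of_zero_le (sub_nonneg.2 hle)
    have := upk k c hc
    have e1 : c + (k : ℤ) = e := by omega
    rwa [e1] at this
  · obtain ⟨k, hk⟩ := Int.eq_ofNat_of_zero_le (sub_nonneg.2 hle)
    have := downk k c hc
    have e1 : c - (k : ℤ) = e := by omega
    rwa [e1] at this

/-- Short-range commutators vanish: members of the chain at distance `m` with `3 m < 2 t` commute. -/
theorem Chain.commute (h : Chain p t T σ) (hp : p.Prime) :
    ∀ m : ℕ, 3 * m < 2 * t → ∀ i j : ℤ, i - j ≤ m → j - i ≤ m → ∀ a ∈ T i 1, ∀ b ∈ T j 1, a * b = b * a := by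
  intro m
  induction m with
  | zero =>
    intro ht i j h1 h2 a ha b hb
    have : i = j := by push_cast at h1 h2; omega
    subst this
    exact h.comm_self hp (by omega) i ha hb
  | succ m ih =>
    intro hm i j h1 h2 a ha b hb
    have ih' := ih (by omega)
    by_cases hlt : i - j ≤ m ∧ j - i ≤ m
    · exact ih' i j hlt.1 hlt.2 a ha b hb
    have key : ∀ c : ℤ, ∀ x ∈ T c 1, ∀ y ∈ T (c + ((m + 1 : ℕ) : ℤ)) 1, x * y = y * x := by
      by_contra hcon
      have hno : ∀ e : ℤ, ¬ (∀ x ∈ T e 1, ∀ y ∈ T (e + ((m + 1 : ℕ) : ℤ)) 1, x * y = y * x) := by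
        intro e he
        exact hcon (fun c => h.shift_comm _ e he c)
      have h0 := hno 0
      simp only [not_forall] at h0
      obtain ⟨x, hx, y, hy, hxy⟩ := h0
      set M : ℕ := m + 1 with hM
      set w : G := y⁻¹ * x⁻¹ * y * x with hw
      have hw1 : w ≠ 1 := by
        intro e
        apply hxy
        have e2 : y⁻¹ * x⁻¹ * (y * x) = 1 := by rw [← e, hw]; group
        have e3 : y * x = x * y := by
          have := eq_inv_of_mul_eq_one_right e2
          simpa using this
        exact e3.symm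
      have hMt : M < t := by omega
      have hxT : x ∈ T 0 (m + 1) := by
        have := h.mono_left 0 1 m (by omega) hx
        rwa [add_comm] at this
      have hyT : y ∈ T 1 (m + 1) := by
        have := h.mono_right 1 m 1 (0 + ((M : ℕ) : ℤ)) (by push_cast [hM]; ring) (by omega) hy
        rwa [add_comm] at this
      have hwT : w ∈ T 1 m := h.comm_mem hp 0 1 (by norm_num) m (by omega) hxT hyT
      have hex : ∃ n : ℕ, ∃ e : ℕ, 1 ≤ e ∧ e + n ≤ M ∧ w ∈ T (e : ℤ) n :=
        ⟨m, 1, le_rfl, by omega, by simpa using hwT⟩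
      classical
      obtain ⟨e, he1, he2, hwe⟩ := Nat.find_spec hex
      have hmin := fun k (hk : k < Nat.find hex) => Nat.find_min hex hk
      generalize Nat.find hex = n₀ at he2 hwe hmin
      obtain ⟨s, rfl⟩ : ∃ s, n₀ = s + 1 := by
        rcases n₀ with _ | s
        · rw [h.zero, Subgroup.mem_bot] at hwe
          exact absurd hwe hw1
        · exact ⟨s, rfl⟩
      have hns := hmin s (by omega)
      push Not at hns
      have hw2 : w ∉ T (e : ℤ) s := fun hh => hns e he1 (by omega) hh
      have hw3 : w ∉ T ((e : ℤ) + 1) s := by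
        intro hh
        apply hns (e + 1) (by omega) (by omega)
        push_cast
        exact hh
      have hsT : s + 1 ≤ t := by omega
      -- first inequality
      have hE : t ≤ e + M := by
        by_contra hlt2
        push Not at hlt2
        apply hno (e : ℤ)
        intro a' ha' z hz
        have hzy : z * y = y * z :=
          ih' _ _ (by push_cast [hM] at *; omega) (by push_cast [hM] at *; omega) z hz y hy
        -- u
        have hxI : x⁻¹ ∈ T 0 (e + m + 1) := by
          have := h.mono_left 0 1 (e + m) (by omega) hx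
          rw [show 1 + (e + m) = e + m + 1 by ring] at this
          exact Subgroup.inv_mem _ this
        have hzT : z ∈ T 1 (e + m + 1) := by
          have := h.mono_right 1 (e + m) 1 ((e : ℤ) + ((M : ℕ) : ℤ)) (by push_cast [hM]; ring) (by omega) hz
          rwa [show 1 + (e + m) = e + m + 1 by ring] at this
        have hu := h.comm_mem hp 0 1 (by norm_num) (e + m) (by omega) hxI hzT
        rw [inv_inv] at hu
        have huy : (z⁻¹ * x * z * x⁻¹) * y = y * (z⁻¹ * x * z * x⁻¹) := by
          apply h.centr hp y (e + m) 1 (by omega) _ _ hu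
          intro j hj1 hj2 b hb
          apply ih' _ _ _ _ b hb y hy
          · push_cast [hM] at *; omega
          · push_cast [hM] at *; omega
        have h1c : (x * z * x⁻¹) * y = y * (x * z * x⁻¹) := by
          have e1 : x * z * x⁻¹ = z * (z⁻¹ * x * z * x⁻¹) := by group
          rw [e1, mul_assoc, huy, ← mul_assoc, hzy, mul_assoc]
        have hzq : z * (x⁻¹ * y * x) = (x⁻¹ * y * x) * z := by
          have e1 : z * (x⁻¹ * y * x) = x⁻¹ * ((x * z * x⁻¹) * y) * x := by group
          have e2 : (x⁻¹ * y * x) * z = x⁻¹ * (y * (x * z * x⁻¹)) * x := by group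
          rw [e1, e2, h1c]
        have hzw : w * z = z * w := by
          have e1 : w = y⁻¹ * (x⁻¹ * y * x) := by rw [hw]; group
          have e2 : z * y⁻¹ = y⁻¹ * z := by
            have : y⁻¹ * (z * y) * y⁻¹ = y⁻¹ * (y * z) * y⁻¹ := by rw [hzy]
            have e3 : y⁻¹ * (z * y) * y⁻¹ = y⁻¹ * z := by group
            have e4 : y⁻¹ * (y * z) * y⁻¹ = z * y⁻¹ := by group
            rw [e3, e4] at this
            exact this.symm
          rw [e1, mul_assoc, ← hzq, ← mul_assoc, ← e2, mul_assoc]
        have hR : T ((e : ℤ) + 1) s ≤ Subgroup.centralizer {z} := by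
          intro v hv
          rw [Subgroup.mem_centralizer_singleton_iff]
          apply h.centr hp z s _ (by omega) _ v hv
          intro j hj1 hj2 b hb
          apply ih' _ _ _ _ b hb z hz
          · push_cast [hM] at *; omega
          · push_cast [hM] at *; omega
        have hD : T (e : ℤ) (s + 1) ⊓ Subgroup.centralizer {z} = T (e : ℤ) (s + 1) := by
          apply eq_of_between hp (X := T ((e : ℤ) + 1) s) (le_inf (h.le_right _ s (by omega)) hR) inf_le_left
            (h.card_step _ _ s (by omega))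
          intro e'
          apply hw3
          rw [← e']
          exact ⟨hwe, Subgroup.mem_centralizer_singleton_iff.2 hzw⟩
        have ha'2 : a' ∈ T (e : ℤ) (s + 1) ⊓ Subgroup.centralizer {z} := by
          rw [hD]
          have := h.mono_left (e : ℤ) 1 s (by omega) ha'
          rwa [add_comm] at this
        exact (Subgroup.mem_centralizer_singleton_iff.1 ha'2.2)
      -- second inequality
      have hF : t ≤ (M - (e + s)) + M := by
        by_contra hlt2
        push Not at hlt2
        obtain ⟨r, hr⟩ : ∃ r, r = M - (e + s) := ⟨_, rfl⟩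
        rw [← hr] at hlt2
        have hre : r + (e + s) = M := by omega
        apply hno (((e + s : ℕ) : ℤ) - ((M : ℕ) : ℤ))
        intro z hz a' ha'
        have hzx : z * x = x * z :=
          ih' _ _ (by push_cast [hM] at *; omega) (by push_cast [hM] at *; omega) z hz x hx
        set c : ℤ := ((e + s : ℕ) : ℤ) - ((M : ℕ) : ℤ) with hc
        have hzI : z⁻¹ ∈ T c (r + m + 1) := by
          have := h.mono_left c 1 (r + m) (by omega) hz
          rw [show 1 + (r + m) = r + m + 1 by ring] at this
          exact Subgroup.inv_mem _ this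
        have hyI : y⁻¹ ∈ T (c + 1) (r + m + 1) := by
          have := h.mono_right 1 (r + m) (c + 1) (0 + ((M : ℕ) : ℤ))
            (by push_cast [hc, hM] at *; omega) (by omega) hy
          rw [show 1 + (r + m) = r + m + 1 by ring] at this
          exact Subgroup.inv_mem _ this
        have hv := h.comm_mem hp c (c + 1) rfl (r + m) (by omega) hzI hyI
        rw [inv_inv, inv_inv] at hv
        have hvx : (y * z * y⁻¹ * z⁻¹) * x = x * (y * z * y⁻¹ * z⁻¹) := by
          apply h.centr hp x (r + m) (c + 1) (by omega) _ _ hv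
          intro j hj1 hj2 b hb
          apply ih' _ _ _ _ b hb x hx
          · push_cast [hc, hM] at *; omega
          · push_cast [hc, hM] at *; omega
        have h2c : (y * z * y⁻¹) * x = x * (y * z * y⁻¹) := by
          have e1 : y * z * y⁻¹ = (y * z * y⁻¹ * z⁻¹) * z := by group
          rw [e1, mul_assoc, hzx, ← mul_assoc, hvx, mul_assoc]
        have h3c : (y * z * y⁻¹) * x⁻¹ = x⁻¹ * (y * z * y⁻¹) := by
          have e1 : (y * z * y⁻¹) * x⁻¹ = x⁻¹ * (x * (y * z * y⁻¹)) * x⁻¹ := by group
          rw [e1, ← h2c]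
          group
        have hzq : z * (y⁻¹ * x⁻¹ * y) = (y⁻¹ * x⁻¹ * y) * z := by
          have e1 : z * (y⁻¹ * x⁻¹ * y) = y⁻¹ * ((y * z * y⁻¹) * x⁻¹) * y := by group
          have e2 : (y⁻¹ * x⁻¹ * y) * z = y⁻¹ * (x⁻¹ * (y * z * y⁻¹)) * y := by group
          rw [e1, e2, h3c]
        have hzw : w * z = z * w := by
          have e1 : w = (y⁻¹ * x⁻¹ * y) * x := by rw [hw]
          rw [e1, mul_assoc, ← hzx, ← mul_assoc, ← hzq, mul_assoc]
        have hR : T (e : ℤ) s ≤ Subgroup.centralizer {z} := by
          intro v hv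
          rw [Subgroup.mem_centralizer_singleton_iff]
          apply h.centr hp z s _ (by omega) _ v hv
          intro j hj1 hj2 b hb
          apply ih' _ _ _ _ b hb z hz
          · push_cast [hc, hM] at *; omega
          · push_cast [hc, hM] at *; omega
        have hD : T (e : ℤ) (s + 1) ⊓ Subgroup.centralizer {z} = T (e : ℤ) (s + 1) := by
          apply eq_of_between hp (X := T (e : ℤ) s) (le_inf (h.le_left _ s (by omega)) hR) inf_le_left
            (h.card_step _ _ s (by omega))
          intro e'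
          apply hw2
          rw [← e']
          exact ⟨hwe, Subgroup.mem_centralizer_singleton_iff.2 hzw⟩
        have ha'2 : a' ∈ T (e : ℤ) (s + 1) ⊓ Subgroup.centralizer {z} := by
          rw [hD]
          have := h.mono_right 1 s (e : ℤ) (c + ((M : ℕ) : ℤ)) (by push_cast [hc, hM] at *; omega)
            (by omega) ha'
          rwa [add_comm] at this
        have := Subgroup.mem_centralizer_singleton_iff.1 ha'2.2
        exact this.symm
      omega
    by_cases hji : j = i + ((m + 1 : ℕ) : ℤ)
    · subst hji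
      exact key i a ha b hb
    · have hij : i = j + ((m + 1 : ℕ) : ℤ) := by
        push_cast at *; omega
      subst hij
      exact (key j b hb a ha).symm

end Cfsg.Agent.Lib.Fusion.GChain
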