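import Mathlib
import Cfsg.Agent.Lib.Fusion.GChain

/-! The windows `P_a ∩ … ∩ P_{a+ℓ}` of the sequence `P_i = σ^i P` and the chain they form. -/

set_option autoImplicit false

open Pointwise

namespace Cfsg.Agent.Lib.Fusion.GChain

variable {G : Type*} [Group G] [Finite G]

/-- The window `P_a ∩ … ∩ P_{a+ℓ}`. -/
def W (P : Subgroup G) (σ : MulAut G) : ℕ → ℤ → Subgroup G
  | 0, a => (σ ^ a) • P
  | ℓ + 1, a => W P σ ℓ a ⊓ W P σ ℓ (a + 1)

variable {P : Subgroup G} {σ : MulAut G}

theorem W_shift (ℓ : ℕ) (a b : ℤ) : W P σ ℓ (a + b) = (σ ^ b) • W P σ ℓ a := by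
  induction ℓ generalizing a with
  | zero =>
    simp only [W]
    rw [add_comm a b, zpow_add, mul_smul]
  | succ ℓ ih =>
    simp only [W]
    rw [Subgroup.smul_inf, ← ih a, ← ih (a + 1)]
    rw [show a + b + 1 = a + 1 + b by ring]

theorem card_W_shift (ℓ : ℕ) (a b : ℤ) : Nat.card (W P σ ℓ (a + b)) = Nat.card (W P σ ℓ a) := by
  rw [W_shift]
  exact Nat.card_congr (Subgroup.equivSMul _ _).toEquiv.symm

theorem W_mem_shift (ℓ : ℕ) (a : ℤ) (x : G) : x ∈ W P σ ℓ a ↔ σ x ∈ W P σ ℓ (a + 1) := by
  rw [W_shift ℓ a 1, zpow_one]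
  exact (Subgroup.smul_mem_pointwise_smul_iff (a := σ)).symm

theorem W_le_zero (ℓ : ℕ) (a : ℤ) : W P σ ℓ a ≤ W P σ 0 a := by
  induction ℓ with
  | zero => exact le_rfl
  | succ ℓ ih => exact inf_le_left.trans ih

theorem W_card {p t : ℕ} (hp : p.Prime) (hP : Nat.card P = p ^ t)
    (hinv : ∀ Q : Subgroup G, Q ≤ P → P ≤ Subgroup.normalizer (Q : Set G) → σ • Q = Q → Q = ⊥)
    (hbase : ∀ a, Nat.card (W P σ 1 a) * p = p ^ t) :
    ∀ ℓ, ℓ ≤ t → ∀ a, Nat.card (W P σ ℓ a) = p ^ (t - ℓ) := by
  intro ℓ
  induction ℓ using Nat.strong_induction_on with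
  | _ ℓ IH =>
    intro hℓ a
    rcases ℓ with _ | _ | ℓ
    · simp only [W, Nat.sub_zero]
      rw [← hP]
      exact Nat.card_congr (Subgroup.equivSMul _ _).toEquiv.symm
    · have h1 := hbase a
      obtain ⟨k, rfl⟩ : ∃ k, t = k + 1 := ⟨t - 1, by omega⟩
      rw [pow_succ] at h1
      have h2 := Nat.eq_of_mul_eq_mul_right hp.pos h1
      simpa using h2
    · obtain ⟨k, hk⟩ : ∃ k, t = ℓ + 2 + k := ⟨t - (ℓ + 2), by omega⟩
      have cW : ∀ b, Nat.card (W P σ ℓ b) = p ^ (k + 2) := fun b => by
        rw [IH ℓ (by omega) (by omega) b]; congr 1; omega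
      have cW1 : ∀ b, Nat.card (W P σ (ℓ + 1) b) = p ^ (k + 1) := fun b => by
        rw [IH (ℓ + 1) (by omega) (by omega) b]; congr 1; omega
      have hXle : W P σ (ℓ + 1) a ≤ W P σ ℓ (a + 1) := inf_le_right
      have hX'le : W P σ (ℓ + 1) (a + 1) ≤ W P σ ℓ (a + 1) := inf_le_left
      by_cases hXX : W P σ (ℓ + 1) a = W P σ (ℓ + 1) (a + 1)
      · exfalso
        set X := W P σ (ℓ + 1) a with hX
        have hs : σ • X = X := by
          have := W_shift (P := P) (σ := σ) (ℓ + 1) a 1
          rw [zpow_one, ← hX, ← hXX] at this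
          exact this.symm
        have hzs : ∀ k : ℤ, (σ ^ k) • X = X := fun k => by
          have hm : σ ∈ MulAction.stabilizer (MulAut G) X := hs
          exact (MulAction.stabilizer (MulAut G) X).zpow_mem hm k
        have hall : ∀ b, W P σ (ℓ + 1) b = X := fun b => by
          have := W_shift (P := P) (σ := σ) (ℓ + 1) a (b - a)
          rw [← hX, hzs, add_sub_cancel] at this
          exact this
        have hnorm : ∀ d, d ≤ ℓ → ∀ b, W P σ (ℓ - d) b ≤ Subgroup.normalizer (X : Set G) := by
          intro d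
          induction d with
          | zero =>
            intro _ b
            have hle : X ≤ W P σ ℓ b := by
              rw [← hall b]
              exact inf_le_left
            simpa using le_normalizer_of_index hp hle (cW b) (by rw [hX]; exact cW1 a)
          | succ d ihd =>
            intro hd b
            obtain ⟨k', hk'⟩ : ∃ k', ℓ - d = k' + 1 := ⟨ℓ - d - 1, by omega⟩
            have hk2 : ℓ - (d + 1) = k' := by omega
            rw [hk2]
            have h1 := ihd (by omega) b
            have h2 := ihd (by omega) (b - 1)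
            rw [hk'] at h1 h2
            have hle1 : W P σ (k' + 1) (b - 1) ≤ W P σ k' b := by
              have : W P σ (k' + 1) (b - 1) ≤ W P σ k' (b - 1 + 1) := inf_le_right
              rwa [sub_add_cancel] at this
            have hle2 : W P σ (k' + 1) b ≤ W P σ k' b := inf_le_left
            have hD : W P σ k' b ⊓ Subgroup.normalizer (X : Set G) = W P σ k' b := by
              apply eq_of_between hp (X := W P σ (k' + 1) b) (le_inf hle2 h1) inf_le_left
              · rw [IH k' (by omega) (by omega) b, IH (k' + 1) (by omega) (by omega) b]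
                rw [show t - k' = (t - (k' + 1)) + 1 by omega, pow_succ, mul_comm]
              · intro e
                have h3 : W P σ (k' + 1) (b - 1) ≤ W P σ (k' + 1) b := by
                  rw [← e]
                  exact le_inf hle1 h2
                have h4 : W P σ (k' + 2) (b - 1) = W P σ (k' + 1) (b - 1) := by
                  have : W P σ (k' + 2) (b - 1) = W P σ (k' + 1) (b - 1) ⊓ W P σ (k' + 1) (b - 1 + 1) := rfl
                  rw [this, sub_add_cancel]
                  exact inf_eq_left.2 h3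
                have h5 := IH (k' + 2) (by omega) (by omega) (b - 1)
                have h6 := IH (k' + 1) (by omega) (by omega) (b - 1)
                rw [h4, h6] at h5
                have h7 := Nat.pow_right_injective hp.two_le h5
                omega
            exact inf_eq_left.1 hD
        have hP1 : P ≤ Subgroup.normalizer (X : Set G) := by
          have := hnorm ℓ le_rfl 0
          simpa [W] using this
        have hXP : X ≤ P := by
          have := W_le_zero (P := P) (σ := σ) (ℓ + 1) 0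
          rw [hall 0] at this
          simpa [W] using this
        have hbot := hinv X hXP hP1 hs
        have hc := cW1 a
        rw [← hX, hbot, Nat.card_eq_fintype_card, Fintype.card_ofSubsingleton] at hc
        have h3 : 1 < p ^ (k + 1) := Nat.one_lt_pow (by omega) hp.one_lt
        omega
      · have h1 := card_inf_of_ne hp hXle hX'le (cW (a + 1)) (cW1 a) (cW1 (a + 1)) hXX
        have e : t - (ℓ + 1 + 1) = k := by omega
        rw [e]
        exact h1

/-- `T i n` is the window with `n` root-group like pieces. -/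
def Tz (P : Subgroup G) (σ : MulAut G) (t : ℕ) : ℤ → ℕ → Subgroup G
  | _, 0 => ⊥
  | i, n + 1 => W P σ (t - (n + 1)) (i + n)

theorem Tz_chain {p t : ℕ} (hcard : ∀ ℓ, ℓ ≤ t → ∀ a, Nat.card (W P σ ℓ a) = p ^ (t - ℓ)) :
    Chain p t (Tz P σ t) σ where
  zero _ := rfl
  card i n hn := by
    rcases n with _ | n
    · simp [Tz]
    · simp only [Tz]
      rw [hcard _ (by omega)]
      congr 1
      omega
  le_left i n hn := by
    rcases n with _ | n
    · exact bot_le
    · simp only [Tz]
      obtain ⟨ℓ, h1⟩ : ∃ ℓ, t - (n + 1) = ℓ + 1 := ⟨t - (n + 1) - 1, by omega⟩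
      have h2 : t - (n + 1 + 1) = ℓ := by omega
      rw [h1, h2]
      have : W P σ (ℓ + 1) (i + n) ≤ W P σ ℓ (i + n + 1) := inf_le_right
      rw [show i + ((n + 1 : ℕ) : ℤ) = i + n + 1 by push_cast; ring]
      exact this
  le_right i n hn := by
    rcases n with _ | n
    · exact bot_le
    · simp only [Tz]
      obtain ⟨ℓ, h1⟩ : ∃ ℓ, t - (n + 1) = ℓ + 1 := ⟨t - (n + 1) - 1, by omega⟩
      have h2 : t - (n + 1 + 1) = ℓ := by omega
      rw [h1, h2]
      have : W P σ (ℓ + 1) (i + 1 + n) ≤ W P σ ℓ (i + 1 + n) := inf_le_left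
      rw [show i + ((n + 1 : ℕ) : ℤ) = i + 1 + n by push_cast; ring]
      exact this
  inf i n hn := by
    rcases n with _ | n
    · simp only [Tz]
      obtain ⟨ℓ, h1⟩ : ∃ ℓ, t = ℓ + 1 := ⟨t - 1, by omega⟩
      have h2 : t - (0 + 1) = ℓ := by omega
      rw [h2]
      have e1 : W P σ ℓ (i + ((0 : ℕ) : ℤ)) ⊓ W P σ ℓ (i + 1 + ((0 : ℕ) : ℤ)) = W P σ (ℓ + 1) i := by
        have : W P σ (ℓ + 1) i = W P σ ℓ i ⊓ W P σ ℓ (i + 1) := rfl
        rw [this]
        simp
      rw [e1]
      have hc := hcard (ℓ + 1) (by omega) i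
      rw [show t - (ℓ + 1) = 0 by omega, pow_zero] at hc
      exact (Subgroup.eq_bot_of_card_eq _ hc)
    · simp only [Tz]
      obtain ⟨ℓ, h2⟩ : ∃ ℓ, t - (n + 1 + 1) = ℓ := ⟨_, rfl⟩
      have h1 : t - (n + 1) = ℓ + 1 := by omega
      rw [h1, h2]
      have : W P σ (ℓ + 1) (i + 1 + n) = W P σ ℓ (i + 1 + n) ⊓ W P σ ℓ (i + 1 + n + 1) := rfl
      rw [this]
      rw [show i + ((n + 1 : ℕ) : ℤ) = i + 1 + n by push_cast; ring,
        show i + 1 + ((n + 1 : ℕ) : ℤ) = i + 1 + n + 1 by push_cast; ring]
  shift i n x := by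
    rcases n with _ | n
    · simp [Tz]
    · simp only [Tz]
      rw [W_mem_shift]
      rw [show i + (n : ℤ) + 1 = i + 1 + n by ring]

end Cfsg.Agent.Lib.Fusion.GChain
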