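import Mathlib
import Cfsg.Agent.Lib.Fusion.GChainW

/-! `P` with `P ∩ g⁻¹Pg` of prime index: `P` is a `p`-group of bounded order. -/

set_option autoImplicit false

open Pointwise

namespace Cfsg.Agent.Lib.Fusion.GChain

variable {G : Type*} [Group G] [Finite G]

theorem mem_of_coprime_of_pow_mem {Q : Subgroup G} {x : G} {p : ℕ} (hx : x ^ p ∈ Q)
    (hco : (orderOf x).Coprime p) : x ∈ Q := by
  obtain ⟨a, b, hab⟩ := Nat.isCoprime_iff_coprime.2 hco
  have e : x = (x ^ p) ^ b := by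
    have h1 : x ^ ((a * (orderOf x : ℤ) + b * (p : ℤ))) = x := by rw [hab, zpow_one]
    rw [zpow_add, mul_comm a, zpow_mul, zpow_natCast, pow_orderOf_eq_one, one_zpow, one_mul, mul_comm b,
      zpow_mul, zpow_natCast] at h1
    exact h1.symm
  rw [e]
  exact Q.zpow_mem hx b

theorem exists_card_pow (P : Subgroup G) (g : G) (p : ℕ) (hp : p.Prime)
    (hN : ((P ⊓ MulAut.conj g⁻¹ • P).subgroupOf (MulAut.conj g⁻¹ • P)).Normal)
    (hidx : (P ⊓ MulAut.conj g⁻¹ • P).relIndex (MulAut.conj g⁻¹ • P) = p)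
    (h1 : ∀ Q : Subgroup G, Q ≤ P → (Q.subgroupOf P).Normal → MulAut.conj g • Q = Q → Q = ⊥) :
    ∃ t : ℕ, Nat.card P = p ^ t := by
  classical
  set σ : MulAut G := MulAut.conj g⁻¹ with hσ
  have hstep : ∀ x ∈ σ • P, (orderOf x).Coprime p → x ∈ P := by
    intro x hx hco
    haveI := hN
    have h2 := Subgroup.pow_index_mem ((P ⊓ σ • P).subgroupOf (σ • P)) (⟨x, hx⟩ : ↥(σ • P))
    have h3 : ((P ⊓ σ • P).subgroupOf (σ • P)).index = p := hidx
    rw [h3, Subgroup.mem_subgroupOf] at h2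
    have h4 : x ^ p ∈ P := by simpa using h2.1
    exact mem_of_coprime_of_pow_mem h4 hco
  set E : Set G := {x | x ∈ P ∧ (orderOf x).Coprime p} with hE
  set N : Subgroup G := Subgroup.closure E with hNdef
  have hNP : N ≤ P := (Subgroup.closure_le _).2 (fun x hx => hx.1)
  have hσE : ∀ x ∈ E, σ x ∈ E := by
    intro x hx
    have ho : orderOf (σ x) = orderOf x := MulEquiv.orderOf_eq σ x
    refine ⟨hstep _ ?_ (by rw [ho]; exact hx.2), by rw [ho]; exact hx.2⟩
    exact Subgroup.smul_mem_pointwise_smul x σ P hx.1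
  have hmap : ∀ x ∈ N, σ x ∈ N := by
    intro x hx
    induction hx using Subgroup.closure_induction with
    | mem x hx => exact Subgroup.subset_closure (hσE x hx)
    | one => simp
    | mul x y _ _ ihx ihy => rw [map_mul]; exact N.mul_mem ihx ihy
    | inv x _ ih => rw [map_inv]; exact N.inv_mem ih
  have hsN : σ • N = N := by
    apply Subgroup.eq_of_le_of_card_ge
    · intro y hy
      obtain ⟨x, hx, rfl⟩ := (Subgroup.mem_smul_pointwise_iff_exists y σ N).1 hy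
      exact hmap x hx
    · exact le_of_eq (Nat.card_congr (Subgroup.equivSMul σ N).toEquiv)
  have hconj : ∀ y ∈ P, ∀ x ∈ N, y * x * y⁻¹ ∈ N := by
    intro y hy x hx
    induction hx using Subgroup.closure_induction with
    | mem x hx =>
      apply Subgroup.subset_closure
      refine ⟨P.mul_mem (P.mul_mem hy hx.1) (P.inv_mem hy), ?_⟩
      have ho : orderOf (y * x * y⁻¹) = orderOf x := by
        have := MulEquiv.orderOf_eq (MulAut.conj y) x
        rwa [MulAut.conj_apply] at this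
      rw [ho]; exact hx.2
    | one => simp
    | mul a b _ _ iha ihb =>
      have e : y * (a * b) * y⁻¹ = (y * a * y⁻¹) * (y * b * y⁻¹) := by group
      rw [e]; exact N.mul_mem iha ihb
    | inv a _ ih =>
      have e : y * a⁻¹ * y⁻¹ = (y * a * y⁻¹)⁻¹ := by group
      rw [e]; exact N.inv_mem ih
  have hnorm : (N.subgroupOf P).Normal := by
    refine ⟨fun n hn y => ?_⟩
    rw [Subgroup.mem_subgroupOf] at hn ⊢
    simpa using hconj y y.2 n hn
  have hgσ : MulAut.conj g = σ⁻¹ := by rw [hσ, map_inv, inv_inv]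
  have hbot : N = ⊥ := h1 N hNP hnorm (by rw [hgσ]; exact inv_smul_eq_iff.2 hsN.symm)
  have hE1 : ∀ x ∈ P, (orderOf x).Coprime p → x = 1 := by
    intro x hx hco
    have h2 : x ∈ N := Subgroup.subset_closure ⟨hx, hco⟩
    rwa [hbot, Subgroup.mem_bot] at h2
  haveI := Fact.mk hp
  have hpg : IsPGroup p P := by
    intro y
    have hy : (y : G) ∈ P := y.2
    obtain ⟨e, m, hm, hom⟩ := Nat.exists_eq_pow_mul_and_not_dvd (n := orderOf (y : G))
      (orderOf_pos _).ne' p hp.ne_one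
    refine ⟨e, ?_⟩
    apply Subtype.ext
    push_cast
    apply hE1 _ (P.pow_mem hy _)
    have hd : orderOf ((y : G) ^ (p ^ e)) ∣ m :=
      orderOf_dvd_of_pow_eq_one (by rw [← pow_mul, ← hom, pow_orderOf_eq_one])
    have hcm : Nat.Coprime m p := ((Nat.Prime.coprime_iff_not_dvd hp).2 hm).symm
    exact hcm.coprime_dvd_left hd
  exact IsPGroup.iff_card.1 hpg

theorem Tz_top (P : Subgroup G) (σ : MulAut G) (k : ℕ) (i j : ℤ) (hj : j = i - ((k + 1 : ℕ) : ℤ) + 1) :
    Tz P σ (k + 1) j (k + 1) = W P σ 0 i := by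
  simp only [Tz]
  rw [Nat.sub_self]
  congr 1
  subst hj
  push_cast
  ring

theorem order_bound (P : Subgroup G) (g : G) (p : ℕ) (hp : p.Prime)
    (hN : ((P ⊓ MulAut.conj g⁻¹ • P).subgroupOf (MulAut.conj g⁻¹ • P)).Normal)
    (hidx : (P ⊓ MulAut.conj g⁻¹ • P).relIndex (MulAut.conj g⁻¹ • P) = p)
    (n : ℕ) (hn : 1 ≤ n) (K : Subgroup G) (hK : K = ⨆ i ∈ Finset.range (n + 1), MulAut.conj (g ^ i)⁻¹ • P)
    (h1 : ∀ Q : Subgroup G, Q ≤ P → (Q.subgroupOf P).Normal → MulAut.conj g • Q = Q → Q = ⊥)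
    (h2 : P ⊓ (Subgroup.center K).map K.subtype = ⊥) :
    ∃ t : ℕ, Nat.card P = p ^ t ∧ 1 ≤ t ∧ t ≤ 3 * n ∧ t ≠ 3 * n - 1 := by
  obtain ⟨t, ht⟩ := exists_card_pow P g p hp hN hidx h1
  set σ : MulAut G := MulAut.conj g⁻¹ with hσ
  have hcσ : Nat.card (σ • P : Subgroup G) = p ^ t := by
    rw [← ht]
    exact Nat.card_congr (Subgroup.equivSMul σ P).toEquiv.symm
  have hb0 : Nat.card (P ⊓ σ • P : Subgroup G) * p = p ^ t := by
    have := card_rel (inf_le_right : P ⊓ σ • P ≤ σ • P)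
    rw [hidx, hcσ] at this
    exact this
  have ht1 : 1 ≤ t := by
    by_contra hh
    have h0 : t = 0 := by omega
    rw [h0, pow_zero] at hb0
    have h3 : p ∣ 1 := ⟨_, by rw [mul_comm]; exact hb0.symm⟩
    exact hp.one_lt.ne (Nat.dvd_one.1 h3).symm
  have hW10 : W P σ 1 0 = P ⊓ σ • P := by
    simp [W]
  have hbase : ∀ a, Nat.card (W P σ 1 a) * p = p ^ t := by
    intro a
    have := card_W_shift (P := P) (σ := σ) 1 0 a
    rw [zero_add] at this
    rw [this, hW10]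
    exact hb0
  have hgσ : MulAut.conj g = σ⁻¹ := by rw [hσ, map_inv, inv_inv]
  have hinv : ∀ Q : Subgroup G, Q ≤ P → P ≤ Subgroup.normalizer (Q : Set G) → σ • Q = Q → Q = ⊥ := by
    intro Q hQ hN' hs
    apply h1 Q hQ ((Subgroup.normal_subgroupOf_iff_le_normalizer hQ).2 hN')
    rw [hgσ]
    exact inv_smul_eq_iff.2 hs.symm
  have hcard := W_card hp ht hinv hbase
  have hC : Chain p t (Tz P σ t) σ := Tz_chain hcard
  refine ⟨t, ht, ht1, ?_⟩
  by_contra hcon
  have hcase : 3 * n < t ∨ t = 3 * n - 1 := by omega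
  obtain ⟨u, hu⟩ : ∃ u, u = t / 3 := ⟨_, rfl⟩
  obtain ⟨c, hc⟩ : ∃ c : ℤ, c = -(u : ℤ) := ⟨_, rfl⟩
  have hcard1 : Nat.card (Tz P σ t c 1) = p := by rw [hC.card c 1 ht1, pow_one]
  have hne : Tz P σ t c 1 ≠ ⊥ := by
    intro e
    rw [e, Nat.card_eq_fintype_card, Fintype.card_ofSubsingleton] at hcard1
    exact hp.one_lt.ne hcard1
  obtain ⟨z, hz, hz1⟩ := (Subgroup.bot_or_exists_ne_one (Tz P σ t c 1)).resolve_left hne
  obtain ⟨k, hk⟩ : ∃ k, t = k + 1 := ⟨t - 1, by omega⟩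
  have hTop : ∀ i j : ℤ, j = i - (t : ℤ) + 1 → Tz P σ t j t = W P σ 0 i := by
    intro i j hj
    subst hk
    exact Tz_top P σ k i j hj
  have hzP : z ∈ P := by
    have h3 := hC.mono_left c 1 u (by omega) hz
    have h4 := hC.mono_right (1 + u) (t - 1 - u) (1 - (t : ℤ)) c
      (by push_cast [Nat.cast_sub (show u ≤ t - 1 by omega), Nat.cast_sub (show 1 ≤ t by omega)]; omega)
      (by omega) h3
    rw [show 1 + u + (t - 1 - u) = t by omega, hTop 0 (1 - (t : ℤ)) (by ring)] at h4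
    simpa [W] using h4
  obtain ⟨m, hm1, hm2, hm3⟩ : ∃ m, n + u ≤ m ∧ t - 1 - u ≤ m ∧ 3 * m < 2 * t := by
    rcases le_total (n + u) (t - 1 - u) with h | h
    · exact ⟨t - 1 - u, h, le_rfl, by omega⟩
    · exact ⟨n + u, le_rfl, h, by omega⟩
  have hzc : ∀ i : ℕ, i ≤ n → ∀ y ∈ W P σ 0 (i : ℤ), y * z = z * y := by
    intro i hi y hy
    rw [← hTop (i : ℤ) ((i : ℤ) - (t : ℤ) + 1) rfl] at hy
    apply hC.centr hp z t _ le_rfl _ y hy
    intro j hj1 hj2 a ha
    apply hC.commute hp m hm3 j c _ _ a ha z hz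
    · omega
    · omega
  have hgen : ∀ i : ℕ, MulAut.conj (g ^ i)⁻¹ • P = W P σ 0 (i : ℤ) := by
    intro i
    simp only [W]
    rw [zpow_natCast, hσ, ← map_pow, inv_pow]
  have hzK : z ∈ K := by
    rw [hK]
    have h3 : MulAut.conj (g ^ 0)⁻¹ • P ≤ ⨆ i ∈ Finset.range (n + 1), MulAut.conj (g ^ i)⁻¹ • P :=
      le_iSup₂_of_le 0 (by simp) le_rfl
    apply h3
    rw [hgen 0]
    simpa [W] using hzP
  have hcent : K ≤ Subgroup.centralizer {z} := by
    rw [hK]
    refine iSup₂_le (fun i hi => ?_)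
    rw [hgen i]
    intro y hy
    rw [Subgroup.mem_centralizer_singleton_iff]
    exact hzc i (by simpa [Nat.lt_succ_iff] using hi) y hy
  have hzcenter : z ∈ (Subgroup.center K).map K.subtype := by
    refine ⟨⟨z, hzK⟩, ?_, rfl⟩
    rw [SetLike.mem_coe, Subgroup.mem_center_iff]
    intro y
    apply Subtype.ext
    exact Subgroup.mem_centralizer_singleton_iff.1 (hcent y.2)
  have h3 : z ∈ P ⊓ (Subgroup.center K).map K.subtype := ⟨hzP, hzcenter⟩
  rw [h2, Subgroup.mem_bot] at h3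
  exact hz1 h3

end Cfsg.Agent.Lib.Fusion.GChain
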