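import Cfsg.Agent.Lib.Fusion.GlaubTwo
import Mathlib

/-! # Glauberman's weak closure theorem at the prime `2`: the induction -/

set_option autoImplicit false

namespace Cfsg.Agent.Lib.Fusion

open Cfsg Cfsg.FusionSystem
open Cfsg.Agent.Lib.FrobThm (AA JJ EA EA.sup EA.mono EA_zpowers le_JJ JJ_le card_sup_mul_inf JJ_conj JJ_map card_map_of_injOn exists_mem_AA le_normalizer_of_commute mem_normalizer_of_forall_conj_mem)
open Cfsg.Agent.Lib.Techniques (SylowIn conjS mem_conjS conj_mem_conjS conjS_mul conjS_mono conjS_inv_conjS card_conjS mem_normalizer_iff_conjS exists_sylowIn_ge isPGroup_conjS lt_inf_normalizer)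

universe u

section Exp

variable {G : Type*} [Group G]

theorem AA_exp_congr {T : Subgroup G} {e e' : ℕ} (h : ∀ t ∈ T, t ^ e = 1) (h' : ∀ t ∈ T, t ^ e' = 1) : AA e T = AA e' T := by
  ext A
  constructor
  · rintro ⟨h1, h2, h3⟩
    exact ⟨h1, ⟨h2.1, fun a ha => h' a (h1 ha)⟩, fun B hB hBe => h3 B hB ⟨hBe.1, fun a ha => h a (hB ha)⟩⟩
  · rintro ⟨h1, h2, h3⟩
    exact ⟨h1, ⟨h2.1, fun a ha => h a (h1 ha)⟩, fun B hB hBe => h3 B hB ⟨hBe.1, fun a ha => h' a (hB ha)⟩⟩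

theorem JJ_exp_congr {T : Subgroup G} {e e' : ℕ} (h : ∀ t ∈ T, t ^ e = 1) (h' : ∀ t ∈ T, t ^ e' = 1) : JJ e T = JJ e' T := by
  unfold JJ
  rw [AA_exp_congr h h']

theorem mem_normalizer_JJ_of_normalizer {e : ℕ} {T : Subgroup G} {g : G} (hg : g ∈ Subgroup.normalizer (T : Set G)) :
    g ∈ Subgroup.normalizer (JJ e T : Set G) := by
  rw [mem_normalizer_iff_conjS] at hg ⊢
  rw [JJ_conj, hg]

end Exp

/-- The induction hypothesis. -/
def GlaubIH (n : ℕ) : Prop :=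
  ∀ (K : Type u) [Group K] [Finite K], Nat.card K < n → ¬ Involves (Equiv.Perm (Fin 4)) K → ∀ P : Sylow 2 K,
    Subgroup.centralizer ((pCore 2 K : Subgroup K) : Set K) ≤ pCore 2 K →
    ∀ x ∈ (P : Subgroup K), (∀ t ∈ (P : Subgroup K), t * x = x * t) →
      (∀ g ∈ Subgroup.normalizer (JJ (Nat.card K) (P : Subgroup K) : Set K), g * x * g⁻¹ = x) → ∀ g : K, g * x * g⁻¹ = x

section D

variable {G : Type u} [Group G] [Finite G]

/-- Centralizer condition in subgroups containing `O₂(G)`. -/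
theorem centralizer_pCore_le_of_le {p : ℕ} [Fact p.Prime] (hC : Subgroup.centralizer ((pCore p G : Subgroup G) : Set G) ≤ pCore p G) {K : Subgroup G}
    (hDK : pCore p G ≤ K) : Subgroup.centralizer ((pCore p K : Subgroup K) : Set K) ≤ pCore p K := by
  have hOn : (pCore p G).Normal := Lib.Core.pCore_normal p G
  intro y hy
  have hO' : (pCore p G).subgroupOf K ≤ pCore p K := by
    haveI : ((pCore p G).subgroupOf K).Normal := Subgroup.normal_subgroupOf
    refine Lib.Core.le_pCore ‹_› ?_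
    exact (Lib.Core.pCore_isPGroup p G).comap_of_injective K.subtype K.subtype_injective |>.to_le (by
      intro w hw
      exact hw)
  refine hO' (Subgroup.mem_subgroupOf.2 (hC (Subgroup.mem_centralizer_iff.2 fun w hw => ?_)))
  have := Subgroup.mem_centralizer_iff.1 hy ⟨w, hDK hw⟩ (hO' (Subgroup.mem_subgroupOf.2 hw))
  exact congrArg Subtype.val this

/-- **Lemma D.** -/
theorem glaub_lemmaD (hIH : GlaubIH.{u} (Nat.card G)) (hinv : ¬ Involves (Equiv.Perm (Fin 4)) G) (P : Sylow 2 G)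
    (hC : Subgroup.centralizer ((pCore 2 G : Subgroup G) : Set G) ≤ pCore 2 G) {x : G} (hxP : x ∈ (P : Subgroup G))
    (hxc : ∀ t ∈ (P : Subgroup G), t * x = x * t)
    (hN : ∀ g ∈ Subgroup.normalizer (JJ (Nat.card G) (P : Subgroup G) : Set G), g * x * g⁻¹ = x) :
    ∀ R : Subgroup G, R ≤ (P : Subgroup G) → pCore 2 G ≤ R → ∀ E ∈ AA (Nat.card G) (P : Subgroup G), E ≤ R → ¬ E ≤ pCore 2 G →
      ∀ r ∈ Subgroup.normalizer (R : Set G), r * x * r⁻¹ = x := by
  classical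
  set D := pCore 2 G with hD
  have hDn : D.Normal := Lib.Core.pCore_normal 2 G
  have hDP : D ≤ (P : Subgroup G) := Lib.Core.pCore_le_sylow P
  have hDtop : ∀ g : G, g ∈ Subgroup.normalizer (D : Set G) := fun g => by
    rw [Subgroup.normalizer_eq_top_iff.2 hDn]
    trivial
  set e := Nat.card G with he
  set M := Subgroup.centralizer ({x} : Set G) with hM
  have hmemM : ∀ {g : G}, g ∈ M ↔ g * x = x * g := by
    intro g
    rw [hM, Subgroup.mem_centralizer_iff]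
    constructor
    · intro h
      exact (h x rfl).symm
    · intro h y hy
      rw [Set.mem_singleton_iff.1 hy]
      exact h.symm
  have hfix : ∀ {g : G}, g * x * g⁻¹ = x ↔ g ∈ M := by
    intro g
    rw [hmemM]
    constructor
    · intro h
      calc g * x = (g * x * g⁻¹) * g := by group
        _ = x * g := by rw [h]
    · intro h
      rw [h]
      group
  have hPM : (P : Subgroup G) ≤ M := fun t ht => hmemM.2 (hxc t ht)
  have hSylM := sylowIn_of_le P hPM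
  by_contra hcon
  push_neg at hcon
  obtain ⟨R₀, h1, h2, E₀, h3, h4, h5, r₀, h6, h7⟩ := hcon
  let DD : Set (Subgroup G) := {R | R ≤ (P : Subgroup G) ∧ D ≤ R ∧ (∃ E ∈ AA e (P : Subgroup G), E ≤ R ∧ ¬ E ≤ D) ∧
    ∃ r ∈ Subgroup.normalizer (R : Set G), r * x * r⁻¹ ≠ x}
  obtain ⟨R, ⟨hRP, hDR, ⟨E, hE, hER, hED⟩, r, hr, hrx⟩, hmax⟩ := exists_max_of_bdd (C := DD)
    ⟨R₀, h1, h2, ⟨E₀, h3, h4, h5⟩, r₀, h6, h7⟩ (fun R => Nat.card ((P : Subgroup G) ⊓ Subgroup.normalizer (R : Set G) : Subgroup G)) (Nat.card G)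
    (fun _ _ => Subgroup.card_le_card_group _)
  obtain ⟨R₂, hR₂⟩ : ∃ R₂, R₂ = (P : Subgroup G) ⊓ Subgroup.normalizer (R : Set G) := ⟨_, rfl⟩
  have hmax' : ∀ R' ∈ DD, Nat.card ((P : Subgroup G) ⊓ Subgroup.normalizer (R' : Set G) : Subgroup G) ≤ Nat.card R₂ := by
    intro R' hR'
    rw [hR₂]
    exact hmax R' hR'
  have hR₂P : R₂ ≤ (P : Subgroup G) := hR₂ ▸ inf_le_left
  have hR₂N : R₂ ≤ Subgroup.normalizer (R : Set G) := hR₂ ▸ inf_le_right
  have hRR₂ : R ≤ R₂ := hR₂ ▸ le_inf hRP Subgroup.le_normalizer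
  have hR₂p : IsPGroup 2 R₂ := P.isPGroup'.to_le hR₂P
  -- Step 1
  have hR₂Syl : SylowIn 2 R₂ (Subgroup.normalizer (R : Set G) ⊓ M) := by
    have hle : R₂ ≤ Subgroup.normalizer (R : Set G) ⊓ M := le_inf hR₂N (hR₂P.trans hPM)
    obtain ⟨S₁, hS₁, hS₁s⟩ := exists_sylowIn_ge hle hR₂p
    obtain ⟨m, hmM, hmS⟩ := hSylM.exists_conj_le (hS₁s.1.trans inf_le_right) hS₁s.2.1
    have hnconj : ∀ s ∈ Subgroup.normalizer (R : Set G), m * s * m⁻¹ ∈ Subgroup.normalizer ((conjS m R : Subgroup G) : Set G) := by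
      intro s hs
      rw [mem_normalizer_iff_conjS, ← conjS_mul, show m * s * m⁻¹ * m = m * s by group, conjS_mul, mem_normalizer_iff_conjS.1 hs]
    have hmfix : m * x * m⁻¹ = x := hfix.2 hmM
    have hR'DD : conjS m R ∈ DD := by
      have hR'P : conjS m R ≤ (P : Subgroup G) := (conjS_mono m (hRR₂.trans hS₁)).trans hmS
      refine ⟨hR'P, fun d hd => mem_conjS.2 (hDR ?_), ⟨conjS m E, AA_conj_of_le hE m ((conjS_mono m hER).trans hR'P), conjS_mono m hER, ?_⟩,
        m * r * m⁻¹, hnconj r hr, ?_⟩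
      · simpa using hDn.conj_mem d hd m⁻¹
      · intro hle'
        apply hED
        intro a ha
        have h1 := hle' (conj_mem_conjS (g := m) ha)
        simpa [mul_assoc] using hDn.conj_mem _ h1 m⁻¹
      · intro hc
        apply hrx
        have h1 : m⁻¹ * x * m = x := by
          calc m⁻¹ * x * m = m⁻¹ * (m * x * m⁻¹) * m := by rw [hmfix]
            _ = x := by group
        calc r * x * r⁻¹ = r * (m⁻¹ * x * m) * r⁻¹ := by rw [h1]
          _ = m⁻¹ * ((m * r * m⁻¹) * x * (m * r * m⁻¹)⁻¹) * m := by group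
          _ = m⁻¹ * x * m := by rw [hc]
          _ = x := h1
    have hcard : Nat.card S₁ ≤ Nat.card R₂ := by
      refine le_trans ?_ (hmax' _ hR'DD)
      rw [← card_conjS m S₁]
      refine Subgroup.card_le_of_le (le_inf hmS ?_)
      rintro _ ⟨s, hs, rfl⟩
      exact hnconj s (hS₁s.1 hs).1
    have heq : R₂ = S₁ := Subgroup.eq_of_le_of_card_ge hS₁ hcard
    rwa [heq]
  -- Step 2
  obtain ⟨T₀, hT₀, hT₀s⟩ := exists_sylowIn_ge hR₂N hR₂p
  have hxR : x ∈ Subgroup.normalizer (R : Set G) := by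
    refine mem_normalizer_of_forall_conj_mem fun y hy => ?_
    have h1 := hxc y (hRP hy)
    have h2 : x * y * x⁻¹ = y := by
      rw [← h1]
      group
    rwa [h2]
  have hxR₂ : x ∈ R₂ := hR₂ ▸ ⟨hxP, hxR⟩
  have hT₀M : T₀ ≤ M := by
    by_contra hn
    have hinfT : T₀ ⊓ M = R₂ := hR₂Syl.eq_of_le (le_inf hT₀ (hR₂P.trans hPM)) (inf_le_inf_right M hT₀s.1) (hT₀s.2.1.to_le inf_le_left)
    have hlt : R₂ < T₀ := lt_of_le_of_ne hT₀ (fun h => hn (by
      rw [← h]
      exact hR₂P.trans hPM))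
    have hlt2 := lt_inf_normalizer hT₀s.2.1 hlt
    obtain ⟨r', ⟨hr'T, hr'N⟩, hr'n⟩ := SetLike.exists_of_lt hlt2
    have hr'x : r' * x * r'⁻¹ ≠ x := fun h => hr'n (by
      rw [← hinfT]
      exact ⟨hr'T, hfix.1 h⟩)
    have hR₂DD : R₂ ∈ DD := ⟨hR₂P, hDR.trans hRR₂, ⟨E, hE, hER.trans hRR₂, hED⟩, r', hr'N, hr'x⟩
    have hm2 := hmax' R₂ hR₂DD
    by_cases hR₂eq : R₂ = (P : Subgroup G)
    · rw [hR₂eq] at hr'N
      exact hr'x (hN r' (mem_normalizer_JJ_of_normalizer hr'N))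
    · have hlt3 := lt_inf_normalizer P.isPGroup' (lt_of_le_of_ne hR₂P hR₂eq)
      have := card_lt_of_lt (S := (⊤ : Subgroup G)) le_top hlt3
      omega
  have hT₀eq : T₀ = R₂ := hR₂Syl.eq_of_le hT₀ (le_inf hT₀s.1 hT₀M) hT₀s.2.1
  have hSylK : SylowIn 2 R₂ (Subgroup.normalizer (R : Set G)) := hT₀eq ▸ hT₀s
  -- Step 3
  obtain ⟨K, hK⟩ : ∃ K, K = Subgroup.normalizer (R : Set G) := ⟨_, rfl⟩
  rw [← hK] at hSylK hR₂N hxR hr
  have hKtop : K ≠ ⊤ := by
    intro h
    rw [hK] at h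
    have hRn : R.Normal := Subgroup.normalizer_eq_top_iff.1 h
    exact hED (hER.trans (Lib.Core.le_pCore hRn (P.isPGroup'.to_le hRP)))
  have hKcard : Nat.card K < Nat.card G := by
    refine lt_of_le_of_ne (Subgroup.card_le_card_group K) fun h => hKtop (Subgroup.eq_top_of_card_eq K h)
  have hDK : D ≤ K := hDR.trans (hK ▸ Subgroup.le_normalizer)
  let P' : Sylow 2 K := hSylK.toSylow
  have hP'v : (P' : Subgroup K) = R₂.subgroupOf K := rfl
  have hCK := centralizer_pCore_le_of_le hC hDK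
  have hx'P : (⟨x, hxR⟩ : K) ∈ (P' : Subgroup K) := by
    rw [hP'v]
    exact Subgroup.mem_subgroupOf.2 hxR₂
  have hx'c : ∀ t ∈ (P' : Subgroup K), t * (⟨x, hxR⟩ : K) = ⟨x, hxR⟩ * t := by
    intro t ht
    rw [hP'v] at ht
    exact Subtype.ext (hxc _ (hR₂P (Subgroup.mem_subgroupOf.1 ht)))
  have hex : ∃ g ∈ Subgroup.normalizer (JJ (Nat.card K) (P' : Subgroup K) : Set K), g * (⟨x, hxR⟩ : K) * g⁻¹ ≠ ⟨x, hxR⟩ := by
    by_contra hc
    push_neg at hc
    have h1 := hIH K hKcard (Cfsg.Agent.Lib.FrobThm.Rel.not_involves_subgroup hinv K) P' hCK _ hx'P hx'c hc ⟨r, hr⟩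
    exact hrx (congrArg Subtype.val h1)
  obtain ⟨r₂, hr₂N, hr₂x⟩ := hex
  have hr₂x' : (r₂ : G) * x * (r₂ : G)⁻¹ ≠ x := fun h => hr₂x (Subtype.ext h)
  obtain ⟨J, hJ⟩ : ∃ J, J = JJ e R₂ := ⟨_, rfl⟩
  have hJmap : (JJ (Nat.card K) (P' : Subgroup K)).map K.subtype = J := by
    rw [← JJ_map K.subtype (K.subtype_injective.injOn), hP'v, Subgroup.subgroupOf_map_subtype, inf_eq_left.2 hSylK.1, hJ]
    refine JJ_exp_congr (fun t ht => ?_) (fun t _ => pow_card_eq_one')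
    have h1 : (⟨t, hSylK.1 ht⟩ : K) ^ Nat.card K = 1 := pow_card_eq_one'
    exact congrArg Subtype.val h1
  have hr₂J : (r₂ : G) ∈ Subgroup.normalizer (J : Set G) := by
    refine mem_normalizer_of_forall_conj_mem fun j hj => ?_
    rw [← hJmap] at hj ⊢
    obtain ⟨k, hk, rfl⟩ := hj
    exact ⟨r₂ * k * r₂⁻¹, (Subgroup.mem_normalizer_iff.1 hr₂N k).1 hk, rfl⟩
  -- Step 4
  have hJR₂ : J ≤ R₂ := hJ ▸ JJ_le
  have hUN : ∀ g ∈ Subgroup.normalizer (J : Set G), g ∈ Subgroup.normalizer ((J ⊔ D : Subgroup G) : Set G) := by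
    intro g hg
    rw [mem_normalizer_iff_conjS] at hg ⊢
    rw [conjS, Subgroup.map_sup]
    rw [show J.map (MulAut.conj g).toMonoidHom = J from hg, show D.map (MulAut.conj g).toMonoidHom = D from mem_normalizer_iff_conjS.1 (hDtop g)]
  have hEJ : E ≤ J := by
    rw [hJ]
    exact le_JJ ⟨hER.trans hRR₂, hE.2.1, fun B hB hBe => hE.2.2 B (hB.trans hR₂P) hBe⟩
  have hUDD : J ⊔ D ∈ DD := ⟨sup_le (hJR₂.trans hR₂P) hDP, le_sup_right, ⟨E, hE, hEJ.trans le_sup_left, hED⟩, r₂, hUN _ hr₂J, hr₂x'⟩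
  have hm2 := hmax' _ hUDD
  by_cases hR₂eq : R₂ = (P : Subgroup G)
  · rw [hJ, hR₂eq] at hr₂J
    exact hr₂x' (hN _ hr₂J)
  · have hlt3 := lt_inf_normalizer P.isPGroup' (lt_of_le_of_ne hR₂P hR₂eq)
    have h1 := card_lt_of_lt (S := (⊤ : Subgroup G)) le_top hlt3
    have h2 : (P : Subgroup G) ⊓ Subgroup.normalizer (R₂ : Set G) ≤ (P : Subgroup G) ⊓ Subgroup.normalizer ((J ⊔ D : Subgroup G) : Set G) := by
      refine le_inf inf_le_left fun t ht => hUN t ?_
      rw [hJ]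
      exact mem_normalizer_JJ_of_normalizer ht.2
    have h3 := Subgroup.card_le_of_le h2
    omega

/-- **The induction step.** -/
theorem glaub_two_step (hIH : GlaubIH.{u} (Nat.card G)) (hinv : ¬ Involves (Equiv.Perm (Fin 4)) G) (P : Sylow 2 G)
    (hC : Subgroup.centralizer ((pCore 2 G : Subgroup G) : Set G) ≤ pCore 2 G) {x : G} (hxP : x ∈ (P : Subgroup G))
    (hxc : ∀ t ∈ (P : Subgroup G), t * x = x * t)
    (hN : ∀ g ∈ Subgroup.normalizer (JJ (Nat.card G) (P : Subgroup G) : Set G), g * x * g⁻¹ = x) (g : G) : g * x * g⁻¹ = x := by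
  classical
  refine central_of_local P hC hxP hxc hN (fun A hA l a ha hne => ?_) g
  by_contra hcon
  push_neg at hcon
  have hlemmaD := glaub_lemmaD hIH hinv P hC hxP hxc hN
  set D := pCore 2 G with hD
  have hDn : D.Normal := Lib.Core.pCore_normal 2 G
  have hDP : D ≤ (P : Subgroup G) := Lib.Core.pCore_le_sylow P
  have hDtop : ∀ g : G, g ∈ Subgroup.normalizer (D : Set G) := fun g => by
    rw [Subgroup.normalizer_eq_top_iff.2 hDn]
    trivial
  have hxD : x ∈ D := hC (Subgroup.mem_centralizer_iff.2 fun y hy => hxc y (hDP hy))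
  set M := Subgroup.centralizer ({x} : Set G) with hM
  have hmemM : ∀ {g : G}, g ∈ M ↔ g * x = x * g := by
    intro g
    rw [hM, Subgroup.mem_centralizer_iff]
    constructor
    · intro h
      exact (h x rfl).symm
    · intro h y hy
      rw [Set.mem_singleton_iff.1 hy]
      exact h.symm
  have hPM : (P : Subgroup G) ≤ M := fun t ht => hmemM.2 (hxc t ht)
  have hSylM := sylowIn_of_le P hPM
  have hAP : A ≤ (P : Subgroup G) := hA.1
  have hAc : ∀ b ∈ A, ∀ c ∈ A, b * c = c * b := hA.2.1.1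
  obtain ⟨y, hyd⟩ : ∃ y, y = l * x * l⁻¹ := ⟨_, rfl⟩
  rw [← hyd] at hcon hne
  -- the stabilizer
  obtain ⟨B, hBd⟩ : ∃ B, B = A ⊓ Subgroup.centralizer ({y} : Set G) := ⟨_, rfl⟩
  have hBmem : ∀ {b : G}, b ∈ B ↔ b ∈ A ∧ b * y * b⁻¹ = y := by
    intro b
    rw [hBd, Subgroup.mem_inf, Subgroup.mem_centralizer_iff]
    constructor
    · rintro ⟨h1, h2⟩
      refine ⟨h1, ?_⟩
      rw [← h2 y rfl]
      group
    · rintro ⟨h1, h2⟩
      refine ⟨h1, fun z hz => ?_⟩
      rw [Set.mem_singleton_iff.1 hz]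
      calc y * b = (b * y * b⁻¹) * b := by rw [h2]
        _ = b * y := by group
  have hBA : B ≤ A := hBd ▸ inf_le_left
  have haa : (a * a) * y * (a * a)⁻¹ = y := by
    by_contra hn
    have h1 := hcon (a * a) (A.mul_mem ha ha) hn
    apply hne
    have h2 : a * (a * y * a⁻¹) * a⁻¹ = a * y * a⁻¹ := by
      calc a * (a * y * a⁻¹) * a⁻¹ = (a * a) * y * (a * a)⁻¹ := by group
        _ = a * y * a⁻¹ := h1
    have h3 : a⁻¹ * (a * (a * y * a⁻¹) * a⁻¹) * a = a⁻¹ * (a * y * a⁻¹) * a := by rw [h2]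
    calc a * y * a⁻¹ = a⁻¹ * (a * (a * y * a⁻¹) * a⁻¹) * a := by group
      _ = a⁻¹ * (a * y * a⁻¹) * a := h3
      _ = y := by group
  have hcardAB : Nat.card A ≤ 2 * Nat.card B := by
    set H : Subgroup A := B.subgroupOf A with hH
    have hHmem : ∀ b : A, b ∈ H ↔ (b : G) * y * (b : G)⁻¹ = y := by
      intro b
      rw [hH, Subgroup.mem_subgroupOf, hBmem]
      exact ⟨fun h => h.2, fun h => ⟨b.2, h⟩⟩
    have hidx : H.index = 2 := by
      rw [Subgroup.index_eq_two_iff]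
      refine ⟨⟨a, ha⟩, fun b => ?_⟩
      have hcomm : (b : G) * a = a * b := hAc _ b.2 _ ha
      have hv : (b : G) * a * y * ((b : G) * a)⁻¹ = a * ((b : G) * y * (b : G)⁻¹) * a⁻¹ := by
        rw [hcomm]
        group
      by_cases hb : (b : G) * y * (b : G)⁻¹ = y
      · right
        refine ⟨(hHmem _).2 hb, fun h => hne ?_⟩
        have h1 := (hHmem _).1 h
        have h2 : (b : G) * a * y * ((b : G) * a)⁻¹ = y := h1
        rw [hv, hb] at h2
        exact h2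
      · left
        refine ⟨?_, fun h => hb ((hHmem _).1 h)⟩
        refine (hHmem _).2 ?_
        show (b : G) * a * y * ((b : G) * a)⁻¹ = y
        rw [hv, hcon _ b.2 hb]
        calc a * (a * y * a⁻¹) * a⁻¹ = (a * a) * y * (a * a)⁻¹ := by group
          _ = y := haa
    have hmul := Subgroup.card_mul_index H
    have hc : Nat.card H = Nat.card B := Nat.card_congr (Subgroup.subgroupOfEquivOfLe hBA).toEquiv
    rw [hidx, hc] at hmul
    omega
  -- conjugating into `P`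
  have hBp : IsPGroup 2 B := P.isPGroup'.to_le (hBA.trans hAP)
  have hQM : conjS l⁻¹ B ≤ M := by
    rintro _ ⟨b, hb, rfl⟩
    refine hmemM.2 ?_
    have h1 := (hBmem.1 hb).2
    rw [hyd] at h1
    show l⁻¹ * b * l⁻¹⁻¹ * x = x * (l⁻¹ * b * l⁻¹⁻¹)
    have h2 : b * (l * x * l⁻¹) = (l * x * l⁻¹) * b := by
      calc b * (l * x * l⁻¹) = (b * (l * x * l⁻¹) * b⁻¹) * b := by group
        _ = (l * x * l⁻¹) * b := by rw [h1]
    calc l⁻¹ * b * l⁻¹⁻¹ * x = l⁻¹ * (b * (l * x * l⁻¹)) * l := by group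
      _ = l⁻¹ * ((l * x * l⁻¹) * b) * l := by rw [h2]
      _ = x * (l⁻¹ * b * l⁻¹⁻¹) := by group
  obtain ⟨m, hmM, hmle⟩ := hSylM.exists_conj_le hQM (isPGroup_conjS _ hBp)
  obtain ⟨c, hcd⟩ : ∃ c, c = m * l⁻¹ := ⟨_, rfl⟩
  have hB''eq : conjS c B = conjS m (conjS l⁻¹ B) := by rw [hcd, conjS_mul]
  rw [← hB''eq] at hmle
  obtain ⟨B'', hB''⟩ : ∃ B'', B'' = conjS c B := ⟨_, rfl⟩
  rw [← hB''] at hmle
  have hcy : c * y * c⁻¹ = x := by
    rw [hcd, hyd]
    have h1 := hmemM.1 hmM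
    calc m * l⁻¹ * (l * x * l⁻¹) * (m * l⁻¹)⁻¹ = (m * x) * m⁻¹ := by group
      _ = (x * m) * m⁻¹ := by rw [h1]
      _ = x := by group
  obtain ⟨t, htd⟩ : ∃ t, t = c * a * c⁻¹ := ⟨_, rfl⟩
  have htx : t * x * t⁻¹ ≠ x := by
    intro h
    apply hne
    have h1 : c * (a * y * a⁻¹) * c⁻¹ = x := by
      rw [htd] at h
      rw [← hcy] at h
      calc c * (a * y * a⁻¹) * c⁻¹ = c * a * c⁻¹ * (c * y * c⁻¹) * (c * a * c⁻¹)⁻¹ := by group
        _ = c * y * c⁻¹ := h
        _ = x := hcy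
    calc a * y * a⁻¹ = c⁻¹ * (c * (a * y * a⁻¹) * c⁻¹) * c := by group
      _ = c⁻¹ * x * c := by rw [h1]
      _ = c⁻¹ * (c * y * c⁻¹) * c := by rw [hcy]
      _ = y := by group
  have htB : ∀ b ∈ B'', t * b = b * t := by
    intro b hb
    rw [hB''] at hb
    obtain ⟨b₀, hb₀, rfl⟩ := hb
    have h1 := hAc a ha b₀ (hBA hb₀)
    rw [htd]
    show c * a * c⁻¹ * (c * b₀ * c⁻¹) = (c * b₀ * c⁻¹) * (c * a * c⁻¹)
    calc c * a * c⁻¹ * (c * b₀ * c⁻¹) = c * (a * b₀) * c⁻¹ := by group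
      _ = c * (b₀ * a) * c⁻¹ := by rw [h1]
      _ = _ := by group
  have hxB'' : x ∉ B'' := by
    intro h
    apply htx
    rw [htB x h]
    group
  -- the new abelian subgroup
  have hB''E : EA (Nat.card G) B'' := by
    rw [hB'']
    exact (hA.2.1.mono hBA).map _
  obtain ⟨Ap, hApd⟩ : ∃ Ap, Ap = B'' ⊔ Subgroup.zpowers x := ⟨_, rfl⟩
  have hAp : Ap ∈ AA (Nat.card G) (P : Subgroup G) := by
    have hle : Ap ≤ (P : Subgroup G) := hApd ▸ sup_le hmle (Subgroup.zpowers_le.2 hxP)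
    have hE : EA (Nat.card G) Ap := by
      rw [hApd]
      refine hB''E.sup (EA_zpowers pow_card_eq_one') fun b hb z hz => ?_
      obtain ⟨k, rfl⟩ := Subgroup.mem_zpowers_iff.1 hz
      have h1 : Commute b x := hxc b (hmle hb)
      exact (h1.zpow_right k).eq
    have hcardAp : 2 * Nat.card B'' ≤ Nat.card Ap := by
      have hle2 : B'' ≤ Ap := hApd ▸ le_sup_left
      obtain ⟨k, hk⟩ := Subgroup.card_dvd_of_le hle2
      have hk0 : k ≠ 0 := by
        rintro rfl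
        have : 0 < Nat.card Ap := Nat.card_pos
        omega
      have hk1 : k ≠ 1 := by
        rintro rfl
        rw [mul_one] at hk
        have h2 : B'' = Ap := Subgroup.eq_of_le_of_card_ge hle2 hk.le
        apply hxB''
        rw [h2, hApd]
        exact (le_sup_right : Subgroup.zpowers x ≤ _) (Subgroup.mem_zpowers x)
      have hk2 : 2 ≤ k := by omega
      rw [hk, mul_comm]
      exact Nat.mul_le_mul_left _ hk2
    have hcardB'' : Nat.card B'' = Nat.card B := by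
      rw [hB'']
      exact card_conjS c B
    refine ⟨hle, hE, fun C hC hCE => ?_⟩
    have h1 := hA.2.2 C hC hCE
    omega
  -- Lemma `D`
  have hBD : B ≤ D := by
    obtain ⟨R₁, hR₁⟩ : ∃ R₁, R₁ = B'' ⊔ D := ⟨_, rfl⟩
    have hR₁P : R₁ ≤ (P : Subgroup G) := hR₁ ▸ sup_le hmle hDP
    have hDR₁ : D ≤ R₁ := hR₁ ▸ le_sup_right
    have hApR₁ : Ap ≤ R₁ := by
      rw [hApd, hR₁]
      exact sup_le_sup_left (Subgroup.zpowers_le.2 hxD) _
    have htN : t ∈ Subgroup.normalizer (R₁ : Set G) := by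
      rw [mem_normalizer_iff_conjS, hR₁, conjS, Subgroup.map_sup]
      have h1 : B''.map (MulAut.conj t).toMonoidHom = B'' := by
        have h2 : t ∈ Subgroup.normalizer (B'' : Set G) := mem_normalizer_of_forall_conj_mem fun b hb => by
          have h3 : t * b * t⁻¹ = b := by
            rw [htB b hb]
            group
          rwa [h3]
        exact mem_normalizer_iff_conjS.1 h2
      rw [h1, show D.map (MulAut.conj t).toMonoidHom = D from mem_normalizer_iff_conjS.1 (hDtop t)]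
    have hApD : Ap ≤ D := by
      by_contra hn
      exact htx (hlemmaD R₁ hR₁P hDR₁ Ap hAp hApR₁ hn t htN)
    have hB''D : B'' ≤ D := (hApd ▸ le_sup_left : B'' ≤ Ap).trans hApD
    intro b hb
    have h1 : c * b * c⁻¹ ∈ B'' := by
      rw [hB'']
      exact conj_mem_conjS hb
    have h2 := hDn.conj_mem _ (hB''D h1) c⁻¹
    simpa [mul_assoc] using h2
  -- the normal closure
  obtain ⟨V, hV⟩ : ∃ V : Subgroup G, V = D ⊓ Subgroup.centralizer (D : Set G) := ⟨_, rfl⟩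
  have hVn : V.Normal := by
    rw [hV]
    refine ⟨fun v hv g => ⟨hDn.conj_mem v hv.1 g, Subgroup.mem_centralizer_iff.2 fun y hy => ?_⟩⟩
    have h1 := Subgroup.mem_centralizer_iff.1 hv.2 _ (hDn.conj_mem y hy g⁻¹)
    have h2 : g⁻¹ * y * g⁻¹⁻¹ * v = v * (g⁻¹ * y * g⁻¹⁻¹) := h1
    calc y * (g * v * g⁻¹) = g * (g⁻¹ * y * g⁻¹⁻¹ * v) * g⁻¹ := by group
      _ = g * (v * (g⁻¹ * y * g⁻¹⁻¹)) * g⁻¹ := by rw [h2]
      _ = g * v * g⁻¹ * y := by group
  have hxV : x ∈ V := by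
    rw [hV]
    exact ⟨hxD, Subgroup.mem_centralizer_iff.2 fun y hy => hxc y (hDP hy)⟩
  obtain ⟨W, hWd⟩ : ∃ W, W = Subgroup.normalClosure ({x} : Set G) := ⟨_, rfl⟩
  haveI hWn : W.Normal := hWd ▸ Subgroup.normalClosure_normal
  have hWV : W ≤ V := by
    rw [hWd]
    exact Subgroup.normalClosure_le_normal (by
      rintro _ rfl
      exact hxV)
  have hWD : ∀ w ∈ W, w ∈ D ∧ ∀ d ∈ D, d * w = w * d := by
    intro w hw
    have h1 := hWV hw
    rw [hV] at h1
    exact ⟨h1.1, fun d hd => Subgroup.mem_centralizer_iff.1 h1.2 d hd⟩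
  have hWc : ∀ a ∈ W, ∀ b ∈ W, a * b = b * a := fun a ha b hb => (hWD b hb).2 a (hWD a ha).1
  have hxW : x ∈ W := hWd ▸ Subgroup.subset_normalClosure rfl
  have hyW : y ∈ W := hyd ▸ hWn.conj_mem x hxW l
  have hWE : EA (Nat.card G) W := ⟨hWc, fun _ _ => pow_card_eq_one'⟩
  have hBE : EA (Nat.card G) B := hA.2.1.mono hBA
  have hBWcard : Nat.card (B ⊔ W : Subgroup G) ≤ Nat.card A := by
    refine hA.2.2 _ (sup_le (hBA.trans hAP) ?_) (hBE.sup hWE fun b hb w hw => (hWD w hw).2 b (hBD hb))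
    exact fun w hw => hDP (hWD w hw).1
  have hidx : Nat.card W ≤ 2 * Nat.card (W ⊓ Subgroup.centralizer ({a} : Set G) : Subgroup G) := by
    have hBN : B ≤ Subgroup.normalizer (W : Set G) := by
      rw [Subgroup.normalizer_eq_top_iff.2 hWn]
      exact le_top
    have h1 := card_sup_mul_inf hBN
    have h2 : W ⊓ B ≤ W ⊓ Subgroup.centralizer ({a} : Set G) := by
      refine inf_le_inf_left W fun b hb => Subgroup.mem_centralizer_iff.2 fun z hz => ?_
      rw [Set.mem_singleton_iff.1 hz]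
      exact hAc a ha b (hBA hb)
    have h3 := Subgroup.card_le_of_le h2
    have hBpos : 0 < Nat.card B := Nat.card_pos
    have h4 : Nat.card B * Nat.card W ≤ Nat.card B * (2 * Nat.card (W ⊓ B : Subgroup G)) := by
      calc Nat.card B * Nat.card W = Nat.card (B ⊔ W : Subgroup G) * Nat.card (W ⊓ B : Subgroup G) := h1.symm
        _ ≤ (2 * Nat.card B) * Nat.card (W ⊓ B : Subgroup G) := Nat.mul_le_mul_right _ (hBWcard.trans hcardAB)
        _ = Nat.card B * (2 * Nat.card (W ⊓ B : Subgroup G)) := by ring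
    have h5 := Nat.le_of_mul_le_mul_left h4 hBpos
    omega
  obtain ⟨hu, hu1, huu, hau, hf⟩ := two_valued_of_index hWc hyW hne hidx
  have haW : a ∉ Subgroup.centralizer (W : Set G) := by
    intro hc
    apply hne
    have h1 := Subgroup.mem_centralizer_iff.1 hc y hyW
    rw [← h1]
    group
  have haP : a ∈ (P : Subgroup G) := hAP ha
  have haW' := haW
  rw [hWd] at haW'
  obtain ⟨g', τ, q, i, hτ, hq, hq2, hτq, hτW⟩ := exists_odd_of_not_central P hxc haP haW'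
  obtain ⟨j, hj⟩ := P.isPGroup' ⟨a, haP⟩
  have hj' : a ^ 2 ^ j = 1 := congrArg Subtype.val hj
  rw [← hWd] at hτW
  exact hinv (involves_of_two_valued hWc hu hu1 huu hau hf hj' hτ hq hq2 hτq hτW)

end D

theorem glaubIH_all : ∀ n : ℕ, GlaubIH.{u} n := by
  intro n
  induction n with
  | zero =>
    intro K _ _ hn
    omega
  | succ n ih =>
    intro K _ _ hn
    by_cases h : Nat.card K < n
    · exact ih K h
    · have hn' : Nat.card K = n := by omega
      intro hinv P hC x hxP hxc hN g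
      exact glaub_two_step (hn' ▸ ih) hinv P hC hxP hxc hN g

/-- **Glauberman's local theorem at the prime `2`.** -/
theorem glaub_two_central {G : Type u} [Group G] [Finite G] (hinv : ¬ Involves (Equiv.Perm (Fin 4)) G) (P : Sylow 2 G)
    (hC : Subgroup.centralizer ((pCore 2 G : Subgroup G) : Set G) ≤ pCore 2 G) {x : G} (hxP : x ∈ (P : Subgroup G))
    (hxc : ∀ t ∈ (P : Subgroup G), t * x = x * t)
    (hN : ∀ g ∈ Subgroup.normalizer (JJ (Nat.card G) (P : Subgroup G) : Set G), g * x * g⁻¹ = x) (g : G) : g * x * g⁻¹ = x :=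
  glaubIH_all (Nat.card G + 1) G (Nat.lt_succ_self _) hinv P hC x hxP hxc hN g

end Cfsg.Agent.Lib.Fusion
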