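import Cfsg.Agent.Lib.Fusion.GlaubInd
import Cfsg.Agent.Lib.Fusion.ChainFree
import Mathlib

/-! # Glauberman's theorem for fusion systems -/

set_option autoImplicit false

namespace Cfsg.Agent.Lib.Fusion

open Cfsg Cfsg.FusionSystem

universe u

/-- The local condition at the prime `2`, relative to `S₄`. -/
theorem localCondFree_thompson_two : LocalCondFree 2 1 thompsonSubgroupA.{u} (Equiv.Perm (Fin 4)) := by
  intro L _ _ hinv P hCL z hz hzc hg
  by_contra hcon
  push_neg at hcon
  obtain ⟨g, hg⟩ := hg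
  simp only [pow_one] at hcon hg
  rw [thompsonA_funW_eq] at hcon
  exact hg (glaub_two_central hinv P hCL hz hzc hcon g)

section

variable {Ω : Type u} [Group Ω] {S : Subgroup Ω} [Finite S] {p : ℕ} [Fact p.Prime]

theorem powAdm_one_of_center {F : FusionSystem S} (hS : IsPGroup p S)
    {N : FusionSystem (normalizerIn S (funW thompsonSubgroupA.{u} S))} {w : Ω} (hw : w ∈ N.center) : PowAdm 1 S w := by
  have hfinN : Finite (normalizerIn S (funW thompsonSubgroupA.{u} S)) := finite_of_le (normalizerIn_le _)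
  have hNc : N.IsCentral N.center := isCentral_center
  have hNS := normalizerIn_funW (W := thompsonSubgroupA.{u}) hS thompsonSubgroupA_inv
  have hwS : w ∈ S := normalizerIn_le _ (hNc.1 hw)
  refine ⟨w, hwS, fun t ht => ?_, pow_one w⟩
  have h1 := IsCentral.commute hNc hw (g := t) (by rw [show normalizerIn S (funW thompsonSubgroupA.{u} S) = S from hNS]; exact ht)
  calc t * w = (t * w * t⁻¹) * t := by group
    _ = w * t := by rw [h1]

/-- `Z(N_F(J(S))) = Z(F)` for odd primes. -/
theorem center_eq_of_odd {F : FusionSystem S} (hS : IsPGroup p S) (hF : F.IsSaturated p) (hp : p ≠ 2)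
    {N : FusionSystem (normalizerIn S (funW thompsonSubgroupA.{u} S))} (hN : F.IsNormalizerSystem (funW thompsonSubgroupA.{u} S) N) :
    N.center = F.center :=
  le_antisymm (center_of_chain hS hF (localCond_thompson_odd hp) thompsonSubgroupA_inv (fun Q _ _ _ => center_le_thompsonA Q) hN le_rfl
    fun _ hw => powAdm_one_of_center (F := F) hS hw) (center_le_funW hS hF thompsonSubgroupA_inv hN)

/-- `Z(N_F(J(S))) = Z(F)` for `S₄`-free systems at the prime `2`. -/
theorem center_eq_of_free {S : Subgroup Ω} [Finite S] [Fact (Nat.Prime 2)] {F : FusionSystem S} (hS : IsPGroup 2 S) (hF : F.IsSaturated 2)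
    (hfree : F.IsSectionFree 2 (Equiv.Perm (Fin 4)))
    {N : FusionSystem (normalizerIn S (funW thompsonSubgroupA.{u} S))} (hN : F.IsNormalizerSystem (funW thompsonSubgroupA.{u} S) N) :
    N.center = F.center :=
  le_antisymm (center_of_chain_free hS hF hfree localCondFree_thompson_two thompsonSubgroupA_inv (fun Q _ _ _ => center_le_thompsonA Q) hN le_rfl
    fun _ hw => powAdm_one_of_center (F := F) hS hw) (center_le_funW hS hF thompsonSubgroupA_inv hN)

/-- `p`-th powers of the centre of `S`. -/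
theorem powAdm_of_mem_closure {w : Ω}
    (hw : w ∈ Subgroup.closure ((fun z => z ^ p) '' ((S ⊓ Subgroup.centralizer (S : Set Ω) : Subgroup Ω) : Set Ω))) : PowAdm p S w := by
  induction hw using Subgroup.closure_induction with
  | mem x hx =>
    obtain ⟨z, hz, rfl⟩ := hx
    exact ⟨z, hz.1, fun t ht => (Subgroup.mem_centralizer_iff.1 hz.2 t ht), rfl⟩
  | one => exact ⟨1, S.one_mem, fun t _ => by simp, one_pow p⟩
  | mul x y _ _ ihx ihy =>
    obtain ⟨z₁, h₁, c₁, rfl⟩ := ihx
    obtain ⟨z₂, h₂, c₂, rfl⟩ := ihy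
    refine ⟨z₁ * z₂, S.mul_mem h₁ h₂, fun t ht => ?_, ?_⟩
    · rw [← mul_assoc, c₁ t ht, mul_assoc, c₂ t ht, mul_assoc]
    · exact (Commute.mul_pow (c₂ z₁ h₁) p)
  | inv x _ ih =>
    obtain ⟨z, h, c, rfl⟩ := ih
    refine ⟨z⁻¹, S.inv_mem h, fun t ht => ?_, inv_pow z p⟩
    have := c t⁻¹ (S.inv_mem ht)
    calc t * z⁻¹ = (z * t⁻¹)⁻¹ := by group
      _ = (t⁻¹ * z)⁻¹ := by rw [this]
      _ = z⁻¹ * t := by group

end

end Cfsg.Agent.Lib.Fusion
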