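import Cfsg.Agent.Lib.Fusion.GlaubJ
import Cfsg.Agent.Lib.FrobThm.S4Free
import Cfsg.Agent.S0199
import Mathlib

/-! # A `2`-element and an odd element moving a four-group give `S₄` -/

set_option autoImplicit false

namespace Cfsg.Agent.Lib.Fusion

open Cfsg Cfsg.FusionSystem

section Perm3

theorem perm_fin3_cube : ∀ π : Equiv.Perm (Fin 3), Equiv.Perm.sign π = 1 → π ^ 3 = 1 := by decide

theorem perm_fin3_fix : ∀ (π : Equiv.Perm (Fin 3)) (i : Fin 3), Equiv.Perm.sign π = 1 → π i = i → π = 1 := by decide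

variable {α : Type*} [Fintype α] [DecidableEq α]

theorem perm_card3_cube (hα : Fintype.card α = 3) (π : Equiv.Perm α) (h : Equiv.Perm.sign π = 1) : π ^ 3 = 1 := by
  let e : α ≃ Fin 3 := Fintype.equivFinOfCardEq hα
  have h1 : Equiv.Perm.sign (e.permCongrHom π) = 1 := by
    show Equiv.Perm.sign (e.permCongr π) = 1
    rw [Equiv.Perm.sign_permCongr]
    exact h
  have h2 := perm_fin3_cube _ h1
  rw [← map_pow] at h2
  exact e.permCongrHom.injective (by rw [h2, map_one])

theorem perm_card3_fix (hα : Fintype.card α = 3) (π : Equiv.Perm α) (h : Equiv.Perm.sign π = 1) (i : α) (hi : π i = i) :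
    π = 1 := by
  let e : α ≃ Fin 3 := Fintype.equivFinOfCardEq hα
  have h1 : Equiv.Perm.sign (e.permCongrHom π) = 1 := by
    show Equiv.Perm.sign (e.permCongr π) = 1
    rw [Equiv.Perm.sign_permCongr]
    exact h
  have h2 := perm_fin3_fix _ (e i) h1 (by
    show e.permCongr π (e i) = e i
    simp [Equiv.permCongr_apply, hi])
  exact e.permCongrHom.injective (by rw [h2, map_one])

end Perm3

section Klein

variable {G : Type*} [Group G]

/-- The conjugation action on the non-identity elements of a normal subgroup. -/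
def nonOnePerm (W : Subgroup G) [W.Normal] : G →* Equiv.Perm {w : W // w ≠ 1} where
  toFun g := (MulAut.conjNormal g : MulAut W).toEquiv.subtypeEquiv (fun w => by simp)
  map_one' := by
    ext w
    simp
  map_mul' g h := by
    ext w
    simp

theorem nonOnePerm_apply (W : Subgroup G) [W.Normal] (g : G) (w : {w : W // w ≠ 1}) :
    ((nonOnePerm W g w : {w : W // w ≠ 1}) : W) = MulAut.conjNormal g (w : W) := rfl

theorem mem_centralizer_of_nonOnePerm {W : Subgroup G} [W.Normal] {g : G} (h : nonOnePerm W g = 1) :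
    g ∈ Subgroup.centralizer (W : Set G) := by
  refine Subgroup.mem_centralizer_iff.2 fun w hw => ?_
  by_cases hw1 : (⟨w, hw⟩ : W) = 1
  · have : w = 1 := congrArg Subtype.val hw1
    rw [this]
    simp
  · have h1 := congrArg (fun π : Equiv.Perm {w : W // w ≠ 1} => ((π ⟨⟨w, hw⟩, hw1⟩ : {w : W // w ≠ 1}) : W)) h
    simp only [nonOnePerm_apply, Equiv.Perm.coe_one, id_eq] at h1
    have h2 : g * w * g⁻¹ = w := congrArg Subtype.val h1
    calc w * g = (g * w * g⁻¹) * g := by rw [h2]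
      _ = g * w := by group

variable [Finite G]

theorem sign_eq_one_of_odd_pow {s : ℤˣ} {n : ℕ} (hn : Odd n) (h : s ^ n = 1) : s = 1 := by
  rcases Int.units_eq_one_or s with rfl | rfl
  · rfl
  · rw [hn.neg_one_pow] at h
    exact absurd h (by decide)

/-- The normal case. -/
theorem involves_S4_of_normal_four {W : Subgroup G} [W.Normal] (h4 : Nat.card W = 4) {a τ : G} {i j q : ℕ}
    (ha2 : a ^ 2 ^ j = 1) (haW : a ∉ Subgroup.centralizer (W : Set G)) (hq : q.Prime) (hq2 : q ≠ 2)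
    (hτq : τ ^ q ^ i = 1) (hτW : τ ∉ Subgroup.centralizer (W : Set G)) : Involves (Equiv.Perm (Fin 4)) G := by
  classical
  letI : Fintype G := Fintype.ofFinite G
  letI : Fintype W := Fintype.ofFinite W
  haveI : Fact q.Prime := ⟨hq⟩
  have hcard : Fintype.card {w : W // w ≠ 1} = 3 := by
    rw [Fintype.card_subtype_compl, Fintype.card_subtype_eq]
    rw [← Nat.card_eq_fintype_card, h4]
  have hqodd : Odd (q ^ i) := (hq.odd_of_ne_two hq2).pow
  let φ := nonOnePerm W
  let s : G →* ℤˣ := Equiv.Perm.sign.comp φ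
  have hsv : ∀ g, s g = Equiv.Perm.sign (φ g) := fun _ => rfl
  have hτs : s τ = 1 := sign_eq_one_of_odd_pow hqodd (by rw [← map_pow, hτq, map_one])
  have has : s a ≠ 1 := by
    intro h1
    have h2 : (φ a) ^ 3 = 1 := perm_card3_cube hcard _ h1
    have h3 : (φ a) ^ 2 ^ j = 1 := by rw [← map_pow, ha2, map_one]
    have hco : Nat.Coprime 3 (2 ^ j) := Nat.Coprime.pow_right j (by norm_num)
    have h4' : φ a = 1 := by
      have := pow_gcd_eq_one.2 ⟨h2, h3⟩
      rwa [Nat.Coprime.gcd_eq_one hco, pow_one] at this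
    exact haW (mem_centralizer_of_nonOnePerm h4')
  let E : Subgroup G := s.ker
  haveI hEn : E.Normal := MonoidHom.normal_ker s
  have hτE : τ ∈ E := hτs
  let τ' : E := ⟨τ, hτE⟩
  have hτ'p : IsPGroup q (Subgroup.zpowers τ') := by
    have h1 : orderOf τ' ∣ q ^ i := orderOf_dvd_of_pow_eq_one (Subtype.ext hτq)
    obtain ⟨l, _, hl⟩ := (Nat.dvd_prime_pow hq).1 h1
    exact IsPGroup.of_card (n := l) (by rw [Nat.card_zpowers]; exact hl)
  obtain ⟨Q, hQ⟩ := hτ'p.exists_le_sylow
  have hFr := Sylow.normalizer_sup_eq_top Q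
  set Q' : Subgroup G := (Q : Subgroup E).map E.subtype with hQ'
  have hτQ' : τ ∈ Q' := ⟨τ', hQ (Subgroup.mem_zpowers τ'), rfl⟩
  set N := Subgroup.normalizer (Q' : Set G) with hN
  have haN : a ∈ N ⊔ E := by
    rw [hFr]
    exact Subgroup.mem_top a
  obtain ⟨n, hn, e, he, hne⟩ := Subgroup.mem_sup_of_normal_right.1 haN
  have hns : s n ≠ 1 := by
    intro h1
    apply has
    rw [← hne, map_mul, h1, one_mul]
    exact he
  obtain ⟨k, m, hm, hkm⟩ := Nat.exists_eq_two_pow_mul_odd (n := orderOf n) (orderOf_pos n).ne'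
  set n₂ := n ^ m with hn₂
  have hn₂N : n₂ ∈ N := N.pow_mem hn m
  have hn₂2 : n₂ ^ 2 ^ k = 1 := by
    rw [hn₂, ← pow_mul, mul_comm, ← hkm, pow_orderOf_eq_one]
  have hn₂s : s n₂ ≠ 1 := by
    rw [hn₂, map_pow]
    intro h1
    exact hns (sign_eq_one_of_odd_pow hm h1)
  have hn₂W : n₂ ∉ Subgroup.centralizer (W : Set G) := by
    intro hc
    apply hn₂s
    have : φ n₂ = 1 := by
      ext w
      have h1 := Subgroup.mem_centralizer_iff.1 hc (w : W) (w : W).2
      show ((nonOnePerm W n₂ w : {w : W // w ≠ 1}) : W).1 = (w : W).1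
      rw [nonOnePerm_apply, MulAut.conjNormal_apply, ← h1]
      group
    rw [hsv, this, map_one]
  have hinf : W ⊓ N = ⊥ := by
    rw [eq_bot_iff]
    intro w hw
    rw [Subgroup.mem_bot]
    by_contra hw1
    obtain ⟨hwW, hwN⟩ := hw
    set c := w * τ * w⁻¹ * τ⁻¹ with hc
    have hcQ : c ∈ Q' := by
      have h1 : w * τ * w⁻¹ ∈ Q' := (Subgroup.mem_normalizer_iff.1 hwN τ).1 hτQ'
      exact Q'.mul_mem h1 (Q'.inv_mem hτQ')
    have hcW : c ∈ W := by
      have h1 : τ * w⁻¹ * τ⁻¹ ∈ W := ‹W.Normal›.conj_mem _ (W.inv_mem hwW) τ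
      have h2 := W.mul_mem hwW h1
      have h3 : w * (τ * w⁻¹ * τ⁻¹) = c := by rw [hc]; group
      rwa [h3] at h2
    have hc1 : c = 1 := by
      have hQp : IsPGroup q Q' := Q.isPGroup'.map _
      obtain ⟨l, hl⟩ := hQp ⟨c, hcQ⟩
      have hl' : c ^ q ^ l = 1 := congrArg Subtype.val hl
      have h5 : c ^ 4 = 1 := by
        have := pow_card_eq_one' (x := (⟨c, hcW⟩ : W))
        rw [h4] at this
        exact congrArg Subtype.val this
      have hco : Nat.Coprime (q ^ l) 4 := by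
        have : Nat.Coprime q 2 := (Nat.coprime_primes hq Nat.prime_two).2 hq2
        exact Nat.Coprime.pow _ 2 this
      have := pow_gcd_eq_one.2 ⟨hl', h5⟩
      rwa [Nat.Coprime.gcd_eq_one hco, pow_one] at this
    have hcomm : τ * w * τ⁻¹ = w := by
      have h1 : w * τ * w⁻¹ = τ := by
        have h2 : w * τ * w⁻¹ * τ⁻¹ = 1 := hc1
        exact mul_inv_eq_one.1 h2
      calc τ * w * τ⁻¹ = (w * τ * w⁻¹) * w * τ⁻¹ := by rw [h1]
        _ = w := by group
    have hw1' : (⟨w, hwW⟩ : W) ≠ 1 := fun h => hw1 (congrArg Subtype.val h)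
    have hfix : φ τ ⟨⟨w, hwW⟩, hw1'⟩ = ⟨⟨w, hwW⟩, hw1'⟩ := by
      apply Subtype.ext
      apply Subtype.ext
      show ((MulAut.conjNormal τ (⟨w, hwW⟩ : W) : W) : G) = w
      rw [MulAut.conjNormal_apply]
      exact hcomm
    exact hτW (mem_centralizer_of_nonOnePerm (perm_card3_fix hcard _ hτs _ hfix))
  have hNW : N ≤ Subgroup.normalizer (W : Set G) := by
    rw [Subgroup.normalizer_eq_top_iff.2 ‹W.Normal›]
    exact le_top
  have hτN : τ ∈ N := by
    have hEQ : ∀ y, y ∈ Q' → y * τ * y⁻¹ ∈ Q' := fun y hy => Q'.mul_mem (Q'.mul_mem hy hτQ') (Q'.inv_mem hy)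
    refine Subgroup.mem_normalizer_iff.2 fun y => ⟨fun hy => Q'.mul_mem (Q'.mul_mem hτQ' hy) (Q'.inv_mem hτQ'), fun hy => ?_⟩
    have h1 := Q'.mul_mem (Q'.mul_mem (Q'.inv_mem hτQ') hy) hτQ'
    simpa [mul_assoc] using h1
  exact Cfsg.Agent.Lib.FrobThm.Rel.involves_S4_of_config h4 hNW hinf hq hq2 hτN hτq hτW hn₂N hn₂2 hn₂W

/-- The general case. -/
theorem involves_S4_of_four {W : Subgroup G} (h4 : Nat.card W = 4) {a τ : G} {i j q : ℕ}
    (haN : a ∈ Subgroup.normalizer (W : Set G)) (ha2 : a ^ 2 ^ j = 1) (haW : a ∉ Subgroup.centralizer (W : Set G))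
    (hq : q.Prime) (hq2 : q ≠ 2) (hτN : τ ∈ Subgroup.normalizer (W : Set G))
    (hτq : τ ^ q ^ i = 1) (hτW : τ ∉ Subgroup.centralizer (W : Set G)) : Involves (Equiv.Perm (Fin 4)) G := by
  by_contra hinv
  set K := Subgroup.normalizer (W : Set G) with hK
  have hinvK := Cfsg.Agent.Lib.FrobThm.Rel.not_involves_subgroup hinv K
  haveI : (W.subgroupOf K).Normal := Subgroup.normal_in_normalizer
  apply hinvK
  have hcent : ∀ (t : K), (t : G) ∉ Subgroup.centralizer (W : Set G) → t ∉ Subgroup.centralizer ((W.subgroupOf K : Subgroup K) : Set K) := by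
    intro t ht hc
    apply ht
    refine Subgroup.mem_centralizer_iff.2 fun w hw => ?_
    have h1 := Subgroup.mem_centralizer_iff.1 hc ⟨w, Subgroup.le_normalizer hw⟩ (Subgroup.mem_subgroupOf.2 hw)
    exact congrArg Subtype.val h1
  refine involves_S4_of_normal_four (W := W.subgroupOf K) (a := ⟨a, haN⟩) (τ := ⟨τ, hτN⟩) (i := i) (j := j) (q := q) ?_ (Subtype.ext ha2) (hcent _ haW) hq hq2 (Subtype.ext hτq) (hcent _ hτW)
  rw [← h4]
  exact Nat.card_congr (Subgroup.subgroupOfEquivOfLe Subgroup.le_normalizer).toEquiv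

end Klein

section Two

variable {G : Type*} [Group G]

/-- The four-group generated by two commuting involutions. -/
def kleinOf (u v : G) (huu : u * u = 1) (hvv : v * v = 1) (huv : u * v = v * u) : Subgroup G where
  carrier := {1, u, v, u * v}
  one_mem' := by simp
  mul_mem' := by
    intro a b ha hb
    have e1 : u * (u * v) = v := by rw [← mul_assoc, huu, one_mul]
    have e2 : v * (u * v) = u := by rw [← mul_assoc, ← huv, mul_assoc, hvv, mul_one]
    have e3 : (u * v) * u = v := by rw [huv, mul_assoc, huu, mul_one]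
    have e4 : (u * v) * v = u := by rw [mul_assoc, hvv, mul_one]
    have e5 : (u * v) * (u * v) = 1 := by rw [← mul_assoc, e3, hvv]
    have e6 : v * u = u * v := huv.symm
    simp only [Set.mem_insert_iff, Set.mem_singleton_iff] at ha hb ⊢
    rcases ha with h | h | h | h <;> rcases hb with h' | h' | h' | h' <;> simp [h, h', huu, hvv, e1, e2, e3, e4, e5, e6]
  inv_mem' := by
    intro a ha
    have e1 : u⁻¹ = u := inv_eq_of_mul_eq_one_left huu
    have e2 : v⁻¹ = v := inv_eq_of_mul_eq_one_left hvv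
    have e3 : (u * v)⁻¹ = u * v := by rw [mul_inv_rev, e1, e2, huv]
    simp only [Set.mem_insert_iff, Set.mem_singleton_iff] at ha ⊢
    rcases ha with h | h | h | h <;> simp [h, e1, e2, e3]

theorem mem_kleinOf {u v : G} {huu : u * u = 1} {hvv : v * v = 1} {huv : u * v = v * u} {w : G} :
    w ∈ kleinOf u v huu hvv huv ↔ w = 1 ∨ w = u ∨ w = v ∨ w = u * v := Iff.rfl

theorem kleinOf_sq {u v : G} {huu : u * u = 1} {hvv : v * v = 1} {huv : u * v = v * u} {w : G}
    (hw : w ∈ kleinOf u v huu hvv huv) : w * w = 1 := by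
  rcases mem_kleinOf.1 hw with h | h | h | h
  · simp [h]
  · rw [h, huu]
  · rw [h, hvv]
  · rw [h]
    calc u * v * (u * v) = (u * v) * (v * u) := by rw [huv]
      _ = u * (v * v) * u := by group
      _ = 1 := by rw [hvv, mul_one, huu]

theorem card_kleinOf {u v : G} {huu : u * u = 1} {hvv : v * v = 1} {huv : u * v = v * u} (hu : u ≠ 1) (hv : v ≠ 1) (hne : u ≠ v) :
    Nat.card (kleinOf u v huu hvv huv) = 4 := by
  classical
  have h1 : ((kleinOf u v huu hvv huv : Subgroup G) : Set G) = (({1, u, v, u * v} : Finset G) : Set G) := by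
    ext w
    simp [mem_kleinOf]
  have h2 : Nat.card (kleinOf u v huu hvv huv) = Set.ncard ((kleinOf u v huu hvv huv : Subgroup G) : Set G) := (Nat.card_coe_set_eq _)
  rw [h2, h1, Set.ncard_coe_finset]
  have huv1 : u * v ≠ 1 := by
    intro h
    apply hne
    have : u = v⁻¹ := eq_inv_of_mul_eq_one_left h
    rw [this, inv_eq_of_mul_eq_one_left hvv]
  have h3 : (1 : G) ∉ ({u, v, u * v} : Finset G) := by
    simp [hu.symm, hv.symm, huv1.symm]
  have h4 : u ∉ ({v, u * v} : Finset G) := by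
    simp [hne, hv]
  have h5 : v ∉ ({u * v} : Finset G) := by
    simp [hu]
  rw [Finset.card_insert_of_notMem h3, Finset.card_insert_of_notMem h4, Finset.card_insert_of_notMem h5, Finset.card_singleton]

/-- An element of odd order whose square commutes with `w` commutes with `w`. -/
theorem commute_of_sq_odd {τ w : G} {n : ℕ} (hn : Odd n) (hτ : τ ^ n = 1) (h : τ * τ * w = w * (τ * τ)) : τ * w = w * τ := by
  obtain ⟨m, rfl⟩ := hn
  have h1 : Commute (τ * τ) w := h
  have h2 : Commute ((τ * τ) ^ m) w := h1.pow_left m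
  have h3 : (τ * τ) ^ m = τ⁻¹ := by
    rw [pow_succ, pow_mul, pow_two] at hτ
    exact eq_inv_of_mul_eq_one_left hτ
  rw [h3] at h2
  exact (by simpa using h2.inv_left : Commute τ w)

variable [Finite G]

/-- The element `a` acting with a two-valued commutator map, and an odd element in `⟨a, a^g⟩`. -/
theorem involves_of_two_valued {W : Subgroup G} [hWn : W.Normal] (hWc : ∀ a ∈ W, ∀ b ∈ W, a * b = b * a) {a u g τ : G} {i j q : ℕ}
    (hu : u ∈ W) (hu1 : u ≠ 1) (huu : u * u = 1) (hau : a * u = u * a)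
    (hf : ∀ w ∈ W, a * w * a⁻¹ * w⁻¹ = 1 ∨ a * w * a⁻¹ * w⁻¹ = u) (ha2 : a ^ 2 ^ j = 1)
    (hτ : τ ∈ Subgroup.zpowers a ⊔ Subgroup.zpowers (g * a * g⁻¹)) (hq : q.Prime) (hq2 : q ≠ 2)
    (hτq : τ ^ q ^ i = 1) (hτW : τ ∉ Subgroup.centralizer (W : Set G)) : Involves (Equiv.Perm (Fin 4)) G := by
  classical
  have hqodd : Odd (q ^ i) := (hq.odd_of_ne_two hq2).pow
  obtain ⟨v, hvd⟩ : ∃ v, v = g * u * g⁻¹ := ⟨_, rfl⟩
  obtain ⟨b, hbd⟩ : ∃ b, b = g * a * g⁻¹ := ⟨_, rfl⟩
  rw [← hbd] at hτ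
  have hvW : v ∈ W := hvd ▸ hWn.conj_mem u hu g
  have hvv : v * v = 1 := by
    rw [hvd]
    calc g * u * g⁻¹ * (g * u * g⁻¹) = g * (u * u) * g⁻¹ := by group
      _ = 1 := by rw [huu]; group
  have hv1 : v ≠ 1 := by
    rw [hvd]
    intro h
    apply hu1
    calc u = g⁻¹ * (g * u * g⁻¹) * g := by group
      _ = 1 := by rw [h]; group
  have huv : u * v = v * u := hWc u hu v hvW
  have hbv : b * v = v * b := by
    rw [hbd, hvd]
    calc g * a * g⁻¹ * (g * u * g⁻¹) = g * (a * u) * g⁻¹ := by group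
      _ = g * (u * a) * g⁻¹ := by rw [hau]
      _ = g * u * g⁻¹ * (g * a * g⁻¹) := by group
  have hfb : ∀ w ∈ W, b * w * b⁻¹ * w⁻¹ = 1 ∨ b * w * b⁻¹ * w⁻¹ = v := by
    intro w hw
    have h1 : g⁻¹ * w * g⁻¹⁻¹ ∈ W := hWn.conj_mem w hw g⁻¹
    have e : b * w * b⁻¹ * w⁻¹ = g * (a * (g⁻¹ * w * g⁻¹⁻¹) * a⁻¹ * (g⁻¹ * w * g⁻¹⁻¹)⁻¹) * g⁻¹ := by
      rw [hbd]
      group
    rcases hf _ h1 with h | h
    · left
      rw [e, h]
      group
    · right
      rw [e, h, hvd]
  set W₀ := kleinOf u v huu hvv huv with hW₀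
  have huW₀ : u ∈ W₀ := mem_kleinOf.2 (Or.inr (Or.inl rfl))
  have hvW₀ : v ∈ W₀ := mem_kleinOf.2 (Or.inr (Or.inr (Or.inl rfl)))
  have hW₀W : W₀ ≤ W := by
    intro w hw
    rcases mem_kleinOf.1 hw with h | h | h | h
    · rw [h]; exact W.one_mem
    · rw [h]; exact hu
    · rw [h]; exact hvW
    · rw [h]; exact W.mul_mem hu hvW
  let T₁ : Submonoid G :=
    { carrier := {t | ∀ w ∈ W, t * w * t⁻¹ * w⁻¹ ∈ W₀}
      one_mem' := by
        intro w _
        simp
      mul_mem' := by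
        intro t₁ t₂ h₁ h₂ w hw
        have h3 := h₂ w hw
        set c := t₂ * w * t₂⁻¹ * w⁻¹ with hc
        have h4 := h₁ c (hW₀W h3)
        have h5 := h₁ w hw
        have e : t₁ * t₂ * w * (t₁ * t₂)⁻¹ * w⁻¹ = (t₁ * c * t₁⁻¹ * c⁻¹) * c * (t₁ * w * t₁⁻¹ * w⁻¹) := by
          rw [hc]
          group
        rw [e]
        exact W₀.mul_mem (W₀.mul_mem h4 h3) h5 }
  let T₂ : Subgroup G :=
    { T₁ with
      inv_mem' := by
        intro t ht
        have h1 : t⁻¹ = t ^ (orderOf t - 1) := by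
          refine inv_eq_of_mul_eq_one_right ?_
          rw [mul_pow_sub_one (orderOf_pos t).ne', pow_orderOf_eq_one]
        show t⁻¹ ∈ T₁
        rw [h1]
        exact T₁.pow_mem ht _ }
  have hT₂mem : ∀ {t : G}, t ∈ T₂ ↔ ∀ w ∈ W, t * w * t⁻¹ * w⁻¹ ∈ W₀ := Iff.rfl
  have haT : a ∈ T₂ := hT₂mem.2 fun w hw => by
    rcases hf w hw with h | h
    · rw [h]; exact W₀.one_mem
    · rw [h]; exact huW₀
  have hbT : b ∈ T₂ := hT₂mem.2 fun w hw => by
    rcases hfb w hw with h | h
    · rw [h]; exact W₀.one_mem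
    · rw [h]; exact hvW₀
  have hτT : τ ∈ T₂ := by
    have h1 : Subgroup.zpowers a ⊔ Subgroup.zpowers b ≤ T₂ := sup_le (Subgroup.zpowers_le.2 haT) (Subgroup.zpowers_le.2 hbT)
    exact h1 hτ
  have hTconj : ∀ t ∈ T₂, ∀ k ∈ W₀, t * k * t⁻¹ ∈ W₀ := by
    intro t ht k hk
    have h1 := hT₂mem.1 ht k (hW₀W hk)
    have e : t * k * t⁻¹ = (t * k * t⁻¹ * k⁻¹) * k := by group
    rw [e]
    exact W₀.mul_mem h1 hk
  have hTN : ∀ t ∈ T₂, t ∈ Subgroup.normalizer (W₀ : Set G) := fun t ht =>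
    Cfsg.Agent.Lib.FrobThm.mem_normalizer_of_forall_conj_mem (hTconj t ht)
  -- the key contradiction
  have hkey : τ * u = u * τ → τ * v = v * τ → False := by
    intro h1 h2
    have hcomm : ∀ k ∈ W₀, τ * k = k * τ := by
      intro k hk
      rcases mem_kleinOf.1 hk with h | h | h | h
      · simp [h]
      · rw [h, h1]
      · rw [h, h2]
      · rw [h, ← mul_assoc, h1, mul_assoc, h2, mul_assoc]
    apply hτW
    refine Subgroup.mem_centralizer_iff.2 fun w hw => ?_
    have h3 := hT₂mem.1 hτT w hw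
    set c := τ * w * τ⁻¹ * w⁻¹ with hc
    have h4 : τ * w * τ⁻¹ = c * w := by rw [hc]; group
    have h5 : τ * c = c * τ := hcomm c h3
    have h6 : c * c = 1 := kleinOf_sq h3
    have h7 : τ * τ * w = w * (τ * τ) := by
      calc τ * τ * w = τ * (τ * w * τ⁻¹) * τ := by group
        _ = τ * (c * w) * τ := by rw [h4]
        _ = (τ * c) * w * τ := by group
        _ = (c * τ) * w * τ := by rw [h5]
        _ = c * (τ * w * τ⁻¹) * τ * τ := by group
        _ = c * (c * w) * τ * τ := by rw [h4]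
        _ = (c * c) * w * (τ * τ) := by group
        _ = w * (τ * τ) := by rw [h6, one_mul]
    exact (commute_of_sq_odd hqodd hτq h7).symm
  have hτk : ∀ k ∈ W₀, τ * k * τ⁻¹ ∈ W₀ := hTconj τ hτT
  have hne : u ≠ v := by
    intro he
    have h1 := hτk u huW₀
    have hfix : τ * u = u * τ := by
      have h2 : τ * u * τ⁻¹ = u := by
        rcases mem_kleinOf.1 h1 with h | h | h | h
        · exfalso
          apply hu1
          calc u = τ⁻¹ * (τ * u * τ⁻¹) * τ := by group
            _ = 1 := by rw [h]; group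
        · exact h
        · rw [h, ← he]
        · exfalso
          rw [← he, huu] at h
          apply hu1
          calc u = τ⁻¹ * (τ * u * τ⁻¹) * τ := by group
            _ = 1 := by rw [h]; group
      calc τ * u = (τ * u * τ⁻¹) * τ := by group
        _ = u * τ := by rw [h2]
    exact hkey hfix (by rw [← he]; exact hfix)
  have hcard : Nat.card W₀ = 4 := card_kleinOf hu1 hv1 hne
  have hτW₀ : τ ∉ Subgroup.centralizer (W₀ : Set G) := by
    intro hc
    have h1 := Subgroup.mem_centralizer_iff.1 hc u huW₀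
    have h2 := Subgroup.mem_centralizer_iff.1 hc v hvW₀
    exact hkey h1.symm h2.symm
  have haW₀ : a ∉ Subgroup.centralizer (W₀ : Set G) := by
    intro hc
    have hav : a * v = v * a := (Subgroup.mem_centralizer_iff.1 hc v hvW₀).symm
    have hτv : τ * v = v * τ := by
      have h1 : Subgroup.zpowers a ⊔ Subgroup.zpowers b ≤ Subgroup.centralizer ({v} : Set G) := by
        refine sup_le (Subgroup.zpowers_le.2 ?_) (Subgroup.zpowers_le.2 ?_)
        · exact Subgroup.mem_centralizer_iff.2 fun y hy => by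
            rw [Set.mem_singleton_iff.1 hy]
            exact hav.symm
        · exact Subgroup.mem_centralizer_iff.2 fun y hy => by
            rw [Set.mem_singleton_iff.1 hy]
            exact hbv.symm
      exact (Subgroup.mem_centralizer_iff.1 (h1 hτ) v rfl).symm
    have h1 := hτk u huW₀
    have hτv' : τ * v * τ⁻¹ = v := by rw [hτv]; group
    have hfix : τ * u = u * τ := by
      rcases mem_kleinOf.1 h1 with h | h | h | h
      · exfalso
        apply hu1
        calc u = τ⁻¹ * (τ * u * τ⁻¹) * τ := by group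
          _ = 1 := by rw [h]; group
      · calc τ * u = (τ * u * τ⁻¹) * τ := by group
          _ = u * τ := by rw [h]
      · exfalso
        apply hne
        calc u = τ⁻¹ * (τ * u * τ⁻¹) * τ := by group
          _ = τ⁻¹ * (τ * v * τ⁻¹) * τ := by rw [h, hτv']
          _ = v := by group
      · refine commute_of_sq_odd hqodd hτq ?_
        have h2 : τ * (τ * u * τ⁻¹) * τ⁻¹ = u := by
          rw [h]
          calc τ * (u * v) * τ⁻¹ = (τ * u * τ⁻¹) * (τ * v * τ⁻¹) := by group
            _ = u * v * v := by rw [h, hτv']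
            _ = u := by rw [mul_assoc, hvv, mul_one]
        calc τ * τ * u = (τ * (τ * u * τ⁻¹) * τ⁻¹) * (τ * τ) := by group
          _ = u * (τ * τ) := by rw [h2]
    exact hkey hfix hτv
  exact involves_S4_of_four hcard (hTN a haT) ha2 haW₀ hq hq2 (hTN τ hτT) hτq hτW₀

end Two

end Cfsg.Agent.Lib.Fusion
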