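import Cfsg.Agent.Lib.Fusion.GlaubS4
import Mathlib

/-! # Glauberman's weak closure theorem at the prime `2` for groups not involving `S₄` -/

set_option autoImplicit false

namespace Cfsg.Agent.Lib.Fusion

open Cfsg Cfsg.FusionSystem
open Cfsg.Agent.Lib.FrobThm (AA JJ EA EA.sup EA.mono EA_zpowers le_JJ JJ_le card_sup_mul_inf JJ_conj JJ_map card_map_of_injOn exists_mem_AA le_normalizer_of_commute)
open Cfsg.Agent.Lib.Techniques (SylowIn conjS mem_conjS conj_mem_conjS conjS_mul conjS_mono conjS_inv_conjS card_conjS mem_normalizer_iff_conjS exists_sylowIn_ge isPGroup_conjS)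

section Baer

variable {G : Type*} [Group G] [Finite G]

/-- Baer–Suzuki modulo the centralizer of the normal closure. -/
theorem exists_odd_of_not_central (P : Sylow 2 G) {x : G} (hxc : ∀ t ∈ (P : Subgroup G), t * x = x * t) {a : G}
    (haP : a ∈ (P : Subgroup G))
    (haW : a ∉ Subgroup.centralizer ((Subgroup.normalClosure ({x} : Set G) : Subgroup G) : Set G)) :
    ∃ (g τ : G) (q i : ℕ), τ ∈ Subgroup.zpowers a ⊔ Subgroup.zpowers (g * a * g⁻¹) ∧ q.Prime ∧ q ≠ 2 ∧ τ ^ q ^ i = 1 ∧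
      τ ∉ Subgroup.centralizer ((Subgroup.normalClosure ({x} : Set G) : Subgroup G) : Set G) := by
  classical
  set W := Subgroup.normalClosure ({x} : Set G) with hW
  haveI hWn : W.Normal := Subgroup.normalClosure_normal
  set C := Subgroup.centralizer (W : Set G) with hC
  haveI hCn : C.Normal := Subgroup.normal_centralizer
  by_contra hcon
  push_neg at hcon
  let f : G →* G ⧸ C := QuotientGroup.mk' C
  have hfs : Function.Surjective f := QuotientGroup.mk'_surjective C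
  have hfC : ∀ t, f t = 1 ↔ t ∈ C := fun t => QuotientGroup.eq_one_iff t
  let X : Subgroup (G ⧸ C) := Subgroup.zpowers (f a)
  have hX : IsPGroup 2 X := by
    obtain ⟨k, hk⟩ := P.isPGroup' ⟨a, haP⟩
    have hk' : a ^ 2 ^ k = 1 := congrArg Subtype.val hk
    have h1 : orderOf (f a) ∣ 2 ^ k := orderOf_dvd_of_pow_eq_one (by rw [← map_pow, hk', map_one])
    obtain ⟨l, _, hl⟩ := (Nat.dvd_prime_pow Nat.prime_two).1 h1
    exact IsPGroup.of_card (n := l) (by
      show Nat.card (Subgroup.zpowers (f a)) = _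
      rw [Nat.card_zpowers]
      exact hl)
  have hS : ∀ g : G ⧸ C, IsPGroup 2 ↥(X ⊔ X.map (MulAut.conj g).toMonoidHom) := by
    intro g₀
    obtain ⟨g, rfl⟩ := hfs g₀
    by_contra hn
    set Tb : Subgroup (G ⧸ C) := X ⊔ X.map (MulAut.conj (f g)).toMonoidHom with hTb
    have hex : ∃ q : ℕ, q.Prime ∧ q ≠ 2 ∧ q ∣ Nat.card Tb := by
      by_contra hc
      push_neg at hc
      apply hn
      have h1 : Nat.card Tb = 2 ^ (Nat.card Tb).primeFactorsList.length :=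
        Nat.eq_prime_pow_of_unique_prime_dvd Nat.card_pos.ne' (fun {d} hd hdv => by
          by_contra h2
          exact hc d hd h2 hdv)
      exact IsPGroup.of_card h1
    obtain ⟨q, hq, hq2, hqd⟩ := hex
    haveI : Fact q.Prime := ⟨hq⟩
    obtain ⟨t, ht⟩ := exists_prime_orderOf_dvd_card' q hqd
    set T : Subgroup G := Subgroup.zpowers a ⊔ Subgroup.zpowers (g * a * g⁻¹) with hT
    have hTmap : T.map f = Tb := by
      rw [hT, Subgroup.map_sup, hTb, MonoidHom.map_zpowers, MonoidHom.map_zpowers, MonoidHom.map_zpowers]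
      rfl
    have htT : (t : G ⧸ C) ∈ T.map f := by
      rw [hTmap]
      exact t.2
    obtain ⟨s, hsT, hst⟩ := htT
    obtain ⟨i, m, hm, him⟩ := Nat.exists_eq_pow_mul_and_not_dvd (n := orderOf s) (orderOf_pos s).ne' q hq.ne_one
    have hτT : s ^ m ∈ T := T.pow_mem hsT m
    have hτq : (s ^ m) ^ q ^ i = 1 := by
      rw [← pow_mul, mul_comm, ← him, pow_orderOf_eq_one]
    have hτC := hcon g (s ^ m) q i hτT hq hq2 hτq
    have h1 : f (s ^ m) = 1 := (hfC _).2 hτC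
    rw [map_pow, hst] at h1
    have h2 : t ^ m = 1 := Subtype.ext h1
    have h3 : orderOf t ∣ m := orderOf_dvd_of_pow_eq_one h2
    rw [ht] at h3
    exact hm h3
  obtain ⟨Nb, hNbn, hNbp, hXN⟩ := Cfsg.Agent.S0199.result X hX hS
  let Pb : Sylow 2 (G ⧸ C) := P.mapSurjective hfs
  have hNbP : Nb ≤ (Pb : Subgroup (G ⧸ C)) := (Lib.Core.le_pCore hNbn hNbp).trans (Lib.Core.pCore_le_sylow Pb)
  let N : Subgroup G := Nb.comap f
  haveI hNn : N.Normal := Subgroup.Normal.comap hNbn f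
  have haN : a ∈ N := hXN (Subgroup.mem_zpowers (f a))
  have hNx : ∀ n ∈ N, n * x = x * n := by
    intro n hn
    have h1 : f n ∈ (Pb : Subgroup (G ⧸ C)) := hNbP hn
    rw [Sylow.coe_mapSurjective] at h1
    obtain ⟨p, hp, hpn⟩ := h1
    have h2 : p⁻¹ * n ∈ C := (hfC _).1 (by rw [map_mul, map_inv, hpn, inv_mul_cancel])
    have hxW : x ∈ W := Subgroup.subset_normalClosure rfl
    have h3 : x * (p⁻¹ * n) = (p⁻¹ * n) * x := Subgroup.mem_centralizer_iff.1 h2 x hxW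
    have h4 := hxc p hp
    calc n * x = p * ((p⁻¹ * n) * x) := by group
      _ = p * (x * (p⁻¹ * n)) := by rw [h3]
      _ = (p * x) * (p⁻¹ * n) := by group
      _ = (x * p) * (p⁻¹ * n) := by rw [h4]
      _ = x * n := by group
  have hWle : W ≤ Subgroup.centralizer (N : Set G) := by
    refine Subgroup.normalClosure_le_normal ?_
    rintro _ rfl
    exact Subgroup.mem_centralizer_iff.2 hNx
  apply haW
  exact Subgroup.mem_centralizer_iff.2 fun w hw => (Subgroup.mem_centralizer_iff.1 (hWle hw) a haN).symm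

/-- The two-valued commutator map. -/
theorem two_valued_of_index {W : Subgroup G} [hWn : W.Normal] (hWc : ∀ a ∈ W, ∀ b ∈ W, a * b = b * a) {a y : G} (hy : y ∈ W)
    (hmove : a * y * a⁻¹ ≠ y) (hidx : Nat.card W ≤ 2 * Nat.card (W ⊓ Subgroup.centralizer ({a} : Set G) : Subgroup G)) :
    (a * y * a⁻¹ * y⁻¹) ∈ W ∧ a * y * a⁻¹ * y⁻¹ ≠ 1 ∧ (a * y * a⁻¹ * y⁻¹) * (a * y * a⁻¹ * y⁻¹) = 1 ∧
      a * (a * y * a⁻¹ * y⁻¹) = (a * y * a⁻¹ * y⁻¹) * a ∧
      ∀ w ∈ W, a * w * a⁻¹ * w⁻¹ = 1 ∨ a * w * a⁻¹ * w⁻¹ = a * y * a⁻¹ * y⁻¹ := by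
  classical
  have hfW : ∀ w ∈ W, a * w * a⁻¹ * w⁻¹ ∈ W := fun w hw => W.mul_mem (hWn.conj_mem w hw a) (W.inv_mem hw)
  have hfmul : ∀ w₁ ∈ W, ∀ w₂ ∈ W, a * (w₁ * w₂) * a⁻¹ * (w₁ * w₂)⁻¹ = (a * w₁ * a⁻¹ * w₁⁻¹) * (a * w₂ * a⁻¹ * w₂⁻¹) := by
    intro w₁ h₁ w₂ h₂
    have h3 : (a * w₁ * a⁻¹ * w₁⁻¹) * (a * w₂ * a⁻¹ * w₂⁻¹) = (a * w₁ * a⁻¹) * (a * w₂ * a⁻¹) * (w₁⁻¹ * w₂⁻¹) := by
      have h4 := hWc w₁⁻¹ (W.inv_mem h₁) (a * w₂ * a⁻¹) (hWn.conj_mem w₂ h₂ a)
      calc (a * w₁ * a⁻¹ * w₁⁻¹) * (a * w₂ * a⁻¹ * w₂⁻¹) = (a * w₁ * a⁻¹) * (w₁⁻¹ * (a * w₂ * a⁻¹)) * w₂⁻¹ := by group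
        _ = (a * w₁ * a⁻¹) * ((a * w₂ * a⁻¹) * w₁⁻¹) * w₂⁻¹ := by rw [h4]
        _ = _ := by group
    rw [h3, mul_inv_rev, hWc w₂⁻¹ (W.inv_mem h₂) w₁⁻¹ (W.inv_mem h₁)]
    group
  -- index
  set H : Subgroup W := (W ⊓ Subgroup.centralizer ({a} : Set G) : Subgroup G).subgroupOf W with hH
  have hHmem : ∀ w : W, w ∈ H ↔ a * w * a⁻¹ * (w : G)⁻¹ = 1 := by
    intro w
    rw [hH, Subgroup.mem_subgroupOf]
    constructor
    · rintro ⟨-, h⟩
      have h1 : a * (w : G) = w * a := (Subgroup.mem_centralizer_iff.1 h a rfl)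
      rw [h1]
      group
    · intro h
      refine ⟨w.2, Subgroup.mem_centralizer_iff.2 fun b hb => ?_⟩
      rw [Set.mem_singleton_iff.1 hb]
      have h1 : a * w * a⁻¹ = w := mul_inv_eq_one.1 h
      calc a * (w : G) = (a * w * a⁻¹) * a := by group
        _ = w * a := by rw [h1]
  have hcard : Nat.card H = Nat.card (W ⊓ Subgroup.centralizer ({a} : Set G) : Subgroup G) :=
    Nat.card_congr (Subgroup.subgroupOfEquivOfLe inf_le_left).toEquiv
  have hmul := Subgroup.card_mul_index H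
  have hHpos : 0 < Nat.card H := Nat.card_pos
  have hidx2 : H.index ≤ 2 := by
    rw [← hcard] at hidx
    rw [← hmul] at hidx
    have : Nat.card H * H.index ≤ Nat.card H * 2 := by linarith
    exact Nat.le_of_mul_le_mul_left this hHpos
  have hyH : (⟨y, hy⟩ : W) ∉ H := by
    intro h
    apply hmove
    exact mul_inv_eq_one.1 ((hHmem _).1 h)
  have hidx1 : H.index ≠ 1 := fun h => hyH (by
    rw [Subgroup.index_eq_one.1 h]
    trivial)
  have hidx0 : H.index ≠ 0 := Subgroup.index_ne_zero_of_finite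
  have hindex : H.index = 2 := by omega
  set u := a * y * a⁻¹ * y⁻¹ with hu
  have hall : ∀ w ∈ W, a * w * a⁻¹ * w⁻¹ = 1 ∨ a * w * a⁻¹ * w⁻¹ = u := by
    intro w hw
    by_cases hwH : (⟨w, hw⟩ : W) ∈ H
    · exact Or.inl ((hHmem _).1 hwH)
    · right
      have h1 : (⟨y, hy⟩ : W)⁻¹ * ⟨w, hw⟩ ∈ H := by
        rw [Subgroup.mul_mem_iff_of_index_two hindex]
        simp [hyH, hwH]
      have h2 : a * (y⁻¹ * w) * a⁻¹ * (y⁻¹ * w)⁻¹ = 1 := (hHmem _).1 h1
      have h3 := hfmul y hy (y⁻¹ * w) (W.mul_mem (W.inv_mem hy) hw)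
      rw [h2, mul_one, mul_inv_cancel_left] at h3
      exact h3
  have huW : u ∈ W := hfW y hy
  have hu1 : u ≠ 1 := by
    intro h
    exact hmove (mul_inv_eq_one.1 h)
  have huu : u * u = 1 := by
    have h1 := hfmul y hy y hy
    rcases hall (y * y) (W.mul_mem hy hy) with h2 | h2
    · rw [h1] at h2
      exact h2
    · rw [h1] at h2
      exfalso
      exact hu1 (mul_eq_left.1 h2)
  have hau : a * u = u * a := by
    rcases hall u huW with h | h
    · have h1 : a * u * a⁻¹ = u := mul_inv_eq_one.1 h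
      calc a * u = (a * u * a⁻¹) * a := by group
        _ = u * a := by rw [h1]
    · exfalso
      have h1 : a * u * a⁻¹ = u * u := by
        calc a * u * a⁻¹ = (a * u * a⁻¹ * u⁻¹) * u := by group
          _ = u * u := by rw [h]
      rw [huu] at h1
      apply hu1
      calc u = a⁻¹ * (a * u * a⁻¹) * a := by group
        _ = 1 := by rw [h1]; group
  exact ⟨huW, hu1, huu, hau, hall⟩

end Baer

end Cfsg.Agent.Lib.Fusion
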