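import Cfsg.Agent.Lib.Fusion.Chains
import Cfsg.Agent.Lib.Fusion.Top

/-! # Iterated commutators with an automorphism; `p`-elements -/

set_option autoImplicit false

namespace Cfsg.Agent.Lib.Fusion

open Cfsg Cfsg.FusionSystem

section Iter

variable {T : Type*} [Group T] {p : ℕ} [Fact p.Prime]

/-- `[T, γ; k]`: the iterated commutator series of the automorphism `γ`. -/
def iterComm (γ : MulAut T) : ℕ → Subgroup T
  | 0 => ⊤
  | k + 1 => Subgroup.closure {y | ∃ x ∈ iterComm γ k, y = x⁻¹ * γ x}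

theorem mem_iterComm_succ {γ : MulAut T} {k : ℕ} {x : T} (hx : x ∈ iterComm γ k) :
    x⁻¹ * γ x ∈ iterComm γ (k + 1) :=
  Subgroup.subset_closure ⟨x, hx, rfl⟩

theorem iterComm_inv (γ : MulAut T) : ∀ k, ∀ x ∈ iterComm γ k, γ x ∈ iterComm γ k
  | 0 => fun _ _ => trivial
  | k + 1 => by
    intro x hx
    induction hx using Subgroup.closure_induction with
    | mem y hy =>
      obtain ⟨z, hz, rfl⟩ := hy
      rw [map_mul, map_inv]
      exact Subgroup.subset_closure ⟨γ z, iterComm_inv γ k z hz, rfl⟩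
    | one => simp [Subgroup.one_mem]
    | mul a b _ _ ha hb => rw [map_mul]; exact Subgroup.mul_mem _ ha hb
    | inv a _ ha => rw [map_inv]; exact Subgroup.inv_mem _ ha

theorem iterComm_le (γ : MulAut T) (k : ℕ) : iterComm γ (k + 1) ≤ iterComm γ k := by
  refine (Subgroup.closure_le _).2 ?_
  rintro _ ⟨x, hx, rfl⟩
  exact Subgroup.mul_mem _ (Subgroup.inv_mem _ hx) (iterComm_inv γ k x hx)

/-- If the iterated commutator series of `γ` on a finite `p`-group reaches `1`, `γ` is a `p`-element. -/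
theorem exists_pow_eq_one_of_iterComm [Finite T] (hT : IsPGroup p T) (γ : MulAut T) {n : ℕ}
    (hn : iterComm γ n = ⊥) : ∃ N : ℕ, γ ^ (p ^ N) = 1 := by
  have key : ∀ k, k ≤ n → ∃ N : ℕ, ∀ x ∈ iterComm γ (n - k), (γ ^ (p ^ N)) x = x := by
    intro k
    induction k with
    | zero =>
      intro _
      refine ⟨0, fun x hx => ?_⟩
      rw [Nat.sub_zero, hn, Subgroup.mem_bot] at hx
      subst hx
      simp
    | succ k ih =>
      intro hk
      obtain ⟨N, hN⟩ := ih (by omega)
      have e : n - k = (n - (k + 1)) + 1 := by omega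
      rw [e] at hN
      exact pow_fix_step hT γ (iterComm_le γ _) (fun x hx => mem_iterComm_succ hx) hN
  obtain ⟨N, hN⟩ := key n le_rfl
  refine ⟨N, ?_⟩
  ext x
  have := hN x (by rw [Nat.sub_self]; trivial)
  simpa using this

end Iter

end Cfsg.Agent.Lib.Fusion
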