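import Cfsg.Agent.Lib.Fusion.PowLocal
import Cfsg.Agent.Lib.Fusion.FrameworkModel
import Mathlib

/-! # The power of the centre is normal: the chain -/

set_option autoImplicit false

namespace Cfsg.Agent.Lib.Fusion

open Cfsg Cfsg.FusionSystem

universe u

theorem lcs_mono {G : Type*} [Group G] {A B : Subgroup G} (h : A ≤ B) (k : ℕ) : A.lowerCentralSeries k ≤ B.lowerCentralSeries k := by
  induction k with
  | zero => exact h
  | succ k ih => exact Subgroup.commutator_mono ih h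

section

variable {Ω : Type u} [Group Ω] {T : Subgroup Ω} {p : ℕ} [Fact p.Prime] {n : ℕ}

/-- `T₀` is not preserved by a map of `E`. -/
def MovesS (E : FusionSystem T) (T₀ : Subgroup Ω) : Prop :=
  ∃ (R : Subgroup Ω) (ψ : R →* Ω), ψ ∈ E.Hom R ∧ ∃ x ∈ T₀, ∃ hx : x ∈ R, ψ ⟨x, hx⟩ ∉ T₀

/-- `T₀` is not preserved by an automorphism of `U` in `E`. -/
def MovesAtS (E : FusionSystem T) (T₀ U : Subgroup Ω) : Prop :=
  ∃ β ∈ E.autGroup U, ∃ x ∈ T₀, ∃ hx : x ∈ U, ((β ⟨x, hx⟩ : U) : Ω) ∉ T₀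

theorem MovesAtS.moves {E : FusionSystem T} {T₀ U : Subgroup Ω} (hU : U ≤ T) (h : MovesAtS E T₀ U) : MovesS E T₀ := by
  obtain ⟨β, hβ, x, hxT, hx, hne⟩ := h
  exact ⟨U, _, (mem_autGroup_iff hU).1 hβ, x, hxT, hx, hne⟩

theorem MovesAtS.mono {T' : Subgroup Ω} {E' : FusionSystem T'} {E : FusionSystem T} {T₀ U : Subgroup Ω}
    (hsub : ∀ P, E'.Hom P ⊆ E.Hom P) (hU' : U ≤ T') (hU : U ≤ T) (h : MovesAtS E' T₀ U) : MovesAtS E T₀ U := by
  obtain ⟨β, hβ, x, hxT, hx, hne⟩ := h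
  exact ⟨β, (mem_autGroup_iff hU).2 (hsub _ ((mem_autGroup_iff hU').1 hβ)), x, hxT, hx, hne⟩

/-- The subsystem of maps whose domain has order `> m` and which preserve `T₀`. -/
def presSystem (E : FusionSystem T) [Finite T] (T₀ : Subgroup Ω) (hx : ∀ t ∈ T, ∀ y ∈ T₀, t * y = y * t) (m : ℕ) : FusionSystem T where
  Hom P := {φ | φ ∈ E.Hom P ∧ (m < Nat.card P → ∀ y : P, ((y : Ω) ∈ T₀ ↔ φ y ∈ T₀))}
  le_of_mem h := E.le_of_mem h.1
  injective_of_mem h := E.injective_of_mem h.1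
  conj_mem {P g} hP hg := by
    refine ⟨E.conj_mem hP hg, fun _ y => ?_⟩
    constructor
    · intro h
      show g * (y : Ω) * g⁻¹ ∈ T₀
      rw [hx g hg _ h]
      simpa using h
    · intro h
      have h' : g * (y : Ω) * g⁻¹ ∈ T₀ := h
      have h2 : (y : Ω) = g * (y : Ω) * g⁻¹ := by
        have h3 := hx g⁻¹ (T.inv_mem hg) _ h'
        have h4 : g⁻¹ * (g * (y : Ω) * g⁻¹) * g = g * (y : Ω) * g⁻¹ := by rw [h3]; group
        calc (y : Ω) = g⁻¹ * (g * (y : Ω) * g⁻¹) * g := by group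
          _ = g * (y : Ω) * g⁻¹ := h4
      rw [h2]
      exact h'
  comp_mem {P Q φ ψ} hφ hψ h := by
    refine ⟨E.comp_mem hφ.1 hψ.1 h, fun hm y => ?_⟩
    have : Finite Q := finite_of_le (hom_le E hψ.1)
    have hcard : Nat.card P ≤ Nat.card Q :=
      Nat.card_le_card_of_injective (φ.codRestrict Q h) (fun a b hab => hom_inj E hφ.1 (congrArg Subtype.val hab))
    have h1 := hφ.2 hm y
    have h2 := hψ.2 (lt_of_lt_of_le hm hcard) (φ.codRestrict Q h y)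
    simp only [MonoidHom.comp_apply]
    rw [h1]
    exact h2
  inv_mem {P φ} hφ := by
    obtain ⟨ψ, hψ, hψv⟩ := E.inv_mem hφ.1
    refine ⟨ψ, ⟨hψ, fun hm y => ?_⟩, hψv⟩
    have hcard : Nat.card φ.range = Nat.card P :=
      (Nat.card_congr (MonoidHom.ofInjective (hom_inj E hφ.1)).toEquiv).symm
    obtain ⟨_, a, rfl⟩ := y
    have h1 := hφ.2 (hcard ▸ hm) a
    rw [hψv]
    exact h1.symm

/-- **Lemma M.** -/
theorem pres_of_pres_autos [Finite T] (hT : IsPGroup p T) {E : FusionSystem T} (hE : E.IsSaturated p) {T₀ : Subgroup Ω}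
    (hx : ∀ t ∈ T, ∀ y ∈ T₀, t * y = y * t) (m : ℕ)
    (h : ∀ P, E.IsFullyNormalized P → E.IsCentric P → m < Nat.card P → ∀ α ∈ E.autGroup P, ∀ x ∈ T₀, ∀ hxP : x ∈ P,
      ((α ⟨x, hxP⟩ : P) : Ω) ∈ T₀) :
    ∀ (R : Subgroup Ω) (φ : R →* Ω), φ ∈ E.Hom R → m < Nat.card R → ∀ y : R, ((y : Ω) ∈ T₀ ↔ φ y ∈ T₀) := by
  have hle : E ≤ presSystem E T₀ hx m := by
    refine alperin hT hE _ fun P hP α hα => ?_
    have hfc : E.IsFullyNormalized P ∧ E.IsCentric P := by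
      rcases hP with rfl | hP
      · exact ⟨isFullyNormalized_top, isCentric_top⟩
      · exact ⟨hP.2.1, hP.1⟩
    have hPT := hfc.1.1
    refine (mem_autGroup_iff hPT).2 ⟨(mem_autGroup_iff hPT).1 hα, fun hm y => ?_⟩
    constructor
    · intro hy
      exact h P hfc.1 hfc.2 hm α hα _ hy y.2
    · intro hy
      have hy' : ((α y : P) : Ω) ∈ T₀ := hy
      have h1 := h P hfc.1 hfc.2 hm α⁻¹ (Subgroup.inv_mem _ hα) _ hy' (α y).2
      have h2 : (α⁻¹ ⟨((α y : P) : Ω), (α y).2⟩ : P) = y := by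
        show α.symm (α y) = y
        simp
      rwa [h2] at h1
  intro R φ hφ hm
  exact (hle R hφ).2 hm

/-- Choose a largest domain on which `T₀` is moved. -/
theorem exists_movedS_max [Finite T] (hT : IsPGroup p T) {E : FusionSystem T} (hE : E.IsSaturated p) {T₀ : Subgroup Ω}
    (hx : ∀ t ∈ T, ∀ y ∈ T₀, t * y = y * t) (hM : MovesS E T₀) :
    ∃ Q, E.IsFullyNormalized Q ∧ E.IsCentric Q ∧ (∃ α ∈ E.autGroup Q, ∃ x ∈ T₀, ∃ hxQ : x ∈ Q, ((α ⟨x, hxQ⟩ : Q) : Ω) ∉ T₀) ∧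
      ∀ (R : Subgroup Ω) (φ : R →* Ω), φ ∈ E.Hom R → Nat.card Q < Nat.card R → ∀ y : R, ((y : Ω) ∈ T₀ ↔ φ y ∈ T₀) := by
  obtain ⟨R₀, ψ₀, hψ₀, x₀', hx₀', hx₀, hne₀⟩ := hM
  obtain ⟨R₁, ⟨ψ₁, hψ₁, x₁', hx₁', hx₁, hne₁⟩, hmax⟩ := exists_max_of_bdd
    (C := {R : Subgroup Ω | ∃ ψ : R →* Ω, ψ ∈ E.Hom R ∧ ∃ x ∈ T₀, ∃ hx : x ∈ R, ψ ⟨x, hx⟩ ∉ T₀}) ⟨R₀, ψ₀, hψ₀, x₀', hx₀', hx₀, hne₀⟩
    (fun Q => Nat.card Q) (Nat.card T) (fun Q hQ => by
      obtain ⟨ψ, hψ, -⟩ := hQ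
      exact card_le_of_le le_rfl (hom_le E hψ))
  have hpos : 0 < Nat.card R₁ := by
    have := finite_of_le (hom_le E hψ₁)
    exact Nat.card_pos
  have hiff : ∀ (R : Subgroup Ω) (φ : R →* Ω), φ ∈ E.Hom R → Nat.card R₁ < Nat.card R → ∀ y : R, ((y : Ω) ∈ T₀ ↔ φ y ∈ T₀) := by
    intro R φ hφ hlt y
    constructor
    · intro hy
      by_contra hn
      have := hmax R ⟨φ, hφ, y, hy, y.2, hn⟩
      omega
    · intro hy
      by_contra hn
      obtain ⟨χ, hχ, hχv⟩ := E.inv_mem hφ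
      have h1 : χ ⟨φ y, ⟨y, rfl⟩⟩ = (y : Ω) := hχv y
      have h2 := hmax φ.range ⟨χ, hχ, φ y, hy, ⟨y, rfl⟩, by rw [h1]; exact hn⟩
      have h3 : Nat.card φ.range = Nat.card R :=
        (Nat.card_congr (MonoidHom.ofInjective (hom_inj E hφ)).toEquiv).symm
      omega
  by_contra hcon
  have key : ∀ (R : Subgroup Ω) (φ : R →* Ω), φ ∈ E.Hom R → Nat.card R₁ - 1 < Nat.card R → ∀ y : R, ((y : Ω) ∈ T₀ ↔ φ y ∈ T₀) := by
    refine pres_of_pres_autos hT hE hx _ fun P hPn hPc hPm α hα x hxT hxP => ?_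
    by_contra hne
    have hPle : Nat.card P ≤ Nat.card R₁ := hmax P ⟨_, (mem_autGroup_iff hPn.1).1 hα, x, hxT, hxP, hne⟩
    exact hcon ⟨P, hPn, hPc, ⟨α, hα, x, hxT, hxP, hne⟩, fun R φ hφ hlt y => hiff R φ hφ (by omega) y⟩
  exact hne₁ (((key R₁ ψ₁ hψ₁ (by omega)) ⟨x₁', hx₁⟩).1 hx₁')

/-- The local theorem, read in a model. -/
theorem movedS_of_model {T₁ : Subgroup Ω} [Finite T₁] {E₁ : FusionSystem T₁} {L : Type u} [Group L]
    {ι : T₁ →* L} (hm : E₁.IsModel p L ι) (hcl : T₁.lowerCentralSeries (n * (p - 1) + 1) = ⊥) {T₀ : Subgroup Ω}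
    (hadm : T₀ ≤ powZ p n T₁) (hmov : MovesS E₁ T₀) : MovesAtS E₁ T₀ (powZ p n T₁) := by
  obtain ⟨hfin, hreal, ⟨P₀, hP₀⟩, hC⟩ := hm
  have hι := hreal.1
  obtain ⟨R, ψ, hψ, x, hxT₀, hxR, hne⟩ := hmov
  obtain ⟨g, hg⟩ := IsRealizedBy.exists_conj hreal hψ
  have htop : (⊤ : Subgroup T₁).map T₁.subtype = T₁ := by
    rw [← MonoidHom.range_eq_map, Subgroup.range_subtype]
  have hrange : (⊤ : Subgroup T₁).map ι = (P₀ : Subgroup L) := by
    rw [← MonoidHom.range_eq_map, hP₀]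
  have hcl₀ : (⊤ : Subgroup T₁).lowerCentralSeries (n * (p - 1) + 1) = ⊥ := by
    have h1 := Subgroup.map_lowerCentralSeries (⊤ : Subgroup T₁) T₁.subtype (n * (p - 1) + 1)
    rw [htop, hcl] at h1
    exact (Subgroup.map_eq_bot_iff_of_injective _ T₁.subtype_injective).1 h1
  have hclP : (P₀ : Subgroup L).lowerCentralSeries (n * (p - 1) + 1) = ⊥ := by
    have h1 := Subgroup.map_lowerCentralSeries (⊤ : Subgroup T₁) ι (n * (p - 1) + 1)
    rw [hrange, hcl₀, Subgroup.map_bot] at h1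
    exact h1.symm
  have hnorm := powZ_normal (p := p) (n := n) (Nat.card L) L le_rfl P₀ hC hclP
  have hU : (powZ p n (⊤ : Subgroup T₁)).map T₁.subtype = powZ p n T₁ := by
    rw [powZ_map _ T₁.subtype_injective, htop]
  have hV : (powZ p n (⊤ : Subgroup T₁)).map ι = powZ p n (P₀ : Subgroup L) := by
    rw [powZ_map _ hι, hrange]
  have hUT : powZ p n T₁ ≤ T₁ := powZ_le
  have hmem : ∀ y : powZ p n T₁, ι ⟨y, hUT y.2⟩ ∈ powZ p n (P₀ : Subgroup L) := by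
    rintro ⟨y, hy⟩
    rw [← hU] at hy
    obtain ⟨t, ht, rfl⟩ := hy
    rw [← hV]
    exact ⟨t, ht, rfl⟩
  have hv : ∀ y : powZ p n T₁, g * ι ⟨y, hUT y.2⟩ * g⁻¹ ∈ ι.range := by
    intro y
    have h1 := hnorm.conj_mem _ (hmem y) g
    rw [← hV] at h1
    obtain ⟨w, -, hw⟩ := h1
    exact ⟨w, hw⟩
  obtain ⟨φ, hφ, hφv⟩ := IsRealizedBy.exists_hom hreal hUT g hv
  have hφU : ∀ y : powZ p n T₁, φ y ∈ powZ p n T₁ := by
    intro y
    have h1 := hnorm.conj_mem _ (hmem y) g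
    rw [← hV] at h1
    obtain ⟨w, hw, hwe⟩ := h1
    obtain ⟨hx', h4⟩ := hφv y
    have h5 : (⟨φ y, hx'⟩ : T₁) = w := hι (h4.trans hwe.symm)
    have h6 : φ y = (w : Ω) := congrArg Subtype.val h5
    rw [h6, ← hU]
    exact ⟨w, hw, rfl⟩
  obtain ⟨β, hβ, hβv⟩ := exists_aut_of_map hφ hφU
  have hxU := hadm hxT₀
  refine ⟨β, hβ, x, hxT₀, hxU, ?_⟩
  rw [hβv]
  obtain ⟨hx', h4⟩ := hφv ⟨x, hxU⟩
  have h5 := hg ⟨x, hxR⟩
  have h6 : (⟨φ ⟨x, hxU⟩, hx'⟩ : T₁) = ⟨ψ ⟨x, hxR⟩, hom_val E₁ hψ _⟩ := hι (h4.trans h5.symm)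
  have h7 : φ ⟨x, hxU⟩ = ψ ⟨x, hxR⟩ := congrArg Subtype.val h6
  rw [h7]
  exact hne

/-- The normal case. -/
theorem movedS_normal_case [Finite T] (hT : IsPGroup p T) {E : FusionSystem T} (hE : E.IsSaturated p) {V : Subgroup Ω}
    (hVn : E.IsFullyNormalized V) (hTV : T ≤ Subgroup.normalizer (V : Set Ω)) {γ : MulAut V} (hγ : γ ∈ E.autGroup V)
    {T₀ : Subgroup Ω} {x : Ω} (hxT₀ : x ∈ T₀) (hxV : x ∈ V) (hne : ((γ ⟨x, hxV⟩ : V) : Ω) ∉ T₀) (hadm : T₀ ≤ powZ p n T)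
    (hcl : T.lowerCentralSeries (n * (p - 1) + 1) = ⊥) :
    MovesAtS E T₀ (powZ p n T) := by
  have hVT := hVn.1
  have hrec := IsSat.receptive_of_fullyNormalized hT hE hVn
  have hγi : IsIso E (P := V) (Q := V) γ := (mem_autGroup_iff hVT).1 hγ
  set C := centralizerIn T V with hCd
  have hCN : C ≤ Subgroup.normalizer (V : Set Ω) := fun g hg => (mem_normalizerIn.1 (centralizerIn_le_normalizerIn hg)).2
  set Q₁ := V ⊔ C with hQ₁
  obtain ⟨ψ, hψ, hψv⟩ : ∃ ψ ∈ E.Hom Q₁, ∀ (x : Ω) (hP : x ∈ V) (hxN : x ∈ Q₁), ψ ⟨x, hxN⟩ = ((γ ⟨x, hP⟩ : V) : Ω) :=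
    IsReceptive.extend_sup (F := E) hrec hγi (N := C) (fun g hg => by
    have hg' := mem_centralizerIn.1 hg
    refine ⟨hg'.1, hCN hg, 1, T.one_mem, fun y hy => ?_⟩
    have h1 : g * (y : Ω) * g⁻¹ = y := by rw [← hg'.2 y y.2]; simp
    have h2 : (⟨g * y * g⁻¹, hy⟩ : V) = y := Subtype.ext h1
    rw [h2]
    simp)
  have hQ₁T : Q₁ ≤ T := sup_le hVT (centralizerIn_le _)
  have : Finite Q₁ := finite_of_le hQ₁T
  have hTQ₁ : T ≤ Subgroup.normalizer (Q₁ : Set Ω) := by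
    intro t ht
    refine mem_normalizer_of_forall fun y hy => ?_
    have hle : Q₁ ≤ Q₁.comap (MulAut.conj t).toMonoidHom := by
      refine sup_le (fun v hv => ?_) (fun c hc => ?_)
      · exact (le_sup_left : V ≤ Q₁) (conj_mem_of_mem_normalizer (hTV ht) hv)
      · refine (le_sup_right : C ≤ Q₁) ?_
        have hc' := mem_centralizerIn.1 hc
        refine mem_centralizerIn.2 ⟨T.mul_mem (T.mul_mem ht hc'.1) (T.inv_mem ht), fun v hv => ?_⟩
        have hv' : t⁻¹ * v * t ∈ V := by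
          simpa using conj_mem_of_mem_normalizer (hTV (T.inv_mem ht)) hv
        have h1 := hc'.2 _ hv'
        calc v * (t * c * t⁻¹) = t * ((t⁻¹ * v * t) * c) * t⁻¹ := by group
          _ = t * (c * (t⁻¹ * v * t)) * t⁻¹ := by rw [h1]
          _ = (t * c * t⁻¹) * v := by group
    exact hle hy
  have hNQ₁ : normalizerIn T Q₁ = T := le_antisymm (normalizerIn_le _) (fun t ht => mem_normalizerIn.2 ⟨ht, hTQ₁ ht⟩)
  have hQ₁n : E.IsFullyNormalized Q₁ := by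
    refine ⟨hQ₁T, fun R _ => ?_⟩
    rw [hNQ₁]
    exact card_le_of_le le_rfl (normalizerIn_le _)
  have hQ₁C : centralizerIn T Q₁ ≤ Q₁ := by
    intro g hg
    have hg' := mem_centralizerIn.1 hg
    exact (le_sup_right : C ≤ Q₁) (mem_centralizerIn.2 ⟨hg'.1, fun v hv => hg'.2 v ((le_sup_left : V ≤ Q₁) hv)⟩)
  have hQ₁c : E.IsCentric Q₁ := isCentric_of_receptive (IsSat.receptive_of_fullyNormalized hT hE hQ₁n) hQ₁C
  have hψV : ∀ (v : Ω) (hv : v ∈ V), ψ ⟨v, (le_sup_left : V ≤ Q₁) hv⟩ = ((γ ⟨v, hv⟩ : V) : Ω) := fun v hv => hψv v hv _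
  have hψU : ∀ y : Q₁, ψ y ∈ Q₁ := by
    rintro ⟨y, hy⟩
    obtain ⟨v, hv, c, hc, rfl⟩ := exists_mul_of_mem_sup hCN hy
    have hvQ : v ∈ Q₁ := (le_sup_left : V ≤ Q₁) hv
    have hcQ : c ∈ Q₁ := (le_sup_right : C ≤ Q₁) hc
    have h1 : ψ ⟨v * c, hy⟩ = ψ ⟨v, hvQ⟩ * ψ ⟨c, hcQ⟩ := by
      rw [← map_mul]
      rfl
    rw [h1]
    refine Q₁.mul_mem ?_ ?_
    · rw [hψV v hv]
      exact (le_sup_left : V ≤ Q₁) (γ ⟨v, hv⟩).2
    · refine (le_sup_right : C ≤ Q₁) (mem_centralizerIn.2 ⟨hom_val E hψ _, fun w hw => ?_⟩)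
      obtain ⟨w₀, hw₀⟩ := γ.surjective ⟨w, hw⟩
      have hw₁ : w = ψ ⟨(w₀ : Ω), (le_sup_left : V ≤ Q₁) w₀.2⟩ := by
        rw [hψV _ w₀.2]
        exact (congrArg Subtype.val hw₀).symm
      rw [hw₁, ← map_mul, ← map_mul]
      congr 1
      exact Subtype.ext ((mem_centralizerIn.1 hc).2 _ w₀.2)
  obtain ⟨β, hβ, hβv⟩ := exists_aut_of_map hψ hψU
  have hxQ₁ : x ∈ Q₁ := (le_sup_left : V ≤ Q₁) hxV
  obtain ⟨D, hD⟩ := Cfsg.Agent.S5096.result E Q₁ hQ₁T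
  have hDc := isConstrained_normalizerSystem hT hE hQ₁n hQ₁c hD
  obtain ⟨hDs, Q₀, hQ₀n, hQ₀c⟩ := hDc
  have hT₁p : IsPGroup p (normalizerIn T Q₁) := hT.to_le (normalizerIn_le Q₁)
  have : Finite (normalizerIn T Q₁) := finite_of_le (normalizerIn_le Q₁)
  obtain ⟨L, _, ι, hm⟩ := exists_model hT₁p hDs hQ₀n hQ₀c
  have hβD : β ∈ D.autGroup Q₁ := by
    rw [autGroup_normalizerSystem hQ₁T hD]
    exact hβ
  have hmov : MovesS D T₀ := by
    refine ⟨Q₁, _, (mem_autGroup_iff (le_normalizerIn hQ₁T)).1 hβD, x, hxT₀, hxQ₁, ?_⟩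
    show ((β ⟨x, hxQ₁⟩ : Q₁) : Ω) ∉ T₀
    rw [hβv, hψV x hxV]
    exact hne
  have hadm' : T₀ ≤ powZ p n (normalizerIn T Q₁) := by
    rw [hNQ₁]
    exact hadm
  have hcl' : (normalizerIn T Q₁).lowerCentralSeries (n * (p - 1) + 1) = ⊥ := by
    rw [hNQ₁]
    exact hcl
  have h := movedS_of_model hm hcl' hadm' hmov
  have h' : MovesAtS E T₀ (powZ p n (normalizerIn T Q₁)) :=
    MovesAtS.mono (fun P φ hφ => by
      rw [hD P] at hφ
      exact hφ.1) powZ_le (powZ_le.trans (normalizerIn_le _)) h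
  rwa [hNQ₁] at h'

/-- The climbing step. -/
theorem movedS_loop [Finite T] (hT : IsPGroup p T) {E : FusionSystem T} (hE : E.IsSaturated p) {T₀ : Subgroup Ω}
    (hadm : T₀ ≤ powZ p n T) (hcl : T.lowerCentralSeries (n * (p - 1) + 1) = ⊥) {m : ℕ}
    (hM : ∀ (R : Subgroup Ω) (φ : R →* Ω), φ ∈ E.Hom R → m < Nat.card R → ∀ y : R, ((y : Ω) ∈ T₀ ↔ φ y ∈ T₀))
    (hIH : ∀ T₃ : Subgroup Ω, Nat.card T₃ < Nat.card T → T₃ ≤ T → ∀ E₃ : FusionSystem T₃, E₃.IsSaturated p → T₀ ≤ powZ p n T₃ →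
      MovesS E₃ T₀ → MovesAtS E₃ T₀ (powZ p n T₃)) :
    ∀ (k : ℕ) (T' : Subgroup Ω), Nat.card T - Nat.card T' ≤ k → T' ≤ T → (∀ z ∈ T, (∀ t ∈ T, t * z = z * t) → z ∈ T') →
      m ≤ Nat.card T' → MovesAtS E T₀ (powZ p n T') → MovesAtS E T₀ (powZ p n T) := by
  intro k
  induction k with
  | zero =>
    intro T' hn hT'T _ _ h
    have hcard : Nat.card T ≤ Nat.card T' := by omega
    have : T' = T := eq_of_le_of_card_le le_rfl hT'T hcard
    rwa [this] at h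
  | succ k ih =>
    intro T' hn hT'T hZ hm h
    by_cases hT'eq : T' = T
    · rwa [hT'eq] at h
    have hlt : T' < T := lt_of_le_of_ne hT'T hT'eq
    have : Finite T' := finite_of_le hT'T
    obtain ⟨U', hU'⟩ : ∃ U', U' = powZ p n T' := ⟨_, rfl⟩
    rw [← hU'] at h
    have hU'T' : U' ≤ T' := hU' ▸ powZ_le
    have hU'T : U' ≤ T := hU'T'.trans hT'T
    have : Finite U' := finite_of_le hU'T
    have hNN : normalizerIn T T' ≤ normalizerIn T U' := fun g hg => by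
      have hg' := mem_normalizerIn.1 hg
      refine mem_normalizerIn.2 ⟨hg'.1, ?_⟩
      rw [hU']
      exact powZ_conj hg'.2
    have hcard1 : Nat.card T' < Nat.card (normalizerIn T U') :=
      lt_of_lt_of_le (card_lt_of_lt (normalizerIn_le _) (lt_normalizerIn hT hlt)) (card_le_of_le (normalizerIn_le _) hNN)
    obtain ⟨β, hβ, x, hxT₀, hxU, hne⟩ := h
    obtain ⟨U₀, hconj, hfn⟩ := exists_fullyNormalized_conj (F := E) hU'T
    obtain ⟨e, he⟩ := isConj_iff.1 hconj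
    obtain ⟨e', he', χ, hχ, hχv, hχe⟩ := IsSat.extend_to_normalizer hT hE hfn he
    have hxN : x ∈ normalizerIn T U' := le_normalizerIn hU'T hxU
    have hχpres := hM _ χ hχ (lt_of_le_of_lt hm hcard1)
    have hx₀T₀ : ((e' ⟨x, hxU⟩ : U₀) : Ω) ∈ T₀ := by
      rw [← hχe x hxU hxN]
      exact (hχpres ⟨x, hxN⟩).1 hxT₀
    have hβi : IsIso E (P := U') (Q := U') β := (mem_autGroup_iff hU'T).1 hβ
    let γ : MulAut U₀ := (e'.symm.trans β).trans e'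
    have hγ : γ ∈ E.autGroup U₀ := by
      refine (mem_autGroup_iff hfn.1).2 ?_
      exact IsIso.trans (IsIso.trans (IsIso.symm he') hβi) he'
    have hγne : ((γ (e' ⟨x, hxU⟩) : U₀) : Ω) ∉ T₀ := by
      have h0 : (γ (e' ⟨x, hxU⟩) : U₀) = e' (β ⟨x, hxU⟩) := by
        show e' (β (e'.symm (e' ⟨x, hxU⟩))) = _
        rw [MulEquiv.symm_apply_apply]
      rw [h0]
      intro hc
      apply hne
      have hyN : ((β ⟨x, hxU⟩ : U') : Ω) ∈ normalizerIn T U' := le_normalizerIn hU'T (β ⟨x, hxU⟩).2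
      have h1 := hχe _ (β ⟨x, hxU⟩).2 hyN
      have h2 : χ ⟨((β ⟨x, hxU⟩ : U') : Ω), hyN⟩ ∈ T₀ := by
        rw [h1]
        exact hc
      exact (hχpres ⟨_, hyN⟩).2 h2
    obtain ⟨x₀, hx₀⟩ : ∃ x₀, x₀ = e' ⟨x, hxU⟩ := ⟨_, rfl⟩
    rw [← hx₀] at hx₀T₀ hγne
    by_cases hTN : T ≤ Subgroup.normalizer (U₀ : Set Ω)
    · exact movedS_normal_case hT hE hfn hTN hγ hx₀T₀ x₀.2 hγne hadm hcl
    · have hT₃ : normalizerIn T U₀ < T := by
        refine lt_of_le_of_ne (normalizerIn_le _) fun hc => hTN ?_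
        rw [← hc]
        exact inf_le_right
      set T₃ := normalizerIn T U₀ with hT₃d
      have hZT₃ : ∀ z ∈ T, (∀ t ∈ T, t * z = z * t) → z ∈ T₃ := fun z hz hc => by
        have : Finite U₀ := finite_of_le hfn.1
        refine mem_normalizerIn.2 ⟨hz, mem_normalizer_of_forall fun y hy => ?_⟩
        have h1 : z * y * z⁻¹ = y := by
          rw [← hc y (hfn.1 hy)]
          simp
        rwa [h1]
      obtain ⟨D, hD⟩ := Cfsg.Agent.S5096.result E U₀ hfn.1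
      have hDs := isSaturated_normalizerSystem hT hE hfn hD
      have hadm' : T₀ ≤ powZ p n T₃ := hadm.trans (powZ_mono hT₃.le hZT₃)
      have hγD : γ ∈ D.autGroup U₀ := by
        rw [autGroup_normalizerSystem hfn.1 hD]
        exact hγ
      have hmov : MovesS D T₀ := MovesAtS.moves (le_normalizerIn hfn.1) ⟨γ, hγD, x₀, hx₀T₀, x₀.2, hγne⟩
      have h3 := hIH T₃ (card_lt_of_lt le_rfl hT₃) hT₃.le D hDs hadm' hmov
      have h4 : MovesAtS E T₀ (powZ p n T₃) := MovesAtS.mono (fun P φ hφ => by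
        rw [hD P] at hφ
        exact hφ.1) powZ_le (powZ_le.trans hT₃.le) h3
      have hc1 : Nat.card (normalizerIn T U') ≤ Nat.card T₃ := hfn.2 _ (conj_symm hconj)
      refine ih T₃ ?_ hT₃.le hZT₃ ?_ h4
      · have hc2 : Nat.card T₃ ≤ Nat.card T := card_le_of_le le_rfl hT₃.le
        omega
      · omega

/-- **The chain.** -/
theorem chain_pres : ∀ (N : ℕ) (T : Subgroup Ω) [Finite T], Nat.card T ≤ N → IsPGroup p T → T.lowerCentralSeries (n * (p - 1) + 1) = ⊥ →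
    ∀ E : FusionSystem T, E.IsSaturated p → ∀ T₀ : Subgroup Ω, T₀ ≤ powZ p n T → MovesS E T₀ → MovesAtS E T₀ (powZ p n T) := by
  intro N
  induction N with
  | zero =>
    intro T _ hn
    have : 0 < Nat.card T := Nat.card_pos
    omega
  | succ N ih =>
    intro T _ hn hT hcl E hE T₀ hadm hmov
    have hxc : ∀ t ∈ T, ∀ y ∈ T₀, t * y = y * t := fun t ht y hy => powZ_central (hadm hy) t ht
    obtain ⟨Q, hQn, hQc, ⟨α, hα, x, hxT₀, hxQ, hne⟩, hM⟩ := exists_movedS_max hT hE hxc hmov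
    have hQT := hQn.1
    obtain ⟨D, hD⟩ := Cfsg.Agent.S5096.result E Q hQT
    obtain ⟨hDs, Q₀, hQ₀n, hQ₀c⟩ := isConstrained_normalizerSystem hT hE hQn hQc hD
    have hT₁p : IsPGroup p (normalizerIn T Q) := hT.to_le (normalizerIn_le Q)
    have : Finite (normalizerIn T Q) := finite_of_le (normalizerIn_le Q)
    obtain ⟨L, _, ι, hm⟩ := exists_model hT₁p hDs hQ₀n hQ₀c
    have hZT₁ : ∀ z ∈ T, (∀ t ∈ T, t * z = z * t) → z ∈ normalizerIn T Q := fun z hz hc => by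
      have : Finite Q := finite_of_le hQT
      refine mem_normalizerIn.2 ⟨hz, mem_normalizer_of_forall fun y hy => ?_⟩
      have h1 : z * y * z⁻¹ = y := by
        rw [← hc y (hQT hy)]
        simp
      rwa [h1]
    have hαD : α ∈ D.autGroup Q := by
      rw [autGroup_normalizerSystem hQT hD]
      exact hα
    have hmovD : MovesS D T₀ := MovesAtS.moves (le_normalizerIn hQT) ⟨α, hαD, x, hxT₀, hxQ, hne⟩
    have hadm' : T₀ ≤ powZ p n (normalizerIn T Q) := hadm.trans (powZ_mono (normalizerIn_le Q) hZT₁)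
    have hcl' : (normalizerIn T Q).lowerCentralSeries (n * (p - 1) + 1) = ⊥ :=
      le_bot_iff.1 (hcl ▸ lcs_mono (normalizerIn_le Q) _)
    have h3 := movedS_of_model hm hcl' hadm' hmovD
    have h4 : MovesAtS E T₀ (powZ p n (normalizerIn T Q)) := MovesAtS.mono (fun P φ hφ => by
      rw [hD P] at hφ
      exact hφ.1) powZ_le (powZ_le.trans (normalizerIn_le _)) h3
    refine movedS_loop hT hE hadm hcl hM (fun T₃ hlt hle E₃ hE₃ hadm₃ hmov₃ => ?_) _ (normalizerIn T Q) le_rfl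
      (normalizerIn_le Q) hZT₁ (card_le_of_le (normalizerIn_le Q) (le_normalizerIn hQT)) h4
    have : Finite T₃ := finite_of_le hle
    exact ih T₃ (by omega) (hT.to_le hle) (le_bot_iff.1 (hcl ▸ lcs_mono hle _)) E₃ hE₃ T₀ hadm₃ hmov₃

/-- **The power of the centre is normal.** -/
theorem isNormal_powZ {S : Subgroup Ω} [Finite S] (hS : IsPGroup p S) {F : FusionSystem S} (hF : F.IsSaturated p)
    (hcl : S.lowerCentralSeries (n * (p - 1) + 1) = ⊥) : F.IsNormal (powZ p n S) := by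
  have hsc : F.StronglyClosed (powZ p n S) := by
    refine ⟨powZ_le, fun R hR φ hφ x => ?_⟩
    by_contra hne
    have hmov : MovesS F (powZ p n S) := ⟨R, φ, hφ, x, hR x.2, x.2, hne⟩
    obtain ⟨β, -, y, -, hy, hn⟩ := chain_pres _ S le_rfl hS hcl F hF _ le_rfl hmov
    exact hn (β ⟨y, hy⟩).2
  rw [isNormal_iff_stronglyClosed hS hF]
  refine ⟨hsc, fun T hTc _ => ?_⟩
  intro y hy
  refine IsCentric.centralizer_le hTc (mem_centralizerIn.2 ⟨powZ_le hy, fun t ht => ?_⟩)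
  exact (powZ_central hy t (hTc.1 ht))

end

end Cfsg.Agent.Lib.Fusion
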