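import Cfsg.Agent.Lib.Fusion.ChainLocal
import Cfsg.Agent.Lib.Fusion.GlaubLocal2
import Mathlib

/-! # Powers of the centre of a `p`-group of small class -/

set_option autoImplicit false

namespace Cfsg.Agent.Lib.Fusion

open Cfsg Cfsg.FusionSystem
open scoped commutatorElement

universe u

section Ring

open Polynomial in
theorem exists_poly_one_add_pow {p : ℕ} (hp : p.Prime) :
    ∃ h : Polynomial ℤ, (1 + X) ^ p = 1 + X ^ p + (p : Polynomial ℤ) * X * (X * h + 1) := by
  obtain ⟨r, hr⟩ := exists_add_pow_prime_eq hp (1 : Polynomial ℤ) X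
  have hc := congrArg (fun f : Polynomial ℤ => f.coeff 1) hr
  simp only [one_pow, coeff_add, coeff_one_add_X_pow, mul_one] at hc
  have h1 : (1 : Polynomial ℤ).coeff 1 = 0 := by simp [coeff_one]
  have h2 : (X ^ p : Polynomial ℤ).coeff 1 = 0 := by
    rw [coeff_X_pow]
    simp [hp.ne_one.symm]
  have h3 : ((p : Polynomial ℤ) * X * r).coeff 1 = (p : ℤ) * r.coeff 0 := by
    rw [mul_assoc, show (p : Polynomial ℤ) = C (p : ℤ) by simp, coeff_C_mul, mul_comm X r, coeff_mul_X]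
  rw [h1, h2, h3] at hc
  simp only [Nat.choose_one_right, zero_add] at hc
  have hp0 : (p : ℤ) ≠ 0 := by exact_mod_cast hp.ne_zero
  have h4 : r.coeff 0 = 1 := by
    have : (p : ℤ) * r.coeff 0 = (p : ℤ) * 1 := by rw [mul_one]; exact hc.symm
    exact mul_left_cancel₀ hp0 this
  refine ⟨divX r, ?_⟩
  have h5 : X * divX r + 1 = r := by
    have := divX_mul_X_add r
    rw [h4, C_1] at this
    rw [mul_comm]
    exact this
  rw [h5, hr]
  simp

/-- If `(1+a)^p = 1` and `a^(n(p-1)+1) = 0` in a commutative ring, then `p^n a = 0`. -/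
theorem pow_mul_eq_zero_of_one_add_pow {R : Type*} [CommRing R] {a : R} {p n : ℕ} (hp : p.Prime) (h1 : (1 + a) ^ p = 1)
    (h2 : a ^ (n * (p - 1) + 1) = 0) : (p : R) ^ n * a = 0 := by
  obtain ⟨h, hh⟩ := exists_poly_one_add_pow hp
  have hr := congrArg (Polynomial.aeval a) hh
  simp only [map_pow, map_add, map_one, Polynomial.aeval_X, map_mul, map_natCast] at hr
  rw [h1] at hr
  set H := Polynomial.aeval a h with hH
  have hnil : IsNilpotent (a * H) := ⟨n * (p - 1) + 1, by rw [mul_pow, h2, zero_mul]⟩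
  obtain ⟨u, hu⟩ := hnil.isUnit_add_one
  have huv : (a * H + 1) * (↑u⁻¹ : R) = 1 := by
    rw [← hu]
    simp
  set v := (↑u⁻¹ : R) with hv
  have hpa : (p : R) * a = - (a ^ p * v) := by
    have h3 : (p : R) * a * (a * H + 1) = - a ^ p := by
      linear_combination -hr
    calc (p : R) * a = (p : R) * a * ((a * H + 1) * v) := by rw [huv, mul_one]
      _ = ((p : R) * a * (a * H + 1)) * v := by ring
      _ = - (a ^ p * v) := by rw [h3]; ring
  have hpp : a ^ p = a ^ (p - 1) * a := by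
    rw [← pow_succ, Nat.sub_add_cancel hp.one_lt.le]
  have key : ∀ k : ℕ, (p : R) ^ k * a = a ^ (k * (p - 1) + 1) * (-v) ^ k := by
    intro k
    induction k with
    | zero => simp
    | succ k ih =>
      have e1 : (k + 1) * (p - 1) + 1 = (p - 1) + (k * (p - 1) + 1) := by ring
      calc (p : R) ^ (k + 1) * a = (p : R) ^ k * ((p : R) * a) := by ring
        _ = (p : R) ^ k * (- (a ^ (p - 1) * a * v)) := by rw [hpa, hpp]
        _ = (-v) * a ^ (p - 1) * ((p : R) ^ k * a) := by ring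
        _ = (-v) * a ^ (p - 1) * (a ^ (k * (p - 1) + 1) * (-v) ^ k) := by rw [ih]
        _ = a ^ ((k + 1) * (p - 1) + 1) * (-v) ^ (k + 1) := by rw [e1, pow_add, pow_succ (-v) k]; ring
  rw [key n, h2, zero_mul]

/-- The same conclusion in an arbitrary ring. -/
theorem pow_mul_eq_zero_of_one_add_pow' {R : Type*} [Ring R] {a : R} {p n : ℕ} (hp : p.Prime) (h1 : (1 + a) ^ p = 1)
    (h2 : a ^ (n * (p - 1) + 1) = 0) : (p : R) ^ n * a = 0 := by
  letI : CommRing (Subring.closure ({a} : Set R)) := Subring.closureCommRingOfComm (by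
    rintro x rfl y rfl
    rfl)
  let a' : Subring.closure ({a} : Set R) := ⟨a, Subring.subset_closure rfl⟩
  have h1' : (1 + a') ^ p = 1 := Subtype.ext h1
  have h2' : a' ^ (n * (p - 1) + 1) = 0 := Subtype.ext h2
  have := pow_mul_eq_zero_of_one_add_pow hp h1' h2'
  have h3 := congrArg Subtype.val this
  exact h3

end Ring

section Group

variable {L : Type*} [Group L]

/-- The group form of the power lemma. -/
theorem conj_power_eq {V : Subgroup L} [hVn : V.Normal] (hVc : ∀ a ∈ V, ∀ b ∈ V, a * b = b * a) {g : L} {p n : ℕ} (hp : p.Prime)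
    (hgp : ∀ v ∈ V, g ^ p * v = v * g ^ p)
    (hnil : ∀ v ∈ V, (fun w => g * w * g⁻¹ * w⁻¹)^[n * (p - 1) + 1] v = 1) {v : L} (hv : v ∈ V) :
    g * v ^ (p ^ n) * g⁻¹ = v ^ (p ^ n) := by
  classical
  letI : CommGroup V := abCommGroup V hVc
  let σ₀ : V →* V := (MulAut.conjNormal g : MulAut V).toMonoidHom
  have hσ₀ : ∀ w : V, ((σ₀ w : V) : L) = g * w * g⁻¹ := fun w => MulAut.conjNormal_apply g w
  let σ : AddMonoid.End (Additive V) := MonoidHom.toAdditive σ₀
  have hσ : ∀ x : Additive V, (((σ x).toMul : V) : L) = g * (x.toMul : V) * g⁻¹ := fun x => hσ₀ x.toMul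
  let τ : AddMonoid.End (Additive V) := σ - 1
  have hτ : ∀ x : Additive V, (((τ x).toMul : V) : L) = g * (x.toMul : V) * g⁻¹ * ((x.toMul : V) : L)⁻¹ := by
    intro x
    show (((σ x - x).toMul : V) : L) = _
    rw [toMul_sub, div_eq_mul_inv, Subgroup.coe_mul, Subgroup.coe_inv, hσ]
  have h1τ : 1 + τ = σ := by simp [τ]
  have hσp : ∀ (k : ℕ) (x : Additive V), ((((σ ^ k) x).toMul : V) : L) = g ^ k * (x.toMul : V) * (g ^ k)⁻¹ := by
    intro k
    induction k with
    | zero => intro x; simp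
    | succ k ih =>
      intro x
      rw [pow_succ σ k]
      show ((((σ ^ k) (σ x)).toMul : V) : L) = _
      rw [ih, hσ, pow_succ g k]
      group
  have h1 : (1 + τ) ^ p = 1 := by
    rw [h1τ]
    ext x
    rw [hσp]
    have h2 := hgp _ (x.toMul : V).2
    show g ^ p * ((x.toMul : V) : L) * (g ^ p)⁻¹ = ((x.toMul : V) : L)
    rw [h2]
    group
  have hτk : ∀ (k : ℕ) (x : Additive V), ((((τ ^ k) x).toMul : V) : L) = (fun w => g * w * g⁻¹ * w⁻¹)^[k] ((x.toMul : V) : L) := by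
    intro k
    induction k with
    | zero => intro x; rfl
    | succ k ih =>
      intro x
      rw [pow_succ τ k]
      show ((((τ ^ k) (τ x)).toMul : V) : L) = _
      rw [ih, Function.iterate_succ_apply, hτ]
  have h2 : τ ^ (n * (p - 1) + 1) = 0 := by
    ext x
    rw [hτk]
    rw [hnil _ (x.toMul : V).2]
    rfl
  have h3 := pow_mul_eq_zero_of_one_add_pow' hp h1 h2
  let x : Additive V := Additive.ofMul ⟨v, hv⟩
  have h4 : (((p : AddMonoid.End (Additive V)) ^ n * τ) x) = 0 := by rw [h3]; rfl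
  have h5 : (p ^ n) • (τ x) = 0 := by
    rw [← h4, ← Nat.cast_pow]
    rfl
  have h6 : τ ((p ^ n) • x) = 0 := by rw [map_nsmul, h5]
  have h7 := hτ ((p ^ n) • x)
  rw [h6] at h7
  have h8 : (((p ^ n) • x : Additive V).toMul : V) = (⟨v, hv⟩ : V) ^ (p ^ n) := rfl
  rw [h8] at h7
  have h9 : (((⟨v, hv⟩ : V) ^ (p ^ n) : V) : L) = v ^ (p ^ n) := rfl
  rw [h9] at h7
  have h10 : g * v ^ (p ^ n) * g⁻¹ * (v ^ (p ^ n))⁻¹ = 1 := h7.symm
  exact mul_inv_eq_one.1 h10

end Group

section Pow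

variable {G : Type*} [Group G] {p n : ℕ}

/-- The subgroup generated by the `p^n`-th powers of the centre of `T`. -/
abbrev powZ (p n : ℕ) (T : Subgroup G) : Subgroup G := powerClosure p n (T ⊓ Subgroup.centralizer (T : Set G))

theorem powZ_le {T : Subgroup G} : powZ p n T ≤ T := by
  refine (Subgroup.closure_le _).2 ?_
  rintro _ ⟨x, hx, rfl⟩
  exact T.pow_mem hx.1 _

theorem pow_mem_powZ {T : Subgroup G} {z : G} (hz : z ∈ T) (hc : ∀ t ∈ T, t * z = z * t) : z ^ (p ^ n) ∈ powZ p n T :=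
  Subgroup.subset_closure ⟨z, ⟨hz, Subgroup.mem_centralizer_iff.2 hc⟩, rfl⟩

theorem powZ_central {T : Subgroup G} {y : G} (hy : y ∈ powZ p n T) : ∀ t ∈ T, t * y = y * t := by
  intro t ht
  have h1 : powZ p n T ≤ Subgroup.centralizer ({t} : Set G) := by
    refine (Subgroup.closure_le _).2 ?_
    rintro _ ⟨x, hx, rfl⟩
    refine Subgroup.mem_centralizer_iff.2 fun s hs => ?_
    rw [Set.mem_singleton_iff.1 hs]
    have h2 : Commute t x := Subgroup.mem_centralizer_iff.1 hx.2 t ht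
    exact (h2.pow_right _).eq
  exact Subgroup.mem_centralizer_iff.1 (h1 hy) t rfl

theorem powZ_mono {T T' : Subgroup G} (hT' : T' ≤ T) (hZ : ∀ z ∈ T, (∀ t ∈ T, t * z = z * t) → z ∈ T') : powZ p n T ≤ powZ p n T' := by
  refine (Subgroup.closure_le _).2 ?_
  rintro _ ⟨x, hx, rfl⟩
  exact pow_mem_powZ (hZ x hx.1 (Subgroup.mem_centralizer_iff.1 hx.2)) fun t ht => Subgroup.mem_centralizer_iff.1 hx.2 t (hT' ht)

/-- Images under injective homomorphisms. -/
theorem powZ_map {G' : Type*} [Group G'] (f : G →* G') (hf : Function.Injective f) (T : Subgroup G) :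
    (powZ p n T).map f = powZ p n (T.map f) := by
  apply le_antisymm
  · rw [Subgroup.map_le_iff_le_comap]
    refine (Subgroup.closure_le _).2 ?_
    rintro _ ⟨x, hx, rfl⟩
    show f (x ^ (p ^ n)) ∈ powZ p n (T.map f)
    rw [map_pow]
    refine pow_mem_powZ ⟨x, hx.1, rfl⟩ ?_
    rintro _ ⟨t, ht, rfl⟩
    rw [← map_mul, ← map_mul, Subgroup.mem_centralizer_iff.1 hx.2 t ht]
  · refine (Subgroup.closure_le _).2 ?_
    rintro _ ⟨x, ⟨⟨x₀, hx₀, rfl⟩, hx⟩, rfl⟩
    rw [← map_pow]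
    refine ⟨x₀ ^ (p ^ n), pow_mem_powZ hx₀ fun t ht => ?_, rfl⟩
    have h1 := Subgroup.mem_centralizer_iff.1 hx (f t) ⟨t, ht, rfl⟩
    rw [← map_mul, ← map_mul] at h1
    exact hf h1

/-- Conjugation-invariance. -/
theorem powZ_conj {T : Subgroup G} {g : G} (hg : g ∈ Subgroup.normalizer (T : Set G)) :
    g ∈ Subgroup.normalizer (powZ p n T : Set G) := by
  have h1 : (MulAut.conj g).toMonoidHom = (MulAut.conj g).toMonoidHom := rfl
  rw [Cfsg.Agent.Lib.Techniques.mem_normalizer_iff_conjS] at hg ⊢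
  rw [Cfsg.Agent.Lib.Techniques.conjS, powZ_map _ (MulAut.conj g).injective]
  rw [show T.map (MulAut.conj g).toMonoidHom = T from hg]

end Pow

section Local

/-- Iterated commutators with an element of `P` of a subset of `P` lie in the lower central series. -/
theorem iterate_mem_lcs {L : Type*} [Group L] {P : Subgroup L} {g : L} (hg : g ∈ P) {v : L} (hv : v ∈ P) (k : ℕ) :
    (fun w => g * w * g⁻¹ * w⁻¹)^[k] v ∈ P.lowerCentralSeries k := by
  induction k with
  | zero => exact hv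
  | succ k ih =>
    rw [Function.iterate_succ_apply']
    rw [Subgroup.lowerCentralSeries_succ]
    have h1 := Subgroup.commutator_mem_commutator ih hg
    have h2 := Subgroup.inv_mem _ h1
    rw [commutatorElement_inv] at h2
    exact h2

/-- **The local theorem.** -/
theorem powZ_normal {p n : ℕ} [Fact p.Prime] : ∀ (N : ℕ) (L : Type u) [Group L] [Finite L], Nat.card L ≤ N → ∀ P : Sylow p L,
    Subgroup.centralizer ((pCore p L : Subgroup L) : Set L) ≤ pCore p L →
    (P : Subgroup L).lowerCentralSeries (n * (p - 1) + 1) = ⊥ → (powZ p n (P : Subgroup L)).Normal := by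
  intro N
  induction N with
  | zero =>
    intro L _ _ hn
    have : 0 < Nat.card L := Nat.card_pos
    omega
  | succ N ih =>
    intro L _ _ hn P hCL hcl
    have hpp : p.Prime := Fact.out
    set O := Cfsg.pCore p L with hO
    have hOn : O.Normal := Lib.Core.pCore_normal p L
    have hOP : O ≤ (P : Subgroup L) := Lib.Core.pCore_le_sylow P
    by_cases hPO : (P : Subgroup L) ≤ O
    · have hPn : (P : Subgroup L).Normal := by
        rw [le_antisymm hPO hOP]
        exact hOn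
      rw [← Subgroup.normalizer_eq_top_iff, eq_top_iff]
      intro g _
      refine powZ_conj ?_
      rw [Subgroup.normalizer_eq_top_iff.2 hPn]
      trivial
    obtain ⟨g₀, hg₀P, hg₀O⟩ := SetLike.not_le_iff_exists.1 hPO
    obtain ⟨k₀, hk₀⟩ : ∃ j : ℕ, g₀ ^ (p ^ j) ∈ O := by
      obtain ⟨j, hj⟩ := P.isPGroup' ⟨g₀, hg₀P⟩
      refine ⟨j, ?_⟩
      have : g₀ ^ (p ^ j) = 1 := congrArg Subtype.val hj
      rw [this]
      exact O.one_mem
    classical
    set j := Nat.find (⟨k₀, hk₀⟩ : ∃ j : ℕ, g₀ ^ (p ^ j) ∈ O) with hj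
    have hjs : g₀ ^ (p ^ j) ∈ O := Nat.find_spec (⟨k₀, hk₀⟩ : ∃ j : ℕ, g₀ ^ (p ^ j) ∈ O)
    have hj0 : j ≠ 0 := by
      intro h0
      rw [h0] at hjs
      apply hg₀O
      simpa using hjs
    obtain ⟨i, hi⟩ := Nat.exists_eq_succ_of_ne_zero hj0
    have hmin : g₀ ^ (p ^ i) ∉ O := Nat.find_min (⟨k₀, hk₀⟩ : ∃ j : ℕ, g₀ ^ (p ^ j) ∈ O) (by omega)
    set g₁ := g₀ ^ (p ^ i) with hg₁
    have hg₁p : g₁ ^ p ∈ O := by
      have : g₁ ^ p = g₀ ^ (p ^ j) := by
        rw [hg₁, ← pow_mul, hi, pow_succ]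
      rw [this]
      exact hjs
    have hg₁P : g₁ ∈ (P : Subgroup L) := Subgroup.pow_mem _ hg₀P _
    -- the centre of `O`
    obtain ⟨V, hV⟩ : ∃ V : Subgroup L, V = O ⊓ Subgroup.centralizer (O : Set L) := ⟨_, rfl⟩
    have hVmem : ∀ {a : L}, a ∈ V ↔ a ∈ O ∧ ∀ y ∈ O, y * a = a * y := by
      intro a
      rw [hV, Subgroup.mem_inf, Subgroup.mem_centralizer_iff]
      rfl
    have hVO : V ≤ O := fun a ha => (hVmem.1 ha).1
    haveI hVn : V.Normal := by
      refine ⟨fun a ha g => hVmem.2 ⟨hOn.conj_mem a (hVO ha) g, fun y hy => ?_⟩⟩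
      have h1 := (hVmem.1 ha).2 _ (hOn.conj_mem y hy g⁻¹)
      have h2 : g⁻¹ * y * g⁻¹⁻¹ * a = a * (g⁻¹ * y * g⁻¹⁻¹) := h1
      calc y * (g * a * g⁻¹) = g * (g⁻¹ * y * g⁻¹⁻¹ * a) * g⁻¹ := by group
        _ = g * (a * (g⁻¹ * y * g⁻¹⁻¹)) * g⁻¹ := by rw [h2]
        _ = g * a * g⁻¹ * y := by group
    have hVc : ∀ a ∈ V, ∀ b ∈ V, a * b = b * a := fun a ha b hb => (hVmem.1 hb).2 a (hVO ha)
    have hpow : ∀ a ∈ V, g₁ * a ^ (p ^ n) * g₁⁻¹ = a ^ (p ^ n) := by
      intro a ha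
      refine conj_power_eq hVc hpp (fun b hb => (hVmem.1 hb).2 _ hg₁p) (fun v hv => ?_) ha
      have h1 := iterate_mem_lcs hg₁P (hOP (hVO hv)) (n * (p - 1) + 1)
      rw [hcl, Subgroup.mem_bot] at h1
      exact h1
    -- the centralizer of the powers
    set X : Set L := (fun a => a ^ (p ^ n)) '' (V : Set L) with hX
    set E := Subgroup.centralizer X with hE
    have hEn : E.Normal := by
      refine ⟨fun e he g => Subgroup.mem_centralizer_iff.2 ?_⟩
      rintro _ ⟨a, ha, rfl⟩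
      have h1 : g⁻¹ * a * g⁻¹⁻¹ ∈ V := hVn.conj_mem a ha g⁻¹
      have h2 : (g⁻¹ * a * g⁻¹⁻¹) ^ (p ^ n) * e = e * (g⁻¹ * a * g⁻¹⁻¹) ^ (p ^ n) := Subgroup.mem_centralizer_iff.1 he _ ⟨_, h1, rfl⟩
      have h3 : (g⁻¹ * a * g⁻¹⁻¹) ^ (p ^ n) = g⁻¹ * a ^ (p ^ n) * g⁻¹⁻¹ := conj_pow
      rw [h3] at h2
      show a ^ (p ^ n) * (g * e * g⁻¹) = (g * e * g⁻¹) * a ^ (p ^ n)
      calc a ^ (p ^ n) * (g * e * g⁻¹) = g * ((g⁻¹ * a ^ (p ^ n) * g⁻¹⁻¹) * e) * g⁻¹ := by group
        _ = g * (e * (g⁻¹ * a ^ (p ^ n) * g⁻¹⁻¹)) * g⁻¹ := by rw [h2]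
        _ = (g * e * g⁻¹) * a ^ (p ^ n) := by group
    have hg₁E : g₁ ∈ E := Subgroup.mem_centralizer_iff.2 (by
      rintro _ ⟨a, ha, rfl⟩
      have h1 := hpow a ha
      show a ^ (p ^ n) * g₁ = g₁ * a ^ (p ^ n)
      calc a ^ (p ^ n) * g₁ = (g₁ * a ^ (p ^ n) * g₁⁻¹) * g₁ := by rw [h1]
        _ = g₁ * a ^ (p ^ n) := by group)
    -- Frattini
    obtain ⟨Q, hQ⟩ := Lib.Core.sylow_inf_normal p E P
    have hFr := Lib.Core.sup_normalizer_of_sylow_le_normal E Q
    have hQE : ((Q : Subgroup ↥E).map E.subtype : Subgroup L) = (P : Subgroup L) ⊓ E := by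
      rw [hQ, Subgroup.subgroupOf_map_subtype]
    rw [hQE] at hFr
    set D := (P : Subgroup L) ⊓ E with hD
    set M := Subgroup.normalizer (D : Set L) with hM
    have hDnn : ¬ D.Normal := by
      intro hDn
      have : D ≤ O := Lib.Core.le_pCore hDn (P.isPGroup'.to_le inf_le_left)
      exact hmin (this ⟨hg₁P, hg₁E⟩)
    have hMtop : M ≠ ⊤ := fun h => hDnn (Subgroup.normalizer_eq_top_iff.1 h)
    have hMcard : Nat.card M < Nat.card L := by
      by_contra hc
      apply hMtop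
      apply Subgroup.eq_top_of_card_eq
      exact le_antisymm (Subgroup.card_le_card_group M) (not_lt.1 hc)
    have hPM : (P : Subgroup L) ≤ M := by
      intro t ht
      refine mem_normalizer_of_forall fun y hy => ?_
      exact ⟨(P : Subgroup L).mul_mem ((P : Subgroup L).mul_mem ht hy.1) ((P : Subgroup L).inv_mem ht), hEn.conj_mem y hy.2 t⟩
    let P' : Sylow p M := P.subtype hPM
    have hP'c : (P' : Subgroup M) = (P : Subgroup L).subgroupOf M := P.coe_subtype hPM
    have hP'map : (P' : Subgroup M).map M.subtype = (P : Subgroup L) := by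
      rw [hP'c, Subgroup.subgroupOf_map_subtype, inf_eq_left.2 hPM]
    have hOM : O ≤ M := hOP.trans hPM
    have hCM : Subgroup.centralizer ((pCore p M : Subgroup M) : Set M) ≤ pCore p M := by
      intro y hy
      have hO' : O.subgroupOf M ≤ pCore p M := by
        haveI : (O.subgroupOf M).Normal := Subgroup.normal_subgroupOf
        refine Lib.Core.le_pCore ‹_› ?_
        exact (Lib.Core.pCore_isPGroup p L).comap_of_injective M.subtype M.subtype_injective |>.to_le (by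
          intro w hw
          exact hw)
      refine hO' (Subgroup.mem_subgroupOf.2 (hCL (Subgroup.mem_centralizer_iff.2 fun w hw => ?_)))
      have := Subgroup.mem_centralizer_iff.1 hy ⟨w, hOM hw⟩ (hO' (Subgroup.mem_subgroupOf.2 hw))
      exact congrArg Subtype.val this
    have hcl' : (P' : Subgroup M).lowerCentralSeries (n * (p - 1) + 1) = ⊥ := by
      have h1 := Subgroup.map_lowerCentralSeries (P' : Subgroup M) M.subtype (n * (p - 1) + 1)
      rw [hP'map, hcl] at h1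
      exact (Subgroup.map_eq_bot_iff_of_injective _ M.subtype_injective).1 h1
    have hT' := ih M (by omega) P' hCM hcl'
    have hTmap : (powZ p n (P' : Subgroup M)).map M.subtype = powZ p n (P : Subgroup L) := by
      rw [powZ_map _ M.subtype_injective, hP'map]
    refine ⟨fun y hy l => ?_⟩
    have hl : l ∈ E ⊔ M := by
      rw [hFr]
      trivial
    obtain ⟨e, he, m, hm, rfl⟩ := Subgroup.mem_sup_of_normal_left.1 hl
    have hmy : m * y * m⁻¹ ∈ powZ p n (P : Subgroup L) := by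
      rw [← hTmap] at hy ⊢
      obtain ⟨y', hy', rfl⟩ := hy
      exact ⟨⟨m, hm⟩ * y' * (⟨m, hm⟩ : M)⁻¹, hT'.conj_mem y' hy' _, rfl⟩
    have hcomm : powZ p n (P : Subgroup L) ≤ Subgroup.centralizer ({e} : Set L) := by
      refine (Subgroup.closure_le _).2 ?_
      rintro _ ⟨z, hz, rfl⟩
      refine Subgroup.mem_centralizer_iff.2 fun s hs => ?_
      rw [Set.mem_singleton_iff.1 hs]
      have hzV : z ∈ V := hVmem.2 ⟨hCL (Subgroup.mem_centralizer_iff.2 fun w hw => Subgroup.mem_centralizer_iff.1 hz.2 w (hOP hw)),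
        fun w hw => Subgroup.mem_centralizer_iff.1 hz.2 w (hOP hw)⟩
      exact (Subgroup.mem_centralizer_iff.1 he _ ⟨z, hzV, rfl⟩).symm
    have h1 := Subgroup.mem_centralizer_iff.1 (hcomm hmy) e rfl
    have h2 : e * (m * y * m⁻¹) * e⁻¹ = m * y * m⁻¹ := by
      rw [h1]
      group
    have h3 : e * m * y * (e * m)⁻¹ = e * (m * y * m⁻¹) * e⁻¹ := by group
    rw [h3, h2]
    exact hmy

end Local

end Cfsg.Agent.Lib.Fusion
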