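import Cfsg.Agent.Lib.Fusion.ResidualUniq
import Cfsg.Agent.Lib.Fusion.PrimeIndex
import Cfsg.Agent.Lib.Fusion.CentricInter
import Cfsg.Agent.Lib.Fusion.Stable
import Cfsg.Agent.Lib.Fusion.Chains
import Mathlib

/-! # Saturated subsystems of `p`-power index over subgroups normal in `S` are normal -/

set_option autoImplicit false
set_option linter.unusedSectionVars false
set_option linter.unusedVariables false

namespace Cfsg.Agent.Lib.Fusion

open Cfsg Cfsg.FusionSystem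

variable {Ω : Type*} [Group Ω] {S T : Subgroup Ω} {F : FusionSystem S} {E : FusionSystem T} {p : ℕ} [Fact p.Prime]

/-- The maps of `E` all of whose transports under `Aut_F(T)` lie in `E`. -/
def coreOn (F : FusionSystem S) (E : FusionSystem T) : FusionSystem T where
  Hom P := {φ | φ ∈ E.Hom P ∧ ∀ α : MulAut T, α ∈ F.autGroup T → TrProp E α φ}
  le_of_mem h := E.le_of_mem h.1
  injective_of_mem h := E.injective_of_mem h.1
  conj_mem hP hg := ⟨E.conj_mem hP hg, fun α _ => tr_conj hP hg⟩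
  comp_mem {P Q φ ψ} hφ hψ h := ⟨E.comp_mem hφ.1 hψ.1 h, fun α hα => tr_comp hφ.1 hψ.1 h (hφ.2 α hα) (hψ.2 α hα)⟩
  inv_mem {P φ} hφ := by
    obtain ⟨ψ, hψ, hv⟩ := E.inv_mem hφ.1
    exact ⟨ψ, ⟨hψ, fun α hα => tr_inv hφ.1 hv (hφ.2 α hα)⟩, hv⟩

/-- A transport of a subgroup of `T` under an automorphism of `T` in the system, as an isomorphism. -/
theorem exists_iso_imgT {α : MulAut T} {P : Subgroup Ω} (hP : P ≤ T) (hα : IsIso F (P := T) (Q := T) α) :
    ∃ e : P ≃* imgS α P, IsIso F e ∧ ∀ x : P, (e x : Ω) = aExt α x := by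
  have h1 : (T.subtype.comp α.toMonoidHom).comp (Subgroup.inclusion hP) ∈ F.Hom P := res_mem F hα hP
  have h2 : ((T.subtype.comp α.toMonoidHom).comp (Subgroup.inclusion hP)).range = imgS α P := by
    ext y
    rw [mem_imgS hP]
    constructor
    · rintro ⟨x, rfl⟩
      exact ⟨x, x.2, aExt_of_mem α (hP x.2)⟩
    · rintro ⟨x, hx, rfl⟩
      exact ⟨⟨x, hx⟩, (aExt_of_mem α (hP hx)).symm⟩
  obtain ⟨e, he, hv⟩ := exists_isIso_of_mem h1 h2
  exact ⟨e, he, fun x => by rw [hv x, aExt_of_mem α (hP x.2)]; rfl⟩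

section

variable [Finite S] (hS : IsPGroup p S) (hF : F.IsSaturated p) (hTS : T ≤ S)
  (hEs : E.IsSaturated p) (hsub : E.IsSubsystemOf F)
  (hres : ∀ P, P ≤ T → ∀ β ∈ F.autGroup P, Nat.Coprime (orderOf β) p → β ∈ E.autGroup P)

include hTS hres in
theorem residual_le_core {P : Subgroup Ω} (hP : P ≤ T) :
    (pResidual p (F.autGroup P)).map (F.autGroup P).subtype ≤ (coreOn F E).autGroup P := by
  rw [pResidual, MonoidHom.map_closure, Subgroup.closure_le]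
  rintro _ ⟨β, hβ, rfl⟩
  have hco : Nat.Coprime (orderOf (β : MulAut P)) p := by
    rw [Subgroup.orderOf_coe]
    exact hβ
  have hβE := hres P hP β β.2 hco
  refine (mem_autGroup_iff hP).2 ⟨(mem_autGroup_iff hP).1 hβE, fun α hα => ?_⟩
  have hαi : IsIso F (P := T) (Q := T) α := (mem_autGroup_iff hTS).1 hα
  obtain ⟨e, he, hev⟩ := exists_iso_imgT (F := F) hP hαi
  have hPS := hP.trans hTS
  have hβi : IsIso F (P := P) (Q := P) (β : MulAut P) := (mem_autGroup_iff hPS).1 β.2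
  set γ' : MulAut (imgS α P) := e.symm.trans ((β : MulAut P).trans e) with hγ'
  have hγ'i : IsIso F (P := imgS α P) (Q := imgS α P) γ' := he.symm.trans (hβi.trans he)
  have hγ'F : γ' ∈ F.autGroup (imgS α P) := (mem_autGroup_iff ((imgS_le α P).trans hTS)).2 hγ'i
  have hpow : γ' ^ (orderOf (β : MulAut P)) = 1 := by
    rw [hγ', pow_transport, pow_orderOf_eq_one]
    ext y
    simp
  have hco' : Nat.Coprime (orderOf γ') p := Nat.Coprime.coprime_dvd_left (orderOf_dvd_of_pow_eq_one hpow) hco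
  have hγ'E := (mem_autGroup_iff (imgS_le α P)).1 (hres _ (imgS_le α P) γ' hγ'F hco')
  refine ⟨_, hγ'E, fun x y hy => ?_⟩
  have hy' : y = e x := Subtype.ext (by rw [hy, hev])
  subst hy'
  show ((γ' (e x) : imgS α P) : Ω) = aExt α ((β : MulAut P) x : P)
  rw [← hev]
  simp [hγ']

include hS hTS hEs hsub hres in
/-- Invariance under `Aut_F(T)`. -/
theorem tr_all {P : Subgroup Ω} {φ : P →* Ω} (hφ : φ ∈ E.Hom P) {α : MulAut T} (hα : α ∈ F.autGroup T) :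
    TrProp E α φ := by
  have := finite_of_le hTS
  have hle : E ≤ coreOn F E := le_of_residual_le (hS.to_le hTS) hEs (autGroup_le_of_subsystem hsub hTS)
    (fun P hP => residual_le_core hTS hres hP)
  exact (hle P hφ).2 α hα

include hS hF in
/-- A subgroup normal in `S` containing the hyperfocal subgroup is strongly closed. -/
theorem stronglyClosed_of_hyperfocal_le (hTn : ∀ g ∈ S, ∀ x ∈ T, g * x * g⁻¹ ∈ T) (hTS : T ≤ S)
    (hT : F.hyperfocalSubgroup p ≤ T) : F.StronglyClosed T := by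
  have hcl : ClosedClass F (fun P φ => ∀ x : P, (x : Ω) ∈ T ↔ φ x ∈ T) := by
    refine ⟨fun P g hP hg x => ?_, fun P Q φ ψ _ _ hφ hψ hm x => ?_, fun P φ ψ _ hφ _ hv y => ?_⟩
    · constructor
      · exact hTn g hg _
      · intro h
        have := hTn _ (S.inv_mem hg) _ h
        have e : g⁻¹ * (conjHom P g x) * g⁻¹⁻¹ = x := by
          simp [conjHom, MulAut.conj_apply]
          group
        rwa [e] at this
    · exact (hφ x).trans (hψ ⟨φ x, hm x⟩)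
    · obtain ⟨x, hx⟩ := y.2
      have hy : y = ⟨φ x, ⟨x, rfl⟩⟩ := Subtype.ext hx.symm
      subst hy
      rw [hv x]
      exact (hφ x).symm
  have hall := hcl.fn_induction hS hF fun U hTn' _ α hα y => by
    obtain ⟨s, hs, β, hβ, hv⟩ := exists_conj_mul_residual hS hF hTn' ⟨α, hα⟩
    have h1 := hT (mem_hyperfocal hTn'.1 β hβ y)
    have hsS := (mem_normalizerIn.1 hs).1
    have h5 : (U.subtype.comp α.toMonoidHom) y = s * (((β : MulAut U) y : U) : Ω) * s⁻¹ := hv y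
    rw [h5]
    constructor
    · intro hy
      refine hTn _ hsS _ ?_
      have := T.mul_mem hy h1
      simpa using this
    · intro hy
      have h2 := hTn _ (S.inv_mem hsS) _ hy
      have e : s⁻¹ * (s * (((β : MulAut U) y : U) : Ω) * s⁻¹) * s⁻¹⁻¹ = (((β : MulAut U) y : U) : Ω) := by group
      rw [e] at h2
      have h3 := T.mul_mem h2 (T.inv_mem h1)
      simpa using h3
  exact ⟨hTS, fun R hR φ hφ x => (hall R φ hφ x).1 (hR x.2)⟩

end

section Frattini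

variable [Finite S] (hS : IsPGroup p S) (hF : F.IsSaturated p) (hsc : F.StronglyClosed T)
  (hEs : E.IsSaturated p) (hsub : E.IsSubsystemOf F)
  (hres : ∀ P, P ≤ T → ∀ β ∈ F.autGroup P, Nat.Coprime (orderOf β) p → β ∈ E.autGroup P)

/-- The Frattini property of a map, on the part of its source in `T`. -/
def FrattProp (F : FusionSystem S) (E : FusionSystem T) (P : Subgroup Ω) (φ : P →* Ω) : Prop :=
  ∃ γ ∈ F.autGroup T, ∃ φ₀ ∈ E.Hom (P ⊓ T), ∀ x : (P ⊓ T : Subgroup Ω), φ ⟨x, x.2.1⟩ = aExt γ (φ₀ x)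

include hS hsc hEs hsub hres in
theorem frattClosed : ClosedClass F (FrattProp F E) := by
  have hTS := hsc.1
  have hTN : S ≤ Subgroup.normalizer (T : Set Ω) := StronglyClosed.le_normalizer hsc
  refine ⟨fun P g hP hg => ?_, fun P Q φ ψ hφ hψ hCφ hCψ h => ?_, fun P φ ψ hφ hCφ hψ hv => ?_⟩
  · refine ⟨conjAut T g (hTN hg), autInducedBy_le_autGroup F hTS (conjAut_mem hg (hTN hg)),
      (P ⊓ T).subtype, subtype_mem E inf_le_right, fun x => ?_⟩
    show g * (x : Ω) * g⁻¹ = aExt (conjAut T g (hTN hg)) ((x : Ω))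
    rw [aExt_of_mem _ x.2.2, conjAut_coe]
  · obtain ⟨γ₁, hγ₁, φ₁, hφ₁, v₁⟩ := hCφ
    obtain ⟨γ₂, hγ₂, ψ₂, hψ₂, v₂⟩ := hCψ
    obtain ⟨ψ₃, hψ₃, w⟩ := tr_all hS hTS hEs hsub hres hψ₂ (Subgroup.inv_mem _ hγ₁)
    have hv₁ : ∀ x : (P ⊓ T : Subgroup Ω), φ₁ x ∈ T := fun x => hom_val _ hφ₁ x
    have hφT : ∀ x : (P ⊓ T : Subgroup Ω), φ ⟨x, x.2.1⟩ ∈ T := fun x => by
      rw [v₁ x]
      exact aExt_mem _ (hv₁ x)
    have hm : ∀ x : (P ⊓ T : Subgroup Ω), φ₁ x = aExt γ₁⁻¹ (φ ⟨x, x.2.1⟩) := by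
      intro x
      rw [v₁ x, aExt_inv_apply _ (hv₁ x)]
    have hQT : ∀ x : (P ⊓ T : Subgroup Ω), φ ⟨x, x.2.1⟩ ∈ Q ⊓ T := fun x => ⟨h _, hφT x⟩
    have hm' : ∀ x : (P ⊓ T : Subgroup Ω), φ₁ x ∈ imgS γ₁⁻¹ (Q ⊓ T) := by
      intro x
      rw [hm x]
      exact aExt_mem_imgS _ inf_le_right (hQT x)
    refine ⟨γ₂ * γ₁, Subgroup.mul_mem _ hγ₂ hγ₁, ψ₃.comp (φ₁.codRestrict _ hm'), E.comp_mem hφ₁ hψ₃ hm', fun x => ?_⟩
    show ψ ⟨φ ⟨x, x.2.1⟩, h _⟩ = aExt (γ₂ * γ₁) (ψ₃ ⟨φ₁ x, hm' x⟩)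
    have h1 : ψ₃ ⟨φ₁ x, hm' x⟩ = aExt γ₁⁻¹ (ψ₂ ⟨φ ⟨x, x.2.1⟩, hQT x⟩) := w ⟨φ ⟨x, x.2.1⟩, hQT x⟩ _ (hm x)
    have h2 : ψ₂ ⟨φ ⟨x, x.2.1⟩, hQT x⟩ ∈ T := hom_val _ hψ₂ _
    rw [h1, aExt_comp _ _ (aExt_mem _ h2), aExt_apply_inv _ h2]
    exact v₂ ⟨φ ⟨x, x.2.1⟩, hQT x⟩
  · obtain ⟨γ, hγ, φ₀, hφ₀, v⟩ := hCφ
    obtain ⟨ψ₀, hψ₀, hv₀⟩ := E.inv_mem hφ₀
    obtain ⟨ψ₁, hψ₁, w⟩ := tr_all hS hTS hEs hsub hres hψ₀ hγ
    have hR₀S : φ₀.range ≤ T := by
      rintro _ ⟨x, rfl⟩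
      exact hom_val _ hφ₀ x
    have hback : ∀ y : (φ.range ⊓ T : Subgroup Ω), ∃ x : (P ⊓ T : Subgroup Ω), φ ⟨x, x.2.1⟩ = y := by
      rintro ⟨_, ⟨x, rfl⟩, hy⟩
      exact ⟨⟨x, x.2, mem_of_hom_mem hsc hφ x hy⟩, rfl⟩
    have e : φ.range ⊓ T ≤ imgS γ φ₀.range := by
      intro y hy
      obtain ⟨x, hx⟩ := hback ⟨y, hy⟩
      have hx' : φ ⟨x, x.2.1⟩ = y := hx
      rw [← hx', v x]
      exact aExt_mem_imgS γ hR₀S ⟨x, rfl⟩
    refine ⟨γ⁻¹, Subgroup.inv_mem _ hγ, ψ₁.comp (Subgroup.inclusion e), res_mem _ hψ₁ e, fun y => ?_⟩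
    obtain ⟨x, hx⟩ := hback y
    obtain ⟨y, hy⟩ := y
    have hx' : φ ⟨x, x.2.1⟩ = y := hx
    subst hx'
    show ψ ⟨φ ⟨x, x.2.1⟩, hy.1⟩ = aExt γ⁻¹ (ψ₁ (Subgroup.inclusion e ⟨φ ⟨x, x.2.1⟩, hy⟩))
    have h1 : ψ₁ (Subgroup.inclusion e ⟨φ ⟨x, x.2.1⟩, hy⟩) = aExt γ (ψ₀ ⟨φ₀ x, ⟨x, rfl⟩⟩) :=
      w ⟨φ₀ x, ⟨x, rfl⟩⟩ _ (v x)
    rw [hv ⟨x, x.2.1⟩, h1, hv₀ x, aExt_inv_apply _ x.2.2]

include hsc hres in
/-- The restriction of a residual element to `U ∩ T` is in `E`. -/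
theorem residual_restrict {U : Subgroup Ω} (hU : U ≤ S) (β : F.autGroup U) (hβ : β ∈ pResidual p (F.autGroup U)) :
    ∃ β' ∈ E.autGroup (U ⊓ T), ∀ x : (U ⊓ T : Subgroup Ω), ((β' x : (U ⊓ T : Subgroup Ω)) : Ω) = ((β : MulAut U) ⟨x, x.2.1⟩ : U) := by
  have hUT : U ⊓ T ≤ T := inf_le_right
  induction hβ using Subgroup.closure_induction with
  | mem β hβ =>
    have hle : U ⊓ T ≤ U := inf_le_left
    have hi : IsIso F (P := U) (Q := U) (β : MulAut U) := (mem_autGroup_iff hU).1 β.2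
    have hres' := res_mem F hi hle
    obtain ⟨b, hb, hbv⟩ := exists_aut_of_map hres' (fun x =>
      ⟨((β : MulAut U) (Subgroup.inclusion hle x)).2, StronglyClosed.aut_mem hsc hU β.2 (x := Subgroup.inclusion hle x) x.2.2⟩)
    have hbv' : ∀ x : (U ⊓ T : Subgroup Ω), ((b x : (U ⊓ T : Subgroup Ω)) : Ω) = ((β : MulAut U) ⟨x, x.2.1⟩ : U) := hbv
    have hpow : ∀ (n : ℕ) (x : (U ⊓ T : Subgroup Ω)), (((b ^ n) x : (U ⊓ T : Subgroup Ω)) : Ω) = (((β : MulAut U) ^ n) ⟨x, x.2.1⟩ : U) := by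
      intro n
      induction n with
      | zero => intro x; rfl
      | succ n ih =>
        intro x
        rw [pow_succ, pow_succ, MulAut.mul_apply, MulAut.mul_apply, ih]
        congr 2
        exact Subtype.ext (hbv' x)
    have h1 : b ^ (orderOf (β : MulAut U)) = 1 := by
      ext x
      rw [hpow, pow_orderOf_eq_one]
      rfl
    have hco : Nat.Coprime (orderOf (β : MulAut U)) p := by
      rw [Subgroup.orderOf_coe]
      exact hβ
    have hco' : Nat.Coprime (orderOf b) p := Nat.Coprime.coprime_dvd_left (orderOf_dvd_of_pow_eq_one h1) hco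
    exact ⟨b, hres _ hUT b hb hco', hbv'⟩
  | one => exact ⟨1, Subgroup.one_mem _, fun x => rfl⟩
  | mul a b _ _ ha hb =>
    obtain ⟨a', ha', va⟩ := ha
    obtain ⟨b', hb', vb⟩ := hb
    refine ⟨a' * b', Subgroup.mul_mem _ ha' hb', fun x => ?_⟩
    rw [MulAut.mul_apply, va]
    show _ = (((a : MulAut U) ((b : MulAut U) ⟨x, x.2.1⟩) : U) : Ω)
    congr 2
    exact Subtype.ext (vb x)
  | inv a _ ha =>
    obtain ⟨a', ha', va⟩ := ha
    refine ⟨a'⁻¹, Subgroup.inv_mem _ ha', fun x => ?_⟩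
    show _ = ((((a : MulAut U))⁻¹ ⟨x, x.2.1⟩ : U) : Ω)
    have h1 := va (a'⁻¹ x)
    have e : a' (a'⁻¹ x) = x := by simp
    rw [e] at h1
    have h2 : ⟨((a'⁻¹ x : (U ⊓ T : Subgroup Ω)) : Ω), (a'⁻¹ x).2.1⟩ = (((a : MulAut U))⁻¹ ⟨x, x.2.1⟩ : U) := by
      apply (a : MulAut U).injective
      have e2 : (a : MulAut U) (((a : MulAut U))⁻¹ ⟨x, x.2.1⟩) = ⟨x, x.2.1⟩ := by simp
      rw [e2]
      exact Subtype.ext h1.symm
    rw [← h2]

include hS hF hsc hEs hsub hres in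
/-- The Frattini property. -/
theorem frattini_all {P : Subgroup Ω} {φ : P →* Ω} (hφ : φ ∈ F.Hom P) : FrattProp F E P φ := by
  have hcl := frattClosed hS hsc hEs hsub hres
  have hTS := hsc.1
  have hTN : S ≤ Subgroup.normalizer (T : Set Ω) := StronglyClosed.le_normalizer hsc
  refine hcl.fn_induction hS hF (fun U hU _ α hα => ?_) P φ hφ
  obtain ⟨s, hs, β, hβ, hv⟩ := exists_conj_mul_residual hS hF hU ⟨α, hα⟩
  obtain ⟨β', hβ', vβ⟩ := residual_restrict hsc hres hU.1 β hβ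
  have hsS := (mem_normalizerIn.1 hs).1
  have hi : IsIso E (P := U ⊓ T) (Q := U ⊓ T) β' := (mem_autGroup_iff inf_le_right).1 hβ'
  refine ⟨conjAut T s (hTN hsS), autInducedBy_le_autGroup F hTS (conjAut_mem hsS (hTN hsS)), _, hi, fun x => ?_⟩
  have hxT : ((β' x : (U ⊓ T : Subgroup Ω)) : Ω) ∈ T := (β' x).2.2
  show ((α ⟨x, x.2.1⟩ : U) : Ω) = aExt (conjAut T s (hTN hsS)) ((β' x : (U ⊓ T : Subgroup Ω)) : Ω)
  rw [aExt_of_mem _ hxT, conjAut_coe, vβ]
  exact hv ⟨x, x.2.1⟩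

end Frattini

section ExtCond

/-- The extension condition of normal subsystems. -/
def ExtOK (F : FusionSystem S) (T : Subgroup Ω) (α : MulAut T) : Prop :=
  ∃ β ∈ F.autGroup (T ⊔ centralizerIn S T),
    (∀ x : T, ((β (Subgroup.inclusion le_sup_left x) : ↥(T ⊔ centralizerIn S T)) : Ω) = ((α x : T) : Ω)) ∧
    ∀ c : ↥(T ⊔ centralizerIn S T), (c : Ω) ∈ centralizerIn S T →
      (c : Ω)⁻¹ * ((β c : ↥(T ⊔ centralizerIn S T)) : Ω) ∈ T ⊓ Subgroup.centralizer (T : Set Ω)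

theorem extOK_mul {α₁ α₂ : MulAut T} (h₁ : ExtOK F T α₁) (h₂ : ExtOK F T α₂) : ExtOK F T (α₁ * α₂) := by
  obtain ⟨β₁, hβ₁, v₁, w₁⟩ := h₁
  obtain ⟨β₂, hβ₂, v₂, w₂⟩ := h₂
  refine ⟨β₁ * β₂, Subgroup.mul_mem _ hβ₁ hβ₂, fun x => ?_, fun c hc => ?_⟩
  · rw [MulAut.mul_apply]
    have e : β₂ (Subgroup.inclusion le_sup_left x) = Subgroup.inclusion le_sup_left (α₂ x) := Subtype.ext (v₂ x)
    rw [e]
    exact v₁ (α₂ x)
  · have hz := w₂ c hc
    set z : Ω := (c : Ω)⁻¹ * ((β₂ c : ↥(T ⊔ centralizerIn S T)) : Ω) with hzd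
    have e : β₂ c = c * Subgroup.inclusion (le_sup_left : T ≤ T ⊔ centralizerIn S T) ⟨z, hz.1⟩ := Subtype.ext (by
      show ((β₂ c : ↥(T ⊔ centralizerIn S T)) : Ω) = (c : Ω) * z
      rw [hzd]
      group)
    rw [MulAut.mul_apply, e, map_mul]
    have e2 := v₁ ⟨z, hz.1⟩
    have hc1 : ((α₁ ⟨z, hz.1⟩ : T) : Ω) ∈ Subgroup.centralizer (T : Set Ω) := by
      refine Subgroup.mem_centralizer_iff.2 fun t ht => ?_
      obtain ⟨t₀, ht₀⟩ := α₁.surjective ⟨t, ht⟩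
      have h3 : (t₀ : Ω) * z = z * t₀ := Subgroup.mem_centralizer_iff.1 hz.2 t₀ t₀.2
      have h4 : t₀ * (⟨z, hz.1⟩ : T) = ⟨z, hz.1⟩ * t₀ := Subtype.ext h3
      have h5 := congrArg (fun u : T => ((α₁ u : T) : Ω)) h4
      simp only [map_mul, ht₀] at h5
      exact h5
    have h6 := Subgroup.mul_mem _ (w₁ c hc) (⟨(α₁ ⟨z, hz.1⟩ : T).2, hc1⟩ : ((α₁ ⟨z, hz.1⟩ : T) : Ω) ∈ T ⊓ Subgroup.centralizer (T : Set Ω))
    have e3 : (c : Ω)⁻¹ * ((β₁ c * β₁ (Subgroup.inclusion le_sup_left ⟨z, hz.1⟩) : ↥(T ⊔ centralizerIn S T)) : Ω) =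
        (c : Ω)⁻¹ * ((β₁ c : ↥(T ⊔ centralizerIn S T)) : Ω) * ((α₁ ⟨z, hz.1⟩ : T) : Ω) := by
      rw [Subgroup.coe_mul, e2, mul_assoc]
    rw [e3]
    exact h6

theorem extOK_inv [Finite S] {α : MulAut T} (hTS : T ≤ S) (h : ExtOK F T α) : ExtOK F T α⁻¹ := by
  obtain ⟨β, hβ, v, w⟩ := h
  have hv : ∀ x : T, β (Subgroup.inclusion le_sup_left x) = Subgroup.inclusion le_sup_left (α x) := fun x =>
    Subtype.ext (v x)
  refine ⟨β⁻¹, Subgroup.inv_mem _ hβ, fun x => ?_, fun c hc => ?_⟩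
  · have e : β⁻¹ (Subgroup.inclusion le_sup_left x) = Subgroup.inclusion le_sup_left (α⁻¹ x) := by
      apply β.injective
      have e1 : β (β⁻¹ (Subgroup.inclusion le_sup_left x)) = Subgroup.inclusion le_sup_left x := by simp
      rw [e1, hv]
      congr 1
      simp
    rw [e]
    rfl
  · obtain ⟨hcS, hcc⟩ := mem_centralizerIn.1 hc
    set c' : ↥(T ⊔ centralizerIn S T) := β⁻¹ c with hc'd
    have hβc' : β c' = c := by simp [hc'd]
    have hDS : T ⊔ centralizerIn S T ≤ S := sup_le hTS (centralizerIn_le T)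
    have hc' : (c' : Ω) ∈ centralizerIn S T := by
      refine mem_centralizerIn.2 ⟨hDS c'.2, fun t ht => ?_⟩
      have h1 : Subgroup.inclusion (le_sup_left : T ≤ T ⊔ centralizerIn S T) ⟨t, ht⟩ * c' =
          c' * Subgroup.inclusion (le_sup_left : T ≤ T ⊔ centralizerIn S T) ⟨t, ht⟩ := by
        apply β.injective
        rw [map_mul, map_mul, hβc', hv]
        apply Subtype.ext
        exact hcc _ (α ⟨t, ht⟩).2
      exact congrArg Subtype.val h1
    have h2 := w c' hc'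
    rw [hβc'] at h2
    have h3 := Subgroup.inv_mem _ h2
    have e : ((c' : Ω)⁻¹ * (c : Ω))⁻¹ = (c : Ω)⁻¹ * (c' : Ω) := by group
    rw [e] at h3
    exact h3

theorem extOK_conj [Finite S] (hTS : T ≤ S) {s : Ω} (hs : s ∈ T) (hsN : s ∈ Subgroup.normalizer (T : Set Ω)) :
    ExtOK F T (conjAut T s hsN) := by
  have hDS : T ⊔ centralizerIn S T ≤ S := sup_le hTS (centralizerIn_le T)
  have := finite_of_le hDS
  have hle : T ⊔ centralizerIn S T ≤ (T ⊔ centralizerIn S T).comap (MulAut.conj s).toMonoidHom := by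
    refine sup_le (fun x hx => ?_) (fun x hx => ?_)
    · exact Subgroup.mem_sup_left (T.mul_mem (T.mul_mem hs hx) (T.inv_mem hs))
    · show s * x * s⁻¹ ∈ (T ⊔ centralizerIn S T : Subgroup Ω)
      rw [(mem_centralizerIn.1 hx).2 s hs]
      simpa using Subgroup.mem_sup_right hx
  have hN : s ∈ Subgroup.normalizer ((T ⊔ centralizerIn S T : Subgroup Ω) : Set Ω) :=
    mem_normalizer_of_forall fun x hx => hle hx
  refine ⟨conjAut _ s hN, autInducedBy_le_autGroup F hDS (conjAut_mem (hTS hs) hN), fun x => ?_, fun c hc => ?_⟩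
  · rw [conjAut_coe, conjAut_coe]
    rfl
  · rw [conjAut_coe, (mem_centralizerIn.1 hc).2 s hs]
    simp

theorem extOK_coprime [Finite S] (hS : IsPGroup p S) (hF : F.IsSaturated p) (hsc : F.StronglyClosed T)
    (hT : F.hyperfocalSubgroup p ≤ T) {α : MulAut T} (hα : α ∈ F.autGroup T)
    (hco : Nat.Coprime (orderOf α) p) : ExtOK F T α := by
  have hp : p.Prime := Fact.out
  have hTS := hsc.1
  have hDS : T ⊔ centralizerIn S T ≤ S := sup_le hTS (centralizerIn_le T)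
  have := finite_of_le hDS
  have : Finite (MulAut (T ⊔ centralizerIn S T : Subgroup Ω)) := finite_mulAut _
  have hTfn : F.IsFullyNormalized T := ⟨hTS, fun Q hQ => by
    obtain ⟨φ, hφ, rfl⟩ := hQ
    rw [(StronglyClosed.weaklyClosed hsc).2 φ hφ]⟩
  have hrec := IsSat.receptive_of_fullyNormalized hS hF hTfn
  obtain ⟨β₀, hβ₀, v₀⟩ := extend_to_sup_centralizer hrec hα
  have hv₀ : ∀ x : T, β₀ (Subgroup.inclusion le_sup_left x) = Subgroup.inclusion le_sup_left (α x) := fun x =>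
    Subtype.ext (v₀ x)
  have hpow : ∀ (n : ℕ) (x : T), (β₀ ^ n) (Subgroup.inclusion le_sup_left x) = Subgroup.inclusion le_sup_left ((α ^ n) x) := by
    intro n
    induction n with
    | zero => intro x; rfl
    | succ n ih =>
      intro x
      rw [pow_succ, pow_succ, MulAut.mul_apply, MulAut.mul_apply, hv₀, ih]
  obtain ⟨k, r, hr, he⟩ := Nat.exists_eq_pow_mul_and_not_dvd (n := orderOf β₀) (orderOf_pos β₀).ne' p hp.ne_one
  have hco' : Nat.Coprime (p ^ k) (orderOf α) := Nat.Coprime.pow_left k hco.symm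
  obtain ⟨u, hu⟩ := exists_pow_eq_self_of_coprime hco'
  set β := β₀ ^ (p ^ k * u) with hβd
  have hβ : β ∈ F.autGroup (T ⊔ centralizerIn S T) := Subgroup.pow_mem _ hβ₀ _
  have hv : ∀ x : T, β (Subgroup.inclusion le_sup_left x) = Subgroup.inclusion le_sup_left (α x) := by
    intro x
    rw [hβd, hpow, pow_mul, hu]
  have hord : Nat.Coprime (orderOf β) p := by
    have h1 : β ^ r = 1 := by
      rw [hβd, ← pow_mul]
      have e2 : p ^ k * u * r = orderOf β₀ * u := by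
        rw [he]
        ring
      rw [e2, pow_mul, pow_orderOf_eq_one, one_pow]
    exact Nat.Coprime.coprime_dvd_left (orderOf_dvd_of_pow_eq_one h1) ((Nat.Prime.coprime_iff_not_dvd hp).2 hr).symm
  have hres : (⟨β, hβ⟩ : F.autGroup (T ⊔ centralizerIn S T)) ∈ pResidual p (F.autGroup (T ⊔ centralizerIn S T)) :=
    Subgroup.subset_closure (by
      show Nat.Coprime (orderOf (⟨β, hβ⟩ : F.autGroup (T ⊔ centralizerIn S T))) p
      rw [Subgroup.orderOf_mk]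
      exact hord)
  refine ⟨β, hβ, fun x => by rw [hv]; rfl, fun c hc => ?_⟩
  obtain ⟨hcS, hcc⟩ := mem_centralizerIn.1 hc
  have h1 := hT (mem_hyperfocal hDS ⟨β, hβ⟩ hres c)
  have hcC : (c : Ω) ∈ Subgroup.centralizer (T : Set Ω) := Subgroup.mem_centralizer_iff.2 hcc
  have hβC : ((β c : ↥(T ⊔ centralizerIn S T)) : Ω) ∈ Subgroup.centralizer (T : Set Ω) := by
    refine Subgroup.mem_centralizer_iff.2 fun t ht => ?_
    obtain ⟨t₀, ht₀⟩ := α.surjective ⟨t, ht⟩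
    have h2 : Subgroup.inclusion (le_sup_left : T ≤ T ⊔ centralizerIn S T) t₀ * c = c * Subgroup.inclusion le_sup_left t₀ :=
      Subtype.ext (hcc t₀ t₀.2)
    have h3 := congrArg (fun z => ((β z : ↥(T ⊔ centralizerIn S T)) : Ω)) h2
    simp only [map_mul, hv, ht₀] at h3
    exact h3
  exact ⟨h1, Subgroup.mul_mem _ (Subgroup.inv_mem _ hcC) hβC⟩

end ExtCond

/-- `S5120`. -/
theorem isNormalIn_of_power_index [Finite S] (hS : IsPGroup p S) (hF : F.IsSaturated p) (hTS : T ≤ S)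
    (hTn : (T.subgroupOf S).Normal) (hT : F.hyperfocalSubgroup p ≤ T) (hEs : E.IsSaturated p)
    (hEi : E.HasPPowerIndexIn F p) : E.IsNormalIn F p := by
  have hsub := hEi.1
  have : Finite T := finite_of_le hTS
  have hTp : IsPGroup p T := hS.to_le hTS
  have hres : ∀ P, P ≤ T → ∀ β ∈ F.autGroup P, Nat.Coprime (orderOf β) p → β ∈ E.autGroup P := by
    intro P hP β hβ hco
    refine hEi.2.2 P hP ⟨⟨β, hβ⟩, Subgroup.subset_closure ?_, rfl⟩
    show Nat.Coprime (orderOf (⟨β, hβ⟩ : F.autGroup P)) p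
    rw [Subgroup.orderOf_mk]
    exact hco
  have hTnorm : ∀ g ∈ S, ∀ x ∈ T, g * x * g⁻¹ ∈ T := fun g hg x hx => by
    have := hTn.conj_mem ⟨x, hTS hx⟩ (Subgroup.mem_subgroupOf.2 hx) ⟨g, hg⟩
    exact Subgroup.mem_subgroupOf.1 this
  have hsc : F.StronglyClosed T := stronglyClosed_of_hyperfocal_le hS hF hTnorm hTS hT
  refine ⟨⟨hEs, hF, hsub, hsc, ?_, ?_⟩, ?_⟩
  · intro P hPT φ hφ α hα
    obtain ⟨χ, hχ, v⟩ := tr_all hS hTS hEs hsub hres hφ hα
    refine ⟨χ, hχ, fun x hφx hαx => ?_⟩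
    have h := v x ⟨_, hαx⟩ (aExt_of_mem α (hPT x.2)).symm
    rw [aExt_of_mem α hφx] at h
    exact h
  · intro P hPT φ hφ
    obtain ⟨γ, hγ, φ₀, hφ₀, v⟩ := frattini_all hS hF hsc hEs hsub hres hφ
    have hPle : P ≤ P ⊓ T := le_inf le_rfl hPT
    refine ⟨γ, hγ, φ₀.comp (Subgroup.inclusion hPle), res_mem _ hφ₀ hPle, fun x hx => ?_⟩
    have h1 := v (Subgroup.inclusion hPle x)
    have hx' : φ₀ (Subgroup.inclusion hPle x) ∈ T := hx
    rw [aExt_of_mem γ hx'] at h1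
    exact h1
  · intro α hα
    have key : ∀ β : E.autGroup T, β ∈ pResidual p (E.autGroup T) → ExtOK F T (β : MulAut T) := by
      intro β hβ
      induction hβ using Subgroup.closure_induction with
      | mem β hβ =>
        refine extOK_coprime hS hF hsc hT (autGroup_le_of_subsystem hsub hTS T le_rfl β.2) ?_
        rw [Subgroup.orderOf_coe]
        exact hβ
      | one => 
        have := extOK_conj (F := F) hTS (T.one_mem) (Subgroup.one_mem _)
        have e : conjAut T 1 (Subgroup.one_mem _) = ((1 : E.autGroup T) : MulAut T) := by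
          ext x
          rw [conjAut_coe]
          simp
        rwa [e] at this
      | mul a b _ _ ha hb => exact extOK_mul ha hb
      | inv a _ ha => exact extOK_inv hTS ha
    obtain ⟨s, hs, β, hβ, hv⟩ := exists_conj_mul_residual (F := E) hTp hEs isFullyNormalized_top ⟨α, hα⟩
    obtain ⟨hsT, hsN⟩ := mem_normalizerIn.1 hs
    have hβ2 := key β hβ
    have e : α = conjAut T s hsN * (β : MulAut T) := by
      ext x
      rw [MulAut.mul_apply, conjAut_coe]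
      exact hv x
    rw [e]
    exact extOK_mul (extOK_conj hTS hsT hsN) hβ2

end Cfsg.Agent.Lib.Fusion
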