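import Cfsg.Agent.Lib.Fusion.Saturated
import Cfsg.Agent.Lib.Fusion.SylowIn
import Cfsg.Agent.Lib.Fusion.Stable
import Cfsg.Prelude.Def_FusionComponents
import Mathlib

/-! # Direct products of saturated fusion systems are saturated -/

set_option autoImplicit false
set_option linter.unusedSectionVars false
set_option linter.unusedVariables false

namespace Cfsg.Agent.Lib.Fusion

open Cfsg Cfsg.FusionSystem

/-- The order of `N_S(P)`. -/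
theorem card_normalizerIn_eq {Ω : Type*} [Group Ω] {S P : Subgroup Ω} [Finite S] (hP : P ≤ S) :
    Nat.card (normalizerIn S P) = Nat.card (centralizerIn S P) * Nat.card (autInducedBy S P) := by
  classical
  have : Finite P := finite_of_le hP
  have hNf : ∀ g : normalizerIn S P, (g : Ω) ∈ Subgroup.normalizer (P : Set Ω) := fun g => (mem_normalizerIn.1 g.2).2
  let f : normalizerIn S P →* MulAut P := MonoidHom.mk' (fun g => conjAut P g (hNf g)) (fun a b => by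
    ext x
    rw [MulAut.mul_apply, conjAut_coe, conjAut_coe, conjAut_coe]
    simp only [Subgroup.coe_mul]
    group)
  have hfv : ∀ (g : normalizerIn S P) (x : P), ((f g x : P) : Ω) = g * (x : Ω) * (g : Ω)⁻¹ := fun g x =>
    conjAut_coe _ _ _ _
  have hr : f.range = autInducedBy S P := by
    ext α
    constructor
    · rintro ⟨g, rfl⟩
      exact conjAut_mem (mem_normalizerIn.1 g.2).1 (hNf g)
    · intro hα
      obtain ⟨g, hg, hv⟩ := mem_autInducedBy_iff.1 hα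
      have hgN := mem_normalizer_of_conj hv
      refine ⟨⟨g, mem_normalizerIn.2 ⟨hg, hgN⟩⟩, ?_⟩
      ext x
      rw [hfv]
      exact (hv x).symm
  have hk : Nat.card f.ker = Nat.card (centralizerIn S P) := by
    refine Nat.card_congr ⟨fun g => ⟨g.1.1, mem_centralizerIn.2 ⟨(mem_normalizerIn.1 g.1.2).1, fun x hx => ?_⟩⟩,
      fun c => ⟨⟨c.1, centralizerIn_le_normalizerIn c.2⟩, ?_⟩, fun _ => rfl, fun _ => rfl⟩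
    · have h1 : f g.1 = 1 := g.2
      have h2 := hfv g.1 ⟨x, hx⟩
      rw [h1] at h2
      have h3 : x = (g.1 : Ω) * x * (g.1 : Ω)⁻¹ := h2
      nth_rewrite 1 [h3]
      simp
    · show f _ = 1
      ext x
      rw [hfv]
      have h1 := (mem_centralizerIn.1 c.2).2 x x.2
      show (c : Ω) * x * (c : Ω)⁻¹ = x
      rw [← h1]
      simp
  have h1 := Subgroup.card_eq_card_quotient_mul_card_subgroup f.ker
  have h2 : Nat.card (normalizerIn S P ⧸ f.ker) = Nat.card f.range :=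
    Nat.card_congr (QuotientGroup.quotientKerEquivRange f).toEquiv
  rw [h1, h2, hr, hk, mul_comm]

section Generic

/-- Sylow conjugation on a projection. -/
theorem exists_sylow_conj {Ω' Q : Type*} [Group Ω'] [Group Q] {S' K : Subgroup Ω'} {F' : FusionSystem S'} [Finite S']
    {p : ℕ} [Fact p.Prime] (hK : F'.IsFullyAutomized p K) (π : Q →* Ω') (hπ : ∀ x, π x ∈ K)
    (hπs : ∀ y ∈ K, ∃ x, π x = y) {V : Subgroup (MulAut Q)} (hVp : IsPGroup p V)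
    (hV : ∀ v ∈ V, ∃ a ∈ F'.autGroup K, ∀ x : Q, ((a ⟨π x, hπ x⟩ : K) : Ω') = π (v x)) :
    ∃ β ∈ F'.autGroup K, ∀ v ∈ V, ∃ s ∈ S', s ∈ Subgroup.normalizer (K : Set Ω') ∧
      ∀ x : Q, s * ((β ⟨π x, hπ x⟩ : K) : Ω') * s⁻¹ = (β ⟨π (v x), hπ _⟩ : K) := by
  classical
  have hKS := hK.1
  have : Finite K := finite_of_le hKS
  have : Finite (MulAut K) := finite_mulAut _
  choose! a ha hav using hV
  have hext : ∀ b c : MulAut K, (∀ x : Q, b ⟨π x, hπ x⟩ = c ⟨π x, hπ x⟩) → b = c := by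
    intro b c h
    ext y
    obtain ⟨x, hx⟩ := hπs y y.2
    have e : y = ⟨π x, hπ x⟩ := Subtype.ext hx.symm
    rw [e, h]
  have haval : ∀ v (hv : v ∈ V) (x : Q), a v ⟨π x, hπ x⟩ = ⟨π (v x), hπ _⟩ := fun v hv x => Subtype.ext (hav v hv x)
  let ρ : V →* MulAut K := MonoidHom.mk' (fun v => a v) (fun v w => by
    apply hext
    intro x
    rw [MulAut.mul_apply, haval w w.2 x, haval v v.2 ((w : MulAut Q) x)]
    exact haval _ (v * w).2 x)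
  have hWp : IsPGroup p ρ.range := IsPGroup.of_surjective hVp ρ.rangeRestrict ρ.rangeRestrict_surjective
  have hWA : ρ.range ≤ F'.autGroup K := by
    rintro _ ⟨v, rfl⟩
    exact ha v v.2
  have hU : IsSylowIn p (autInducedBy S' K) (F'.autGroup K) := hK.2
  obtain ⟨β, hβ, hβv⟩ := IsSylowIn.exists_conj_le hU hWp hWA
  refine ⟨β, hβ, fun v hv => ?_⟩
  have h1 := hβv (ρ ⟨v, hv⟩) ⟨⟨v, hv⟩, rfl⟩
  obtain ⟨s, hs, hsv⟩ := mem_autInducedBy_iff.1 h1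
  refine ⟨s, hs, mem_normalizer_of_conj hsv, fun x => ?_⟩
  have h2 := hsv (β ⟨π x, hπ x⟩)
  rw [← h2]
  congr 1
  rw [MulAut.mul_apply, MulAut.mul_apply]
  have e1 : β⁻¹ (β ⟨π x, hπ x⟩) = ⟨π x, hπ x⟩ := by simp
  rw [e1]
  congr 1
  exact haval v hv x

end Generic

variable {Ω₁ Ω₂ : Type*} [Group Ω₁] [Group Ω₂] {S₁ : Subgroup Ω₁} {S₂ : Subgroup Ω₂}

/-- The first projection. -/
abbrev prA (R : Subgroup (Ω₁ × Ω₂)) : Subgroup Ω₁ := R.map (MonoidHom.fst Ω₁ Ω₂)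
/-- The second projection. -/
abbrev prB (R : Subgroup (Ω₁ × Ω₂)) : Subgroup Ω₂ := R.map (MonoidHom.snd Ω₁ Ω₂)

theorem fst_mem_prA {R : Subgroup (Ω₁ × Ω₂)} (x : R) : (x : Ω₁ × Ω₂).1 ∈ prA R := ⟨x, x.2, rfl⟩
theorem snd_mem_prB {R : Subgroup (Ω₁ × Ω₂)} (x : R) : (x : Ω₁ × Ω₂).2 ∈ prB R := ⟨x, x.2, rfl⟩

/-- Product of maps on a subgroup. -/
def prodOn {P₁ : Subgroup Ω₁} {P₂ : Subgroup Ω₂} (φ₁ : P₁ →* Ω₁) (φ₂ : P₂ →* Ω₂) (R : Subgroup (Ω₁ × Ω₂))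
    (h₁ : prA R ≤ P₁) (h₂ : prB R ≤ P₂) : R →* Ω₁ × Ω₂ where
  toFun x := (φ₁ ⟨(x : Ω₁ × Ω₂).1, h₁ (fst_mem_prA x)⟩, φ₂ ⟨(x : Ω₁ × Ω₂).2, h₂ (snd_mem_prB x)⟩)
  map_one' := Prod.ext (map_one φ₁) (map_one φ₂)
  map_mul' x y := Prod.ext (map_mul φ₁ ⟨_, h₁ (fst_mem_prA x)⟩ ⟨_, h₁ (fst_mem_prA y)⟩)
    (map_mul φ₂ ⟨_, h₂ (snd_mem_prB x)⟩ ⟨_, h₂ (snd_mem_prB y)⟩)

theorem prA_le_of_le {R : Subgroup (Ω₁ × Ω₂)} (hR : R ≤ S₁.prod S₂) : prA R ≤ S₁ := by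
  rintro _ ⟨x, hx, rfl⟩
  exact (hR hx).1

theorem prB_le_of_le {R : Subgroup (Ω₁ × Ω₂)} (hR : R ≤ S₁.prod S₂) : prB R ≤ S₂ := by
  rintro _ ⟨x, hx, rfl⟩
  exact (hR hx).2

theorem centralizerIn_prod (R : Subgroup (Ω₁ × Ω₂)) :
    centralizerIn (S₁.prod S₂) R = (centralizerIn S₁ (prA R)).prod (centralizerIn S₂ (prB R)) := by
  ext g
  constructor
  · intro hg
    obtain ⟨hgS, hc⟩ := mem_centralizerIn.1 hg
    refine ⟨mem_centralizerIn.2 ⟨hgS.1, ?_⟩, mem_centralizerIn.2 ⟨hgS.2, ?_⟩⟩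
    · rintro _ ⟨x, hx, rfl⟩
      exact congrArg Prod.fst (hc x hx)
    · rintro _ ⟨x, hx, rfl⟩
      exact congrArg Prod.snd (hc x hx)
  · rintro ⟨h₁, h₂⟩
    obtain ⟨h₁S, h₁c⟩ := mem_centralizerIn.1 h₁
    obtain ⟨h₂S, h₂c⟩ := mem_centralizerIn.1 h₂
    refine mem_centralizerIn.2 ⟨⟨h₁S, h₂S⟩, fun x hx => Prod.ext ?_ ?_⟩
    · exact h₁c _ ⟨x, hx, rfl⟩
    · exact h₂c _ ⟨x, hx, rfl⟩

section Main

variable [Finite S₁] [Finite S₂] {p : ℕ} [Fact p.Prime] {F₁ : FusionSystem S₁} {F₂ : FusionSystem S₂}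
  {E : FusionSystem (S₁.prod S₂)} (hE : IsProductSystem F₁ F₂ E)

include hE

theorem prodOn_mem {P₁ : Subgroup Ω₁} {P₂ : Subgroup Ω₂} {φ₁ : P₁ →* Ω₁} {φ₂ : P₂ →* Ω₂} (hφ₁ : φ₁ ∈ F₁.Hom P₁)
    (hφ₂ : φ₂ ∈ F₂.Hom P₂) {R : Subgroup (Ω₁ × Ω₂)} (hR : R ≤ S₁.prod S₂) (h₁ : prA R ≤ P₁) (h₂ : prB R ≤ P₂) :
    prodOn φ₁ φ₂ R h₁ h₂ ∈ E.Hom R :=
  (hE R _).2 ⟨hR, φ₁.comp (Subgroup.inclusion h₁), res_mem F₁ hφ₁ h₁, φ₂.comp (Subgroup.inclusion h₂), res_mem F₂ hφ₂ h₂,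
    fun x _ _ => rfl⟩

theorem decomp {R : Subgroup (Ω₁ × Ω₂)} {φ : R →* Ω₁ × Ω₂} (hφ : φ ∈ E.Hom R) :
    ∃ φ₁ ∈ F₁.Hom (prA R), ∃ φ₂ ∈ F₂.Hom (prB R), ∀ x : R,
      φ x = (φ₁ ⟨(x : Ω₁ × Ω₂).1, fst_mem_prA x⟩, φ₂ ⟨(x : Ω₁ × Ω₂).2, snd_mem_prB x⟩) := by
  obtain ⟨-, φ₁, h₁, φ₂, h₂, hv⟩ := (hE R φ).1 hφ
  exact ⟨φ₁, h₁, φ₂, h₂, fun x => hv x _ _⟩

theorem exists_conj_good [Finite (S₁.prod S₂)] (hS₁ : IsPGroup p S₁) (hS₂ : IsPGroup p S₂) (hF₁ : F₁.IsSaturated p)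
    (hF₂ : F₂.IsSaturated p) {P : Subgroup (Ω₁ × Ω₂)} (hP : P ≤ S₁.prod S₂) :
    ∃ Q, E.IsConj P Q ∧ E.IsFullyNormalized Q ∧ F₁.IsFullyNormalized (prA Q) ∧ F₂.IsFullyNormalized (prB Q) := by
  classical
  obtain ⟨Q₀, hPQ₀, hQ₀⟩ := exists_fullyNormalized_conj (F := E) hP
  have hQ₀S := hQ₀.1
  have hA₁S := prA_le_of_le hQ₀S
  have hA₂S := prB_le_of_le hQ₀S
  obtain ⟨A₁, hA₁c, hA₁f⟩ := exists_fullyNormalized_conj (F := F₁) hA₁S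
  obtain ⟨A₂, hA₂c, hA₂f⟩ := exists_fullyNormalized_conj (F := F₂) hA₂S
  obtain ⟨e₀₁, he₀₁⟩ := isConj_iff.1 hA₁c
  obtain ⟨e₀₂, he₀₂⟩ := isConj_iff.1 hA₂c
  obtain ⟨e₁, he₁, ψ₁, hψ₁, hψ₁N, hψ₁e⟩ := IsSat.extend_to_normalizer hS₁ hF₁ hA₁f he₀₁
  obtain ⟨e₂, he₂, ψ₂, hψ₂, hψ₂N, hψ₂e⟩ := IsSat.extend_to_normalizer hS₂ hF₂ hA₂f he₀₂
  set N : Subgroup (Ω₁ × Ω₂) := (normalizerIn S₁ (prA Q₀)).prod (normalizerIn S₂ (prB Q₀)) with hNd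
  have hN₁ : prA N ≤ normalizerIn S₁ (prA Q₀) := by
    rintro _ ⟨x, hx, rfl⟩
    exact hx.1
  have hN₂ : prB N ≤ normalizerIn S₂ (prB Q₀) := by
    rintro _ ⟨x, hx, rfl⟩
    exact hx.2
  have hNS : N ≤ S₁.prod S₂ := fun x hx => ⟨(mem_normalizerIn.1 hx.1).1, (mem_normalizerIn.1 hx.2).1⟩
  set Ψ := prodOn ψ₁ ψ₂ N hN₁ hN₂ with hΨd
  have hΨ : Ψ ∈ E.Hom N := prodOn_mem hE hψ₁ hψ₂ hNS hN₁ hN₂
  have hQ₀N : Q₀ ≤ N := fun x hx =>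
    ⟨mem_normalizerIn.2 ⟨(hQ₀S hx).1, Subgroup.le_normalizer ⟨x, hx, rfl⟩⟩,
      mem_normalizerIn.2 ⟨(hQ₀S hx).2, Subgroup.le_normalizer ⟨x, hx, rfl⟩⟩⟩
  set χ := Ψ.comp (Subgroup.inclusion hQ₀N) with hχd
  have hχ : χ ∈ E.Hom Q₀ := res_mem E hΨ hQ₀N
  have hχv : ∀ y : Q₀, χ y = (ψ₁ ⟨(y : Ω₁ × Ω₂).1, hN₁ ⟨y, hQ₀N y.2, rfl⟩⟩, ψ₂ ⟨(y : Ω₁ × Ω₂).2, hN₂ ⟨y, hQ₀N y.2, rfl⟩⟩) :=
    fun y => rfl
  have hχe₁ : ∀ y : Q₀, (χ y).1 = (e₁ ⟨(y : Ω₁ × Ω₂).1, fst_mem_prA y⟩ : A₁) := fun y =>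
    hψ₁e _ (fst_mem_prA y) _
  have hχe₂ : ∀ y : Q₀, (χ y).2 = (e₂ ⟨(y : Ω₁ × Ω₂).2, snd_mem_prB y⟩ : A₂) := fun y =>
    hψ₂e _ (snd_mem_prB y) _
  have hprA : prA χ.range = A₁ := by
    ext a
    constructor
    · rintro ⟨_, ⟨y, rfl⟩, rfl⟩
      show (χ y).1 ∈ A₁
      rw [hχe₁]
      exact (e₁ _).2
    · intro ha
      obtain ⟨y₁, hy₁⟩ := e₁.surjective ⟨a, ha⟩
      obtain ⟨y, hy, hyy⟩ := y₁.2
      refine ⟨χ ⟨y, hy⟩, ⟨⟨y, hy⟩, rfl⟩, ?_⟩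
      show (χ ⟨y, hy⟩).1 = a
      rw [hχe₁]
      have e : (⟨((⟨y, hy⟩ : Q₀) : Ω₁ × Ω₂).1, fst_mem_prA ⟨y, hy⟩⟩ : prA Q₀) = y₁ := Subtype.ext hyy
      rw [e, hy₁]
  have hprB : prB χ.range = A₂ := by
    ext a
    constructor
    · rintro ⟨_, ⟨y, rfl⟩, rfl⟩
      show (χ y).2 ∈ A₂
      rw [hχe₂]
      exact (e₂ _).2
    · intro ha
      obtain ⟨y₁, hy₁⟩ := e₂.surjective ⟨a, ha⟩
      obtain ⟨y, hy, hyy⟩ := y₁.2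
      refine ⟨χ ⟨y, hy⟩, ⟨⟨y, hy⟩, rfl⟩, ?_⟩
      show (χ ⟨y, hy⟩).2 = a
      rw [hχe₂]
      have e : (⟨((⟨y, hy⟩ : Q₀) : Ω₁ × Ω₂).2, snd_mem_prB ⟨y, hy⟩⟩ : prB Q₀) = y₁ := Subtype.ext hyy
      rw [e, hy₁]
  have hQconj : E.IsConj Q₀ χ.range := ⟨χ, hχ, rfl⟩
  have hQS : χ.range ≤ S₁.prod S₂ := IsConj.le_right hQconj
  have : Finite Q₀ := finite_of_le hQ₀S
  have : Finite χ.range := finite_of_le hQS
  refine ⟨χ.range, IsConj.trans hPQ₀ hQconj, ⟨hQS, fun Q'' hQ'' => ?_⟩, hprA ▸ hA₁f, hprB ▸ hA₂f⟩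
  have h1 := hQ₀.2 Q'' (IsConj.trans hQconj hQ'')
  refine h1.trans ?_
  -- the normalizer grows
  have hgN : ∀ g : normalizerIn (S₁.prod S₂) Q₀, (g : Ω₁ × Ω₂) ∈ N := by
    intro g
    obtain ⟨hgS, hgn⟩ := mem_normalizerIn.1 g.2
    have hA₁f' : Finite (prA Q₀) := finite_of_le hA₁S
    have hA₂f' : Finite (prB Q₀) := finite_of_le hA₂S
    refine ⟨mem_normalizerIn.2 ⟨hgS.1, mem_normalizer_of_forall ?_⟩, mem_normalizerIn.2 ⟨hgS.2, mem_normalizer_of_forall ?_⟩⟩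
    · rintro _ ⟨x, hx, rfl⟩
      exact ⟨_, conj_mem_of_mem_normalizer hgn hx, rfl⟩
    · rintro _ ⟨x, hx, rfl⟩
      exact ⟨_, conj_mem_of_mem_normalizer hgn hx, rfl⟩
  have hΨN : ∀ g : normalizerIn (S₁.prod S₂) Q₀, Ψ ⟨g, hgN g⟩ ∈ normalizerIn (S₁.prod S₂) χ.range := by
    intro g
    obtain ⟨hgS, hgn⟩ := mem_normalizerIn.1 g.2
    refine mem_normalizerIn.2 ⟨hom_val E hΨ _, mem_normalizer_of_forall ?_⟩
    rintro _ ⟨y, rfl⟩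
    refine ⟨⟨g * (y : Ω₁ × Ω₂) * (g : Ω₁ × Ω₂)⁻¹, conj_mem_of_mem_normalizer hgn y.2⟩, ?_⟩
    show Ψ (Subgroup.inclusion hQ₀N _) = Ψ ⟨g, hgN g⟩ * Ψ (Subgroup.inclusion hQ₀N y) * (Ψ ⟨g, hgN g⟩)⁻¹
    rw [← map_inv, ← map_mul, ← map_mul]
    congr 1
  have : Finite (normalizerIn (S₁.prod S₂) χ.range) := finite_of_le (normalizerIn_le _)
  exact Nat.card_le_card_of_injective (fun g => (⟨Ψ ⟨g, hgN g⟩, hΨN g⟩ : normalizerIn (S₁.prod S₂) χ.range)) (fun a b hab => by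
    have h2 : Ψ ⟨a, hgN a⟩ = Ψ ⟨b, hgN b⟩ := congrArg Subtype.val hab
    have h3 := hom_inj E hΨ h2
    have h4 : ((⟨a, hgN a⟩ : N) : Ω₁ × Ω₂) = ((⟨b, hgN b⟩ : N) : Ω₁ × Ω₂) := congrArg Subtype.val h3
    exact Subtype.ext h4)

theorem isReceptive_of_good {Q : Subgroup (Ω₁ × Ω₂)} (hQS : Q ≤ S₁.prod S₂) (h₁ : F₁.IsReceptive (prA Q))
    (h₂ : F₂.IsReceptive (prB Q)) : E.IsReceptive Q := by
  classical
  refine ⟨hQS, fun R φ hφ hr => ?_⟩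
  have hRS := hom_le E hφ
  have hRA := prA_le_of_le hRS
  have hRB := prB_le_of_le hRS
  obtain ⟨φ₁, hφ₁, φ₂, hφ₂, hv⟩ := decomp hE hφ
  have hvA : ∀ x : R, (φ x).1 = φ₁ ⟨(x : Ω₁ × Ω₂).1, fst_mem_prA x⟩ := fun x => by rw [hv x]
  have hvB : ∀ x : R, (φ x).2 = φ₂ ⟨(x : Ω₁ × Ω₂).2, snd_mem_prB x⟩ := fun x => by rw [hv x]
  have hrA : φ₁.range = prA Q := by
    rw [← hr]
    ext a
    constructor
    · rintro ⟨⟨_, x, hx, rfl⟩, rfl⟩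
      exact ⟨φ ⟨x, hx⟩, ⟨⟨x, hx⟩, rfl⟩, hvA ⟨x, hx⟩⟩
    · rintro ⟨_, ⟨x, rfl⟩, rfl⟩
      exact ⟨⟨(x : Ω₁ × Ω₂).1, fst_mem_prA x⟩, (hvA x).symm⟩
  have hrB : φ₂.range = prB Q := by
    rw [← hr]
    ext a
    constructor
    · rintro ⟨⟨_, x, hx, rfl⟩, rfl⟩
      exact ⟨φ ⟨x, hx⟩, ⟨⟨x, hx⟩, rfl⟩, hvB ⟨x, hx⟩⟩
    · rintro ⟨_, ⟨x, rfl⟩, rfl⟩
      exact ⟨⟨(x : Ω₁ × Ω₂).2, snd_mem_prB x⟩, (hvB x).symm⟩
  obtain ⟨ψ₁, hψ₁, hψ₁v⟩ := h₁.2 _ φ₁ hφ₁ hrA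
  obtain ⟨ψ₂, hψ₂, hψ₂v⟩ := h₂.2 _ φ₂ hφ₂ hrB
  have : Finite (prA R) := finite_of_le hRA
  have : Finite (prB R) := finite_of_le hRB
  -- the extender of the product lies in the product of the extenders
  have hext₁ : prA (extender (S₁.prod S₂) R φ) ≤ extender S₁ (prA R) φ₁ := by
    rintro _ ⟨g, hg, rfl⟩
    obtain ⟨hgS, hgN, h, hh, hgv⟩ := mem_extender_iff.1 hg
    refine mem_extender_iff.2 ⟨hgS.1, mem_normalizer_of_forall ?_, h.1, hh.1, fun x hx => ?_⟩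
    · rintro _ ⟨x, hx, rfl⟩
      exact ⟨_, conj_mem_of_mem_normalizer hgN hx, rfl⟩
    · obtain ⟨_, x₀, hx₀, rfl⟩ := x
      have hm := conj_mem_of_mem_normalizer hgN hx₀
      have h1 := congrArg Prod.fst (hgv ⟨x₀, hx₀⟩ hm)
      have h2 := hvA ⟨_, hm⟩
      have h3 := hvA ⟨x₀, hx₀⟩
      simp only [Prod.fst_mul, Prod.fst_inv] at h1
      rw [h2, h3] at h1
      exact h1
  have hext₂ : prB (extender (S₁.prod S₂) R φ) ≤ extender S₂ (prB R) φ₂ := by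
    rintro _ ⟨g, hg, rfl⟩
    obtain ⟨hgS, hgN, h, hh, hgv⟩ := mem_extender_iff.1 hg
    refine mem_extender_iff.2 ⟨hgS.2, mem_normalizer_of_forall ?_, h.2, hh.2, fun x hx => ?_⟩
    · rintro _ ⟨x, hx, rfl⟩
      exact ⟨_, conj_mem_of_mem_normalizer hgN hx, rfl⟩
    · obtain ⟨_, x₀, hx₀, rfl⟩ := x
      have hm := conj_mem_of_mem_normalizer hgN hx₀
      have h1 := congrArg Prod.snd (hgv ⟨x₀, hx₀⟩ hm)
      have h2 := hvB ⟨_, hm⟩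
      have h3 := hvB ⟨x₀, hx₀⟩
      simp only [Prod.snd_mul, Prod.snd_inv] at h1
      rw [h2, h3] at h1
      exact h1
  have hES : extender (S₁.prod S₂) R φ ≤ S₁.prod S₂ := extender_le_normalizerIn.trans (normalizerIn_le _)
  refine ⟨prodOn ψ₁ ψ₂ _ hext₁ hext₂, prodOn_mem hE hψ₁ hψ₂ hES hext₁ hext₂, fun x hP hN => ?_⟩
  show (ψ₁ _, ψ₂ _) = φ ⟨x, hP⟩
  rw [hv ⟨x, hP⟩, hψ₁v _ (fst_mem_prA ⟨x, hP⟩) _, hψ₂v _ (snd_mem_prB ⟨x, hP⟩) _]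

theorem isFullyAutomized_of_good [Finite (S₁.prod S₂)] (hS₁ : IsPGroup p S₁) (hS₂ : IsPGroup p S₂)
    {Q : Subgroup (Ω₁ × Ω₂)} (hQ : E.IsFullyNormalized Q)
    (h₁ : F₁.IsFullyAutomized p (prA Q)) (h₂ : F₂.IsFullyAutomized p (prB Q)) : E.IsFullyAutomized p Q := by
  classical
  have hQS := hQ.1
  have : Finite Q := finite_of_le hQS
  have : Finite (MulAut Q) := finite_mulAut _
  have hS : IsPGroup p (S₁.prod S₂ : Subgroup (Ω₁ × Ω₂)) := by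
    rintro ⟨⟨a, b⟩, ha, hb⟩
    obtain ⟨k₁, hk₁⟩ := hS₁ ⟨a, ha⟩
    obtain ⟨k₂, hk₂⟩ := hS₂ ⟨b, hb⟩
    have hk₁' : a ^ p ^ k₁ = 1 := congrArg Subtype.val hk₁
    have hk₂' : b ^ p ^ k₂ = 1 := congrArg Subtype.val hk₂
    refine ⟨k₁ + k₂, Subtype.ext (Prod.ext ?_ ?_)⟩
    · show a ^ p ^ (k₁ + k₂) = 1
      rw [pow_add, pow_mul, hk₁', one_pow]
    · show b ^ p ^ (k₁ + k₂) = 1
      rw [pow_add, mul_comm, pow_mul, hk₂', one_pow]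
  have hUX : autInducedBy (S₁.prod S₂) Q ≤ E.autGroup Q := autInducedBy_le_autGroup E hQS
  have hUp : IsPGroup p (autInducedBy (S₁.prod S₂) Q) := isPGroup_autInducedBy hS Q
  obtain ⟨V, hUV, hVX, hV⟩ := exists_isSylowIn_le (X := E.autGroup Q) hUp hUX
  have hVp : IsPGroup p V := hV.isPGroup hVX
  have hprojA : ∀ v ∈ V, ∃ a ∈ F₁.autGroup (prA Q), ∀ x : Q,
      ((a ⟨(MonoidHom.fst Ω₁ Ω₂).comp Q.subtype x, fst_mem_prA x⟩ : prA Q) : Ω₁) = (MonoidHom.fst Ω₁ Ω₂).comp Q.subtype (v x) := by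
    intro v hv
    have hiso := (mem_autGroup_iff hQS).1 (hVX hv)
    obtain ⟨φ₁, hφ₁, φ₂, hφ₂, hval⟩ := decomp hE hiso
    have hvA : ∀ x : Q, (((v x : Q) : Ω₁ × Ω₂)).1 = φ₁ ⟨(x : Ω₁ × Ω₂).1, fst_mem_prA x⟩ := fun x =>
      congrArg Prod.fst (hval x)
    obtain ⟨a, ha, hav⟩ := exists_aut_of_map hφ₁ (by
      rintro ⟨_, x, hx, rfl⟩
      have := hvA ⟨x, hx⟩
      show φ₁ ⟨(x : Ω₁ × Ω₂).1, _⟩ ∈ _
      rw [show φ₁ ⟨(x : Ω₁ × Ω₂).1, _⟩ = φ₁ ⟨((⟨x, hx⟩ : Q) : Ω₁ × Ω₂).1, fst_mem_prA ⟨x, hx⟩⟩ from rfl, ← this]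
      exact fst_mem_prA _)
    refine ⟨a, ha, fun x => ?_⟩
    rw [hav]
    exact (hvA x).symm
  have hprojB : ∀ v ∈ V, ∃ a ∈ F₂.autGroup (prB Q), ∀ x : Q,
      ((a ⟨(MonoidHom.snd Ω₁ Ω₂).comp Q.subtype x, snd_mem_prB x⟩ : prB Q) : Ω₂) = (MonoidHom.snd Ω₁ Ω₂).comp Q.subtype (v x) := by
    intro v hv
    have hiso := (mem_autGroup_iff hQS).1 (hVX hv)
    obtain ⟨φ₁, hφ₁, φ₂, hφ₂, hval⟩ := decomp hE hiso
    have hvA : ∀ x : Q, (((v x : Q) : Ω₁ × Ω₂)).2 = φ₂ ⟨(x : Ω₁ × Ω₂).2, snd_mem_prB x⟩ := fun x =>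
      congrArg Prod.snd (hval x)
    obtain ⟨a, ha, hav⟩ := exists_aut_of_map hφ₂ (by
      rintro ⟨_, x, hx, rfl⟩
      have := hvA ⟨x, hx⟩
      show φ₂ ⟨(x : Ω₁ × Ω₂).2, _⟩ ∈ _
      rw [show φ₂ ⟨(x : Ω₁ × Ω₂).2, _⟩ = φ₂ ⟨((⟨x, hx⟩ : Q) : Ω₁ × Ω₂).2, snd_mem_prB ⟨x, hx⟩⟩ from rfl, ← this]
      exact snd_mem_prB _)
    refine ⟨a, ha, fun x => ?_⟩
    rw [hav]
    exact (hvA x).symm
  obtain ⟨β₁, hβ₁, hβ₁v⟩ := exists_sylow_conj h₁ ((MonoidHom.fst Ω₁ Ω₂).comp Q.subtype) (fun x => fst_mem_prA x)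
    (fun y hy => by
      obtain ⟨x, hx, rfl⟩ := hy
      exact ⟨⟨x, hx⟩, rfl⟩) hVp hprojA
  obtain ⟨β₂, hβ₂, hβ₂v⟩ := exists_sylow_conj h₂ ((MonoidHom.snd Ω₁ Ω₂).comp Q.subtype) (fun x => snd_mem_prB x)
    (fun y hy => by
      obtain ⟨x, hx, rfl⟩ := hy
      exact ⟨⟨x, hx⟩, rfl⟩) hVp hprojB
  have hiso₁ := (mem_autGroup_iff h₁.1).1 hβ₁
  have hiso₂ := (mem_autGroup_iff h₂.1).1 hβ₂
  set b := prodOn ((prA Q).subtype.comp β₁.toMonoidHom) ((prB Q).subtype.comp β₂.toMonoidHom) Q le_rfl le_rfl with hbd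
  have hb : b ∈ E.Hom Q := prodOn_mem hE hiso₁ hiso₂ hQS le_rfl le_rfl
  have hbv : ∀ x : Q, b x = (((β₁ ⟨(x : Ω₁ × Ω₂).1, fst_mem_prA x⟩ : prA Q) : Ω₁), ((β₂ ⟨(x : Ω₁ × Ω₂).2, snd_mem_prB x⟩ : prB Q) : Ω₂)) := fun x => rfl
  have hprA : prA b.range = prA Q := by
    ext a
    constructor
    · rintro ⟨_, ⟨x, rfl⟩, rfl⟩
      show (b x).1 ∈ prA Q
      rw [hbv]
      exact (β₁ _).2
    · intro ha
      obtain ⟨y₁, hy₁⟩ := β₁.surjective ⟨a, ha⟩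
      obtain ⟨y, hy, hyy⟩ := y₁.2
      refine ⟨b ⟨y, hy⟩, ⟨⟨y, hy⟩, rfl⟩, ?_⟩
      show (b ⟨y, hy⟩).1 = a
      rw [hbv]
      have e : (⟨((⟨y, hy⟩ : Q) : Ω₁ × Ω₂).1, fst_mem_prA ⟨y, hy⟩⟩ : prA Q) = y₁ := Subtype.ext hyy
      show ((β₁ _ : prA Q) : Ω₁) = a
      rw [e, hy₁]
  have hprB : prB b.range = prB Q := by
    ext a
    constructor
    · rintro ⟨_, ⟨x, rfl⟩, rfl⟩
      show (b x).2 ∈ prB Q
      rw [hbv]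
      exact (β₂ _).2
    · intro ha
      obtain ⟨y₁, hy₁⟩ := β₂.surjective ⟨a, ha⟩
      obtain ⟨y, hy, hyy⟩ := y₁.2
      refine ⟨b ⟨y, hy⟩, ⟨⟨y, hy⟩, rfl⟩, ?_⟩
      show (b ⟨y, hy⟩).2 = a
      rw [hbv]
      have e : (⟨((⟨y, hy⟩ : Q) : Ω₁ × Ω₂).2, snd_mem_prB ⟨y, hy⟩⟩ : prB Q) = y₁ := Subtype.ext hyy
      show ((β₂ _ : prB Q) : Ω₂) = a
      rw [e, hy₁]
  have hrS : b.range ≤ S₁.prod S₂ := by
    rintro _ ⟨x, rfl⟩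
    exact hom_val E hb x
  have : Finite b.range := finite_of_le hrS
  let e : Q ≃* b.range := isoRange hb
  have hev : ∀ x : Q, ((e x : b.range) : Ω₁ × Ω₂) = b x := fun x => isoRange_coe hb x
  -- `V` transported into the automizer of the image
  have hcard : Nat.card V ≤ Nat.card (autInducedBy (S₁.prod S₂) b.range) := by
    have hmem : ∀ v : V, (e.symm.trans ((v : MulAut Q).trans e) : MulAut b.range) ∈ autInducedBy (S₁.prod S₂) b.range := by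
      intro v
      obtain ⟨s₁, hs₁, -, hs₁v⟩ := hβ₁v v v.2
      obtain ⟨s₂, hs₂, -, hs₂v⟩ := hβ₂v v v.2
      refine mem_autInducedBy_iff.2 ⟨(s₁, s₂), ⟨hs₁, hs₂⟩, fun y => ?_⟩
      obtain ⟨x, rfl⟩ := e.surjective y
      have e1 : (e.symm.trans ((v : MulAut Q).trans e) : MulAut b.range) (e x) = e ((v : MulAut Q) x) := by
        simp [MulEquiv.trans_apply]
      rw [e1, hev, hev, hbv, hbv]
      refine Prod.ext ?_ ?_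
      · exact (hs₁v x).symm
      · exact (hs₂v x).symm
    refine Nat.card_le_card_of_injective (fun v => (⟨_, hmem v⟩ : autInducedBy (S₁.prod S₂) b.range)) (fun v w h => ?_)
    have h1 : (e.symm.trans ((v : MulAut Q).trans e) : MulAut b.range) = e.symm.trans ((w : MulAut Q).trans e) :=
      congrArg Subtype.val h
    apply Subtype.ext
    refine MulEquiv.ext fun x => ?_
    have h2 := congrArg (fun α : MulAut b.range => α (e x)) h1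
    simp only [MulEquiv.trans_apply, MulEquiv.symm_apply_apply] at h2
    exact e.injective h2
  have hfn := hQ.2 _ (⟨b, hb, rfl⟩ : E.IsConj Q b.range)
  rw [card_normalizerIn_eq hrS, card_normalizerIn_eq hQS, centralizerIn_prod b.range, hprA, hprB, ← centralizerIn_prod Q] at hfn
  have hpos : 0 < Nat.card (centralizerIn (S₁.prod S₂) Q) := by
    have := finite_of_le (centralizerIn_le (S := S₁.prod S₂) Q)
    exact Nat.card_pos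
  have hle := Nat.le_of_mul_le_mul_left hfn hpos
  have hVf : Finite V := Finite.of_injective (Subgroup.inclusion hVX) (Subgroup.inclusion_injective hVX)
  have heq : autInducedBy (S₁.prod S₂) Q = V := Subgroup.eq_of_le_of_card_ge hUV (hcard.trans hle)
  exact ⟨hQS, heq ▸ hV⟩

end Main

/-- `S5137`. -/
theorem isSaturated_product [Finite S₁] [Finite S₂] {p : ℕ} [Fact p.Prime] {F₁ : FusionSystem S₁} {F₂ : FusionSystem S₂}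
    (hS₁ : IsPGroup p S₁) (hS₂ : IsPGroup p S₂) (hF₁ : F₁.IsSaturated p) (hF₂ : F₂.IsSaturated p)
    {E : FusionSystem (S₁.prod S₂)} (hE : IsProductSystem F₁ F₂ E) : E.IsSaturated p := by
  have : Finite (S₁.prod S₂ : Subgroup (Ω₁ × Ω₂)) := Finite.of_equiv _ (Subgroup.prodEquiv S₁ S₂).symm.toEquiv
  intro P hP
  obtain ⟨Q, hPQ, hQ, h₁, h₂⟩ := exists_conj_good hE hS₁ hS₂ hF₁ hF₂ hP
  exact ⟨Q, hPQ,
    isFullyAutomized_of_good hE hS₁ hS₂ hQ (IsSat.fullyAutomized_of_fullyNormalized hS₁ hF₁ h₁)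
      (IsSat.fullyAutomized_of_fullyNormalized hS₂ hF₂ h₂),
    isReceptive_of_good hE hQ.1 (IsSat.receptive_of_fullyNormalized hS₁ hF₁ h₁)
      (IsSat.receptive_of_fullyNormalized hS₂ hF₂ h₂)⟩

end Cfsg.Agent.Lib.Fusion
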