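import Cfsg.Agent.Lib.Fusion.Closed
import Cfsg.Agent.Lib.Fusion.Group
import Cfsg.Agent.Lib.Techniques.Complement
import Mathlib

/-! # Uniqueness of subsystems of `p`-power index, and the subsystem of `O^p(G)` -/

set_option autoImplicit false
set_option linter.unusedSectionVars false
set_option linter.unusedVariables false

namespace Cfsg.Agent.Lib.Fusion

open Cfsg Cfsg.FusionSystem

variable {Ω : Type*} [Group Ω] {p : ℕ} [Fact p.Prime]

/-- A saturated `E₁` over `T`, whose automizers lie in those of `F`, is contained in any `E₂` over `T` whose automizers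
contain the `O^p` of the automizers in `F`. -/
theorem le_of_residual_le {S T : Subgroup Ω} [Finite T] (hT : IsPGroup p T) {F : FusionSystem S}
    {E₁ E₂ : FusionSystem T} (hE₁ : E₁.IsSaturated p) (h₁ : ∀ P, P ≤ T → E₁.autGroup P ≤ F.autGroup P)
    (h₂ : ∀ P, P ≤ T → (pResidual p (F.autGroup P)).map (F.autGroup P).subtype ≤ E₂.autGroup P) : E₁ ≤ E₂ := by
  refine fusion_le_of_fullyNormalized hT hE₁ E₂ fun R hR _ α hα => ?_
  have hRT := hR.1
  obtain ⟨s, hs, β, hβ, hv⟩ := exists_conj_mul_residual hT hE₁ hR ⟨α, hα⟩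
  obtain ⟨hsT, hsN⟩ := mem_normalizerIn.1 hs
  have hβ2 : ((β : E₁.autGroup R) : MulAut R) ∈ E₂.autGroup R := by
    have hle : (pResidual p (E₁.autGroup R)).map (E₁.autGroup R).subtype ≤ E₂.autGroup R := by
      rw [pResidual, MonoidHom.map_closure, Subgroup.closure_le]
      rintro _ ⟨γ, hγ, rfl⟩
      refine h₂ R hRT ⟨⟨γ, h₁ R hRT γ.2⟩, Subgroup.subset_closure ?_, rfl⟩
      show Nat.Coprime (orderOf (⟨γ, h₁ R hRT γ.2⟩ : F.autGroup R)) p
      rw [← Subgroup.orderOf_coe]
      have h3 : Nat.Coprime (orderOf γ) p := hγ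
      rw [← Subgroup.orderOf_coe] at h3
      exact h3
    exact hle ⟨β, hβ, rfl⟩
  have hs2 : conjAut R s hsN ∈ E₂.autGroup R := autInducedBy_le_autGroup E₂ hRT (conjAut_mem hsT hsN)
  have e : α = conjAut R s hsN * (β : MulAut R) := by
    ext x
    rw [MulAut.mul_apply, conjAut_coe]
    exact hv x
  rw [e]
  exact Subgroup.mul_mem _ hs2 hβ2

/-- Uniqueness of saturated subsystems of `p`-power index. -/
theorem hom_eq_of_residual {S T : Subgroup Ω} [Finite T] (hT : IsPGroup p T) {F : FusionSystem S}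
    {E₁ E₂ : FusionSystem T} (hE₁ : E₁.IsSaturated p) (hE₂ : E₂.IsSaturated p)
    (h₁ : ∀ P, P ≤ T → E₁.autGroup P ≤ F.autGroup P) (h₂ : ∀ P, P ≤ T → E₂.autGroup P ≤ F.autGroup P)
    (h₃ : ∀ P, P ≤ T → (pResidual p (F.autGroup P)).map (F.autGroup P).subtype ≤ E₁.autGroup P)
    (h₄ : ∀ P, P ≤ T → (pResidual p (F.autGroup P)).map (F.autGroup P).subtype ≤ E₂.autGroup P) (P : Subgroup Ω) :
    E₁.Hom P = E₂.Hom P :=
  Set.Subset.antisymm (le_of_residual_le hT hE₁ h₁ h₄ P) (le_of_residual_le hT hE₂ h₂ h₃ P)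

theorem autGroup_le_of_subsystem {S T : Subgroup Ω} {F : FusionSystem S} {E : FusionSystem T} (hsub : E.IsSubsystemOf F)
    (hTS : T ≤ S) (P : Subgroup Ω) (hP : P ≤ T) : E.autGroup P ≤ F.autGroup P := fun α hα =>
  (mem_autGroup_iff (hP.trans hTS)).2 (hsub P ((mem_autGroup_iff hP).1 hα))

section Group

variable {G : Type*} [Group G] [Finite G]

theorem fH_hom_congr {H T T' : Subgroup G} (h : T = T') (hT : T ≤ H) (hT' : T' ≤ H) (P : Subgroup G) :
    (fusionSystemOfSubgroup H T hT).Hom P = (fusionSystemOfSubgroup H T' hT').Hom P := by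
  subst h
  rfl

/-- Order prime to `p` automizers of `G` are induced by `O^p(G)`. -/
theorem residual_le_autGroup_fH {S T : Subgroup G} (hTS : T ≤ S) (hTH : T ≤ pResidual p G) (P : Subgroup G) (hP : P ≤ T) :
    (pResidual p ((groupFusionSystem S).autGroup P)).map ((groupFusionSystem S).autGroup P).subtype ≤
      (fusionSystemOfSubgroup (pResidual p G) T hTH).autGroup P := by
  have hp : p.Prime := Fact.out
  rw [pResidual, MonoidHom.map_closure, Subgroup.closure_le]
  rintro _ ⟨γ, hγ, rfl⟩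
  obtain ⟨-, -, g, hg⟩ := (mem_autGroup_iff (hP.trans hTS)).1 γ.2
  have hg' : ∀ z : P, (((γ : MulAut P) z : P) : G) = g * (z : G) * g⁻¹ := hg
  have hpow : ∀ n : ℕ, ∀ z : P, ((((γ : MulAut P) ^ n) z : P) : G) = g ^ n * (z : G) * (g ^ n)⁻¹ := by
    intro n
    induction n with
    | zero => intro z; simp
    | succ n ih =>
      intro z
      rw [pow_succ, MulAut.mul_apply, ih, hg']
      group
  obtain ⟨k, r, hr, he⟩ := Nat.exists_eq_pow_mul_and_not_dvd (n := orderOf g) (orderOf_pos g).ne' p hp.ne_one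
  have hco0 : Nat.Coprime (orderOf (γ : MulAut P)) p := by
    rw [Subgroup.orderOf_coe]
    exact hγ
  have hco : Nat.Coprime (p ^ k) (orderOf (γ : MulAut P)) := Nat.Coprime.pow_left k hco0.symm
  obtain ⟨u, hu⟩ := exists_pow_eq_self_of_coprime hco
  set h : G := g ^ (p ^ k * u) with hh
  have hv : ∀ z : P, (((γ : MulAut P) z : P) : G) = h * (z : G) * h⁻¹ := by
    intro z
    have h1 := hpow (p ^ k * u) z
    rw [pow_mul, hu] at h1
    rw [hh, h1]
  have hord : Nat.Coprime (orderOf h) p := by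
    have h1 : h ^ r = 1 := by
      rw [hh, ← pow_mul]
      have e2 : p ^ k * u * r = orderOf g * u := by
        rw [he]
        ring
      rw [e2, pow_mul, pow_orderOf_eq_one, one_pow]
    exact Nat.Coprime.coprime_dvd_left (orderOf_dvd_of_pow_eq_one h1) ((Nat.Prime.coprime_iff_not_dvd hp).2 hr).symm
  have hhH : h ∈ pResidual p G := Subgroup.subset_closure hord
  refine (mem_autGroup_iff hP).2 ⟨hP, fun z => hP (((γ : MulAut P) z).2), h, hhH, hv⟩

variable (S : Sylow p G)

/-- The `O^p(G)`-system is saturated. -/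
theorem residual_fH_sat {T : Subgroup G} (hT : T = (S : Subgroup G) ⊓ pResidual p G) (hTH : T ≤ pResidual p G) :
    (fusionSystemOfSubgroup (pResidual p G) T hTH).IsSaturated p := by
  subst hT
  have hN := Lib.Techniques.pResidual_normal G p
  have h1 := IsSylowIn.inf_normal (isSylowIn_of_sylow S) le_top le_top (Y := pResidual p G)
    ⟨fun n hn g => Subgroup.mem_subgroupOf.2 (hN.conj_mem _ (Subgroup.mem_subgroupOf.1 hn) g)⟩
  have e : (S : Subgroup G) ⊓ ⊤ = (S : Subgroup G) := inf_top_eq _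
  exact isSaturated_fH hTH (by simpa using h1)

/-- The `O^p(G)`-system is a subsystem of the system of `G`. -/
theorem residual_fH_sub {T : Subgroup G} (hTS : T ≤ (S : Subgroup G)) (hTH : T ≤ pResidual p G) :
    (fusionSystemOfSubgroup (pResidual p G) T hTH).IsSubsystemOf (groupFusionSystem (S : Subgroup G)) := by
  rintro P φ ⟨h1, h2, g, -, h3⟩
  exact ⟨h1.trans hTS, fun x => hTS (h2 x), g, h3⟩

end Group

end Cfsg.Agent.Lib.Fusion
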