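import Cfsg.Agent.Lib.Fusion.ChainMain
import Mathlib

/-! # The trace map and direct factors of the centre -/

set_option autoImplicit false

namespace Cfsg.Agent.Lib.Fusion

open Cfsg Cfsg.FusionSystem

/-- **Coprime trace.** The fixed points of `A` on an abelian `p`-group are a direct factor of the fixed points of a
subgroup `U` of index prime to `p`. -/
theorem exists_direct_factor_of_trace {V A : Type*} [CommGroup V] [Finite V] [Group A] [Finite A] {p : ℕ} [Fact p.Prime]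
    (hV : IsPGroup p V) (ρ : A →* MulAut V) (U : Subgroup A) (hU : ¬ p ∣ U.index) (Z₀ Z₁ : Subgroup V)
    (hZ₀ : ∀ v, v ∈ Z₀ ↔ ∀ u ∈ U, ρ u v = v) (hZ₁ : ∀ v, v ∈ Z₁ ↔ ∀ a : A, ρ a v = v) :
    ∃ K : Subgroup V, K ≤ Z₀ ∧ Z₁ ⊓ K = ⊥ ∧ Z₁ ⊔ K = Z₀ := by
  classical
  have : Fintype (A ⧸ U) := Fintype.ofFinite _
  let tr : V →* V :=
    { toFun := fun v => ∏ q : A ⧸ U, ρ q.out v
      map_one' := by simp
      map_mul' := fun v w => by simp [Finset.prod_mul_distrib] }
  have htrv : ∀ v, tr v = ∏ q : A ⧸ U, ρ q.out v := fun _ => rfl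
  have htr1 : ∀ v ∈ Z₀, tr v ∈ Z₁ := by
    intro v hv
    refine (hZ₁ _).2 fun a => ?_
    rw [htrv, map_prod]
    refine (Fintype.prod_equiv (MulAction.toPerm a) _ _ fun q => ?_)
    have h1 : (a • q).out⁻¹ * (a * q.out) ∈ U := by
      rw [← QuotientGroup.eq]
      simp only [Quotient.out_eq', QuotientGroup.out_eq']
      exact (MulAction.Quotient.coe_smul_out (b := a) (q := q)).symm
    have h2 := (hZ₀ v).1 hv _ h1
    have h3 : a * q.out = (a • q).out * ((a • q).out⁻¹ * (a * q.out)) := by group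
    show ρ a (ρ q.out v) = ρ (a • q).out v
    rw [← MulAut.mul_apply, ← map_mul, h3, map_mul, MulAut.mul_apply, h2]
  have hindex : Fintype.card (A ⧸ U) = U.index := by
    rw [← Nat.card_eq_fintype_card]
    rfl
  have htr2 : ∀ v ∈ Z₁, tr v = v ^ U.index := by
    intro v hv
    rw [htrv]
    have : ∀ q : A ⧸ U, ρ q.out v = v := fun q => (hZ₁ v).1 hv _
    simp only [this, Finset.prod_const, Finset.card_univ, hindex]
  have hZ₁Z₀ : Z₁ ≤ Z₀ := fun v hv => (hZ₀ v).2 fun u _ => (hZ₁ v).1 hv u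
  have hcop : ∀ n : ℕ, Nat.Coprime (p ^ n) U.index := fun n =>
    Nat.Coprime.pow_left n ((Nat.Prime.coprime_iff_not_dvd Fact.out).2 hU)
  refine ⟨Z₀ ⊓ tr.ker, inf_le_left, ?_, ?_⟩
  · rw [eq_bot_iff]
    rintro v ⟨hv1, -, hv2⟩
    have h1 : v ^ U.index = 1 := by
      rw [← htr2 v hv1]
      exact hv2
    obtain ⟨n, hn⟩ := hV v
    have h2 : orderOf v ∣ Nat.gcd (p ^ n) U.index :=
      Nat.dvd_gcd (orderOf_dvd_of_pow_eq_one hn) (orderOf_dvd_of_pow_eq_one h1)
    rw [hcop n] at h2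
    exact Subgroup.mem_bot.2 (orderOf_eq_one_iff.1 (Nat.dvd_one.1 h2))
  · refine le_antisymm (sup_le hZ₁Z₀ inf_le_left) fun a ha => ?_
    have hZ₁p : IsPGroup p Z₁ := hV.to_subgroup Z₁
    obtain ⟨n, hn⟩ := IsPGroup.iff_card.1 hZ₁p
    have hcard : (Nat.card Z₁).Coprime U.index := by
      rw [hn]
      exact hcop n
    let b₀ : Z₁ := (powCoprime hcard).symm ⟨tr a, htr1 a ha⟩
    have hb₀ : b₀ ^ U.index = ⟨tr a, htr1 a ha⟩ := (powCoprime hcard).apply_symm_apply _
    have hb : (b₀ : V) ^ U.index = tr a := congrArg Subtype.val hb₀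
    have hb1 : tr (b₀ : V) = tr a := by
      rw [htr2 _ b₀.2, hb]
    have hmem : (b₀ : V)⁻¹ * a ∈ Z₀ ⊓ tr.ker := by
      refine Subgroup.mem_inf.2 ⟨Z₀.mul_mem (Z₀.inv_mem (hZ₁Z₀ b₀.2)) ha, ?_⟩
      rw [MonoidHom.mem_ker, map_mul, map_inv, hb1]
      simp
    have : a = (b₀ : V) * ((b₀ : V)⁻¹ * a) := by group
    rw [this]
    exact Subgroup.mul_mem _ ((le_sup_left : Z₁ ≤ Z₁ ⊔ (Z₀ ⊓ tr.ker)) b₀.2) ((le_sup_right : Z₀ ⊓ tr.ker ≤ _) hmem)

variable {Ω : Type*} [Group Ω] {S : Subgroup Ω} {F : FusionSystem S} {p : ℕ} [Fact p.Prime]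

/-- The action of automorphisms on the centre. -/
noncomputable def centerAct (Q : Subgroup Ω) : MulAut Q →* MulAut (Subgroup.center Q) where
  toFun a := Subgroup.centerCongr a
  map_one' := by
    ext x
    rfl
  map_mul' a b := by
    ext x
    rfl

@[simp] theorem centerAct_coe (Q : Subgroup Ω) (a : MulAut Q) (v : Subgroup.center Q) :
    ((centerAct Q a v : Subgroup.center Q) : Q) = a v := rfl

/-- **`Z(F)` is a direct factor of `Z(S)` when `Z(S) ≤ O_p(F)`.** -/
theorem center_direct_factor [Finite S] (hS : IsPGroup p S) (hF : F.IsSaturated p) {Q : Subgroup Ω} (hQn : F.IsNormal Q)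
    (hZ : S ⊓ Subgroup.centralizer (S : Set Ω) ≤ Q) :
    ∃ K : Subgroup Ω, K ≤ S ⊓ Subgroup.centralizer (S : Set Ω) ∧ F.center ⊓ K = ⊥ ∧
      F.center ⊔ K = S ⊓ Subgroup.centralizer (S : Set Ω) := by
  have hQS := hQn.1
  have : Finite Q := finite_of_le hQS
  have hSN : S ≤ Subgroup.normalizer (Q : Set Ω) := StronglyClosed.le_normalizer (IsNormal.stronglyClosed hQn)
  obtain ⟨hfa, -⟩ := IsNormal.fullyAutomized_receptive hF hQn
  obtain ⟨-, R, hR⟩ := hfa
  have hU : ¬ p ∣ ((autInducedBy S Q).subgroupOf (F.autGroup Q)).index := by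
    rw [← hR]
    exact R.not_dvd_index
  set A := F.autGroup Q with hA
  have : Finite A := finite_autGroup F hQS
  let ρ : A →* MulAut (Subgroup.center Q) := (centerAct Q).comp A.subtype
  let ι : Subgroup.center Q →* Ω := Q.subtype.comp (Subgroup.center Q).subtype
  have hι : Function.Injective ι := Q.subtype_injective.comp (Subgroup.center Q).subtype_injective
  have hιv : ∀ v : Subgroup.center Q, ι v = ((v : Q) : Ω) := fun _ => rfl
  have hρv : ∀ (a : A) (v : Subgroup.center Q), ι (ρ a v) = (((a : MulAut Q) (v : Q) : Q) : Ω) := fun _ _ => rfl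
  have hcenS : ∀ x : Ω, x ∈ S ⊓ Subgroup.centralizer (S : Set Ω) → x ∈ ι.range := by
    intro x hx
    have hxQ := hZ hx
    refine ⟨⟨⟨x, hxQ⟩, Subgroup.mem_center_iff.2 fun y => Subtype.ext ?_⟩, rfl⟩
    exact Subgroup.mem_centralizer_iff.1 hx.2 y (hQS y.2)
  have hVp : IsPGroup p (Subgroup.center Q) := by
    have h1 : IsPGroup p Q := hS.to_le hQS
    exact h1.to_subgroup _
  have hFc : F.IsCentral F.center := isCentral_center
  have hFcS : F.center ≤ S ⊓ Subgroup.centralizer (S : Set Ω) := by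
    intro x hx
    refine ⟨hFc.1 hx, Subgroup.mem_centralizer_iff.2 fun g hg => ?_⟩
    have h1 := IsCentral.commute hFc hx hg
    calc g * x = (g * x * g⁻¹) * g := by group
      _ = x * g := by rw [h1]
  set Z₀ := (S ⊓ Subgroup.centralizer (S : Set Ω)).comap ι with hZ₀d
  set Z₁ := (F.center).comap ι with hZ₁d
  have hZ₀ : ∀ v, v ∈ Z₀ ↔ ∀ u ∈ (autInducedBy S Q).subgroupOf A, ρ u v = v := by
    intro v
    constructor
    · intro hv u hu
      obtain ⟨g, hg, hgv⟩ := mem_autInducedBy_iff.1 (Subgroup.mem_subgroupOf.1 hu)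
      apply hι
      rw [hρv, hgv]
      have h1 := Subgroup.mem_centralizer_iff.1 (show ι v ∈ _ from hv.2) g hg
      show g * ι v * g⁻¹ = ι v
      rw [h1]
      group
    · intro hv
      refine ⟨hQS (v : Q).2, Subgroup.mem_centralizer_iff.2 fun g hg => ?_⟩
      have hmem : conjAut Q g (hSN hg) ∈ autInducedBy S Q := conjAut_mem hg (hSN hg)
      have hu : (⟨conjAut Q g (hSN hg), autInducedBy_le_autGroup F hQS hmem⟩ : A) ∈ (autInducedBy S Q).subgroupOf A :=
        Subgroup.mem_subgroupOf.2 hmem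
      have h1 := hv _ hu
      have h2 := congrArg ι h1
      rw [hρv] at h2
      have h3 : g * ι v * g⁻¹ = ι v := h2
      calc g * ι v = (g * ι v * g⁻¹) * g := by group
        _ = ι v * g := by rw [h3]
  have hZ₁ : ∀ v, v ∈ Z₁ ↔ ∀ a : A, ρ a v = v := by
    intro v
    constructor
    · intro hv a
      apply hι
      rw [hρv]
      have h1 := (mem_autGroup_iff hQS).1 a.2
      exact IsCentral.fix hFc h1 (v : Q) hv
    · intro hv
      have hcen : F.IsCentral (Subgroup.zpowers (ι v)) := by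
        refine (isCentral_iff hS hF).2 ⟨Subgroup.zpowers_le.2 (hQS (v : Q).2), fun x hx y hy => ?_⟩
        obtain ⟨k, hx₀⟩ := Subgroup.mem_zpowers_iff.1 hx
        obtain ⟨φ, hφ, rfl⟩ := hy
        obtain ⟨ψ, hψ, hψP, hψQ⟩ := hQn.2 _ φ hφ
        rename' x => x₀
        have hx₀Q : x₀ ∈ Q := hx₀ ▸ Q.zpow_mem (v : Q).2 k
        have hres := res_mem F hψ (le_sup_right : Q ≤ Subgroup.zpowers x₀ ⊔ Q)
        have hval : ∀ y : Q, (ψ.comp (Subgroup.inclusion (le_sup_right : Q ≤ Subgroup.zpowers x₀ ⊔ Q))) y ∈ Q := by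
          intro y
          have : ψ (Subgroup.inclusion le_sup_right y) ∈ (Q.subgroupOf (Subgroup.zpowers x₀ ⊔ Q)).map ψ :=
            ⟨_, Subgroup.mem_subgroupOf.2 y.2, rfl⟩
          rw [hψQ] at this
          exact this
        obtain ⟨β, hβ, hβv⟩ := exists_aut_of_map hres hval
        have hfix := hv ⟨β, hβ⟩
        have h1 : (β (v : Q) : Ω) = ι v := by
          have := congrArg ι hfix
          rw [hρv] at this
          exact this
        have h2 : (β ⟨x₀, hx₀Q⟩ : Ω) = x₀ := by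
          have h3 : (⟨x₀, hx₀Q⟩ : Q) = (v : Q) ^ k := Subtype.ext (hx₀.symm.trans (by simp [hιv]))
          rw [h3, map_zpow]
          simp only [Subgroup.coe_zpow]
          rw [h1]
          exact hx₀
        rw [hβv] at h2
        rw [← hψP ⟨x₀, Subgroup.mem_zpowers x₀⟩]
        exact h2
      exact (le_sSup hcen : Subgroup.zpowers (ι v) ≤ F.center) (Subgroup.mem_zpowers (ι v))
  letI hcomm : CommGroup (Subgroup.center Q) :=
    { (inferInstance : Group (Subgroup.center Q)) with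
      mul_comm := fun a b => Subtype.ext (Subgroup.mem_center_iff.1 a.2 b).symm }
  obtain ⟨K, hK0, hK1, hK2⟩ := exists_direct_factor_of_trace (V := Subgroup.center Q) (A := A) hVp ρ ((autInducedBy S Q).subgroupOf A)
    hU Z₀ Z₁ hZ₀ hZ₁
  have hm0 : Z₀.map ι = S ⊓ Subgroup.centralizer (S : Set Ω) := Subgroup.map_comap_eq_self hcenS
  have hm1 : Z₁.map ι = F.center := Subgroup.map_comap_eq_self fun x hx => hcenS x (hFcS hx)
  refine ⟨K.map ι, ?_, ?_, ?_⟩
  · rw [← hm0]
    exact Subgroup.map_mono hK0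
  · rw [← hm1, ← Subgroup.map_inf _ _ _ hι, hK1, Subgroup.map_bot]
  · rw [← hm1, ← Subgroup.map_sup, hK2, hm0]

end Cfsg.Agent.Lib.Fusion
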