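import Cfsg.Agent.Lib.Fusion.PowChain
import Mathlib

/-!
# Exponent bounds from the upper central series

If every central element of a group has `e`-th power trivial then every element of the `j`-th term
of the upper central series has `e ^ j`-th power trivial.
-/

set_option autoImplicit false

namespace Cfsg.Agent.Lib.Fusion

open scoped commutatorElement

theorem commutator_pow_upper {G : Type*} [Group G] (i : ℕ) {x y : G}
    (hx : x ∈ Subgroup.upperCentralSeries G (i + 2)) (k : ℕ) :
    ∃ a ∈ Subgroup.upperCentralSeries G i, ⁅x ^ k, y⁆ = a * ⁅x, y⁆ ^ k := by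
  have hc1 : ⁅x, y⁆ ∈ Subgroup.upperCentralSeries G (i + 1) :=
    Subgroup.mem_upperCentralSeries_succ_iff.1 hx y
  have hAB : Subgroup.upperCentralSeries G i ≤ Subgroup.upperCentralSeries G (i + 1) :=
    (Subgroup.upperCentralSeries_mono G) (Nat.le_succ i)
  induction k with
  | zero => exact ⟨1, Subgroup.one_mem _, by simp⟩
  | succ k ih =>
    obtain ⟨a, ha, hk⟩ := ih
    have hmem : ⁅x ^ k, y⁆ ∈ Subgroup.upperCentralSeries G (i + 1) := by
      rw [hk]
      exact Subgroup.mul_mem _ (hAB ha) (Subgroup.pow_mem _ hc1 _)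
    have h2 : ⁅⁅x ^ k, y⁆, x⁆ ∈ Subgroup.upperCentralSeries G i :=
      Subgroup.mem_upperCentralSeries_succ_iff.1 hmem x
    refine ⟨⁅⁅x ^ k, y⁆, x⁆⁻¹ * a, Subgroup.mul_mem _ (Subgroup.inv_mem _ h2) ha, ?_⟩
    have hpow : x ^ (k + 1) = x * x ^ k := pow_succ' x k
    have e1 : ⁅x ^ (k + 1), y⁆ = ⁅⁅x ^ k, y⁆, x⁆⁻¹ * ⁅x ^ k, y⁆ * ⁅x, y⁆ := by
      rw [hpow]
      simp only [commutatorElement_def]
      group
    rw [e1, hk, pow_succ]
    group

theorem pow_mem_upper_of_central {G : Type*} [Group G] {e : ℕ} (hZ : ∀ z : G, z ∈ Subgroup.center G → z ^ e = 1) (i : ℕ) :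
    ∀ x ∈ Subgroup.upperCentralSeries G (i + 1), x ^ e ∈ Subgroup.upperCentralSeries G i := by
  induction i with
  | zero =>
    intro x hx
    have hx' : x ∈ Subgroup.center G := by
      rw [Subgroup.mem_center_iff]
      intro g
      have := Subgroup.mem_upperCentralSeries_succ_iff.1 hx g
      have h1 : ⁅x, g⁆ = 1 := by simpa using this
      rw [commutatorElement_eq_one_iff_mul_comm] at h1
      exact h1.symm
    rw [hZ x hx']
    exact Subgroup.one_mem _
  | succ i ih =>
    intro x hx
    refine Subgroup.mem_upperCentralSeries_succ_iff.2 fun y => ?_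
    obtain ⟨a, ha, hk⟩ := commutator_pow_upper i (y := y) hx e
    rw [hk]
    exact Subgroup.mul_mem _ ha (ih _ (Subgroup.mem_upperCentralSeries_succ_iff.1 hx y))

theorem pow_pow_eq_one_of_upper {G : Type*} [Group G] {e : ℕ} (hZ : ∀ z : G, z ∈ Subgroup.center G → z ^ e = 1) (j : ℕ) :
    ∀ x ∈ Subgroup.upperCentralSeries G j, x ^ (e ^ j) = 1 := by
  induction j with
  | zero =>
    intro x hx
    have : x = 1 := by simpa using hx
    simp [this]
  | succ j ih =>
    intro x hx
    have h := ih _ (pow_mem_upper_of_central hZ j x hx)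
    rw [pow_succ', pow_mul]
    exact h

/-- Exponent of a group from the exponent of its centre and the nilpotency class. -/
theorem exponent_dvd_of_center {G : Type*} [Group G] {e c : ℕ} (hZ : ∀ z : G, z ∈ Subgroup.center G → z ^ e = 1)
    (hc : Subgroup.lowerCentralSeries (⊤ : Subgroup G) c = ⊥) : Monoid.exponent G ∣ e ^ c := by
  have htop : Subgroup.upperCentralSeries G c = ⊤ :=
    Subgroup.lowerCentralSeries_eq_bot_iff_upperCentralSeries_eq_top.1 hc
  refine Monoid.exponent_dvd_of_forall_pow_eq_one fun x => ?_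
  exact pow_pow_eq_one_of_upper hZ c x (htop ▸ Subgroup.mem_top x)

end Cfsg.Agent.Lib.Fusion
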