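/-
A finite group with a normal subgroup `M` of prime index `p` and a homomorphism `μ : M → Z/p` whose norm under the
quotient `G/M` is nontrivial has a quotient isomorphic to the Sylow `p`-subgroup of the symmetric group of degree `p²`.
-/
import Mathlib

set_option autoImplicit false

namespace Cfsg.Agent.Lib.Fusion.Wreath

open AddMonoidAlgebra

variable {G : Type*} [Group G] {p : ℕ} [hp : Fact p.Prime]

theorem factorization_factorial_sq : ((p ^ 2).factorial).factorization p = p + 1 := by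
  have hp' := hp.out
  rw [Nat.factorization_def _ hp', padicValNat_factorial (b := 3)]
  · have h1 : Finset.Ico 1 3 = {1, 2} := by decide
    rw [h1, Finset.sum_pair (by norm_num)]
    have h2 : p ^ 2 / p ^ 1 = p := by
      rw [pow_one, pow_two, Nat.mul_div_cancel _ hp'.pos]
    have h3 : p ^ 2 / p ^ 2 = 1 := Nat.div_self (pow_pos hp'.pos 2)
    rw [h2, h3]
  · rw [Nat.log_pow hp'.one_lt]
    norm_num

variable {M : Subgroup G} [hM : M.Normal]

theorem pow_prime_mem (hi : M.index = p) (t : G) : t ^ p ∈ M := by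
  have hcard : Nat.card (G ⧸ M) = p := by rw [← Subgroup.index_eq_card, hi]
  haveI : Finite (G ⧸ M) := Nat.finite_of_card_ne_zero (by rw [hcard]; exact hp.out.ne_zero)
  have : ((t : G ⧸ M)) ^ p = 1 := by
    rw [← hcard]
    exact pow_card_eq_one'
  rwa [← QuotientGroup.mk_pow, QuotientGroup.eq_one_iff] at this

theorem exists_pow_val_mul (hi : M.index = p) {t : G} (ht : t ∉ M) (g : G) :
    ∃ j : ZMod p, ∃ m ∈ M, g = t ^ j.val * m := by
  have hcard : Nat.card (G ⧸ M) = p := by rw [← Subgroup.index_eq_card, hi]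
  haveI : Finite (G ⧸ M) := Nat.finite_of_card_ne_zero (by rw [hcard]; exact hp.out.ne_zero)
  haveI := Fintype.ofFinite (G ⧸ M)
  have hne : (t : G ⧸ M) ≠ 1 := by rwa [Ne, QuotientGroup.eq_one_iff]
  have h1 : (g : G ⧸ M) ∈ Subgroup.zpowers (t : G ⧸ M) :=
    mem_zpowers_of_prime_card hcard hne
  obtain ⟨k, hk⟩ := (mem_powers_iff_mem_zpowers).2 h1
  have hk' : ((t ^ k : G) : G ⧸ M) = g := by rw [QuotientGroup.mk_pow]; exact hk
  have hv : ((k : ZMod p)).val = k % p := ZMod.val_natCast p k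
  refine ⟨(k : ZMod p), (t ^ (k % p))⁻¹ * g, ?_, ?_⟩
  · rw [← QuotientGroup.eq, ← hk', QuotientGroup.eq]
    have e : (t ^ (k % p))⁻¹ * t ^ k = (t ^ p) ^ (k / p) := by
      rw [inv_mul_eq_iff_eq_mul, ← pow_mul, ← pow_add, Nat.mod_add_div]
    rw [e]
    exact M.pow_mem (pow_prime_mem hi t) _
  · rw [hv, mul_inv_cancel_left]

theorem eq_zero_of_pow_val_mem (hi : M.index = p) {t : G} (ht : t ∉ M) {j : ZMod p} (h : t ^ j.val ∈ M) : j = 0 := by
  have hne : (t : G ⧸ M) ≠ 1 := by rwa [Ne, QuotientGroup.eq_one_iff]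
  have h1 : ((t : G ⧸ M)) ^ p = 1 := by
    rw [← QuotientGroup.mk_pow, QuotientGroup.eq_one_iff]
    exact pow_prime_mem hi t
  have ho : orderOf (t : G ⧸ M) = p := orderOf_eq_prime h1 hne
  have h2 : ((t : G ⧸ M)) ^ j.val = 1 := by
    rw [← QuotientGroup.mk_pow, QuotientGroup.eq_one_iff]
    exact h
  have h3 : p ∣ j.val := by
    have := orderOf_dvd_of_pow_eq_one h2
    rwa [ho] at this
  have h4 : j.val = 0 := Nat.eq_zero_of_dvd_of_lt h3 (ZMod.val_lt j)
  exact (ZMod.val_eq_zero j).1 h4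

theorem pow_val_inj (hi : M.index = p) {t : G} (ht : t ∉ M) {i j : ZMod p} (h : (t ^ i.val)⁻¹ * t ^ j.val ∈ M) : i = j := by
  have hne : (t : G ⧸ M) ≠ 1 := by rwa [Ne, QuotientGroup.eq_one_iff]
  have h1 : ((t : G ⧸ M)) ^ p = 1 := by
    rw [← QuotientGroup.mk_pow, QuotientGroup.eq_one_iff]
    exact pow_prime_mem hi t
  have ho : orderOf (t : G ⧸ M) = p := orderOf_eq_prime h1 hne
  have h2 : ((t : G ⧸ M)) ^ i.val = (t : G ⧸ M) ^ j.val := by
    rw [← QuotientGroup.mk_pow, ← QuotientGroup.mk_pow]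
    exact QuotientGroup.eq.2 h
  rw [pow_eq_pow_iff_modEq, ho] at h2
  have h3 : i.val = j.val := by
    have := Nat.mod_eq_of_lt (ZMod.val_lt i)
    have h4 := Nat.mod_eq_of_lt (ZMod.val_lt j)
    unfold Nat.ModEq at h2
    omega
  exact ZMod.val_injective p h3

variable (t : G) (μ : M →* Multiplicative (ZMod p))

/-- The conjugates of `μ` by the powers of `t`. -/
def nuu (j : ZMod p) (m : M) : ZMod p := (μ (MulAut.conjNormal (t ^ j.val) m)).toAdd

theorem nuu_mul (j : ZMod p) (a b : M) : nuu t μ j (a * b) = nuu t μ j a + nuu t μ j b := by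
  simp [nuu]

theorem mu_conj_mem (m₀ : M) (x : M) : μ (MulAut.conjNormal (m₀ : G) x) = μ x := by
  have : MulAut.conjNormal (m₀ : G) x = m₀ * x * m₀⁻¹ := by
    apply Subtype.ext
    simp [MulAut.conjNormal_apply]
  rw [this, map_mul, map_mul, map_inv, mul_comm (μ m₀), mul_inv_cancel_right]

theorem mu_conj_pow_mod (hi : M.index = p) (a : ℕ) (x : M) :
    μ (MulAut.conjNormal (t ^ a) x) = μ (MulAut.conjNormal (t ^ (a % p)) x) := by
  have h0 : (t ^ p) ^ (a / p) ∈ M := M.pow_mem (pow_prime_mem hi t) _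
  have e : t ^ a = (t ^ p) ^ (a / p) * t ^ (a % p) := by
    rw [← pow_mul, ← pow_add, add_comm, Nat.mod_add_div]
  rw [e, map_mul, MulAut.mul_apply]
  exact mu_conj_mem μ ⟨_, h0⟩ _

theorem nuu_conj (hi : M.index = p) (j : ZMod p) (x : M) :
    nuu t μ j (MulAut.conjNormal t x) = nuu t μ (j + 1) x := by
  haveI : Fact (1 < p) := ⟨hp.out.one_lt⟩
  unfold nuu
  rw [← MulAut.mul_apply, ← map_mul, ← pow_succ, mu_conj_pow_mod t μ hi, ZMod.val_add, ZMod.val_one]

/-- The group algebra element attached to `m`. -/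
noncomputable def phi (m : M) : AddMonoidAlgebra (ZMod p) (ZMod p) :=
  ∑ j : ZMod p, single j (nuu t μ j m)

theorem phi_mul (a b : M) : phi t μ (a * b) = phi t μ a + phi t μ b := by
  simp only [phi, nuu_mul, single_add, Finset.sum_add_distrib]

theorem phi_one : phi t μ 1 = 0 := by
  simp [phi, nuu]

theorem phi_conj (hi : M.index = p) (x : M) :
    phi t μ (MulAut.conjNormal t x) = single (-1) 1 * phi t μ x := by
  simp only [phi, nuu_conj t μ hi, Finset.mul_sum, single_mul_single, one_mul]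
  refine Fintype.sum_equiv (Equiv.addRight 1) _ _ (fun j => ?_)
  simp

theorem phi_pow (m : M) (k : ℕ) : phi t μ (m ^ k) = k • phi t μ m := by
  induction k with
  | zero => simp [phi_one]
  | succ k ih => rw [pow_succ, phi_mul, ih, succ_nsmul]

theorem phi_mul_mem (hi : M.index = p) (x : AddMonoidAlgebra (ZMod p) (ZMod p)) (m : M) :
    ∃ m', phi t μ m' = x * phi t μ m := by
  induction x using AddMonoidAlgebra.induction_linear with
  | zero => exact ⟨1, by simp [phi_one]⟩
  | add x y hx hy =>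
    obtain ⟨a, ha⟩ := hx
    obtain ⟨b, hb⟩ := hy
    exact ⟨a * b, by rw [phi_mul, ha, hb, add_mul]⟩
  | single j a =>
    have hs : ∀ n : ℕ, ∃ m', phi t μ m' = (single (-1) 1 : AddMonoidAlgebra (ZMod p) (ZMod p)) ^ n * phi t μ m := by
      intro n
      induction n with
      | zero => exact ⟨m, by simp⟩
      | succ n ih =>
        obtain ⟨m', hm'⟩ := ih
        refine ⟨MulAut.conjNormal t m', ?_⟩
        rw [phi_conj t μ hi, hm', pow_succ', mul_assoc]
    obtain ⟨m', hm'⟩ := hs (-j).val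
    refine ⟨m' ^ a.val, ?_⟩
    have e : (single j a : AddMonoidAlgebra (ZMod p) (ZMod p)) =
        a.val • (single (-1) 1 : AddMonoidAlgebra (ZMod p) (ZMod p)) ^ (-j).val := by
      rw [single_pow, one_pow, smul_single]
      have h1 : (-j).val • (-1 : ZMod p) = j := by
        rw [nsmul_eq_mul, ZMod.natCast_zmod_val]
        ring
      have h2 : a.val • (1 : ZMod p) = a := by
        rw [nsmul_eq_mul, mul_one, ZMod.natCast_zmod_val]
      rw [h1, h2]
    rw [phi_pow, hm', e, smul_mul_assoc]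

instance charP_alg : CharP (AddMonoidAlgebra (ZMod p) (ZMod p)) p :=
  charP_of_injective_algebraMap (algebraMap (ZMod p) _).injective p

theorem phi_pow_prime (m : M) :
    phi t μ m ^ p = single 0 (∑ j : ZMod p, nuu t μ j m) := by
  have h0 : ∀ (j : ZMod p) (a : ZMod p), (single j a : AddMonoidAlgebra (ZMod p) (ZMod p)) ^ p = single 0 a := by
    intro j a
    rw [single_pow, ZMod.pow_card]
    have : p • j = 0 := by
      rw [nsmul_eq_mul, ZMod.natCast_self, zero_mul]
    rw [this]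
  rw [phi, sum_pow_char p]
  simp only [h0]
  have h1 : ∀ s : Finset (ZMod p), ∑ x ∈ s, (single 0 (nuu t μ x m) : AddMonoidAlgebra (ZMod p) (ZMod p)) =
      single 0 (∑ x ∈ s, nuu t μ x m) := by
    intro s
    induction s using Finset.induction_on with
    | empty => simp
    | insert a s ha ih => rw [Finset.sum_insert ha, Finset.sum_insert ha, ih, single_add]
  exact h1 _

theorem phi_surjective (hi : M.index = p) (y : M) (hy : ∑ j : ZMod p, nuu t μ j y ≠ 0) :
    Function.Surjective (phi t μ) := by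
  intro r
  set c := ∑ j : ZMod p, nuu t μ j y with hc
  have hp' := hp.out
  have h1 : (single 0 c⁻¹ : AddMonoidAlgebra (ZMod p) (ZMod p)) * phi t μ y ^ (p - 1) * phi t μ y = 1 := by
    rw [mul_assoc, ← pow_succ, Nat.sub_add_cancel hp'.one_le, phi_pow_prime, ← hc, single_mul_single, inv_mul_cancel₀ hy,
      add_zero, one_def]
  obtain ⟨m, hm⟩ := phi_mul_mem t μ hi (r * (single 0 c⁻¹ * phi t μ y ^ (p - 1))) y
  refine ⟨m, ?_⟩
  rw [hm, mul_assoc, h1, mul_one]

/-- The homomorphism into the additive group of the group algebra. -/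
noncomputable def phiHom : M →* Multiplicative (AddMonoidAlgebra (ZMod p) (ZMod p)) :=
  MonoidHom.mk' (fun m => Multiplicative.ofAdd (phi t μ m)) (fun a b => by
    rw [phi_mul, ofAdd_add])

theorem card_alg : Nat.card (AddMonoidAlgebra (ZMod p) (ZMod p)) = p ^ p := by
  rw [Nat.card_congr (AddMonoidAlgebra.coeffEquiv), Nat.card_congr Finsupp.equivFunOnFinite, Nat.card_fun, Nat.card_zmod]

theorem index_ker_phiHom [Finite G] (hi : M.index = p) (y : M) (hy : ∑ j : ZMod p, nuu t μ j y ≠ 0) :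
    (phiHom t μ).ker.index = p ^ p := by
  have hsurj : Function.Surjective (phiHom t μ) := by
    intro r
    obtain ⟨m, hm⟩ := phi_surjective t μ hi y hy (Multiplicative.toAdd r)
    exact ⟨m, by show Multiplicative.ofAdd _ = r; rw [hm]; rfl⟩
  rw [Subgroup.index_ker, MonoidHom.range_eq_top.2 hsurj, Subgroup.card_top]
  exact card_alg

theorem phi_eq_zero_iff (m : M) : phi t μ m = 0 ↔ ∀ j, nuu t μ j m = 0 := by
  constructor
  · intro h j
    have h1 : (AddMonoidAlgebra.coeff (phi t μ m)) j = nuu t μ j m := by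
      simp [phi, coeff_sum, Finsupp.finset_sum_apply, Finsupp.single_apply]
    rw [← h1, h]
    simp
  · intro h
    simp [phi, h]

theorem mu_surjective {M : Subgroup G} [M.Normal] (μ : M →* Multiplicative (ZMod p)) (x : M) (hx : μ x ≠ 1) :
    Function.Surjective μ := by
  intro r
  have h1 : r ∈ Subgroup.zpowers (μ x) := mem_zpowers_of_prime_card (p := p) (by simp [Nat.card_zmod]) hx
  obtain ⟨k, hk⟩ := h1
  exact ⟨x ^ k, by rw [map_zpow]; exact hk⟩

/-- **A nontrivial norm gives a quotient isomorphic to the Sylow subgroup of the symmetric group of degree `p²`.** -/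
theorem exists_sylow_quotient [Finite G] (hi : M.index = p) {t : G} (ht : t ∉ M) (μ : M →* Multiplicative (ZMod p)) (y : M)
    (hy : ∑ j : ZMod p, nuu t μ j y ≠ 0) :
    ∃ (W : Sylow p (Equiv.Perm (Fin (p ^ 2)))) (f : G →* (W : Subgroup (Equiv.Perm (Fin (p ^ 2))))),
      Function.Surjective f := by
  classical
  have hp' := hp.out
  obtain ⟨j₀, hj₀⟩ : ∃ j, nuu t μ j y ≠ 0 := by
    by_contra hcon
    push Not at hcon
    exact hy (Finset.sum_eq_zero fun j _ => hcon j)
  have hμs : Function.Surjective μ := mu_surjective μ (MulAut.conjNormal (t ^ j₀.val) y) (by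
    intro h
    apply hj₀
    show (μ _).toAdd = 0
    rw [h]
    rfl)
  set H : Subgroup G := μ.ker.map M.subtype with hH
  have hHM : H ≤ M := by
    rintro _ ⟨a, -, rfl⟩
    exact a.2
  have hHi : H.index = p ^ 2 := by
    have h1 := Subgroup.relIndex_mul_index hHM
    have h2 : H.relIndex M = p := by
      have h3 : H.subgroupOf M = μ.ker := Subgroup.comap_map_eq_self_of_injective M.subtype_injective _
      rw [Subgroup.relIndex, h3, Subgroup.index_ker, MonoidHom.range_eq_top.2 hμs, Subgroup.card_top]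
      simp [Nat.card_zmod]
    rw [h2, hi] at h1
    rw [← h1, pow_two]
  have hcΓ : Nat.card (G ⧸ H) = p ^ 2 := by rw [← Subgroup.index_eq_card, hHi]
  let e : (G ⧸ H) ≃ Fin (p ^ 2) := Finite.equivFinOfCardEq hcΓ
  let f₀ : G →* Equiv.Perm (G ⧸ H) := MulAction.toPermHom G (G ⧸ H)
  let f₁ : G →* Equiv.Perm (Fin (p ^ 2)) := e.permCongrHom.toMonoidHom.comp f₀
  have hk : f₁.ker = f₀.ker := by
    ext x
    simp [f₁, MonoidHom.mem_ker]
  have hkH : f₀.ker ≤ H := by
    intro x hx
    have h1 : f₀ x (1 : G) = ((1 : G) : G ⧸ H) := by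
      rw [MonoidHom.mem_ker.1 hx]
      rfl
    have h2 : ((x * 1 : G) : G ⧸ H) = ((1 : G) : G ⧸ H) := h1
    have h3 := QuotientGroup.eq.1 h2
    simpa using h3
  have hmem : ∀ m : M, (m : G) ∈ f₀.ker ↔ ∀ j, nuu t μ j m = 0 := by
    intro m
    constructor
    · intro hm j
      have h1 : ((MulAut.conjNormal (t ^ j.val) m : M) : G) ∈ f₀.ker := by
        rw [MulAut.conjNormal_apply]
        exact (MonoidHom.normal_ker f₀).conj_mem _ hm _
      obtain ⟨a, ha, he⟩ := hkH h1
      have h2 : a = MulAut.conjNormal (t ^ j.val) m := Subtype.ext he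
      show (μ _).toAdd = 0
      rw [← h2, MonoidHom.mem_ker.1 ha]
      rfl
    · intro hm
      rw [MonoidHom.mem_ker]
      ext q
      induction q using QuotientGroup.induction_on with
      | H g =>
        show ((m * g : G) : G ⧸ H) = (g : G ⧸ H)
        rw [QuotientGroup.eq]
        obtain ⟨i, m₀, hm₀, hg⟩ := exists_pow_val_mul hi ht g⁻¹
        have e1 : (m * g)⁻¹ * g = ((MulAut.conjNormal (t ^ i.val) ((⟨m₀, hm₀⟩ : M) * m⁻¹ * (⟨m₀, hm₀⟩ : M)⁻¹) : M) : G) := by
          rw [MulAut.conjNormal_apply]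
          simp only [Subgroup.coe_mul, Subgroup.coe_inv]
          have hg' : g = m₀⁻¹ * (t ^ i.val)⁻¹ := by rw [← mul_inv_rev, ← hg, inv_inv]
          rw [mul_inv_rev, hg']
          group
        rw [e1]
        refine ⟨MulAut.conjNormal (t ^ i.val) ((⟨m₀, hm₀⟩ : M) * m⁻¹ * (⟨m₀, hm₀⟩ : M)⁻¹), ?_, rfl⟩
        show _ ∈ μ.ker
        rw [MonoidHom.mem_ker]
        have h2 : nuu t μ i ((⟨m₀, hm₀⟩ : M) * m⁻¹ * (⟨m₀, hm₀⟩ : M)⁻¹) = 0 := by
          have h3 : ∀ a : M, nuu t μ i a⁻¹ = - nuu t μ i a := by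
            intro a
            simp [nuu]
          rw [nuu_mul, nuu_mul, h3, h3, hm i]
          ring
        have h4 : Multiplicative.toAdd (μ (MulAut.conjNormal (t ^ i.val) ((⟨m₀, hm₀⟩ : M) * m⁻¹ * (⟨m₀, hm₀⟩ : M)⁻¹))) = 0 := h2
        exact h4
  have hKM : f₀.ker ≤ M := hkH.trans hHM
  have hKsub : f₀.ker.subgroupOf M = (phiHom t μ).ker := by
    ext m
    rw [Subgroup.mem_subgroupOf, hmem m, MonoidHom.mem_ker, ← phi_eq_zero_iff]
    constructor
    · intro h
      show Multiplicative.ofAdd _ = 1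
      rw [h]
      rfl
    · intro h
      exact h
  have hKi : f₀.ker.index = p ^ (p + 1) := by
    have h1 := Subgroup.relIndex_mul_index hKM
    rw [Subgroup.relIndex, hKsub, index_ker_phiHom t μ hi y hy, hi] at h1
    rw [← h1, pow_succ]
  have hr : Nat.card f₁.range = p ^ (Nat.card (Equiv.Perm (Fin (p ^ 2)))).factorization p := by
    rw [← Subgroup.index_ker, hk, hKi, Nat.card_eq_fintype_card, Fintype.card_perm, Fintype.card_fin,
      factorization_factorial_sq]
  exact ⟨Sylow.ofCard _ hr, f₁.rangeRestrict, f₁.rangeRestrict_surjective⟩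

end Cfsg.Agent.Lib.Fusion.Wreath
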