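/-
Yoshida's transfer argument: for a group acting on a finite set with a cocycle, the product over an orbit with a point
fixed by `y` is trivial unless the group has a wreath quotient; the consequence for saturated fusion systems.
-/
import Cfsg.Agent.Lib.Fusion.Wreath
import Cfsg.Agent.Lib.Fusion.BisetTate2
import Mathlib

set_option autoImplicit false

namespace Cfsg.Agent.Lib.Fusion.Yoshida

open Cfsg.Agent.Lib.Fusion.Wreath

section Abstract

variable {G : Type*} [Group G] {Y : Type*} [Fintype Y] [DecidableEq Y] [MulAction G Y] {A : Type*} [CommGroup A]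

theorem prod_smul_eq (g : G) (O : Finset Y) (hO : ∀ o ∈ O, g • o ∈ O) (f : Y → A) :
    ∏ o ∈ O, f (g • o) = ∏ o ∈ O, f o := by
  have hinj : Function.Injective (fun o : Y => g • o) := MulAction.injective g
  have h1 : O.image (fun o => g • o) = O := by
    apply Finset.eq_of_subset_of_card_le
    · intro x hx
      obtain ⟨o, ho, rfl⟩ := Finset.mem_image.1 hx
      exact hO o ho
    · rw [Finset.card_image_of_injective _ hinj]
  conv_rhs => rw [← h1]
  rw [Finset.prod_image (fun a _ b _ hab => hinj hab)]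

variable (a : G → Y → A) (hco : ∀ g h o, a (g * h) o = a h o * a g (h • o))
include hco

/-- The product over a set invariant under a subgroup. -/
def partHom (M : Subgroup G) (O : Finset Y) (hO : ∀ m ∈ M, ∀ o ∈ O, m • o ∈ O) : M →* A :=
  MonoidHom.mk' (fun m => ∏ o ∈ O, a m o) (by
    intro m m'
    simp only [Subgroup.coe_mul, hco, Finset.prod_mul_distrib]
    rw [prod_smul_eq (m' : G) O (hO m' m'.2) (a m), mul_comm])

theorem prod_conj (t g : G) (O : Finset Y) (hO : ∀ o ∈ O, (t⁻¹ * g * t) • o ∈ O) :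
    ∏ o ∈ O, a g (t • o) = ∏ o ∈ O, a (t⁻¹ * g * t) o := by
  have h1 : ∀ o, a t o * a g (t • o) = a (t⁻¹ * g * t) o * a t ((t⁻¹ * g * t) • o) := by
    intro o
    rw [← hco, ← hco]
    congr 1
    group
  have h2 := Finset.prod_congr (rfl : O = O) (fun o _ => h1 o)
  rw [Finset.prod_mul_distrib, Finset.prod_mul_distrib, prod_smul_eq _ O hO (a t), mul_comm] at h2
  exact mul_right_cancel h2

omit hco

variable {p : ℕ} [hp : Fact p.Prime]

open Classical in
theorem prod_orbit {M : Subgroup G} [M.Normal] (hi : M.index = p) {t : G} (ht : t ∉ M) (o₁ : Y)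
    (hst : MulAction.stabilizer G o₁ ≤ M) (f : Y → A) :
    ∏ o ∈ Finset.univ.filter (fun o => ∃ g : G, g • o₁ = o), f o =
      ∏ j : ZMod p, ∏ o ∈ Finset.univ.filter (fun o => ∃ m ∈ M, m • o₁ = o), f (t ^ j.val • o) := by
  rw [← Finset.prod_product']
  symm
  refine Finset.prod_bij (fun x _ => t ^ x.1.val • x.2) ?_ ?_ ?_ (fun _ _ => rfl)
  · rintro ⟨j, o⟩ h
    obtain ⟨-, ho⟩ := Finset.mem_product.1 h
    obtain ⟨m, -, rfl⟩ := (Finset.mem_filter.1 ho).2
    exact Finset.mem_filter.2 ⟨Finset.mem_univ _, t ^ j.val * m, mul_smul _ _ _⟩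
  · rintro ⟨j, o⟩ h ⟨j', o'⟩ h' he
    obtain ⟨-, ho⟩ := Finset.mem_product.1 h
    obtain ⟨-, ho'⟩ := Finset.mem_product.1 h'
    obtain ⟨m, hm, rfl⟩ := (Finset.mem_filter.1 ho).2
    obtain ⟨m', hm', rfl⟩ := (Finset.mem_filter.1 ho').2
    simp only at he
    have h1 : (t ^ j'.val * m')⁻¹ * (t ^ j.val * m) ∈ MulAction.stabilizer G o₁ := by
      rw [MulAction.mem_stabilizer_iff, mul_smul, mul_smul, he, ← mul_smul, ← mul_smul]
      simp
    have h2 := hst h1
    have h3 : (t ^ j'.val)⁻¹ * t ^ j.val ∈ M := by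
      have e : (t ^ j'.val)⁻¹ * t ^ j.val = m' * ((t ^ j'.val * m')⁻¹ * (t ^ j.val * m)) * m⁻¹ := by group
      rw [e]
      exact M.mul_mem (M.mul_mem hm' h2) (M.inv_mem hm)
    have h4 : j' = j := pow_val_inj hi ht h3
    subst h4
    have h5 := MulAction.injective (t ^ j'.val) he
    simp only [h5]
  · intro o ho
    obtain ⟨g, rfl⟩ := (Finset.mem_filter.1 ho).2
    obtain ⟨j, m, hm, rfl⟩ := exists_pow_val_mul hi ht g
    refine ⟨(j, m • o₁), ?_, mul_smul _ _ _ |>.symm⟩
    exact Finset.mem_product.2 ⟨Finset.mem_univ _, Finset.mem_filter.2 ⟨Finset.mem_univ _, m, hm, rfl⟩⟩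

open Classical in
/-- **The product of the cocycle over an orbit with a point fixed by `y`.** -/
theorem orbit_prod_eq_one [Finite G] (hG : IsPGroup p G)
    (hW : ¬ ∃ (W : Sylow p (Equiv.Perm (Fin (p ^ 2)))) (f : G →* (W : Subgroup (Equiv.Perm (Fin (p ^ 2))))), Function.Surjective f)
    (a : G → Y → Multiplicative (ZMod p)) (hco : ∀ g h o, a (g * h) o = a h o * a g (h • o)) (o₁ : Y) (y : G)
    (hy : y • o₁ = o₁) (hne : ∃ g : G, g • o₁ ≠ o₁) :
    ∏ o ∈ Finset.univ.filter (fun o => ∃ g : G, g • o₁ = o), a y o = 1 := by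
  have hnil : Group.IsNilpotent G := hG.isNilpotent
  have hst : MulAction.stabilizer G o₁ ≠ ⊤ := by
    intro h
    obtain ⟨g, hg⟩ := hne
    exact hg (MulAction.mem_stabilizer_iff.1 (h ▸ Subgroup.mem_top g))
  obtain ⟨M, hMc, hle⟩ := (eq_top_or_exists_le_coatom (MulAction.stabilizer G o₁)).resolve_left hst
  haveI hMn : M.Normal := Subgroup.NormalizerCondition.normal_of_coatom M normalizerCondition_of_isNilpotent hMc
  have hi : M.index = p := Cfsg.Agent.Lib.PGroup.index_eq_prime_of_isCoatom hG hMc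
  obtain ⟨t, ht⟩ : ∃ t, t ∉ M := by
    by_contra hcon
    push Not at hcon
    exact hMc.1 (eq_top_iff.2 fun x _ => hcon x)
  have hyM : y ∈ M := hle (MulAction.mem_stabilizer_iff.2 hy)
  have hO : ∀ m ∈ M, ∀ o ∈ Finset.univ.filter (fun o => ∃ m ∈ M, m • o₁ = o), m • o ∈ Finset.univ.filter (fun o => ∃ m ∈ M, m • o₁ = o) := by
    intro m hm o ho
    obtain ⟨m', hm', rfl⟩ := (Finset.mem_filter.1 ho).2
    exact Finset.mem_filter.2 ⟨Finset.mem_univ _, m * m', M.mul_mem hm hm', mul_smul _ _ _⟩
  let μ : M →* Multiplicative (ZMod p) := partHom a hco M _ hO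
  have ht' : t⁻¹ ∉ M := fun h => ht (by simpa using M.inv_mem h)
  rw [prod_orbit hi ht o₁ hle]
  have h1 : ∀ j : ZMod p, ∏ o ∈ Finset.univ.filter (fun o => ∃ m ∈ M, m • o₁ = o), a y (t ^ j.val • o) =
      μ (MulAut.conjNormal (t⁻¹ ^ j.val) ⟨y, hyM⟩) := by
    intro j
    have hm : (t ^ j.val)⁻¹ * y * t ^ j.val ∈ M := by
      have := hMn.conj_mem y hyM (t ^ j.val)⁻¹
      simpa using this
    rw [prod_conj a hco (t ^ j.val) y _ (hO _ hm)]
    show _ = ∏ o ∈ _, a _ o
    congr 1
    ext o
    congr 2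
    rw [MulAut.conjNormal_apply, inv_pow, inv_inv]
  simp only [h1]
  by_contra hcon
  apply hW
  refine exists_sylow_quotient hi ht' μ ⟨y, hyM⟩ ?_
  intro h2
  apply hcon
  have h3 : ∏ j : ZMod p, μ (MulAut.conjNormal (t⁻¹ ^ j.val) ⟨y, hyM⟩) =
      Multiplicative.ofAdd (∑ j : ZMod p, nuu t⁻¹ μ j ⟨y, hyM⟩) := by
    rw [ofAdd_sum]
    rfl
  rw [h3, h2]
  rfl

end Abstract

section Fusion

open Cfsg Cfsg.FusionSystem Cfsg.Agent.Lib.Fusion Cfsg.Agent.Lib.Fusion.Biset

universe u

variable {Ω : Type u} [Group Ω] {S : Subgroup Ω} {F : FusionSystem S}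
variable {p : ℕ} [hp : Fact p.Prime]

/-- The action on the right orbits. -/
def actRY (S : Subgroup Ω) (X : Type u) [MulAction (S × S) X] : MulAction S (RY S X) where
  smul s o := onY (leftHom S X s) o
  one_smul o := by
    show onY (leftHom S X 1) o = o
    rw [map_one, onY_one]
  mul_smul a b o := by
    show onY (leftHom S X (a * b)) o = onY (leftHom S X a) (onY (leftHom S X b) o)
    rw [map_mul, onY_mul]

theorem iter_onY {X : Type u} [MulAction (S × S) X] (f : permR S X) (k : ℕ) (o : RY S X) :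
    (onYPerm f)^[k] o = onY (f ^ k) o := by
  induction k with
  | zero => rw [pow_zero, onY_one]; rfl
  | succ k ih =>
    rw [Function.iterate_succ_apply', ih, pow_succ', onY_mul]
    rfl

/-- The graph containing a cocycle value. -/
theorem graph_mem {X : Type u} [MulAction (S × S) X] (x : X) (s V : S)
    (h : ((s, 1) : S × S) • x = ((1, V) : S × S) • x) {Q : Subgroup Ω} {ψ : Q →* Ω}
    (he : MulAction.stabilizer (S × S) x = graph S Q ψ) :
    ∃ hs : (s : Ω) ∈ Q, ψ ⟨s, hs⟩ = ((V⁻¹ : S) : Ω) := by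
  have h3 : ((s, V⁻¹) : S × S) • x = x := by
    have : ((s, V⁻¹) : S × S) = ((1, V) : S × S)⁻¹ * (s, 1) := by simp
    rw [this, mul_smul, h, inv_smul_smul]
  have hm : ((s, V⁻¹) : S × S) ∈ MulAction.stabilizer (S × S) x := h3
  rw [he] at hm
  exact hm

theorem vv_left_eq {X : Type u} [MulAction (S × S) X] (s : S) (o : RY S X) (h : onY (leftHom S X s) o = o) :
    ((s, 1) : S × S) • sec o = ((1, vv (leftHom S X s) o) : S × S) • sec o := by
  have h1 := vv_spec (leftHom S X s) o
  rw [h] at h1
  exact h1.symm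

/-- **Yoshida's argument**: a homomorphism to `Z/p` invariant under the automorphisms of `S` in the system is trivial on
the focal subgroup, unless `S` has a wreath quotient. -/
theorem chi_focal_trivial [Finite S] (hS : IsPGroup p S) (hF : F.IsSaturated p)
    (hW : ¬ ∃ (W : Sylow p (Equiv.Perm (Fin (p ^ 2)))) (f : S →* (W : Subgroup (Equiv.Perm (Fin (p ^ 2))))), Function.Surjective f)
    (χ : S →* Multiplicative (ZMod p))
    (hinv : ∀ (Q : Subgroup Ω) (ψ : Q →* Ω) (hψ : ψ ∈ F.Hom Q) (hQ : S ≤ Q) (x : S),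
      χ ⟨ψ ⟨x, hQ x.2⟩, hom_val F hψ _⟩ = χ x)
    (y : S) (hy : (y : Ω) ∈ F.focalSubgroup) : χ y = 1 := by
  classical
  have hp' := hp.out
  obtain ⟨X, i1, i2, h1, h2, n, hn, hpn⟩ := exists_char_biset (F := F) hS hF
  haveI : Fintype (RY S X) := Fintype.ofFinite _
  have hfree := rfree_of_fgen (F := F) h1
  have hcard : Nat.card (RY S X) = n := by
    have h3 := card_eq_card_RY_mul hfree
    rw [hn] at h3
    exact (Nat.eq_of_mul_eq_mul_right Nat.card_pos h3).symm
  letI act : MulAction S (RY S X) := actRY S X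
  let a : S → RY S X → Multiplicative (ZMod p) := fun s o => (χ (vv (leftHom S X s) o))⁻¹
  have hco : ∀ g h o, a (g * h) o = a h o * a g (h • o) := by
    intro g h o
    show (χ (vv (leftHom S X (g * h)) o))⁻¹ = _
    rw [map_mul (leftHom S X), vv_mul hfree, map_mul, mul_inv]
    rfl
  let T : S →* Multiplicative (ZMod p) := (transferR hfree χ).comp (leftHom S X)
  have hT : ∀ z : S, (z : Ω) ∈ F.focalSubgroup → ∏ o, a z o = 1 := by
    intro z hz
    have h3 := Biset.focal_le_of_invariant T (fun P φ hφ x => transfer_left_stable h1 h2 χ hφ x) hz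
    obtain ⟨z', hz', he⟩ := h3
    have h4 : z' = z := Subtype.ext he
    subst h4
    exact hz'
  have hpow : ∀ x : Multiplicative (ZMod p), x ^ p = 1 := by
    intro x
    have h3 : Nat.card (Multiplicative (ZMod p)) = p := by simp [Nat.card_zmod]
    have h4 : x ^ Nat.card (Multiplicative (ZMod p)) = 1 := pow_card_eq_one'
    rwa [h3] at h4
  have key : ∀ k : ℕ, ∀ y : S, orderOf y = k → (y : Ω) ∈ F.focalSubgroup → χ y = 1 := by
    intro k
    induction k using Nat.strong_induction_on with
    | _ k ih =>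
    intro y hk hy
    have ihy : ∀ z : S, orderOf z < orderOf y → (z : Ω) ∈ F.focalSubgroup → χ z = 1 :=
      fun z hz hf => ih _ (hk ▸ hz) z rfl hf
    have hordpos : 0 < orderOf y := orderOf_pos y
    let f : permR S X := leftHom S X y
    have hcyc : ∀ o, onY f o ≠ o →
        ∏ i ∈ Finset.range (Function.minimalPeriod (onYPerm f) o), a y ((onYPerm f)^[i] o) = 1 := by
      intro o hno
      have hper0 : o ∈ Function.periodicPts (onYPerm f) := (onYPerm f).injective.mem_periodicPts o
      have hpos := Function.minimalPeriod_pos_of_mem_periodicPts hper0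
      set ℓ := Function.minimalPeriod (onYPerm f) o with hℓ
      obtain ⟨V, hV1, hV2⟩ := iterate_vv hfree χ f o ℓ
      have hper : (onYPerm f)^[ℓ] o = o := Function.isPeriodicPt_minimalPeriod _ _
      rw [hper] at hV1
      have hV3 : ((y ^ ℓ, 1) : S × S) • sec o = ((1, V) : S × S) • sec o := by
        rw [← hV1]
        show _ = (leftHom S X y ^ ℓ).1 _
        rw [← map_pow]
        rfl
      obtain ⟨Q, ψ, hψ, he⟩ := h1 (sec o)
      obtain ⟨h5, h6⟩ := graph_mem (sec o) (y ^ ℓ) V hV3 he
      have hprod : ∏ i ∈ Finset.range ℓ, a y ((onYPerm f)^[i] o) = χ V⁻¹ := by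
        simp only [a]
        rw [Finset.prod_inv_distrib, map_inv, hV2]
      rw [hprod]
      have hdvd : ℓ ∣ orderOf y := by
        apply Function.IsPeriodicPt.minimalPeriod_dvd
        show (onYPerm f)^[orderOf y] o = o
        rw [iter_onY]
        show onY (leftHom S X y ^ orderOf y) o = o
        rw [← map_pow, pow_orderOf_eq_one, map_one, onY_one]
      have h1ℓ : 1 < ℓ := by
        have hne1 : ℓ ≠ 1 := by
          intro h3
          apply hno
          have h4 := Function.minimalPeriod_eq_one_iff_isFixedPt.1 h3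
          exact h4
        omega
      have hord : orderOf (V⁻¹ : S) = orderOf (y ^ ℓ : S) := by
        have e1 : orderOf (V⁻¹ : S) = orderOf ((V⁻¹ : S) : Ω) := (Subgroup.orderOf_coe _).symm
        have e2 : orderOf ((y ^ ℓ : S)) = orderOf ((y ^ ℓ : S) : Ω) := (Subgroup.orderOf_coe _).symm
        rw [e1, e2, ← h6, orderOf_injective ψ (fun a b hab => hom_inj F hψ hab) ⟨_, h5⟩]
        exact Subgroup.orderOf_mk _ _
      have hlt : orderOf (V⁻¹ : S) < orderOf y := by
        rw [hord, orderOf_pow_of_dvd (by omega) hdvd]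
        exact Nat.div_lt_self hordpos h1ℓ
      refine ihy _ hlt ?_
      have e3 : ((V⁻¹ : S) : Ω) = ((y ^ ℓ : S) : Ω) * (((y ^ ℓ : S) : Ω)⁻¹ * ψ ⟨_, h5⟩) := by
        rw [h6, mul_inv_cancel_left]
      rw [e3]
      refine Subgroup.mul_mem _ ?_ (Subgroup.subset_closure ⟨Q, ψ, ⟨_, h5⟩, hψ, rfl⟩)
      rw [Subgroup.coe_pow]
      exact Subgroup.pow_mem _ hy _
    have hfix : ∀ o, (∀ g : S, g • o = o) → a y o = χ y := by
      intro o ho
      obtain ⟨Q, ψ, hψ, he⟩ := h1 (sec o)
      have hQ : S ≤ Q := by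
        intro g hg
        obtain ⟨h5, -⟩ := graph_mem (sec o) ⟨g, hg⟩ (vv (leftHom S X ⟨g, hg⟩) o) (vv_left_eq ⟨g, hg⟩ o (ho ⟨g, hg⟩)) he
        exact h5
      obtain ⟨h5, h6⟩ := graph_mem (sec o) y (vv (leftHom S X y) o) (vv_left_eq y o (ho y)) he
      have h7 := hinv Q ψ hψ hQ y
      rw [← h7]
      show (χ _)⁻¹ = _
      rw [← map_inv]
      congr 1
      exact Subtype.ext h6.symm
    let IsF : RY S X → Prop := fun o => ∀ g : S, g • o = o
    let b : RY S X → Multiplicative (ZMod p) := fun o => if IsF o then χ y else 1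
    have hset : ∀ s : Finset (RY S X), (∀ g : S, ∀ o ∈ s, g • o ∈ s) → ∏ o ∈ s, a y o = ∏ o ∈ s, b o := by
      intro s
      induction s using Finset.strongInduction with
      | H s ih2 =>
      intro hs
      by_cases hne : s.Nonempty
      · obtain ⟨o₁, ho₁⟩ := hne
        let O : Finset (RY S X) := Finset.univ.filter (fun o => ∃ g : S, g • o₁ = o)
        have hOmem : ∀ o, o ∈ O ↔ ∃ g : S, g • o₁ = o := fun o => by simp [O]
        have hOs : O ⊆ s := by
          intro o ho
          obtain ⟨g, rfl⟩ := (hOmem o).1 ho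
          exact hs g _ ho₁
        have ho₁O : o₁ ∈ O := (hOmem o₁).2 ⟨1, one_smul _ _⟩
        have hlt : s \ O ⊂ s := Finset.sdiff_ssubset hOs ⟨o₁, ho₁O⟩
        have hinvd : ∀ g : S, ∀ o ∈ s \ O, g • o ∈ s \ O := by
          intro g o ho
          obtain ⟨h3, h4⟩ := Finset.mem_sdiff.1 ho
          refine Finset.mem_sdiff.2 ⟨hs g o h3, fun h5 => h4 ?_⟩
          obtain ⟨g', hg'⟩ := (hOmem _).1 h5
          refine (hOmem _).2 ⟨g⁻¹ * g', ?_⟩
          rw [mul_smul, hg', inv_smul_smul]
        have hih := ih2 _ hlt hinvd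
        rw [← Finset.prod_sdiff hOs, ← Finset.prod_sdiff (f := b) hOs, hih]
        congr 1
        by_cases hf₁ : IsF o₁
        · have hO1 : O = {o₁} := by
            ext o
            rw [hOmem, Finset.mem_singleton]
            constructor
            · rintro ⟨g, rfl⟩
              exact hf₁ g
            · rintro rfl
              exact ⟨1, one_smul _ _⟩
          rw [hO1, Finset.prod_singleton, Finset.prod_singleton, hfix o₁ hf₁]
          simp only [b, if_pos hf₁]
        · have hnf : ∀ o ∈ O, ¬ IsF o := by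
            intro o ho hfo
            obtain ⟨g, rfl⟩ := (hOmem o).1 ho
            apply hf₁
            intro h
            have h3 : h • (g • o₁) = g • o₁ := hfo h
            have h4 : g • o₁ = o₁ := by
              have h5 := hfo g⁻¹
              rw [inv_smul_smul] at h5
              exact h5.symm
            rw [h4] at h3
            exact h3
          have hb1 : ∏ o ∈ O, b o = 1 := Finset.prod_eq_one fun o ho => by
            simp only [b, if_neg (hnf o ho)]
          rw [hb1]
          by_cases hex : ∃ o₂ ∈ O, y • o₂ = o₂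
          · obtain ⟨o₂, ho₂, hy₂⟩ := hex
            obtain ⟨h, rfl⟩ := (hOmem o₂).1 ho₂
            have hOe : O = Finset.univ.filter (fun o => ∃ g : S, g • (h • o₁) = o) := by
              ext o
              rw [hOmem]
              simp only [Finset.mem_filter, Finset.mem_univ, true_and]
              constructor
              · rintro ⟨g, rfl⟩
                exact ⟨g * h⁻¹, by rw [mul_smul, inv_smul_smul]⟩
              · rintro ⟨g, rfl⟩
                exact ⟨g * h, mul_smul _ _ _⟩
            rw [hOe]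
            refine orbit_prod_eq_one hS hW a hco (h • o₁) y hy₂ ?_
            by_contra hcon
            push Not at hcon
            exact hnf _ ho₂ hcon
          · push Not at hex
            let w : RY S X → Multiplicative (ZMod p) := fun o => if o ∈ O then a y o else 1
            have hOπ : ∀ o, onYPerm f o ∈ O ↔ o ∈ O := by
              intro o
              rw [hOmem, hOmem]
              constructor
              · rintro ⟨g, hg⟩
                refine ⟨y⁻¹ * g, ?_⟩
                rw [mul_smul, hg]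
                exact inv_smul_smul y o
              · rintro ⟨g, rfl⟩
                exact ⟨y * g, mul_smul _ _ _⟩
            have hiter : ∀ (i : ℕ) (o : RY S X), (onYPerm f)^[i] o ∈ O ↔ o ∈ O := by
              intro i o
              induction i with
              | zero => rfl
              | succ i ih3 => rw [Function.iterate_succ_apply', hOπ, ih3]
            have hkey := prod_cycles (onYPerm f) w 1 (by
              intro o
              rw [one_pow]
              by_cases ho : o ∈ O
              · have h3 : ∀ i, w ((onYPerm f)^[i] o) = a y ((onYPerm f)^[i] o) := fun i => by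
                  simp only [w, if_pos ((hiter i o).2 ho)]
                simp only [h3]
                exact hcyc o (hex o ho)
              · have h3 : ∀ i, w ((onYPerm f)^[i] o) = 1 := fun i => by
                  simp only [w]
                  rw [if_neg (fun h => ho ((hiter i o).1 h))]
                simp only [h3, Finset.prod_const_one]) O (fun o ho => (hOπ o).2 ho)
            rw [one_pow] at hkey
            rw [← hkey]
            exact Finset.prod_congr rfl fun o ho => by simp only [w, if_pos ho]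
      · rw [Finset.not_nonempty_iff_eq_empty] at hne
        subst hne
        simp
    have htot := hset Finset.univ (fun _ _ _ => Finset.mem_univ _)
    rw [hT y hy] at htot
    have hb : ∏ o, b o = χ y ^ (Finset.univ.filter IsF).card := by
      simp only [b]
      rw [Finset.prod_ite, Finset.prod_const_one, mul_one, Finset.prod_const]
    rw [hb] at htot
    have hmod := IsPGroup.card_modEq_card_fixedPoints hS (RY S X)
    have hfx : Nat.card (MulAction.fixedPoints S (RY S X)) = (Finset.univ.filter IsF).card := by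
      haveI : Fintype (MulAction.fixedPoints S (RY S X)) := Fintype.ofFinite _
      rw [Nat.card_eq_fintype_card]
      exact Fintype.card_of_subtype _ (fun x => by simp [IsF, MulAction.mem_fixedPoints])
    rw [hfx, hcard] at hmod
    have hnd : ¬ p ∣ (Finset.univ.filter IsF).card := by
      intro h3
      apply hpn
      have h4 := (Nat.modEq_zero_iff_dvd.2 h3)
      exact Nat.modEq_zero_iff_dvd.1 (hmod.trans h4)
    have ho1 : orderOf (χ y) ∣ p := orderOf_dvd_of_pow_eq_one (hpow _)
    have ho2 : orderOf (χ y) ∣ (Finset.univ.filter IsF).card := orderOf_dvd_of_pow_eq_one htot.symm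
    have ho3 : orderOf (χ y) ∣ Nat.gcd p (Finset.univ.filter IsF).card := Nat.dvd_gcd ho1 ho2
    rw [(Nat.Prime.coprime_iff_not_dvd hp').2 hnd] at ho3
    exact orderOf_eq_one_iff.1 (Nat.dvd_one.1 ho3)
  exact key _ y rfl hy

theorem exists_dual_ne {V : Type*} [AddCommGroup V] [Module (ZMod p) V] (v : V) (hv : v ≠ 0) :
    ∃ φ : V →ₗ[ZMod p] ZMod p, φ v ≠ 0 := by
  by_contra h
  push Not at h
  exact hv ((Module.forall_dual_apply_eq_zero_iff (ZMod p) v).1 h)

/-- Separating an element of an elementary abelian group by a homomorphism to `Z/p`. -/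
theorem exists_char_comm {C : Type*} [CommGroup C] (hv : ∀ c : C, c ^ p = 1) (x : C) (hx : x ≠ 1) :
    ∃ χ : C →* Multiplicative (ZMod p), χ x ≠ 1 := by
  have hv' : ∀ v : Additive C, p • v = 0 := fun v => hv (Additive.toMul v)
  let _ : Module (ZMod p) (Additive C) := AddCommGroup.zmodModule hv'
  have hx0 : Additive.ofMul x ≠ 0 := fun h => hx (Additive.ofMul.injective h)
  obtain ⟨φ, hφ⟩ := exists_dual_ne (p := p) (Additive.ofMul x) hx0
  refine ⟨MonoidHom.mk' (fun g => Multiplicative.ofAdd (φ.toFun (Additive.ofMul g))) (fun a b => ?_), fun h => hφ ?_⟩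
  · rw [← ofAdd_add, ← φ.map_add']
    rfl
  · exact Multiplicative.ofAdd.injective h

/-- Separating an element by a homomorphism to `Z/p`. -/
theorem exists_char_sep {G : Type*} [Group G] (D : Subgroup G) [hD : D.Normal]
    (hc : ∀ a b : G, a * b * a⁻¹ * b⁻¹ ∈ D) (hq : ∀ a : G, a ^ p ∈ D) (x : G) (hx : x ∉ D) :
    ∃ χ : G →* Multiplicative (ZMod p), (∀ d ∈ D, χ d = 1) ∧ χ x ≠ 1 := by
  letI I : CommGroup (G ⧸ D) :=
    { (QuotientGroup.Quotient.group D) with
      mul_comm := by
        intro u v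
        induction u using QuotientGroup.induction_on with
        | H a =>
          induction v using QuotientGroup.induction_on with
          | H b =>
            show ((a * b : G) : G ⧸ D) = ((b * a : G) : G ⧸ D)
            refine QuotientGroup.eq.mpr ?_
            have h1 := hc b⁻¹ a⁻¹
            simpa [mul_assoc] using h1 }
  have hv : ∀ v : G ⧸ D, v ^ p = 1 := by
    intro u
    induction u using QuotientGroup.induction_on with
    | H a =>
      exact (QuotientGroup.eq_one_iff (a ^ p)).2 (hq a)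
  have hx1 : (x : G ⧸ D) ≠ 1 := fun h => hx ((QuotientGroup.eq_one_iff x).1 h)
  obtain ⟨χ, hχ⟩ := exists_char_comm (p := p) hv (x : G ⧸ D) hx1
  refine ⟨MonoidHom.mk' (fun g => χ (g : G ⧸ D)) (fun a b => ?_), fun d hd => ?_, fun h => hχ h⟩
  · exact map_mul χ (a : G ⧸ D) (b : G ⧸ D)
  · show χ (d : G ⧸ D) = 1
    have h1 : (d : G ⧸ D) = 1 := (QuotientGroup.eq_one_iff d).2 hd
    rw [h1]
    exact map_one χ

theorem cast_fusion_full {T : Subgroup Ω} (h : T = S) (E : FusionSystem T) :
    ∃ E' : FusionSystem S, (∀ P, E'.Hom P = E.Hom P) ∧ E'.focalSubgroup = E.focalSubgroup ∧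
      (E.IsSaturated p → E'.IsSaturated p) := by
  subst h
  exact ⟨E, fun _ => rfl, rfl, id⟩

/-- **Yoshida's theorem for fusion systems.** -/
theorem yoshida [Finite S] (hS : IsPGroup p S) (hF : F.IsSaturated p) (N : FusionSystem (normalizerIn S S))
    (hN : F.IsNormalizerSystem S N) (hne : N.focalSubgroup ≠ F.focalSubgroup) :
    ∃ (W : Sylow p (Equiv.Perm (Fin (p ^ 2)))) (f : S →* (W : Subgroup (Equiv.Perm (Fin (p ^ 2))))), Function.Surjective f := by
  by_contra hW
  apply hne
  have hSN : normalizerIn S S = S := inf_eq_left.2 Subgroup.le_normalizer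
  have hNs : N.IsSaturated p := isSaturated_normalizerSystem hS hF isFullyNormalized_top hN
  obtain ⟨H, hH, hHf, hHs⟩ := cast_fusion_full (p := p) hSN N
  have hHsat := hHs hNs
  rw [← hHf]
  have hHF : H.IsSubsystemOf F := by
    intro P φ hφ
    rw [hH, hN] at hφ
    exact hφ.1
  have hfoc : H.focalSubgroup ≤ F.focalSubgroup := by
    refine Subgroup.closure_mono ?_
    rintro _ ⟨P, φ, x, hφ, rfl⟩
    exact ⟨P, φ, x, hHF P hφ, rfl⟩
  have hΦ : ⁅(S : Subgroup Ω), (S : Subgroup Ω)⁆ ≤ (frattini S).map S.subtype := commutator_le_frattini_map hS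
  have hfocS : F.focalSubgroup ≤ S := focal_le
  set D : Subgroup Ω := (frattini S).map S.subtype ⊔ H.focalSubgroup with hD
  have hcD : ∀ a b : S, ((a * b * a⁻¹ * b⁻¹ : S) : Ω) ∈ D := by
    intro a b
    apply Subgroup.mem_sup_left
    apply hΦ
    exact Subgroup.commutator_mem_commutator a.2 b.2
  haveI hDn : (D.subgroupOf S).Normal := by
    refine ⟨fun d hd g => ?_⟩
    rw [Subgroup.mem_subgroupOf] at hd ⊢
    have e : ((g * d * g⁻¹ : S) : Ω) = ((g * d * g⁻¹ * d⁻¹ : S) : Ω) * d := by simp
    rw [e]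
    exact D.mul_mem (hcD _ _) hd
  have hqD : ∀ a : S, a ^ p ∈ D.subgroupOf S := by
    intro a
    rw [Subgroup.mem_subgroupOf]
    apply Subgroup.mem_sup_left
    refine ⟨a ^ p, ?_, rfl⟩
    exact Cfsg.Agent.Lib.Transfer.pow_mem_frattini hS a
  have hle : F.focalSubgroup ≤ D := by
    intro x hx
    by_contra hxD
    have hxS : x ∈ S := hfocS hx
    have hxD' : (⟨x, hxS⟩ : S) ∉ D.subgroupOf S := fun h => hxD (Subgroup.mem_subgroupOf.1 h)
    obtain ⟨χ, hχ1, hχ2⟩ := exists_char_sep (p := p) (D.subgroupOf S) (fun a b => Subgroup.mem_subgroupOf.2 (hcD a b)) hqD _ hxD'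
    apply hχ2
    refine chi_focal_trivial hS hF hW χ ?_ _ hx
    intro Q ψ hψ hQ y
    have hQS : Q ≤ S := fun z hz => hom_le F hψ hz
    let ψ₀ : S →* Ω := ψ.comp (Subgroup.inclusion hQ)
    have hψ₀ : ψ₀ ∈ F.Hom S := res_mem F hψ hQ
    have hinj : Function.Injective ψ₀ := fun a b hab => hom_inj F hψ₀ hab
    have hmap : (S.subgroupOf S).map ψ₀ = S := by
      refine eq_of_le_of_card_le (le_refl S) ?_ ?_
      · rintro _ ⟨z, -, rfl⟩
        exact hom_val F hψ₀ z
      · rw [Subgroup.subgroupOf_self]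
        have h3 : Nat.card ((⊤ : Subgroup S).map ψ₀) = Nat.card (⊤ : Subgroup S) :=
          Nat.card_congr (Subgroup.equivMapOfInjective _ _ hinj).symm.toEquiv
        rw [h3, Subgroup.card_top]
    have hψN : ψ₀ ∈ N.Hom S := hom_normalizerSystem hN le_rfl (hSN.ge) hψ₀ hmap
    have hψH : ψ₀ ∈ H.Hom S := by rw [hH]; exact hψN
    have h4 : ((y : Ω))⁻¹ * ψ₀ y ∈ H.focalSubgroup := Subgroup.subset_closure ⟨S, ψ₀, y, hψH, rfl⟩
    have h5 : (⟨((y : Ω))⁻¹ * ψ₀ y, S.mul_mem (S.inv_mem y.2) (hom_val F hψ₀ y)⟩ : S) ∈ D.subgroupOf S :=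
      Subgroup.mem_subgroupOf.2 (Subgroup.mem_sup_right h4)
    have h6 := hχ1 _ h5
    have e : (⟨((y : Ω))⁻¹ * ψ₀ y, S.mul_mem (S.inv_mem y.2) (hom_val F hψ₀ y)⟩ : S) = y⁻¹ * ⟨ψ₀ y, hom_val F hψ₀ y⟩ := rfl
    rw [e, map_mul, map_inv, inv_mul_eq_one] at h6
    exact h6.symm
  have hsup : (frattini S).map S.subtype ⊔ F.focalSubgroup = (frattini S).map S.subtype ⊔ H.focalSubgroup :=
    le_antisymm (sup_le le_sup_left hle) (sup_le le_sup_left (hfoc.trans le_sup_right))
  have hhyp := tate_aux hS hF hHsat hHF hsup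
  rw [focal_eq hS hF, focal_eq hS hHsat, hhyp]

end Fusion

end Cfsg.Agent.Lib.Fusion.Yoshida
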